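import Cfsg.Agent.Lib.RS4.P2A

/-! Standard components of type `²F₄(q)`, package B1: see `blueprint/RS4/README.md`. -/

set_option autoImplicit false
set_option linter.unusedSectionVars false

namespace H51.RS
open Subgroup H69 H78.Oct H78.Oct.Co
open scoped commutatorElement

variable {F G : Type*} [Field F] [Tits F] [Finite F] [Group G] [Finite G]

namespace B1h
variable {S : St F G}

/-- `g` centralises `P0/Q` -/
def Cq (S : St F G) (g : G) : Prop := ∀ p ∈ S.P0, ∃ x ∈ Co.Q, g * p * g⁻¹ = p * S.φ x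

theorem Cq.norm {g : G} (h : Cq S g) : g ∈ 𝐍(S.P0) := by
  refine Subgroup.mem_normalizer_fintype ?_
  intro p hp
  obtain ⟨x, -, e⟩ := h p hp
  rw [e]
  exact S.P0.mul_mem hp (S.φ_memP x)

theorem Cq.one : Cq S 1 := fun p _ => ⟨1, one_mem _, by simp⟩

theorem Cq.mul {g g' : G} (h : Cq S g) (h' : Cq S g') : Cq S (g * g') := by
  intro p hp
  obtain ⟨x, hx, e⟩ := h' p hp
  obtain ⟨x', hx', e'⟩ := h p hp
  obtain ⟨b, hb, eb⟩ := S.norm_Q h.norm hx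
  refine ⟨x' * b, mul_mem hx' hb, ?_⟩
  calc g * g' * p * (g * g')⁻¹ = g * (g' * p * g'⁻¹) * g⁻¹ := by group
    _ = (g * p * g⁻¹) * (g * S.φ x * g⁻¹) := by rw [e]; group
    _ = _ := by rw [e', eb, map_mul, mul_assoc]

theorem Cq.inv {g : G} (h : Cq S g) : Cq S g⁻¹ := by
  intro p hp
  have hp' : g⁻¹ * p * g⁻¹⁻¹ ∈ S.P0 := (mem_normalizer_iff.1 (inv_mem h.norm) p).1 hp
  obtain ⟨x, hx, e⟩ := h _ hp'
  refine ⟨x⁻¹, inv_mem hx, ?_⟩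
  rw [map_inv, eq_mul_inv_iff_mul_eq, ← e]
  group

theorem Cq.conj {g n : G} (h : Cq S g) (hn : n ∈ 𝐍(S.P0)) : Cq S (n * g * n⁻¹) := by
  intro p hp
  have hp' : n⁻¹ * p * n⁻¹⁻¹ ∈ S.P0 := (mem_normalizer_iff.1 (inv_mem hn) p).1 hp
  obtain ⟨x, hx, e⟩ := h _ hp'
  obtain ⟨b, hb, eb⟩ := S.norm_Q hn hx
  refine ⟨b, hb, ?_⟩
  calc n * g * n⁻¹ * p * (n * g * n⁻¹)⁻¹ = n * (g * (n⁻¹ * p * n⁻¹⁻¹) * g⁻¹) * n⁻¹ := by group
    _ = p * (n * S.φ x * n⁻¹) := by rw [e]; group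
    _ = _ := by rw [eb]

theorem cq_h0 (S : St F G) (k : Fˣ) : Cq S (S.h (σu k) k) := by
  intro p hp
  refine (S.P0_ind (p := fun p => p ∈ S.P0 ∧ ∃ x ∈ Co.Q,
    S.h (σu k) k * p * (S.h (σu k) k)⁻¹ = p * S.φ x) ?_ ?_ ?_ ?_ hp).2
  · rintro p p' ⟨hp, x, hx, e⟩ ⟨hp', x', hx', e'⟩
    obtain ⟨b, hb, eb⟩ := S.P0_conj_Q (inv_mem hp') hx
    refine ⟨mul_mem hp hp', b * x', mul_mem hb hx', ?_⟩
    calc S.h (σu k) k * (p * p') * (S.h (σu k) k)⁻¹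
        = (S.h (σu k) k * p * (S.h (σu k) k)⁻¹) * (S.h (σu k) k * p' * (S.h (σu k) k)⁻¹) := by group
      _ = p * p' * ((p'⁻¹ * S.φ x * p'⁻¹⁻¹) * S.φ x') := by rw [e, e']; group
      _ = _ := by rw [eb, map_mul]
  · intro a
    have h0 := k.ne_zero
    have h1 := σ_ne k.ne_zero
    have e1 : (tor (σu k) k a).a8 = a.a8 := by
      simp only [tor_a8, σu_val]; field_simp
    have e2 : (tor (σu k) k a).b8 = a.b8 := by
      simp only [tor_b8, σu_val, σσ]; field_simp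
    refine ⟨S.φ_memP a, a⁻¹ * tor (σu k) k a, ?_, ?_⟩
    · have q1 : (a⁻¹ * a).a8 = 0 := by rw [inv_mul_cancel]; rfl
      have q2 : (a⁻¹ * a).b8 = 0 := by rw [inv_mul_cancel]; rfl
      rw [mem_Q]
      rw [mul_a8] at q1 ⊢
      rw [mul_b8] at q2 ⊢
      rw [e1, e2]
      exact ⟨q1, q2⟩
    · rw [S.h_φ, map_mul, map_inv, mul_inv_cancel_left]
  · intro k'
    refine ⟨S.h_memP k', 1, one_mem _, ?_⟩
    rw [S.h_comm, map_one, mul_one, mul_inv_cancel_right]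
  · refine ⟨S.n2_memP, 1, one_mem _, ?_⟩
    have e := S.n2_h (σu k) k
    have e' : σu (σu k) * k⁻¹ = k := by
      rw [mul_inv_eq_iff_eq_mul]
      ext
      simp [sq]
    rw [e', mul_inv_eq_iff_eq_mul] at e
    rw [map_one, mul_one, ← e, mul_inv_cancel_right]

theorem key {g u : G} (h : Cq S g) (hu : u ∈ S.P0) (a : F) :
    ∃ β, u * (g * S.z6 a * g⁻¹) * u⁻¹ = g * (u * S.z6 a * u⁻¹) * g⁻¹ * S.z4 β := by
  obtain ⟨x, hx, e⟩ := h.inv u hu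
  have e1 := S.Q_conj (e := y6 0 a) (by simp) hx
  obtain ⟨β, eβ⟩ := S.norm_Z h.norm (Bf (y6 0 a) x)
  refine ⟨β, ?_⟩
  calc u * (g * S.z6 a * g⁻¹) * u⁻¹
      = g * ((g⁻¹ * u * g⁻¹⁻¹) * S.z6 a * (g⁻¹ * u * g⁻¹⁻¹)⁻¹) * g⁻¹ := by group
    _ = g * (u * (S.φ x * S.z6 a * (S.φ x)⁻¹) * u⁻¹) * g⁻¹ := by rw [e]; group
    _ = g * (u * S.z6 a * (S.z4 (Bf (y6 0 a) x) * u⁻¹)) * g⁻¹ := by rw [e1]; group
    _ = g * (u * S.z6 a * u⁻¹) * g⁻¹ * (g * S.z4 (Bf (y6 0 a) x) * g⁻¹) := by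
        rw [← S.P0_z4 (inv_mem hu)]; group
    _ = _ := by rw [eβ]

theorem uniq {l b l' b' : F} (h : S.z6 l * S.z4 b = S.z6 l' * S.z4 b') : l = l' := by
  rw [← map_mul, ← map_mul] at h
  simpa using congrArg Co.b6 (S.inj h)

theorem stepA {g : G} (h : Cq S g) (a : F) : ∃ l b, g * S.z6 a * g⁻¹ = S.z6 l * S.z4 b := by
  obtain ⟨e, he, ee⟩ := S.norm_E h.norm (a := y6 0 a) (by simp)
  obtain ⟨β, eβ⟩ := key h (S.φ_memP (y8 1 0)) a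
  have c : S.φ (y8 1 0) * S.z6 a * (S.φ (y8 1 0))⁻¹ = S.z6 a := by
    rw [mul_inv_eq_iff_eq_mul, ← map_mul, ← map_mul]
    congr 1
    ext <;> simp
  rw [c, ee, mul_inv_eq_iff_eq_mul, ← map_mul, ← map_mul, ← map_mul] at eβ
  have q := S.inj eβ
  obtain ⟨h1, h2, h4, h6, h7, h8, h9⟩ := mem_E.1 he
  have k2 : e.b2 = 0 := by simpa [h1, h2, h4, h6, h7, h8, h9] using congrArg Co.a3 q
  have k3 : e.a3 = 0 := by simpa [h1, h2, h4, h6, h7, h8, h9, k2] using congrArg Co.a5 q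
  have k5 : e.a5 = 0 := by simpa [h1, h2, h4, h6, h7, h8, h9, k2, k3] using congrArg Co.b6 q
  refine ⟨e.b6, e.b4, ?_⟩
  rw [ee, ← map_mul]
  congr 1
  ext <;> simp [*]

theorem stepB {g : G} (h : Cq S g) : ∃ l, ∀ a, ∃ b, g * S.z6 a * g⁻¹ = S.z6 (l * a) * S.z4 b := by
  obtain ⟨l, b, e⟩ := stepA h 1
  refine ⟨l, fun a => ?_⟩
  by_cases ha : a = 0
  · exact ⟨0, by simp [ha, S.z6_zero, S.z4_zero]⟩
  obtain ⟨x, hx⟩ := N_surj a
  have x0 : x ≠ 0 := by rintro rfl; exact ha (by simpa using hx.symm)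
  obtain ⟨β, eβ⟩ := key h (S.h_memP (Units.mk0 x x0)) 1
  have e6 := S.h_z6 1 (Units.mk0 x x0)
  have e4 := S.h_z4 1 (Units.mk0 x x0) b
  simp only [Units.val_mk0, hx, Units.val_one, map_one, one_mul] at e6 e4
  rw [e, e6, mul_one] at eβ
  refine ⟨b + β, ?_⟩
  rw [S.z4_add, ← mul_assoc, ← S.z4_inv β, eq_mul_inv_iff_mul_eq, ← eβ, mul_comm l a, ← e6]
  conv_rhs => rw [← e4]
  group

theorem stepC {g : G} (h : Cq S g) : ∃ μ, ∀ a, g * S.z4 a * g⁻¹ = S.z4 (μ * a) := by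
  obtain ⟨l, hl⟩ := stepB h
  obtain ⟨x, hx, ex⟩ := S.norm_Q h.norm (a := x1 1) (by simp)
  refine ⟨l * x.a1, fun a => ?_⟩
  obtain ⟨b, e⟩ := hl a
  have e1 := S.Q_conj (e := y6 0 a) (x := x1 1) (by simp) (by simp)
  have e2 := S.Q_conj (e := y6 0 (l * a) * y4 0 b) (x := x) (by simp) hx
  have b1 : Bf (y6 0 a) (x1 1 : Co F) = a := by simp [Bf]
  have b2 : Bf (y6 0 (l * a) * y4 0 b) x = l * x.a1 * a := by simp [Bf]; ring
  rw [b1] at e1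
  rw [b2, map_mul, ← e, ← ex] at e2
  rw [← mul_right_inj (g * S.z6 a * g⁻¹), ← e2]
  calc g * S.z6 a * g⁻¹ * (g * S.z4 a * g⁻¹) = g * (S.z6 a * S.z4 a) * g⁻¹ := by group
    _ = _ := by rw [← e1]; group

theorem T0_mul {y y' : G} {c c' : F} (h : S.T0 y c) (h' : S.T0 y' c') : S.T0 (y * y') (c + c') where
  ct := by
    calc y * y' * S.t * (y * y')⁻¹ = y * (y' * S.t * y'⁻¹) * y⁻¹ := by group
      _ = (y * S.t * y⁻¹) * (y * S.z4 c' * y⁻¹) := by rw [h'.ct]; group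
      _ = _ := by rw [h.ct, h.cZ, S.z4_add]; group
  cZ a := by rw [mul_assoc, h'.cZ, ← mul_assoc, h.cZ, mul_assoc]
  cP := Cq.mul (S := S) h.cP h'.cP

theorem T0_pow {y : G} {c : F} (h : S.T0 y c) (m : ℕ) : S.T0 (y ^ m) ((m : F) * c) := by
  induction m with
  | zero => exact ⟨by simp [S.z4_zero], by simp, by rw [pow_zero]; exact Cq.one⟩
  | succ m ih =>
    have := T0_mul ih h
    rwa [← pow_succ, show (m : F) * c + c = ((m + 1 : ℕ) : F) * c by push_cast; ring] at this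

theorem lam_pow {y : G} {l : F} (hZ : ∀ a, y * S.z4 a = S.z4 a * y)
    (h : ∀ a, ∃ b, y * S.z6 a * y⁻¹ = S.z6 (l * a) * S.z4 b) (i : ℕ) :
    ∃ b, y ^ i * S.z6 1 * (y ^ i)⁻¹ = S.z6 (l ^ i) * S.z4 b := by
  induction i with
  | zero => exact ⟨0, by simp [S.z4_zero]⟩
  | succ i ih =>
    obtain ⟨b, e⟩ := ih
    obtain ⟨b', e'⟩ := h (l ^ i)
    refine ⟨b' + b, ?_⟩
    calc y ^ (i + 1) * S.z6 1 * (y ^ (i + 1))⁻¹ = y * (y ^ i * S.z6 1 * (y ^ i)⁻¹) * y⁻¹ := by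
          rw [pow_succ']; group
      _ = (y * S.z6 (l ^ i) * y⁻¹) * (y * S.z4 b * y⁻¹) := by rw [e]; group
      _ = _ := by rw [e', hZ, S.z4_add, pow_succ']; group

theorem first (h : S.Db) : ∃ y c, c ≠ 0 ∧ S.T0 y c := by
  obtain ⟨n, hn, hnt⟩ := h.mv
  have nP := h.nvP hn
  obtain ⟨c0, e0⟩ := h.nvt hn
  have c00 : c0 ≠ 0 := by
    rintro rfl
    exact hnt (by rw [e0, S.z4_zero, mul_one])
  obtain ⟨k, hk⟩ : ∃ k : Fˣ, k ≠ 1 := by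
    have : 1 < Nat.card Fˣ := by
      have := S.big
      rw [Nat.card_units]
      omega
    have := Finite.one_lt_card_iff_nontrivial.1 this
    exact _root_.exists_ne 1
  have hκ := (cq_h0 S k).conj nP
  set κ := n * S.h (σu k) k * n⁻¹ with hκd
  obtain ⟨μ, hμ⟩ := stepC hκ
  have μ0 : μ ≠ 0 := by
    rintro rfl
    have := hμ 1
    rw [zero_mul, S.z4_zero, mul_inv_eq_iff_eq_mul, one_mul, mul_eq_left, ← S.z4_zero] at this
    exact one_ne_zero (S.z4_inj this)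
  have μ1 : μ ≠ 1 := by
    rintro rfl
    obtain ⟨b, eb⟩ := S.norm_Z nP 1
    have e1 := hμ b
    rw [one_mul, ← eb] at e1
    have e2 : n * (S.h (σu k) k * S.z4 1 * (S.h (σu k) k)⁻¹) * n⁻¹ = n * S.z4 1 * n⁻¹ := by
      rw [← e1, hκd]; group
    rw [S.h_z4, mul_left_inj, mul_right_inj] at e2
    have e3 := S.z4_inj e2
    have e4 : (σu k : F) = 1 := N_inj (by simpa using e3)
    exact hk (Units.ext (by simpa using e4))
  have kt : κ * S.t * κ⁻¹ = S.t * S.z4 (c0 + μ * c0) := by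
    have e1 : κ * (S.t * S.z4 c0) * κ⁻¹ = S.t * S.z4 c0 := by
      rw [← e0]
      calc κ * (n * S.t * n⁻¹) * κ⁻¹ = n * (S.h (σu k) k * S.t * (S.h (σu k) k)⁻¹) * n⁻¹ := by
            rw [hκd]; group
        _ = _ := by rw [S.conj_t (S.h_mem _ _)]
    calc κ * S.t * κ⁻¹ = κ * (S.t * S.z4 c0) * κ⁻¹ * (κ * (S.z4 c0)⁻¹ * κ⁻¹) := by group
      _ = _ := by rw [e1, S.z4_inv, hμ, S.z4_add, mul_assoc]
  obtain ⟨x, hx⟩ := N_surj μ
  have x0 : x ≠ 0 := by rintro rfl; exact μ0 (by simpa using hx.symm)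
  have x1 : (σ : F ≃+* F).symm x ≠ 0 := by simpa using x0
  have e4 := S.h_z4 (σu (Units.mk0 _ x1)) (Units.mk0 _ x1)
  simp only [σu_val, Units.val_mk0, RingEquiv.apply_symm_apply, hx] at e4
  have hd := cq_h0 S (Units.mk0 _ x1)
  have hdt := S.conj_t (inv_mem (S.h_mem (σu (Units.mk0 _ x1)) (Units.mk0 _ x1)))
  generalize S.h (σu (Units.mk0 _ x1)) (Units.mk0 _ x1) = d at e4 hd hdt
  refine ⟨κ * d⁻¹, c0 + μ * c0, ?_, ?_, ?_, hκ.mul hd.inv⟩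
  · intro e
    have : (μ - 1) * c0 = 0 := by
      rw [CharTwo.sub_eq_add]; linear_combination e
    rcases mul_eq_zero.1 this with e | e
    · exact μ1 (sub_eq_zero.1 e)
    · exact c00 e
  · rw [← kt]
    calc κ * d⁻¹ * S.t * (κ * d⁻¹)⁻¹ = κ * (d⁻¹ * S.t * d⁻¹⁻¹) * κ⁻¹ := by group
      _ = _ := by rw [hdt]
  · intro a
    have ea : a = μ * (μ⁻¹ * a) := by field_simp
    rw [← mul_inv_eq_iff_eq_mul]
    calc κ * d⁻¹ * S.z4 a * (κ * d⁻¹)⁻¹ = κ * d⁻¹ * (d * S.z4 (μ⁻¹ * a) * d⁻¹) * (κ * d⁻¹)⁻¹ := by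
          rw [e4, ← ea]
      _ = κ * S.z4 (μ⁻¹ * a) * κ⁻¹ := by group
      _ = _ := by rw [hμ, ← ea]

end B1h

theorem St.Db.b1 {S : St F G} (h : S.Db) : ∃ y c, c ≠ 0 ∧ S.T0 y c ∧
    ∀ a, ∃ b, y * S.z6 a * y⁻¹ = S.z6 a * S.z4 b := by
  obtain ⟨y, c, hc, hy⟩ := B1h.first h
  obtain ⟨j, m, hm, e⟩ := Nat.exists_eq_two_pow_mul_odd (orderOf_pos y).ne'
  have h1 := B1h.T0_pow hy m
  have m1 : (m : F) = 1 := by
    obtain ⟨r, rfl⟩ := hm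
    push_cast
    rw [CharTwo.two_eq_zero, zero_mul, zero_add]
  rw [m1, one_mul] at h1
  obtain ⟨l, hl⟩ := B1h.stepB (S := S) (g := y ^ m) h1.cP
  obtain ⟨b, eb⟩ := B1h.lam_pow h1.cZ hl (2 ^ j)
  have e1 : (y ^ m) ^ 2 ^ j = 1 := by rw [← pow_mul, mul_comm, ← e, pow_orderOf_eq_one]
  rw [e1, one_mul, inv_one, ← S.z4_zero] at eb
  have e2 := B1h.uniq eb
  have l1 : l = 1 := by
    have : (l - 1) ^ 2 ^ j = 0 := by rw [sub_pow_char_pow, ← e2, one_pow, sub_self]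
    exact sub_eq_zero.1 (pow_eq_zero_iff (by positivity) |>.1 this)
  refine ⟨y ^ m, c, hc, h1, fun a => ?_⟩
  simpa [l1] using hl a

end H51.RS
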