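import Cfsg.Agent.Lib.RS4.K1

/-! Standard components of type `²F₄(q)`, package B2a: see `blueprint/RS4/README.md`. -/

set_option autoImplicit false
set_option linter.unusedSectionVars false

namespace H51.RS
open Subgroup H69 H78.Oct H78.Oct.Co
open scoped commutatorElement

variable {F G : Type*} [Field F] [Tits F] [Finite F] [Group G] [Finite G]

namespace B2aH
variable {S : St F G} {y : G} {c : F}

/-- `y` moves `e` by `z₄(a)` -/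
def Rl (S : St F G) (y : G) (e : Co F) (a : F) : Prop := y * S.φ e * y⁻¹ = S.φ e * S.z4 a

theorem Rl.mul {e e' : Co F} {a a' : F} (h : Rl S y e a) (h' : Rl S y e' a') :
    Rl S y (e * e') (a + a') := by
  unfold Rl at *
  rw [map_mul, ← conj_mul, h, h', S.z4_add, mul_assoc, ← mul_assoc (S.z4 a), ← S.φ_z4]
  simp only [mul_assoc]

theorem Rl.conj {p : G} (hp : p ∈ S.P0) {x e e' : Co F} (hx : x ∈ Co.Q) (he : e ∈ Co.E)
    (h1 : y * p * y⁻¹ = p * S.φ x) (h2 : p * S.φ e * p⁻¹ = S.φ e') {a : F} (h : Rl S y e a) :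
    Rl S y e' (Bf e x + a) := by
  unfold Rl at *
  have h3 : ∀ b, p * S.z4 b * p⁻¹ = S.z4 b := fun b => mul_inv_eq_iff_eq_mul.2 (S.P0_z4 hp b)
  have h4 : S.φ x * S.z4 a * (S.φ x)⁻¹ = S.z4 a := mul_inv_eq_iff_eq_mul.2 (S.φ_z4 x a)
  calc y * S.φ e' * y⁻¹ = (y * p * y⁻¹) * (y * S.φ e * y⁻¹) * (y * p * y⁻¹)⁻¹ := by rw [← h2]; group
    _ = p * ((S.φ x * S.φ e * (S.φ x)⁻¹) * (S.φ x * S.z4 a * (S.φ x)⁻¹)) * p⁻¹ := by
      rw [h1, h]; group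
    _ = (p * S.φ e * p⁻¹) * (p * S.z4 (Bf e x + a) * p⁻¹) := by
      rw [S.Q_conj he hx, h4, S.z4_add]; group
    _ = _ := by rw [h2, h3]

theorem ex_conj (h : S.T0 y c) {p : G} (hp : p ∈ S.P0) {e e' : Co F} (he : e ∈ Co.E)
    (h2 : p * S.φ e * p⁻¹ = S.φ e') (h3 : ∃ a, Rl S y e a) : ∃ a, Rl S y e' a := by
  obtain ⟨x, hx, h1⟩ := h.cP p hp
  obtain ⟨a, h3⟩ := h3
  exact ⟨_, h3.conj hp hx he h1 h2⟩

theorem r4 (h : S.T0 y c) (a : F) : Rl S y (y4 0 a) 0 := by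
  unfold Rl
  rw [S.z4_zero, mul_one]
  exact mul_inv_eq_iff_eq_mul.2 (h.cZ a)

theorem lin (h : S.T0 y c) (r : F → Co F) (add : ∀ a b, r (a + b) = r a * r b) (hE : ∀ a, r a ∈ Co.E)
    (ex : ∀ a, ∃ b, Rl S y (r a) b) (k : Fˣ) {w : F} (hw : w ≠ 1) (ht : ∀ a, tor 1 k (r a) = r (w * a))
    (hB : ∀ x a, Bf (r a) x = a * Bf (r 1) x) : ∃ γ, ∀ a, Rl S y (r a) (a * γ) := by
  obtain ⟨x, hx, h1⟩ := h.cP _ (S.h_memP k)
  have hw' : 1 + w ≠ 0 := fun e => hw (by grind)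
  refine ⟨(1 + w)⁻¹ * Bf (r 1) x, fun a => ?_⟩
  obtain ⟨b, hb⟩ := ex ((1 + w)⁻¹ * a)
  have h2 := hb.mul (hb.conj (S.h_memP k) hx (hE _) h1 (S.h_φ 1 k _))
  rw [ht, ← add, hB] at h2
  have e1 : (1 + w)⁻¹ * a + w * ((1 + w)⁻¹ * a) = a := by field_simp
  have e2 : b + ((1 + w)⁻¹ * a * Bf (r 1) x + b) = a * ((1 + w)⁻¹ * Bf (r 1) x) := by
    generalize (1 + w)⁻¹ = v
    grind
  rwa [e1, e2] at h2

theorem ex_w (h : S.T0 y c) (h6 : ∀ a, ∃ b, Rl S y (y6 0 a) b) :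
    ∃ w ∈ Co.Q, ∀ e ∈ Co.E, Rl S y e (Bf e w) := by
  have h2 : ∀ a, ∃ b, Rl S y (y2 0 a) b := fun a =>
    ex_conj h S.n2_memP (by simp) (S.n2_z6 a) (h6 a)
  have h5 : ∀ a, ∃ b, Rl S y (x5 a) b := fun a => by
    obtain ⟨b1, e1⟩ := h2 a
    obtain ⟨b2, e2⟩ := ex_conj h (S.φ_memP (y8 0 1)) (e := y2 0 a)
      (e' := y8 0 1 * y2 0 a * (y8 0 1)⁻¹) (by simp) (by rw [map_mul, map_mul, map_inv]) (h2 a)
    obtain ⟨b3, e3⟩ := h6 a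
    have e4 := ((e1.mul e2).mul (r4 h (σ a))).mul e3
    have e5 : y2 0 a * (y8 0 1 * y2 0 a * (y8 0 1)⁻¹) * y4 0 (σ a) * y6 0 a = x5 a := by co
    exact ⟨_, e5 ▸ e4⟩
  have h3 : ∀ a, ∃ b, Rl S y (x3 a) b := fun a =>
    ex_conj h S.n2_memP (by simp) (S.n2_x5 a) (h5 a)
  obtain ⟨k, k1, k2, -⟩ := exists_unit S.big
  obtain ⟨γ2, g2⟩ := lin h (y2 0) (fun a b => by co) (fun a => by simp) h2 k (inv_ne_one.2 k2)
    (fun a => by ext <;> simp) (fun x a => by simp [Bf])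
  obtain ⟨γ3, g3⟩ := lin h x3 (fun a b => by co) (fun a => by simp) h3 k (inv_ne_one.2 k1)
    (fun a => by ext <;> simp) (fun x a => by simp [Bf])
  obtain ⟨γ5, g5⟩ := lin h x5 (fun a b => by co) (fun a => by simp) h5 k k1
    (fun a => by ext <;> simp) (fun x a => by simp [Bf])
  obtain ⟨γ6, g6⟩ := lin h (y6 0) (fun a b => by co) (fun a => by simp) h6 k k2
    (fun a => by ext <;> simp) (fun x a => by simp [Bf])
  refine ⟨⟨γ6, γ5, 0, 0, 0, 0, 0, γ3, 0, γ2, 0, 0⟩, by simp, fun e he => ?_⟩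
  have e1 := ((((g2 e.b2).mul (g3 e.a3)).mul (r4 h e.b4)).mul (g5 e.a5)).mul (g6 e.b6)
  have e2 : y2 0 e.b2 * x3 e.a3 * y4 0 e.b4 * x5 e.a5 * y6 0 e.b6 = e := by
    rw [mem_E] at he
    ext <;> simp [he]
  rw [e2, add_zero] at e1
  exact e1

end B2aH

theorem St.T0.b2a {S : St F G} {y : G} {c : F} (h : S.T0 y c)
    (h6 : ∀ a, ∃ b, y * S.z6 a * y⁻¹ = S.z6 a * S.z4 b) :
    ∃ y', S.T0 y' c ∧ ∀ e ∈ Co.E, y' * S.φ e = S.φ e * y' := by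
  obtain ⟨w, hw, h1⟩ := B2aH.ex_w h h6
  have h4 : ∀ a, (S.φ w)⁻¹ * S.z4 a = S.z4 a * (S.φ w)⁻¹ := fun a => by rw [← map_inv, S.φ_z4]
  refine ⟨(S.φ w)⁻¹ * y, ⟨?_, fun a => ?_, fun p hp => ?_⟩, fun e he => ?_⟩
  · calc _ = (S.φ w)⁻¹ * (y * S.t * y⁻¹) * S.φ w := by group
      _ = (S.φ w)⁻¹ * (S.t * S.φ w) * S.z4 c := by rw [h.ct, mul_assoc, mul_assoc, ← S.φ_z4]; group
      _ = _ := by rw [S.t_φ]; group
  · rw [mul_assoc, h.cZ, ← mul_assoc, h4, mul_assoc]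
  · obtain ⟨x, hx, e1⟩ := h.cP p hp
    obtain ⟨b, hb, e2⟩ := S.P0_conj_Q (inv_mem hp) (inv_mem hw)
    refine ⟨b * x * w, mul_mem (mul_mem hb hx) hw, ?_⟩
    calc _ = (S.φ w)⁻¹ * (y * p * y⁻¹) * S.φ w := by group
      _ = _ := by rw [e1, map_mul, map_mul, ← e2, map_inv]; group
  · have e1 : y * S.φ e * y⁻¹ = S.φ w * S.φ e * (S.φ w)⁻¹ := (h1 e he).trans (S.Q_conj he hw).symm
    calc _ = (S.φ w)⁻¹ * (y * S.φ e * y⁻¹) * y := by group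
      _ = _ := by rw [e1]; group

end H51.RS
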