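import Cfsg.Agent.Lib.RS4.K1

/-! Standard components of type `²F₄(q)`, package B2b: see `blueprint/RS4/README.md`. -/

set_option autoImplicit false
set_option linter.unusedSectionVars false

namespace H51.RS
open Subgroup H69 H78.Oct H78.Oct.Co
open scoped commutatorElement

variable {F G : Type*} [Field F] [Tits F] [Finite F] [Group G] [Finite G]

namespace B2b
variable {S : St F G} {y : G} {c : F}

/-- `P0` fixes the coordinate `a4` on `F` -/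
theorem fix4 {p : G} (hp : p ∈ S.P0) : ∀ a ∈ Co.F, ∃ b ∈ Co.F, b.a4 = a.a4 ∧ p * S.φ a * p⁻¹ = S.φ b := by
  refine S.P0_ind (p := fun p => ∀ a ∈ Co.F, ∃ b ∈ Co.F, b.a4 = a.a4 ∧ p * S.φ a * p⁻¹ = S.φ b)
    (fun x z hx hz a ha => ?_) (fun u a ha => ?_) (fun k a ha => ?_) (fun a ha => ?_) hp
  · obtain ⟨b, hb, e, h⟩ := hz a ha
    obtain ⟨b', hb', e', h'⟩ := hx b hb
    exact ⟨b', hb', e'.trans e, by rw [← h', ← h]; group⟩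
  · have := PA_F (b := u * a * u⁻¹) (c := u) ha (by group)
    exact ⟨_, this.1, this.2, by simp only [map_mul, map_inv]⟩
  · refine ⟨tor 1 k a, ?_, by simp, S.h_φ 1 k a⟩
    rw [Co.mem_F] at ha; simp [ha]
  · rw [Co.mem_F] at ha
    exact ⟨w2 a, by simp [ha], by simp, S.n2_φ ha.2.2.2.2.1 ha.2.2.2.2.2⟩

theorem inF (h : S.T0 y c) (hE : ∀ e ∈ Co.E, y * S.φ e = S.φ e * y) {p : G} (hp : p ∈ S.P0) :
    ∃ x ∈ Co.F, y * p * y⁻¹ = p * S.φ x := by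
  obtain ⟨x, -, e⟩ := h.cP p hp
  obtain ⟨a, ha, e'⟩ := S.cent_E (S.φ_mem x) fun u hu => by
    obtain ⟨b, hb, eb⟩ := S.P0_conj_E hp hu
    have h1 : y * (p * S.φ u * p⁻¹) * y⁻¹ = p * S.φ u * p⁻¹ := by
      rw [eb, hE b hb, mul_inv_cancel_right]
    have h2 : y * S.φ u * y⁻¹ = S.φ u := by rw [hE u hu, mul_inv_cancel_right]
    rw [← conj_mul, ← conj_mul, ← conj_inv, e, h2] at h1
    have h3 : p * (S.φ x * S.φ u * (S.φ x)⁻¹) * p⁻¹ = p * S.φ u * p⁻¹ := by rw [← h1]; group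
    exact mul_inv_eq_iff_eq_mul.1 (mul_left_cancel (mul_right_cancel h3))
  exact ⟨a, ha, e' ▸ e⟩

theorem inE (h : S.T0 y c) (hE : ∀ e ∈ Co.E, y * S.φ e = S.φ e * y) {p : G} (hp : p ∈ S.P0) :
    ∃ x ∈ Co.E, y * p * y⁻¹ = p * S.φ x := by
  choose χ hF hχ using fun p : S.P0 => inF h hE p.2
  let θ : S.P0 →* Multiplicative F := MonoidHom.mk' (fun p => .ofAdd (χ p).a4) fun p q => by
    obtain ⟨b, hb, e4, e⟩ := fix4 (inv_mem q.2) _ (hF p)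
    have : χ (p * q) = b * χ q := S.inj (mul_left_cancel (a := (p : G) * q) (by
      rw [← Subgroup.coe_mul, ← hχ, Subgroup.coe_mul, ← conj_mul, hχ, hχ, map_mul, ← e]; group))
    rw [Co.mem_F] at hb
    rw [this, ← ofAdd_add, ← e4]
    simp [hb]
  have key : ⁅S.P0, S.P0⁆ ≤ θ.ker.map S.P0.subtype := commutator_le.2 fun a ha b hb =>
    ⟨⁅(⟨a, ha⟩ : S.P0), ⟨b, hb⟩⁆, by
      rw [SetLike.mem_coe, MonoidHom.mem_ker, map_commutatorElement, commutatorElement_eq_one_iff_commute]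
      exact mul_comm _ _, rfl⟩
  rw [S.perfP] at key
  obtain ⟨q, hq, rfl⟩ := key hp
  have h4 : (χ q).a4 = 0 := hq
  have := hF q
  rw [Co.mem_F] at this
  exact ⟨χ q, by simp [this, h4], hχ q⟩

/-- equivariance modulo `Z` -/
theorem equi (h : S.T0 y c) (hE : ∀ e ∈ Co.E, y * S.φ e = S.φ e * y) {p : G} (hp : p ∈ S.P0)
    {x x' e : Co F} (hx : x ∈ Co.Q) (he : e ∈ Co.E) (h1 : y * S.φ x * y⁻¹ = S.φ x * S.φ e)
    (h2 : p * S.φ x * p⁻¹ = S.φ x') : ∃ a, y * S.φ x' * y⁻¹ = S.φ x' * (p * S.φ e * p⁻¹) * S.z4 a := by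
  obtain ⟨u, hu, eu⟩ := inE h hE hp
  refine ⟨Bf u x, ?_⟩
  have h3 : S.φ u * S.φ e * (S.φ u)⁻¹ = S.φ e := by
    rw [← map_mul, PA_FE (by rw [Co.mem_E] at hu; simp [hu]) he, map_mul, mul_inv_cancel_right]
  rw [← h2, ← conj_mul, ← conj_mul, ← conj_inv, eu, h1, mul_assoc _ _ (S.z4 _), mul_assoc _ _ (S.z4 _),
    S.P0_z4 (inv_mem hp), ← mul_assoc _ (S.z4 _), mul_assoc p (S.φ e), S.φ_z4]
  calc _ = p * (S.φ u * S.φ x * (S.φ u)⁻¹) * (S.φ u * S.φ e * (S.φ u)⁻¹) * p⁻¹ := by group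
    _ = _ := by rw [S.E_conj hu hx, h3]; group

theorem mmul {x x' : Co F} (h1 : ∃ a, y * S.φ x * y⁻¹ = S.φ x * S.z4 a)
    (h2 : ∃ a, y * S.φ x' * y⁻¹ = S.φ x' * S.z4 a) :
    ∃ a, y * S.φ (x * x') * y⁻¹ = S.φ (x * x') * S.z4 a := by
  obtain ⟨a, h1⟩ := h1
  obtain ⟨b, h2⟩ := h2
  refine ⟨a + b, ?_⟩
  rw [map_mul, ← conj_mul, h1, h2, S.z4_add, mul_assoc, ← mul_assoc (S.z4 a), ← S.φ_z4]; group

theorem minv {x : Co F} (h1 : ∃ a, y * S.φ x * y⁻¹ = S.φ x * S.z4 a) :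
    ∃ a, y * S.φ x⁻¹ * y⁻¹ = S.φ x⁻¹ * S.z4 a := by
  obtain ⟨a, h1⟩ := h1
  exact ⟨a, by rw [S.φ_z4, map_inv, ← conj_inv, h1, mul_inv_rev, S.z4_inv]⟩

theorem mdiv {x : Co F} (x' : Co F) (h2 : ∃ a, y * S.φ x' * y⁻¹ = S.φ x' * S.z4 a)
    (h1 : ∃ a, y * S.φ (x * x'⁻¹) * y⁻¹ = S.φ (x * x'⁻¹) * S.z4 a) :
    ∃ a, y * S.φ x * y⁻¹ = S.φ x * S.z4 a := by
  simpa only [inv_mul_cancel_right] using mmul h1 h2

theorem mconj (h : S.T0 y c) (hE : ∀ e ∈ Co.E, y * S.φ e = S.φ e * y) {p : G} (hp : p ∈ S.P0)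
    {x x' : Co F} (hx : x ∈ Co.Q) (h1 : ∃ a, y * S.φ x * y⁻¹ = S.φ x * S.z4 a)
    (h2 : p * S.φ x * p⁻¹ = S.φ x') : ∃ a, y * S.φ x' * y⁻¹ = S.φ x' * S.z4 a := by
  obtain ⟨a, h1⟩ := h1
  obtain ⟨b, e⟩ := equi h hE hp hx (by simp) h1 h2
  exact ⟨a + b, by rw [e, S.P0_z4 hp, mul_inv_cancel_right, S.z4_add, mul_assoc]⟩

/-- the displacement of a point fixed by `p` is fixed modulo `Z` -/
theorem fixp (h : S.T0 y c) (hE : ∀ e ∈ Co.E, y * S.φ e = S.φ e * y) {p : G} (hp : p ∈ S.P0)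
    {x x' e e' f : Co F} (hx : x ∈ Co.Q) (he : e ∈ Co.E) (h1 : y * S.φ x * y⁻¹ = S.φ x * S.φ e)
    (h1' : y * S.φ x' * y⁻¹ = S.φ x' * S.φ e') (h2 : p * S.φ x * p⁻¹ = S.φ x')
    (h3 : p * S.φ e * p⁻¹ = S.φ f) : ∃ a, e' = f * y4 0 a := by
  obtain ⟨a, ea⟩ := equi h hE hp hx he h1 h2
  rw [h1', h3, mul_assoc, ← map_mul S.φ f] at ea
  exact ⟨a, S.inj (mul_left_cancel ea)⟩

theorem mF (h : S.T0 y c) (hE : ∀ e ∈ Co.E, y * S.φ e = S.φ e * y) {x : Co F} (hx : x ∈ Co.F) :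
    ∃ a, y * S.φ x * y⁻¹ = S.φ x * S.z4 a := by
  rw [Co.mem_F] at hx
  refine mdiv (y4 x.a4 0) ?_ ⟨0, by rw [hE _ (by simp [hx, CharTwo.add_self_eq_zero]), S.z4_zero]; group⟩
  obtain ⟨e, he, h1⟩ := inE h hE (S.φ_memP (y4 x.a4 0))
  obtain ⟨k, k1, k2, -⟩ := exists_unit S.big
  obtain ⟨a, ea⟩ := fixp h hE (S.h_memP k) (by simp) he h1 h1
    ((S.h_φ 1 k _).trans (congrArg _ (by ext <;> simp))) (S.h_φ 1 k e)
  have k0 := k.ne_zero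
  have k0' := σ_ne k0
  have e1 := congrArg Co.b2 ea
  have e2 := congrArg Co.a3 ea
  have e3 := congrArg Co.a5 ea
  have e4 := congrArg Co.b6 ea
  rw [Co.mem_E] at he
  simp [he] at e1 e2 e3 e4
  refine ⟨e.b4, h1.trans (congrArg _ (congrArg _ ?_))⟩
  ext <;> simp [he] <;> grind

theorem ex7 (h : S.T0 y c) (hE : ∀ e ∈ Co.E, y * S.φ e = S.φ e * y) :
    ∃ l, ∀ a, ∃ b, y * S.φ (x7 a) * y⁻¹ = S.φ (x7 a) * S.φ (y6 0 (l * a) * y4 0 b) := by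
  choose f hf e using fun a : F => inE h hE (S.φ_memP (x7 a))
  refine ⟨(f 1).b6, fun a => ⟨(f a).b4, (e a).trans (congrArg _ (congrArg _ ?_))⟩⟩
  have h6 : (f a).b6 = (f 1).b6 * a := by
    by_cases ha : a = 0
    · subst ha
      have : S.φ (f 0) = S.φ 1 := by simpa [show (x7 0 : Co F) = 1 from rfl] using (e 0).symm
      rw [S.inj this]; simp
    obtain ⟨k, rfl⟩ := N_surj a
    obtain ⟨b, eb⟩ := fixp h hE (S.h_memP (Units.mk0 k (left_ne_zero_of_mul ha))) (by simp) (hf 1) (e 1) (e (k * σ k))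
      ((S.h_φ 1 _ _).trans (congrArg _ (by ext <;> simp))) (S.h_φ 1 _ _)
    have := hf 1
    rw [Co.mem_E] at this
    rw [eb]; simp [this, mul_comm]
  obtain ⟨b, eb⟩ := fixp h hE (S.φ_memP (y8 1 0)) (f := y8 1 0 * f a * (y8 1 0)⁻¹) (by simp) (hf a) (e a) (e a)
    (by rw [← map_inv, ← map_mul, ← map_mul]; congr 1; co) (by simp only [map_mul, map_inv])
  have e2 := congrArg Co.a3 eb
  have e3 := congrArg Co.a5 eb
  have e4 := congrArg Co.b6 eb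
  have he := hf a
  rw [Co.mem_E] at he
  simp [he] at e2 e3 e4
  ext <;> simp [he] <;> grind

theorem fin (h : S.T0 y c) (hE : ∀ e ∈ Co.E, y * S.φ e = S.φ e * y)
    (h7 : ∀ a, ∃ b, y * S.φ (x7 a) * y⁻¹ = S.φ (x7 a) * S.z4 b) {x : Co F} (hx : x ∈ Co.Q) :
    ∃ a, y * S.φ x * y⁻¹ = S.φ x * S.z4 a := by
  have h1 : ∀ a, ∃ b, y * S.φ (x1 a) * y⁻¹ = S.φ (x1 a) * S.z4 b := fun a =>
    mconj h hE S.n2_memP (by simp) (h7 a) ((S.n2_φ rfl rfl).trans (congrArg _ (by co)))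
  have s3 : ∀ x ∈ Co.Q, x.a1 = 0 → x.a2 = 0 → x.a6 = 0 → ∃ b, y * S.φ x * y⁻¹ = S.φ x * S.z4 b :=
    fun x hx a1 a2 a6 => mdiv (x7 x.a7) (h7 _) (mF h hE (by
      rw [Co.mem_Q] at hx; simp [*, CharTwo.add_self_eq_zero]))
  have s2 : ∀ x ∈ Co.Q, x.a1 = 0 → x.a2 = 0 → ∃ b, y * S.φ x * y⁻¹ = S.φ x * S.z4 b := fun x hx a1 a2 => by
    rw [Co.mem_Q] at hx
    refine mdiv (y8 0 x.a6 * x1 1 * (y8 0 x.a6)⁻¹ * (x1 1)⁻¹) (mmul (mconj h hE (S.φ_memP (y8 0 x.a6))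
      (by simp) (h1 1) (by simp only [map_mul, map_inv])) (minv (h1 1))) (s3 _ ?_ ?_ ?_ ?_) <;>
    simp [*, CharTwo.add_self_eq_zero]
  have s1 : ∀ x ∈ Co.Q, x.a1 = 0 → ∃ b, y * S.φ x * y⁻¹ = S.φ x * S.z4 b := fun x hx a1 => by
    rw [Co.mem_Q] at hx
    refine mdiv (w2 (y6 x.a2 0)) (mconj h hE S.n2_memP (by simp) (s2 (y6 x.a2 0) (by simp) rfl rfl)
      (S.n2_φ rfl rfl)) (s2 _ ?_ ?_ ?_) <;> simp [*, CharTwo.add_self_eq_zero]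
  rw [Co.mem_Q] at hx
  refine mdiv (x1 x.a1) (h1 _) (s1 _ ?_ ?_) <;> simp [*, CharTwo.add_self_eq_zero]

end B2b
open B2b

theorem St.T0.b2b {S : St F G} {y : G} {c : F} (h : S.T0 y c)
    (hE : ∀ e ∈ Co.E, y * S.φ e = S.φ e * y) : ∃ y', S.T1 y' c := by
  obtain ⟨l, hl⟩ := ex7 h hE
  have h' : S.T0 (S.φ (y4 l 0) * y) c := ⟨?_, fun a => ?_, fun p hp => ?_⟩
  rotate_left
  · calc _ = S.φ (y4 l 0) * (y * S.t * y⁻¹) * (S.φ (y4 l 0))⁻¹ := by group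
      _ = _ := by rw [h.ct, ← mul_assoc, ← S.t_φ, mul_assoc S.t, S.φ_z4]; group
  · rw [mul_assoc, h.cZ, ← mul_assoc, S.φ_z4, mul_assoc]
  · obtain ⟨x, hx, e⟩ := h.cP p hp
    obtain ⟨b, hb, eb⟩ := S.P0_conj_Q (inv_mem hp) (a := y4 l 0) (by simp)
    refine ⟨b * x * (y4 l 0)⁻¹, mul_mem (mul_mem hb hx) (inv_mem (by simp)), ?_⟩
    calc _ = S.φ (y4 l 0) * (y * p * y⁻¹) * (S.φ (y4 l 0))⁻¹ := by group
      _ = _ := by rw [e, map_mul, map_mul, map_inv, ← eb]; group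
  have hE' : ∀ e ∈ Co.E, S.φ (y4 l 0) * y * S.φ e = S.φ e * (S.φ (y4 l 0) * y) := fun e he => by
    rw [mul_assoc, hE e he, ← mul_assoc, ← map_mul, PA_FE (by simp) he, map_mul, mul_assoc]
  refine ⟨_, h', hE', fun x hx => fin h' hE' (fun a => ?_) hx⟩
  obtain ⟨b, e⟩ := hl a
  refine ⟨b, ?_⟩
  calc _ = S.φ (y4 l 0) * (y * S.φ (x7 a) * y⁻¹) * (S.φ (y4 l 0))⁻¹ := by group
    _ = _ := by rw [e, ← map_inv, ← map_mul, ← map_mul, ← map_mul, ← map_mul]; congr 1; co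

end H51.RS
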