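import Cfsg.Agent.Lib.RS4.K1

/-! Standard components of type `²F₄(q)`, package B3: see `blueprint/RS4/README.md`. -/

set_option autoImplicit false
set_option linter.unusedSectionVars false

namespace H51.RS
open Subgroup H69 H78.Oct H78.Oct.Co
open scoped commutatorElement

variable {F G : Type*} [Field F] [Tits F] [Finite F] [Group G] [Finite G]

namespace B3H
variable {S : St F G} {y : G} {c : F} {ζ : Co F → F}

theorem lin {g : F → F} (add : ∀ a b, g (a + b) = g a + g b) {l μ : F} (hl : l ≠ 1)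
    (h : ∀ b, g (l * b) = g b + μ * b) : ∃ ν, ∀ b, g b = ν * b := by
  have h1 : l + 1 ≠ 0 := fun e => hl (by grind)
  refine ⟨μ * (l + 1)⁻¹, fun b => ?_⟩
  have e := add (l * ((l + 1)⁻¹ * b)) ((l + 1)⁻¹ * b)
  rw [h, show l * ((l + 1)⁻¹ * b) + (l + 1)⁻¹ * b = b by field_simp] at e
  rw [e]
  linear_combination CharTwo.add_self_eq_zero (g ((l + 1)⁻¹ * b))

theorem EQ {e : Co F} (he : e ∈ Co.E) : e ∈ Co.Q := ⟨he.2.2.2.2.2.1, he.2.2.2.2.2.2⟩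

theorem hom (hζ : ∀ x ∈ Co.Q, y * S.φ x * y⁻¹ = S.φ x * S.z4 (ζ x)) {x x' : Co F}
    (hx : x ∈ Co.Q) (hx' : x' ∈ Co.Q) : ζ (x * x') = ζ x + ζ x' := by
  apply S.z4_inj
  have e := hζ _ (mul_mem hx hx')
  rw [map_mul, show y * (S.φ x * S.φ x') * y⁻¹ = (y * S.φ x * y⁻¹) * (y * S.φ x' * y⁻¹) by group,
    hζ x hx, hζ x' hx'] at e
  rw [S.z4_add]
  apply mul_left_cancel (a := S.φ x * S.φ x')
  rw [← e, ← mul_assoc, ← mul_assoc, mul_assoc (S.φ x) (S.φ x'), S.φ_z4 x' (ζ x)]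
  simp only [mul_assoc]

theorem zE (h : S.T1 y c) (hζ : ∀ x ∈ Co.Q, y * S.φ x * y⁻¹ = S.φ x * S.z4 (ζ x)) {e : Co F}
    (he : e ∈ Co.E) : ζ e = 0 := by
  apply S.z4_inj
  have e1 := hζ e (EQ he)
  rw [h.cE e he, mul_inv_cancel_right] at e1
  rw [S.z4_zero]
  exact mul_left_cancel (a := S.φ e) (by rw [← e1, mul_one])

theorem inE {w : Co F} (hw : w ∈ Co.Q) (h2 : ∀ x ∈ Co.Q, ∃ a a', w * x * y4 0 a = x * y4 0 a' * w) :
    w ∈ Co.E := by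
  obtain ⟨a, a', e7⟩ := h2 (x7 1) (by simp)
  obtain ⟨b, b', e1⟩ := h2 (x1 1) (by simp)
  obtain ⟨h8, h8'⟩ := hw
  have A3 := congrArg Co.a3 e7
  have A5 := congrArg Co.a5 e7
  have B6 := congrArg Co.b6 e7
  have B2 := congrArg Co.b2 e1
  have C3 := congrArg Co.a3 e1
  simp [h8, h8'] at A3
  simp [h8, h8', A3] at A5
  simp [h8, h8', A3, A5] at B6
  simp [h8, h8', A3, A5, B6] at B2
  simp [h8, h8', A3, A5, B6, B2] at C3
  exact ⟨A3, A5, B6, B2, C3, h8, h8'⟩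

theorem key (hζ : ∀ x ∈ Co.Q, y * S.φ x * y⁻¹ = S.φ x * S.z4 (ζ x)) {p : G} (hp : p ∈ S.P0)
    {w : Co F} (hw : w ∈ Co.Q) (e : y * p * y⁻¹ = p * S.φ w) :
    w ∈ Co.E ∧ ∀ x ∈ Co.Q, ∀ x' ∈ Co.Q, p * S.φ x * p⁻¹ = S.φ x' → ζ x' = ζ x + Bf w x := by
  have h1 : ∀ x ∈ Co.Q, ∀ x' ∈ Co.Q, p * S.φ x * p⁻¹ = S.φ x' →
      S.φ w * S.φ x * S.z4 (ζ x) = S.φ x * S.z4 (ζ x') * S.φ w := by
    intro x hx x' hx' e'
    have e1 := hζ x' hx'
    rw [← e', show y * (p * S.φ x * p⁻¹) * y⁻¹ =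
      (y * p * y⁻¹) * (y * S.φ x * y⁻¹) * (y * p * y⁻¹)⁻¹ by group, e, hζ x hx,
      mul_assoc (p * S.φ x), S.P0_z4 (inv_mem hp) (ζ x')] at e1
    calc S.φ w * S.φ x * S.z4 (ζ x)
        = p⁻¹ * (p * S.φ w * (S.φ x * S.z4 (ζ x)) * (p * S.φ w)⁻¹) * p * S.φ w := by group
      _ = _ := by rw [e1]; group
  have hE : w ∈ Co.E := by
    refine inE hw fun x hx => ?_
    obtain ⟨x', hx', e'⟩ := S.P0_conj_Q hp hx
    refine ⟨ζ x, ζ x', S.inj ?_⟩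
    simp only [map_mul]
    exact h1 x hx x' hx' e'
  refine ⟨hE, fun x hx x' hx' e' => ?_⟩
  have e1 := h1 x hx x' hx' e'
  have e2 := S.E_conj hE hx
  rw [mul_inv_eq_iff_eq_mul] at e2
  rw [e2, mul_assoc _ (S.φ w), S.φ_z4 w, ← mul_assoc, mul_left_inj, mul_assoc, mul_right_inj,
    ← S.z4_add] at e1
  rw [← S.z4_inj e1, add_comm]

theorem shift (h : S.T1 y c) (hζ : ∀ x ∈ Co.Q, y * S.φ x * y⁻¹ = S.φ x * S.z4 (ζ x)) {e : Co F}
    (he : e ∈ Co.E) : S.T1 (S.φ e * y) c ∧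
      ∀ x ∈ Co.Q, (S.φ e * y) * S.φ x * (S.φ e * y)⁻¹ = S.φ x * S.z4 (Bf e x + ζ x) := by
  have hc : ∀ g, (S.φ e * y) * g * (S.φ e * y)⁻¹ = S.φ e * (y * g * y⁻¹) * (S.φ e)⁻¹ := fun g => by group
  have hq : ∀ x ∈ Co.Q, (S.φ e * y) * S.φ x * (S.φ e * y)⁻¹ = S.φ x * S.z4 (Bf e x + ζ x) := by
    intro x hx
    rw [hc, hζ x hx, S.z4_add, ← mul_assoc (S.φ x), ← S.E_conj he hx, ← map_inv,
      mul_assoc _ (S.φ e⁻¹), S.φ_z4 e⁻¹]
    simp only [mul_assoc]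
  refine ⟨⟨⟨?_, fun a => ?_, fun p hp => ?_⟩, fun e' he' => ?_, fun x hx => ⟨_, hq x hx⟩⟩, hq⟩
  · rw [hc, h.ct, ← mul_assoc, ← S.t_φ, mul_assoc S.t, S.φ_z4]
    group
  · rw [mul_assoc, h.cZ, ← mul_assoc, S.φ_z4, mul_assoc]
  · obtain ⟨x, hx, e1⟩ := h.cP p hp
    obtain ⟨b, hb, e2⟩ := S.P0_conj_Q (inv_mem hp) (EQ he)
    refine ⟨b * x * e⁻¹, mul_mem (mul_mem hb hx) (inv_mem (EQ he)), ?_⟩
    rw [hc, e1, map_mul, map_mul, map_inv, ← e2]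
    group
  · have e1 := S.E_conj he (EQ he')
    obtain ⟨h1, h2, -, h6, h7, -, -⟩ := id he'
    rw [show Bf e e' = 0 by simp [Bf, h1, h2, h6, h7], S.z4_zero, mul_one, mul_inv_eq_iff_eq_mul] at e1
    rw [mul_assoc, h.cE e' he', ← mul_assoc, e1, mul_assoc]

theorem lin4 (h : S.T1 y c) (hζ : ∀ x ∈ Co.Q, y * S.φ x * y⁻¹ = S.φ x * S.z4 (ζ x)) :
    (∃ ν, ∀ b, ζ (x1 b) = ν * b) ∧ (∃ ν, ∀ b, ζ (y2 b 0) = ν * b) ∧
      (∃ ν, ∀ b, ζ (y6 b 0) = ν * b) ∧ ∃ ν, ∀ b, ζ (x7 b) = ν * b := by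
  obtain ⟨k, hk1, hk2, -⟩ := exists_unit (F := F) S.big
  obtain ⟨w, hw, e⟩ := h.cP _ (S.h_memP k)
  have hk := fun x hx hx' => (key hζ (S.h_memP k) hw e).2 x hx _ hx' (S.h_φ 1 k x)
  refine ⟨lin (l := ((k : F) * σ (k : F))⁻¹) (μ := w.b6) (fun a b => ?_) (fun e1 => hk2 (inv_eq_one.1 e1)) fun b => ?_,
    lin (l := (k : F)⁻¹) (μ := w.a5) (fun a b => ?_) (by simpa using hk1) fun b => ?_,
    lin (l := (k : F)) (μ := w.a3) (fun a b => ?_) hk1 fun b => ?_,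
    lin (l := (k : F) * σ (k : F)) (μ := w.b2) (fun a b => ?_) hk2 fun b => ?_⟩
  · rw [← hom hζ (by simp) (by simp)]
    congr 1
    ext <;> simp
  · have e1 := hk (x1 b) (by simp) (by simp)
    rw [show tor 1 k (x1 b) = x1 (((k : F) * σ (k : F))⁻¹ * b) by ext <;> simp] at e1
    rw [e1]
    simp [Bf]
  · rw [← hom hζ (by simp) (by simp), show y2 a 0 * y2 b 0 = y2 (a + b) 0 * y2 0 (a * σ b) by ext <;> simp,
      hom hζ (by simp) (by simp), zE h hζ (e := y2 0 (a * σ b)) (by simp), add_zero]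
  · have e1 := hk (y2 b 0) (by simp) (by simp)
    rw [show tor 1 k (y2 b 0) = y2 ((k : F)⁻¹ * b) 0 by ext <;> simp] at e1
    rw [e1]
    simp [Bf]
  · rw [← hom hζ (by simp) (by simp), show y6 a 0 * y6 b 0 = y6 (a + b) 0 * y6 0 (a * σ b) by ext <;> simp,
      hom hζ (by simp) (by simp), zE h hζ (e := y6 0 (a * σ b)) (by simp), add_zero]
  · have e1 := hk (y6 b 0) (by simp) (by simp)
    rw [show tor 1 k (y6 b 0) = y6 ((k : F) * b) 0 by ext <;> simp] at e1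
    rw [e1]
    simp [Bf]
  · rw [← hom hζ (by simp) (by simp)]
    congr 1
    ext <;> simp
  · have e1 := hk (x7 b) (by simp) (by simp)
    rw [show tor 1 k (x7 b) = x7 ((k : F) * σ (k : F) * b) by ext <;> simp] at e1
    rw [e1]
    simp [Bf]

theorem red4 (h : S.T1 y c) (hζ : ∀ x ∈ Co.Q, y * S.φ x * y⁻¹ = S.φ x * S.z4 (ζ x))
    (h1 : ∀ b, ζ (x1 b) = 0) (h2 : ∀ b, ζ (y2 b 0) = 0) (h6 : ∀ b, ζ (y6 b 0) = 0)
    (h7 : ∀ b, ζ (x7 b) = 0) {x : Co F} (hx : x ∈ Co.Q) : ζ x = ζ (y4 x.a4 0) := by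
  have e := eq_prod x
  rw [hx.1, hx.2, show (y8 0 0 : Co F) = 1 from rfl, mul_one,
    show y2 x.a2 x.b2 = y2 x.a2 0 * y2 0 x.b2 by ext <;> simp,
    show y4 x.a4 x.b4 = y4 x.a4 0 * y4 0 x.b4 by ext <;> simp,
    show y6 x.a6 x.b6 = y6 x.a6 0 * y6 0 x.b6 by ext <;> simp] at e
  have e2 := congrArg ζ e
  rw [hom hζ (by simp) (by simp), hom hζ (by simp) (by simp), hom hζ (by simp) (by simp),
    hom hζ (by simp) (by simp), hom hζ (by simp) (by simp), hom hζ (by simp) (by simp),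
    hom hζ (by simp) (by simp), hom hζ (by simp) (by simp), hom hζ (by simp) (by simp), h1, h2, h6, h7,
    zE h hζ (e := y2 0 x.b2) (by simp), zE h hζ (e := x3 x.a3) (by simp),
    zE h hζ (e := y4 0 x.b4) (by simp), zE h hζ (e := x5 x.a5) (by simp),
    zE h hζ (e := y6 0 x.b6) (by simp)] at e2
  simpa using e2

theorem fin (h : S.T1 y c) (hζ : ∀ x ∈ Co.Q, y * S.φ x * y⁻¹ = S.φ x * S.z4 (ζ x))
    (h1 : ∀ b, ζ (x1 b) = 0) (h2 : ∀ b, ζ (y2 b 0) = 0) (h6 : ∀ b, ζ (y6 b 0) = 0)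
    (h7 : ∀ b, ζ (x7 b) = 0) : ∃ β, S.T2 y c β := by
  have r4 := @red4 F G _ _ _ _ _ S y c ζ h hζ h1 h2 h6 h7
  choose w hw e using fun s v => h.cP _ (S.φ_memP (y8 s v))
  have hE := fun s v => (key hζ (S.φ_memP _) (hw s v) (e s v)).1
  have hk : ∀ s v, ∀ x ∈ Co.Q, ζ (y4 (s * σ x.a2 + v * σ x.a1 + x.a4) 0) = ζ x + Bf (w s v) x := by
    intro s v x hx
    have hx' : y8 s v * x * (y8 s v)⁻¹ ∈ Co.Q := by
      constructor <;> simp [hx.1, hx.2] <;> grind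
    rw [← (key hζ (S.φ_memP _) (hw s v) (e s v)).2 x hx _ hx' (by simp), r4 hx']
    simp
  have z0 : ζ (y4 0 0) = 0 := zE h hζ (by simp)
  have k1 : ∀ s v b, ζ (y4 (v * σ b) 0) = (w s v).b6 * b := fun s v b => by
    simpa [Bf, h1] using hk s v (x1 b) (by simp)
  have k2 : ∀ s v b, ζ (y4 (s * σ b) 0) = (w s v).a5 * b := fun s v b => by
    simpa [Bf, h2] using hk s v (y2 b 0) (by simp)
  have k6 : ∀ s v, (w s v).a3 = 0 := fun s v => by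
    simpa [Bf, h6, z0] using (hk s v (y6 1 0) (by simp)).symm
  have k7 : ∀ s v, (w s v).b2 = 0 := fun s v => by
    simpa [Bf, h7, z0] using (hk s v (x7 1) (by simp)).symm
  obtain ⟨β, hβ⟩ : ∃ β, ∀ a, ζ (y4 a 0) = β * σ.symm a :=
    ⟨(w 0 1).b6, fun a => by simpa using k1 0 1 (σ.symm a)⟩
  have k1' : ∀ s v, (w s v).b6 = β * σ.symm v := fun s v => by simpa [hβ] using (k1 s v 1).symm
  have k2' : ∀ s v, (w s v).a5 = β * σ.symm s := fun s v => by simpa [hβ] using (k2 s v 1).symm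
  have hw' : ∀ s v, w s v = ⟨0, 0, 0, 0, 0, (w s v).b4, β * σ.symm s, 0, β * σ.symm v, 0, 0, 0⟩ := by
    intro s v
    obtain ⟨a1, a2, a4, a6, a7, a8, b8⟩ := hE s v
    ext <;> simp [*]
  -- the cocycle identity
  have co : ∀ s v s' v', (w (s + s') (s * σ s' + v + v')).b4 = (w s v).b4 + (w s' v').b4 := by
    intro s v s' v'
    have e1 := e (s + s') (s * σ s' + v + v')
    rw [show y8 (s + s') (s * σ s' + v + v') = y8 s v * y8 s' v' by ext <;> simp, map_mul,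
      show y * (S.φ (y8 s v) * S.φ (y8 s' v')) * y⁻¹ =
        (y * S.φ (y8 s v) * y⁻¹) * (y * S.φ (y8 s' v') * y⁻¹) by group, e, e, mul_assoc, mul_assoc,
      mul_right_inj, ← map_mul, ← map_mul, ← map_mul] at e1
    have e2 := congrArg Co.b4 (S.inj e1)
    obtain ⟨a1, a2, a4, a6, a7, a8, b8⟩ := hE s v
    obtain ⟨a1', a2', a4', a6', a7', a8', b8'⟩ := hE s' v'
    obtain ⟨a1'', a2'', a4'', a6'', a7'', a8'', b8''⟩ := hE (s + s') (s * σ s' + v + v')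
    simp [a4, a6, a7, a8, b8, a1', a2', a4', a1'', a2'', a4'', k6, k7] at e2
    exact e2.symm
  have f8 : ∀ u, (w 0 u).b4 = 0 := by
    intro u
    obtain ⟨s, rfl⟩ := N_surj u
    have e1 := co s 0 s 0
    rwa [CharTwo.add_self_eq_zero, CharTwo.add_self_eq_zero, add_zero, add_zero] at e1
  have fa : ∀ s s', (w (s + s') 0).b4 = (w s 0).b4 + (w s' 0).b4 := by
    intro s s'
    have e1 := co (s + s') 0 0 (s * σ s')
    have e2 := co s 0 s' 0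
    simp only [add_zero, zero_add, map_zero, mul_zero, f8] at e1 e2
    rw [← e1, e2]
  have f0 : ∀ s, (w s 0).b4 = 0 := by
    obtain ⟨k, hk1, -, -⟩ := exists_unit (F := F) S.big
    obtain ⟨d, hd, ed⟩ := h.cP _ (S.h_memP k)
    obtain ⟨⟨a1, a2, a4, a6, a7, a8, b8⟩, hk'⟩ := key hζ (S.h_memP k) hd ed
    have hk'' := fun x hx hx' => hk' x hx _ hx' (S.h_φ 1 k x)
    have d1 := hk'' (x1 1) (by simp) (by simp)
    have d2 := hk'' (y2 1 0) (by simp) (by simp)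
    have d6 := hk'' (y6 1 0) (by simp) (by simp)
    have d7 := hk'' (x7 1) (by simp) (by simp)
    rw [r4 (by simp)] at d1 d2 d6 d7
    simp [Bf, h1, h2, h6, h7, z0] at d1 d2 d6 d7
    have dz : S.φ d = S.z4 d.b4 := by
      congr 1
      ext <;> simp [a1, a2, a4, a6, a7, a8, b8, ← d1, ← d2, ← d6, ← d7]
    have inv : ∀ s, (w (σ (k : F) * s) 0).b4 = (w s 0).b4 := by
      intro s
      have e1 := e (σ (k : F) * s) 0
      rw [show y8 (σ (k : F) * s) 0 = tor 1 k (y8 s 0) by ext <;> simp] at e1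
      have e2 : y * S.φ (tor 1 k (y8 s 0)) * y⁻¹ = S.φ (tor 1 k (y8 s 0)) * S.φ (tor 1 k (w s 0)) := by
        rw [← S.h_φ, ← S.h_φ, show y * (S.h 1 k * S.φ (y8 s 0) * (S.h 1 k)⁻¹) * y⁻¹ =
          (y * S.h 1 k * y⁻¹) * (y * S.φ (y8 s 0) * y⁻¹) * (y * S.h 1 k * y⁻¹)⁻¹ by group, ed, e, dz,
          ← map_mul, mul_assoc (S.h 1 k), ← S.φ_z4, map_mul]
        group
      rw [e2, mul_right_inj] at e1
      rw [← S.inj e1]
      simp
    have hk3 : σ (k : F) ≠ 1 := fun e1 => hk1 (σ.injective (by rw [e1, map_one]))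
    obtain ⟨ν, hν⟩ := lin (g := fun s => (w s 0).b4) (μ := 0) fa hk3 fun b => by simp [inv]
    have e1 := inv 1
    simp only [hν, mul_one] at e1
    have e2 : ν = 0 := by
      by_contra hne
      exact hk3 (mul_left_cancel₀ hne (by rw [e1, mul_one]))
    intro s
    rw [hν, e2, zero_mul]
  refine ⟨β, h.ct, fun x hx => by rw [hζ x hx, r4 hx, hβ], fun u => ?_, fun b => ⟨0, ?_⟩⟩
  · rw [e, hw', f8]
    congr 2
    ext <;> simp
  · rw [e, hw', f0, S.z6_zero, mul_one]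
    congr 2
    ext <;> simp

end B3H

theorem St.T1.b3 {S : St F G} {y : G} {c : F} (h : S.T1 y c) : ∃ y' β, S.T2 y' c β := by
  choose! ζ hζ using h.cQ
  obtain ⟨⟨n1, h1⟩, ⟨n2, h2⟩, ⟨n6, h6⟩, ⟨n7, h7⟩⟩ := B3H.lin4 h hζ
  obtain ⟨h', hζ'⟩ := B3H.shift h hζ (e := ⟨0, 0, n7, n6, 0, 0, n2, 0, n1, 0, 0, 0⟩) (by simp)
  exact ⟨_, B3H.fin h' hζ' (fun b => by simp [Bf, h1, CharTwo.add_self_eq_zero])
    (fun b => by simp [Bf, h2, CharTwo.add_self_eq_zero])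
    (fun b => by simp [Bf, h6, CharTwo.add_self_eq_zero])
    (fun b => by simp [Bf, h7, CharTwo.add_self_eq_zero])⟩

end H51.RS
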