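import Cfsg.Agent.Lib.RS4.B1
import Cfsg.Agent.Lib.RS4.B2a
import Cfsg.Agent.Lib.RS4.B2b
import Cfsg.Agent.Lib.RS4.B3

/-! Standard components of type `²F₄(q)`, package B4: see `blueprint/RS4/README.md`. -/

set_option autoImplicit false
set_option linter.unusedSectionVars false

namespace H51.RS
open Subgroup H69 H78.Oct H78.Oct.Co
open scoped commutatorElement

variable {F G : Type*} [Field F] [Tits F] [Finite F] [Group G] [Finite G]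

namespace B4H
variable {S : St F G} {y n a b a' b' : G} {c β : F}

theorem tr (h : y * a * y⁻¹ = b) (ha : n * a * n⁻¹ = a') (hb : n * b * n⁻¹ = b') :
    n * y * n⁻¹ * a' * (n * y * n⁻¹)⁻¹ = b' := by
  rw [← hb, ← ha, ← h]; group

theorem cm (h : y * a * y⁻¹ = a') (h' : y * b * y⁻¹ = b') : y * (a * b) * y⁻¹ = a' * b' := by
  rw [← h, ← h', conj_mul]

theorem two {z : G} (h : z * a * z⁻¹ = b) (h' : y * b * y⁻¹ = b') : y * z * a * (y * z)⁻¹ = b' := by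
  rw [← h', ← h]; group

theorem tu (h : S.T2 y c β) : S.n1 * y * S.n1⁻¹ * S.t * (S.n1 * y * S.n1⁻¹)⁻¹ = S.t * S.z6 c :=
  tr h.ct (S.conj_t S.n1_mem) (cm (S.conj_t S.n1_mem) (S.n1_z4 c))

theorem e1 (h : S.T2 y c β) {e : Co F} (he : e ∈ Co.E) :
    S.n1 * y * S.n1⁻¹ * S.φ e * (S.n1 * y * S.n1⁻¹)⁻¹ = S.φ e * S.z4 (β * σ.symm e.b2) := by
  obtain ⟨h1, h2, h4, h6, h7, h8, h8'⟩ := mem_E.1 he
  have k := h.cQ ⟨0, 0, 0, 0, 0, e.b6, e.a5, 0, e.b4, e.a3, 0, 0⟩ ⟨rfl, rfl⟩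
  rw [map_zero, mul_zero, S.z4_zero, mul_one] at k
  have := cm (tr (h.c8 e.b2) (S.n1_z8 _) (cm (S.n1_z8 _) (S.n1_z6 _))) (tr k (S.n1_φ rfl) (S.n1_φ rfl))
  rw [← map_mul, ← map_mul, ← map_mul] at this
  rw [← map_mul]
  refine (congrArg (fun x => _ * S.φ x * _) ?_).trans (this.trans (congrArg S.φ ?_))
  · ext <;> simp [*]
  · ext <;> simp [*, add_comm]

theorem y21 (h : S.T2 y c β) (b : F) : ∃ f, S.n1 * y * S.n1⁻¹ * S.φ (y2 b 0) * (S.n1 * y * S.n1⁻¹)⁻¹ =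
    S.φ (y2 b 0) * (S.φ (x5 (β * σ.symm b)) * S.z4 f) := by
  obtain ⟨f, k⟩ := h.cy b
  have e : S.n1 * S.φ (y8 b 0) * S.n1⁻¹ = S.φ (y2 b 0) := by rw [S.n1_φ rfl]; congr 1; ext <;> simp
  exact ⟨f, tr k e ((cm (cm e (S.n1_x5 _)) (S.n1_z6 _)).trans (mul_assoc _ _ _))⟩

theorem y61 (h : S.T2 y c β) (b : F) : S.n1 * y * S.n1⁻¹ * S.φ (y6 b 0) * (S.n1 * y * S.n1⁻¹)⁻¹ =
    S.φ (y6 b 0) * S.z6 (β * σ.symm b) := by
  have e : S.n1 * S.φ (y4 b 0) * S.n1⁻¹ = S.φ (y6 b 0) := by rw [S.n1_φ rfl]; congr 1; ext <;> simp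
  exact tr (h.cQ (y4 b 0) ⟨rfl, rfl⟩) e (cm e (S.n1_z4 _))

end B4H
open B4H

theorem St.T2.b4 {S : St F G} {y : G} {c β : F} (h : S.T2 y c β) : β = 0 := by
  obtain ⟨u, hu⟩ : ∃ u, u = S.n1 * y * S.n1⁻¹ := ⟨_, rfl⟩
  have ut := tu h
  have uE := fun e => e1 h (e := e)
  have u2 := y21 h
  have u6 := y61 h
  rw [← hu] at ut uE u2 u6
  obtain ⟨v, hv⟩ : ∃ v, v = S.n2 * u * S.n2⁻¹ := ⟨_, rfl⟩
  have vt : v * S.t * v⁻¹ = S.t * S.z2 c :=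
    hv ▸ tr ut (S.conj_t S.n2_mem) (cm (S.conj_t S.n2_mem) (S.n2_z6 c))
  have vE : ∀ e ∈ Co.E, v * S.φ e * v⁻¹ = S.φ e * S.z4 (β * σ.symm e.b6) := fun e he => by
    obtain ⟨h1, h2, h4, h6, h7, h8, h8'⟩ := Co.mem_E.1 he
    have e0 : S.n2 * S.φ ⟨0, 0, e.b6, e.a5, 0, e.b4, e.a3, 0, e.b2, 0, 0, 0⟩ * S.n2⁻¹ = S.φ e := by
      rw [S.n2_φ rfl rfl]; congr 1; ext <;> simp [*]
    exact hv ▸ tr (uE _ ⟨rfl, rfl, rfl, rfl, rfl, rfl, rfl⟩) e0 (cm e0 (S.n2_z4 _))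
  have v2 : ∀ b, v * S.φ (y2 b 0) * v⁻¹ = S.φ (y2 b 0) * S.z2 (β * σ.symm b) := fun b => by
    have e : S.n2 * S.φ (y6 b 0) * S.n2⁻¹ = S.φ (y2 b 0) := by rw [S.n2_φ rfl rfl]; congr 1; ext <;> simp
    exact hv ▸ tr (u6 b) e (cm e (S.n2_z6 _))
  have u4 : ∀ a, u * S.z4 a * u⁻¹ = S.z4 a := fun a => by
    rw [uE _ (by simp)]; simp [S.z4_zero]
  have v4 : ∀ a, v * S.z4 a * v⁻¹ = S.z4 a := fun a => by
    rw [vE _ (by simp)]; simp [S.z4_zero]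
  have fin : ∀ {a b g : G}, u * v * a * (u * v)⁻¹ = g → v * u * b * (v * u)⁻¹ = g →
      (v * u)⁻¹ * (u * v) * a = b * ((v * u)⁻¹ * (u * v)) := fun {a b g} h1 h2 => by
    calc _ = (v * u)⁻¹ * (u * v * a * (u * v)⁻¹) * (u * v) := by group
      _ = _ := by rw [h1, ← h2]; group
  obtain ⟨f, hf, d, hd, e⟩ := S.cE (g := (v * u)⁻¹ * (u * v))
    (fin (two vt (cm ut (uE _ (by simp)))) ((two ut (cm vt (vE _ (by simp)))).trans (by
      simp only [mul_assoc, ← map_mul]; congr 2; co)))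
    fun e he => fin (two (vE e he) (cm (uE e he) (u4 _))) ((two (uE e he) (cm (vE e he) (v4 _))).trans (by
      simp only [mul_assoc, ← map_mul]; congr 2; co))
  have key : ∀ b, f.a5 * b = β * σ.symm (β * σ.symm b) := fun b => by
    obtain ⟨r, k⟩ := u2 b
    have := fin (two (v2 b) (cm k (uE _ (by simp))))
      ((cm (two k (cm (v2 b) (cm (vE _ (by simp)) (v4 _)))) (two (u4 (β * σ.symm (β * σ.symm b))) (v4 _))).trans (by
        simp only [mul_assoc, ← map_mul]; congr 2; co))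
    rw [e, mul_assoc, hd.φ, ← mul_assoc, ← mul_assoc, ← map_mul, ← map_mul, ← map_mul] at this
    obtain ⟨h1, h2, h6, h7, h8, h8'⟩ := mem_F.1 hf
    have := congrArg Co.b4 (S.inj (mul_right_cancel this))
    simp [h1, h2, h6, h7, h8, h8'] at this
    rw [map_mul]
    linear_combination this
  obtain ⟨x, x1, -⟩ := exists_unit S.big
  have k1 := key 1
  have k2 := key (σ (σ (x : F)))
  simp only [map_one, mul_one] at k1
  rw [RingEquiv.symm_apply_apply, map_mul, RingEquiv.symm_apply_apply, σσ, k1] at k2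
  have : β * σ.symm β = 0 :=
    (mul_eq_zero.1 (by linear_combination k2 : β * σ.symm β * ((x : F) * (x - 1)) = 0)).resolve_right
      (mul_ne_zero x.ne_zero (sub_ne_zero.2 x1))
  simpa using this

theorem St.Db.exD {S : St F G} (h : S.Db) (c : F) :
    ∃ d, (∀ x ∈ S.Q, d * x = x * d) ∧ d * S.t * d⁻¹ = S.t * S.z4 c := by
  by_cases hc : c = 0
  · exact ⟨1, fun x _ => by rw [one_mul, mul_one], by rw [hc, S.z4_zero, one_mul, inv_one]⟩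
  obtain ⟨y, c0, h0, t0, h6⟩ := h.b1
  obtain ⟨y, t0, hE⟩ := t0.b2a h6
  obtain ⟨y, t1⟩ := t0.b2b hE
  obtain ⟨y, β, t2⟩ := t1.b3
  obtain ⟨k, hk⟩ := N_surj (c / c0)
  have k0 : k ≠ 0 := fun e => div_ne_zero hc h0 (by rw [← hk, e, zero_mul])
  refine ⟨S.h (Units.mk0 k k0) 1 * y * (S.h (Units.mk0 k k0) 1)⁻¹, fun x hx => ?_, ?_⟩
  · obtain ⟨a, ha, rfl⟩ := S.mem_Q.1 hx
    obtain ⟨b, hb, e⟩ := S.norm_Q (inv_mem (S.h_normP (Units.mk0 k k0) 1)) ha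
    have e' : S.h (Units.mk0 k k0) 1 * S.φ b * (S.h (Units.mk0 k k0) 1)⁻¹ = S.φ a := by rw [← e]; group
    have := t2.cQ b hb
    rw [t2.b4, zero_mul, S.z4_zero, mul_one] at this
    exact mul_inv_eq_iff_eq_mul.1 (tr this e' e')
  · refine tr t2.ct (S.conj_t (S.h_mem _ _)) (cm (S.conj_t (S.h_mem _ _)) ?_)
    rw [S.h_z4, Units.val_mk0, hk, div_mul_cancel₀ _ h0]

end H51.RS
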