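import Cfsg.Agent.Lib.RS4.Bas
import Cfsg.Agent.Lib.Oct.Model
import Cfsg.Agent.Lib.Twist.AutMat

/-! Standard components of type `²F₄(q)`, package BR1: see `blueprint/RS4/README.md`. -/

set_option autoImplicit false
set_option linter.unusedSectionVars false

namespace H51.RS
open Subgroup H69 H78.Oct H78.Oct.Co
open scoped commutatorElement

variable {F G : Type*} [Field F] [Tits F] [Finite F] [Group G] [Finite G]

namespace BR1

open H38 H39 Cfsg Cfsg.Lie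

theorem set0_aut {K Γ : Type*} [Field K] [Fintype K] [Tits K] [Group Γ] {S : StRel chevF4 K Γ}
    {R : RS (Fin 48) (Fin 4)} {E : Elts R K Γ} {T : Tw E} {e : ℕ} (H : Set0 S T e) (r : K ≃+* K) (g : Γ ≃* Γ)
    (hg : ∀ (s : Fin 48) t, g (E.x s t) = E.x s (r t)) :
    ∃ f : T.Γ ≃* T.Γ, (∀ a, f (H.oct.nf a) = H.oct.nf (cmap r a)) ∧ f H.oct.n1 = H.oct.n1 ∧
      f H.oct.n2 = H.oct.n2 := by
  have hs : ∀ t, r (σ t) = σ (r t) := fun t => by rw [H.hσ, H.hσ, map_pow]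
  have hx : ∀ (s : ℕ) t, g (xx S s t) = xx S s (r t) := fun s t => by
    by_cases h : s < 48
    · have := hg ⟨s, h⟩ t
      rwa [H.hx, H.hx] at this
    · simp [xx, h]
  have hw : ∀ w : List (ℕ × K), g (ev S w) = ev S (w.map fun p => (p.1, r p.2)) := fun w => by
    induction w with
    | nil => simp [H78.Oct.ev]
    | cons a w ih => rw [List.map_cons, ev_cons, ev_cons, map_mul, hx, ih]
  have hn : ∀ a, g (nfS S a) = nfS S (cmap r a) := fun a => by
    refine (hw (H78.Oct.wd σ a)).trans (congrArg (ev S) ?_)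
    simp only [H78.Oct.wd, cmap, List.map_cons, List.map_nil, map_add, map_mul, hs]
  have h1 : ∀ s, g (E.n s 1) = E.n s 1 := fun s => by
    simp only [PreElts.n, map_mul, hg, map_neg, map_inv₀, map_one]
  have m1' : g (m1 E) = m1 E := by rw [m1, map_mul, h1, h1]
  have m2' : g (m2 E) = m2 E := by rw [m2, map_mul, map_mul, map_mul, h1, h1]
  have hm : T.Γ.map (g : Γ →* Γ) = T.Γ := by
    refine le_antisymm (map_le_iff_le_comap.2 (H.gen (fun a => ?_) ?_ ?_)) (H.gen (fun a => ?_) ?_ ?_)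
    · show g _ ∈ T.Γ
      rw [hn]; exact H.nf_mem _
    · show g _ ∈ T.Γ
      rw [m1']; exact H.m1_mem
    · show g _ ∈ T.Γ
      rw [m2']; exact H.m2_mem
    · refine ⟨_, H.nf_mem (cmap r.symm a), (hn _).trans (congrArg _ ?_)⟩
      simp only [cmap, RingEquiv.apply_symm_apply]
    · exact ⟨_, H.m1_mem, m1'⟩
    · exact ⟨_, H.m2_mem, m2'⟩
  exact ⟨(g.subgroupMap T.Γ).trans (MulEquiv.subgroupCongr hm), fun a => Subtype.ext (hn a), Subtype.ext m1',
    Subtype.ext m2'⟩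

theorem map_aut {K Γ Δ : Type*} [Field K] [Tits K] [Group Γ] [Group Δ] (O : Oct K Γ) (ε : Γ ≃* Δ) {r : K ≃+* K}
    (h : ∃ f : Γ ≃* Γ, (∀ a, f (O.nf a) = O.nf (cmap r a)) ∧ f O.n1 = O.n1 ∧ f O.n2 = O.n2) :
    ∃ f : Δ ≃* Δ, (∀ a, f ((O.map ε).nf a) = (O.map ε).nf (cmap r a)) ∧ f (O.map ε).n1 = (O.map ε).n1 ∧
      f (O.map ε).n2 = (O.map ε).n2 := by
  obtain ⟨f, h0, h1, h2⟩ := h
  refine ⟨ε.symm.trans (f.trans ε), fun a => ?_, ?_, ?_⟩
  · show ε (f (ε.symm (ε (O.nf a)))) = ε (O.nf _)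
    rw [ε.symm_apply_apply, h0]
  · show ε (f (ε.symm (ε O.n1))) = ε O.n1
    rw [ε.symm_apply_apply, h1]
  · show ε (f (ε.symm (ε O.n2))) = ε O.n2
    rw [ε.symm_apply_apply, h2]

end BR1

open H38 H39 Cfsg Cfsg.Lie in
/-- the model, with its field automorphisms -/
theorem exists_oct_aut {K : Type*} [Field K] [Fintype K] (m : ℕ) (hK : Fintype.card K = 2 ^ (2 * m + 1)) :
    ∃ (_ : Tits K) (O : Oct K (Cfsg.Lie.twistedF4 K (2 ^ m))), ∀ r : K ≃+* K,
      ∃ f : Cfsg.Lie.twistedF4 K (2 ^ m) ≃* Cfsg.Lie.twistedF4 K (2 ^ m),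
        (∀ a, f (O.nf a) = O.nf (cmap r a)) ∧ f O.n1 = O.n1 ∧ f O.n2 = O.n2 := by
  obtain ⟨R, E, hE, T, h, e⟩ := exists_F4 hK
  letI : Tits K := ⟨T.φ (0 : Fin 4), fun x => by
    rw [h.φ0, h.φ0, mul_comm 2, pow_mul, mul_comm _ 2, h.pow_pow']⟩
  have H : Set0 (R := R.toRS) hE.grpRel T (2 ^ m) :=
    ⟨h, fun r t => (hE.grpRel_x r t).symm.trans (if_pos r.2).symm, R.s_val, R.sim_eq,
      fun r => (R.neg_eq r).trans (R.neg_val r), fun r i => (R.cartan_eq i r).symm,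
      fun r => (R.isPosRoot_iff r).symm, h.φ0⟩
  exact ⟨_, H.oct.map ((T.Γ.equivMapOfInjective _ (Subgroup.subtype_injective _)).trans
    (MulEquiv.subgroupCongr e.symm)), fun r => BR1.map_aut _ _ (BR1.set0_aut H r
      (H61.fieldAut (H37.tab (D := chevF4) (by simp)) r) fun s t => H61.fieldAut_x hE _ r s t)⟩

end H51.RS
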