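import Cfsg.Agent.Lib.RS4.Defs
import Cfsg.Agent.Lib.Cls.Four
import Cfsg.Agent.Lib.G2S.Gen

/-! Standard components of type `²F₄(q)`: basic facts.  See `blueprint/RS4/README.md`. -/

set_option autoImplicit false
set_option linter.unusedSectionVars false

namespace H51.RS
open Subgroup H69 H78.Oct H78.Oct.Co
open scoped commutatorElement

variable {F G : Type*} [Field F] [Tits F] [Finite F] [Group G] [Finite G]

/-- identities between elements of `Co F` -/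
macro "co" : tactic => `(tactic| (ext <;> simp <;> grind))

theorem cmap_one (x : Co F) : cmap 1 x = x := rfl

namespace St
variable (S : St F G)
theorem φ_def (a : Co F) : S.φ a = (S.O.nf a : G) := rfl
theorem φ_mem (a : Co F) : S.φ a ∈ S.L := (S.O.nf a).2
theorem n1_mem : S.n1 ∈ S.L := S.O.n1.2
theorem n2_mem : S.n2 ∈ S.L := S.O.n2.2
theorem h_mem (c k : Fˣ) : S.h c k ∈ S.L := (S.O.h _).2
theorem ρ_mem : S.ρ ∈ S.L := mul_mem S.n1_mem S.n2_mem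
theorem inj : Function.Injective S.φ := Subtype.val_injective.comp S.O.inj
theorem n11 : S.n1 * S.n1 = 1 := congrArg Subtype.val S.O.n11
theorem n22 : S.n2 * S.n2 = 1 := congrArg Subtype.val S.O.n22
theorem n1_inv : S.n1⁻¹ = S.n1 := inv_eq_of_mul_eq_one_right S.n11
theorem n2_inv : S.n2⁻¹ = S.n2 := inv_eq_of_mul_eq_one_right S.n22
theorem ρ8 : S.ρ ^ 8 = 1 := congrArg Subtype.val S.O.rho
theorem n1_φ {a : Co F} (ha : a.a1 = 0) : S.n1 * S.φ a * S.n1⁻¹ = S.φ (w1 a) :=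
  congrArg Subtype.val (Oct.OP.c1 S.O ha rfl)
theorem n2_φ {a : Co F} (h : a.a8 = 0) (h' : a.b8 = 0) : S.n2 * S.φ a * S.n2⁻¹ = S.φ (w2 a) :=
  congrArg Subtype.val (Oct.OP.c2 S.O ⟨h, h'⟩ rfl)
theorem h_φ (c k : Fˣ) (a : Co F) : S.h c k * S.φ a * (S.h c k)⁻¹ = S.φ (tor c k a) :=
  congrArg Subtype.val (S.O.h_nf c k a)
theorem h_mul (c k c' k' : Fˣ) : S.h (c * c') (k * k') = S.h c k * S.h c' k' :=
  congrArg Subtype.val (S.O.h.map_mul (c, k) (c', k'))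
theorem h_one : S.h 1 1 = 1 := congrArg Subtype.val S.O.h.map_one
theorem h_inv (c k : Fˣ) : (S.h c k)⁻¹ = S.h c⁻¹ k⁻¹ :=
  inv_eq_of_mul_eq_one_right (by rw [← h_mul, mul_inv_cancel, mul_inv_cancel, h_one])
theorem h_comm (c k c' k' : Fˣ) : S.h c k * S.h c' k' = S.h c' k' * S.h c k := by
  rw [← h_mul, ← h_mul, mul_comm c, mul_comm k]
theorem n1_h (c k : Fˣ) : S.n1 * S.h c k * S.n1⁻¹ = S.h k c := by
  rw [n1_inv]; exact congrArg Subtype.val (S.O.n1_h c k)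
theorem n2_h (c k : Fˣ) : S.n2 * S.h c k * S.n2⁻¹ = S.h c (σu c * k⁻¹) := by
  rw [n2_inv]; exact congrArg Subtype.val (S.O.n2_h c k)
theorem n1_eq : S.n1 = S.φ (x1 1) * (S.n1 * S.φ (x1 1) * S.n1) * S.φ (x1 1) :=
  congrArg Subtype.val S.O.n1_eq
theorem odd_h (c k : Fˣ) : Odd (orderOf (S.h c k)) := by
  have h1 : orderOf (S.h c k) ∣ orderOf ((c, k) : Fˣ × Fˣ) :=
    orderOf_map_dvd (S.L.subtype.comp S.O.h) (c, k)
  rw [Prod.orderOf] at h1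
  exact ((odd_unit c).mul (odd_unit k)).of_dvd_nat (h1.trans (Nat.lcm_dvd_mul _ _))
theorem L_le {X : Subgroup G} (h0 : ∀ a, S.φ a ∈ X) (h1 : S.n1 ∈ X) (h2 : S.n2 ∈ X) : S.L ≤ X :=
  fun l hl => (S.O.gen (X.subgroupOf S.L) h0 h1 h2).ge (mem_top (⟨l, hl⟩ : S.L))
theorem φ_16 (a : Co F) : S.φ a ^ 2 ^ 4 = 1 := by rw [← map_pow]; exact (congrArg _ (pow_16 a)).trans (map_one _)

theorem z4_add (a b : F) : S.z4 (a + b) = S.z4 a * S.z4 b :=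
  (congrArg S.φ (by co)).trans (map_mul _ _ _)
theorem z6_add (a b : F) : S.z6 (a + b) = S.z6 a * S.z6 b :=
  (congrArg S.φ (by co)).trans (map_mul _ _ _)
theorem z2_add (a b : F) : S.z2 (a + b) = S.z2 a * S.z2 b :=
  (congrArg S.φ (by co)).trans (map_mul _ _ _)
theorem z8_add (a b : F) : S.z8 (a + b) = S.z8 a * S.z8 b :=
  (congrArg S.φ (by co)).trans (map_mul _ _ _)
theorem z4_zero : S.z4 0 = 1 := S.φ.map_one
theorem z6_zero : S.z6 0 = 1 := S.φ.map_one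
theorem z2_zero : S.z2 0 = 1 := S.φ.map_one
theorem z8_zero : S.z8 0 = 1 := S.φ.map_one
theorem z4_sq (a : F) : S.z4 a * S.z4 a = 1 := by rw [← z4_add, CharTwo.add_self_eq_zero, z4_zero]
theorem z6_sq (a : F) : S.z6 a * S.z6 a = 1 := by rw [← z6_add, CharTwo.add_self_eq_zero, z6_zero]
theorem z2_sq (a : F) : S.z2 a * S.z2 a = 1 := by rw [← z2_add, CharTwo.add_self_eq_zero, z2_zero]
theorem z8_sq (a : F) : S.z8 a * S.z8 a = 1 := by rw [← z8_add, CharTwo.add_self_eq_zero, z8_zero]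
theorem z4_inv (a : F) : (S.z4 a)⁻¹ = S.z4 a := inv_eq_of_mul_eq_one_right (S.z4_sq a)
theorem z6_inv (a : F) : (S.z6 a)⁻¹ = S.z6 a := inv_eq_of_mul_eq_one_right (S.z6_sq a)
theorem z2_inv (a : F) : (S.z2 a)⁻¹ = S.z2 a := inv_eq_of_mul_eq_one_right (S.z2_sq a)
theorem z8_inv (a : F) : (S.z8 a)⁻¹ = S.z8 a := inv_eq_of_mul_eq_one_right (S.z8_sq a)
theorem z4_inj {a b : F} (h : S.z4 a = S.z4 b) : a = b := congrArg Co.b4 (S.inj h)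
theorem z6_inj {a b : F} (h : S.z6 a = S.z6 b) : a = b := congrArg Co.b6 (S.inj h)
theorem n1_z4 (a : F) : S.n1 * S.z4 a * S.n1⁻¹ = S.z6 a := by rw [S.n1_φ rfl]; congr 1; co
theorem n1_z6 (a : F) : S.n1 * S.z6 a * S.n1⁻¹ = S.z4 a := by rw [S.n1_φ rfl]; congr 1; co
theorem n1_z2 (a : F) : S.n1 * S.z2 a * S.n1⁻¹ = S.z8 a := by rw [S.n1_φ rfl]; congr 1; co
theorem n1_z8 (a : F) : S.n1 * S.z8 a * S.n1⁻¹ = S.z2 a := by rw [S.n1_φ rfl]; congr 1; co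
theorem n1_x5 (a : F) : S.n1 * S.φ (x5 a) * S.n1⁻¹ = S.φ (x5 a) := by rw [S.n1_φ rfl]; congr 1; co
theorem n2_z4 (a : F) : S.n2 * S.z4 a * S.n2⁻¹ = S.z4 a := by rw [S.n2_φ rfl rfl]; congr 1; co
theorem n2_z6 (a : F) : S.n2 * S.z6 a * S.n2⁻¹ = S.z2 a := by rw [S.n2_φ rfl rfl]; congr 1; co
theorem n2_z2 (a : F) : S.n2 * S.z2 a * S.n2⁻¹ = S.z6 a := by rw [S.n2_φ rfl rfl]; congr 1; co
theorem n2_x5 (a : F) : S.n2 * S.φ (x5 a) * S.n2⁻¹ = S.φ (x3 a) := by rw [S.n2_φ rfl rfl]; congr 1; co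
theorem h_z4 (c k : Fˣ) (a : F) : S.h c k * S.z4 a * (S.h c k)⁻¹ = S.z4 ((c : F) * σ (c : F) * a) := by
  rw [h_φ]; congr 1; ext <;> simp
theorem h_z6 (c k : Fˣ) (a : F) : S.h c k * S.z6 a * (S.h c k)⁻¹ = S.z6 ((k : F) * σ (k : F) * a) := by
  rw [h_φ]; congr 1; ext <;> simp
theorem φ_z4 (u : Co F) (a : F) : S.φ u * S.z4 a = S.z4 a * S.φ u :=
  congrArg Subtype.val (Oct.OP.z_comm S.O u a)
/-- the action of `E` on `Q` -/
theorem E_conj {e x : Co F} (he : e ∈ Co.E) (hx : x ∈ Co.Q) :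
    S.φ e * S.φ x * (S.φ e)⁻¹ = S.φ x * S.z4 (Bf e x) := by
  rw [mul_inv_eq_iff_eq_mul, ← map_mul, ← map_mul, ← map_mul]; congr 1
  rw [mem_E] at he; rw [mem_Q] at hx
  ext <;> simp [he, hx, Bf] <;> grind
/-- the action of `Q` on `E` -/
theorem Q_conj {e x : Co F} (he : e ∈ Co.E) (hx : x ∈ Co.Q) :
    S.φ x * S.φ e * (S.φ x)⁻¹ = S.φ e * S.z4 (Bf e x) := by
  rw [mul_inv_eq_iff_eq_mul, ← map_mul, ← map_mul, ← map_mul]; congr 1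
  rw [mem_E] at he; rw [mem_Q] at hx
  ext <;> simp [he, hx, Bf] <;> grind

theorem mem_U {g : G} : g ∈ S.U ↔ ∃ u, S.φ u = g := Iff.rfl
theorem mem_Q {g : G} : g ∈ S.Q ↔ ∃ u ∈ Co.Q, S.φ u = g := Iff.rfl
theorem mem_E {g : G} : g ∈ S.E ↔ ∃ u ∈ Co.E, S.φ u = g := Iff.rfl
theorem mem_Z {g : G} : g ∈ S.Z ↔ ∃ a, S.z4 a = g :=
  ⟨fun ⟨u, hu, e⟩ => ⟨u.b4, (congrArg S.φ (by rw [SetLike.mem_coe, Co.mem_Z] at hu; ext <;> simp [hu])).trans e⟩,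
    fun ⟨a, e⟩ => ⟨y4 0 a, by simp, e⟩⟩
theorem φ_memU (u : Co F) : S.φ u ∈ S.U := ⟨u, rfl⟩
theorem φ_memQ {u : Co F} (hu : u ∈ Co.Q) : S.φ u ∈ S.Q := ⟨u, hu, rfl⟩
theorem φ_memE {u : Co F} (hu : u ∈ Co.E) : S.φ u ∈ S.E := ⟨u, hu, rfl⟩
theorem z4_mem (a : F) : S.z4 a ∈ S.Z := S.mem_Z.2 ⟨a, rfl⟩
theorem Z_le_E : S.Z ≤ S.E := map_mono fun x hx => by rw [Co.mem_Z] at hx; simp [hx]
theorem E_le_Q : S.E ≤ S.Q := map_mono fun x hx => by rw [Co.mem_E] at hx; simp [hx]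
theorem Z_le_Q : S.Z ≤ S.Q := S.Z_le_E.trans S.E_le_Q
theorem Q_le_U : S.Q ≤ S.U := map_le_range _ _
theorem U_le_L : S.U ≤ S.L := by rintro _ ⟨u, rfl⟩; exact S.φ_mem u
theorem U_isP : IsPGroup 2 S.U := isPGroup.of_surjective _ S.φ.rangeRestrict_surjective
theorem card_U : Nat.card S.U = Nat.card F ^ 12 := by
  rw [← card_co, U, ← Nat.card_congr (MonoidHom.ofInjective S.inj).toEquiv]
theorem card_Z : Nat.card S.Z = Nat.card F :=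
  (Nat.card_congr (Equiv.ofBijective (fun a => (⟨_, S.z4_mem a⟩ : S.Z))
    ⟨fun _ _ h => S.z4_inj (congrArg (fun x : S.Z => (x : G)) h),
      fun ⟨_, h⟩ => let ⟨a, e⟩ := S.mem_Z.1 h; ⟨a, Subtype.ext e⟩⟩)).symm
theorem sylU : IsSylowIn 2 S.U S.L := by
  obtain ⟨P, hP⟩ := Oct.OP.syl S.O
  have := isSylowIn_map_subtype P
  rwa [hP, ← MonoidHom.range_comp] at this

/-! ### the centraliser `P0` of `z₄(1)` -/
theorem mem_P0 {g : G} : g ∈ S.P0 ↔ g ∈ S.L ∧ g * S.z4 1 = S.z4 1 * g :=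
  and_congr Iff.rfl mem_centralizer_singleton_iff
theorem P0_le_L : S.P0 ≤ S.L := inf_le_left
theorem φ_memP (u : Co F) : S.φ u ∈ S.P0 := S.mem_P0.2 ⟨S.φ_mem u, S.φ_z4 u 1⟩
theorem U_le_P0 : S.U ≤ S.P0 := by rintro _ ⟨u, rfl⟩; exact S.φ_memP u
theorem n2_memP : S.n2 ∈ S.P0 := S.mem_P0.2 ⟨S.n2_mem, mul_inv_eq_iff_eq_mul.1 (S.n2_z4 1)⟩
theorem h_memP (k : Fˣ) : S.h 1 k ∈ S.P0 :=
  S.mem_P0.2 ⟨S.h_mem _ _, mul_inv_eq_iff_eq_mul.1 (by simpa using S.h_z4 1 k 1)⟩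
/-- the parabolic data of `P0` -/
noncomputable def par : Par F (centralizer ({S.O.z} : Set S.L)) := S.O.exists_par.choose
theorem cen : S.O.Cen S.par := S.O.exists_par.choose_spec
/-- the embedding of the centraliser -/
def ι : centralizer ({S.O.z} : Set S.L) →* G := S.L.subtype.comp (Subgroup.subtype _)
theorem ι_inj : Function.Injective S.ι := Subtype.val_injective.comp Subtype.val_injective
theorem ι_nf (a : Co F) : S.ι (S.par.nf a) = S.φ a := congrArg Subtype.val (S.cen.nf a)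
theorem ι_n : S.ι S.par.n = S.n2 := congrArg Subtype.val S.cen.n
theorem ι_d (k : Fˣ) : S.ι (S.par.d k) = S.h 1 k := congrArg Subtype.val (S.cen.d k)
theorem ι_mem (c : centralizer ({S.O.z} : Set S.L)) : S.ι c ∈ S.P0 :=
  S.mem_P0.2 ⟨c.1.2, congrArg Subtype.val (mem_centralizer_singleton_iff.1 c.2)⟩
theorem ex_ι {p : G} (hp : p ∈ S.P0) : ∃ c, S.ι c = p :=
  ⟨⟨⟨p, hp.1⟩, mem_centralizer_singleton_iff.2 (Subtype.ext (S.mem_P0.1 hp).2)⟩, rfl⟩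
theorem ι_range : S.ι.range = S.P0 := le_antisymm (by rintro _ ⟨c, rfl⟩; exact S.ι_mem c) fun _ => S.ex_ι
theorem P0_z4 {p : G} (hp : p ∈ S.P0) (a : F) : p * S.z4 a = S.z4 a * p := by
  obtain ⟨c, rfl⟩ := S.ex_ι hp
  rw [z4, ← S.ι_nf, ← map_mul, ← map_mul, (S.par.z_comm c a).eq]
theorem P0_form {p : G} (hp : p ∈ S.P0) : (∃ a k, p = S.φ a * S.h 1 k) ∨
    ∃ a k s v, p = S.φ a * S.h 1 k * S.n2 * S.φ (y8 s v) := by
  obtain ⟨c, rfl⟩ := S.ex_ι hp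
  rcases S.par.bruhat c with ⟨a, k, rfl⟩ | ⟨a, k, s, v, rfl⟩
  · exact .inl ⟨a, k, by rw [map_mul, ι_nf, ι_d]⟩
  · exact .inr ⟨a, k, s, v, by rw [map_mul, map_mul, map_mul, ι_nf, ι_nf, ι_d, ι_n]⟩
theorem P0_le {X : Subgroup G} (h1 : ∀ a, S.φ a ∈ X) (h2 : ∀ k, S.h 1 k ∈ X) (h3 : S.n2 ∈ X) :
    S.P0 ≤ X := fun p hp => by
  rcases S.P0_form hp with ⟨a, k, rfl⟩ | ⟨a, k, s, v, rfl⟩
  exacts [mul_mem (h1 _) (h2 _), mul_mem (mul_mem (mul_mem (h1 _) (h2 _)) h3) (h1 _)]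
theorem P0_ind {p : G → Prop} (mul : ∀ x y, p x → p y → p (x * y)) (h1 : ∀ a, p (S.φ a))
    (h2 : ∀ k, p (S.h 1 k)) (h3 : p S.n2) {g : G} (hg : g ∈ S.P0) : p g := by
  rcases S.P0_form hg with ⟨a, k, rfl⟩ | ⟨a, k, s, v, rfl⟩
  exacts [mul _ _ (h1 _) (h2 _), mul _ _ (mul _ _ (mul _ _ (h1 _) (h2 _)) h3) (h1 _)]
theorem P0_gen2 {X : Subgroup G} (h : ∀ p ∈ S.P0, ∀ j : ℕ, p ^ 2 ^ j = 1 → p ∈ X) : S.P0 ≤ X := fun p hp => by
  obtain ⟨c, rfl⟩ := S.ex_ι hp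
  exact (S.par.gen2 (X.comap S.ι) fun c j e => h _ (S.ι_mem c) j (by rw [← map_pow, e, map_one])).ge (mem_top c)
theorem P0_conj_Q {p : G} (hp : p ∈ S.P0) {a : Co F} (ha : a ∈ Co.Q) :
    ∃ b ∈ Co.Q, p * S.φ a * p⁻¹ = S.φ b := by
  obtain ⟨c, rfl⟩ := S.ex_ι hp
  obtain ⟨b, hb, e⟩ := S.par.conj_Q c ha
  exact ⟨b, hb, by rw [← S.ι_nf, ← S.ι_nf, ← e, map_mul, map_mul, map_inv]⟩
theorem P0_conj_F {p : G} (hp : p ∈ S.P0) {a : Co F} (ha : a ∈ Co.F) :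
    ∃ b ∈ Co.F, p * S.φ a * p⁻¹ = S.φ b := by
  obtain ⟨c, rfl⟩ := S.ex_ι hp
  obtain ⟨b, hb, e⟩ := S.par.conj_F c ha
  exact ⟨b, hb, by rw [← S.ι_nf, ← S.ι_nf, ← e, map_mul, map_mul, map_inv]⟩
theorem P0_conj_E {p : G} (hp : p ∈ S.P0) {a : Co F} (ha : a ∈ Co.E) :
    ∃ b ∈ Co.E, p * S.φ a * p⁻¹ = S.φ b := by
  obtain ⟨c, rfl⟩ := S.ex_ι hp
  obtain ⟨b, hb, e⟩ := S.par.conj_E c ha
  exact ⟨b, hb, by rw [← S.ι_nf, ← S.ι_nf, ← e, map_mul, map_mul, map_inv]⟩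
theorem ι_comm {c : centralizer ({S.O.z} : Set S.L)} {a : Co F} (h : S.ι c * S.φ a = S.φ a * S.ι c) :
    Commute c (S.par.nf a) := S.ι_inj (by rw [map_mul, map_mul, ι_nf, h])
theorem cent_E {g : G} (hg : g ∈ S.L) (h : ∀ e ∈ Co.E, g * S.φ e = S.φ e * g) : ∃ a ∈ Co.F, g = S.φ a := by
  obtain ⟨c, rfl⟩ := S.ex_ι (S.mem_P0.2 ⟨hg, h _ (by simp)⟩)
  obtain ⟨a, ha, rfl⟩ := S.par.cent_E fun e he => S.ι_comm (h e he)
  exact ⟨a, ha, S.ι_nf a⟩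
theorem cent_Q {g : G} (hg : g ∈ S.L) (h : ∀ e ∈ Co.Q, g * S.φ e = S.φ e * g) : ∃ a, g = S.z4 a := by
  obtain ⟨c, rfl⟩ := S.ex_ι (S.mem_P0.2 ⟨hg, h _ (by simp)⟩)
  obtain ⟨a, rfl⟩ := S.par.cent_Q fun e he => S.ι_comm (h e he)
  exact ⟨a, S.ι_nf _⟩
theorem cent_R {g : G} (hg : g ∈ S.L) (h : ∀ e ∈ Co.R, g * S.φ e = S.φ e * g) :
    ∃ a b, g = S.z4 a * S.z6 b := by
  obtain ⟨c, rfl⟩ := S.ex_ι (S.mem_P0.2 ⟨hg, h _ (by simp)⟩)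
  obtain ⟨v, hv, rfl⟩ := S.par.cent_R fun e he => S.ι_comm (h e he)
  refine ⟨v.b4, v.b6, (S.ι_nf _).trans ?_⟩
  rw [← map_mul]; congr 1; rw [mem_V] at hv; ext <;> simp [hv]
theorem cent_Mid {g : G} (hg : g ∈ S.L) (h : ∀ e, Mid e → g * S.φ e = S.φ e * g) :
    ∃ a b c, g = S.z4 a * S.φ (x5 b) * S.z6 c := by
  obtain ⟨c, rfl⟩ := S.ex_ι (S.mem_P0.2 ⟨hg, h _ (by simp [Mid])⟩)
  obtain ⟨v, hv, rfl⟩ := S.par.cent_z6 (S.ι_comm (h (y6 0 1) (by simp [Mid])))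
  rw [ι_nf] at h ⊢
  have k : ∀ e, Mid e → v * e = e * v := fun e he => S.inj (by rw [map_mul, map_mul, h e he])
  have h1 : v.a1 = 0 := hv
  have h2 : v.a2 = 0 := by simpa [h1] using congrArg Co.b4 (k (x5 1) (by simp [Mid]))
  have h8 : v.a8 = 0 := by simpa [h1] using congrArg Co.b6 (k (x5 1) (by simp [Mid]))
  have h8' : v.b8 = 0 := by simpa [h1, h8] using congrArg Co.b6 (k (x3 1) (by simp [Mid]))
  have h6 : v.a6 = 0 := by simpa [h1, h8, h8', h2] using congrArg Co.b4 (k (x3 1) (by simp [Mid]))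
  have h2' : v.b2 = 0 := by simpa [h1, h8, h8', h2] using congrArg Co.b4 (k (x7 1) (by simp [Mid]))
  have h4 : v.a4 = 0 := by simpa [h1, h8, h8', h2] using congrArg Co.b6 (k (x7 1) (by simp [Mid]))
  have h3 : v.a3 = 0 := by simpa [h1, h8, h8', h2, h2'] using congrArg Co.b4 (k (y6 1 0) (by simp [Mid]))
  have h7 : v.a7 = 0 := by simpa [h1, h8, h8', h2, h2'] using congrArg Co.b6 (k (y4 1 0) (by simp [Mid]))
  refine ⟨v.b4, v.a5, v.b6, ?_⟩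
  rw [← map_mul, ← map_mul]; congr 1; ext <;> simp [*]
/-- the automorphism of the centraliser induced by an element normalising `P0` -/
theorem ex_aut {g : G} (hg : g ∈ 𝐍(S.P0)) : ∃ α : MulAut (centralizer ({S.O.z} : Set S.L)),
    ∀ c, S.ι (α c) = g * S.ι c * g⁻¹ := by
  let e := (MonoidHom.ofInjective S.ι_inj).trans (MulEquiv.subgroupCongr S.ι_range)
  refine ⟨(e.trans (normalizerMonoidHom S.P0 ⟨g, hg⟩)).trans e.symm, fun c => ?_⟩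
  have he : ∀ c, (e c : G) = S.ι c := fun _ => rfl
  exact (he _).symm.trans (congrArg Subtype.val (e.apply_symm_apply _))
theorem norm_Q {g : G} (hg : g ∈ 𝐍(S.P0)) {a : Co F} (ha : a ∈ Co.Q) : ∃ b ∈ Co.Q, g * S.φ a * g⁻¹ = S.φ b := by
  obtain ⟨α, h⟩ := S.ex_aut hg
  obtain ⟨b, hb, e⟩ := S.par.aut_Q α ha
  exact ⟨b, hb, by rw [← S.ι_nf, ← h, e, ι_nf]⟩
theorem norm_F {g : G} (hg : g ∈ 𝐍(S.P0)) {a : Co F} (ha : a ∈ Co.F) : ∃ b ∈ Co.F, g * S.φ a * g⁻¹ = S.φ b := by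
  obtain ⟨α, h⟩ := S.ex_aut hg
  obtain ⟨b, hb, e⟩ := S.par.aut_F α ha
  exact ⟨b, hb, by rw [← S.ι_nf, ← h, e, ι_nf]⟩
theorem norm_E {g : G} (hg : g ∈ 𝐍(S.P0)) {a : Co F} (ha : a ∈ Co.E) : ∃ b ∈ Co.E, g * S.φ a * g⁻¹ = S.φ b := by
  obtain ⟨α, h⟩ := S.ex_aut hg
  obtain ⟨b, hb, e⟩ := S.par.aut_E α ha
  exact ⟨b, hb, by rw [← S.ι_nf, ← h, e, ι_nf]⟩
theorem norm_Z {g : G} (hg : g ∈ 𝐍(S.P0)) (a : F) : ∃ b, g * S.z4 a * g⁻¹ = S.z4 b := by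
  obtain ⟨α, h⟩ := S.ex_aut hg
  obtain ⟨b, e⟩ := S.par.aut_Z α a
  exact ⟨b, by rw [z4, ← S.ι_nf, ← h, e, ι_nf]⟩
theorem h_normP (c k : Fˣ) : S.h c k ∈ 𝐍(S.P0) := mem_normalizer_fintype fun p hp =>
  S.mem_P0.2 ⟨mul_mem (mul_mem (S.h_mem _ _) hp.1) (inv_mem (S.h_mem _ _)), by
    have := S.h_z4 c k ((c : F) * σ (c : F))⁻¹
    rw [mul_inv_cancel₀ (mul_ne_zero c.ne_zero (σ_ne c.ne_zero))] at this
    rw [← this, conj_mul, conj_mul, S.P0_z4 hp]⟩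
theorem ctr {g : G} (hg : g ∈ S.L) (h : S.Cn g) : g = 1 := by
  obtain ⟨a, rfl⟩ := S.cent_Q hg fun e _ => h _ (S.φ_mem e)
  have := S.n1_z4 a
  rw [← h _ S.n1_mem, mul_inv_cancel_right] at this
  rw [show a = 0 from congrArg Co.b4 (S.inj this), z4_zero]

/-! ### the involution `t` -/
theorem t_inv : S.t⁻¹ = S.t := inv_eq_of_mul_eq_one_right S.tt
theorem t_comm {l : G} (hl : l ∈ S.L) : S.t * l = l * S.t := S.tL l hl
theorem t_φ (a : Co F) : S.t * S.φ a = S.φ a * S.t := S.tL _ (S.φ_mem a)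
theorem conj_t {l : G} (hl : l ∈ S.L) : l * S.t * l⁻¹ = S.t := by rw [← S.tL l hl, mul_inv_cancel_right]
theorem t_notMem : S.t ∉ S.L := fun h => S.t1 (S.ctr h S.tL)
theorem mem_Ct {g : G} : g ∈ S.Ct ↔ g * S.t = S.t * g := mem_centralizer_singleton_iff
theorem L_le_Ct : S.L ≤ S.Ct := fun _ h => S.mem_Ct.2 (S.t_comm h).symm
theorem Ct_norm_L : S.Ct ≤ 𝐍(S.L) := fun g hg => mem_normalizer_iff.2 fun x => ⟨S.nL g (S.mem_Ct.1 hg) x, fun h => by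
  simpa [mul_assoc] using S.nL _ (S.mem_Ct.1 (inv_mem hg)) _ h⟩
theorem mem_sup_t {H : Subgroup G} (hH : H ≤ S.L) {g : G} :
    g ∈ zpowers S.t ⊔ H ↔ g ∈ H ∨ S.t * g ∈ H := H89.G2S.mem_sup_zp S.tt fun _ hb => S.t_comm (hH hb)
theorem mem_V {g : G} : g ∈ S.V ↔ ∃ a, g = S.z4 a ∨ g = S.t * S.z4 a := by
  rw [V, S.mem_sup_t (S.Z_le_Q.trans (S.Q_le_U.trans S.U_le_L)), S.mem_Z, S.mem_Z, exists_or]
  refine or_congr (exists_congr fun _ => eq_comm) (exists_congr fun a => ?_)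
  rw [← inv_mul_eq_iff_eq_mul, t_inv, eq_comm]
theorem mem_J {g : G} : g ∈ S.J ↔ ∃ u, g = S.φ u ∨ g = S.t * S.φ u := by
  rw [J, S.mem_sup_t S.U_le_L, S.mem_U, S.mem_U, exists_or]
  refine or_congr (exists_congr fun _ => eq_comm) (exists_congr fun a => ?_)
  rw [← inv_mul_eq_iff_eq_mul, t_inv, eq_comm]
theorem card_J : Nat.card S.J = 2 * Nat.card F ^ 12 := by
  rw [J, H89.G2S.card_sup_zp S.tt (fun h => S.t_notMem (S.U_le_L h)) fun _ hb => S.t_comm (S.U_le_L hb), card_U]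
theorem V_sq {g : G} (hg : g ∈ S.V) : g * g = 1 := by
  obtain ⟨a, rfl | rfl⟩ := S.mem_V.1 hg
  · exact S.z4_sq _
  · rw [mul_assoc, ← mul_assoc (S.z4 a), ← S.t_φ, mul_assoc, S.z4_sq, mul_one, S.tt]
theorem c0_t : S.C0 S.t := ⟨rfl, S.tL⟩
theorem od_one : S.Od 1 := ⟨⟨by simp, fun _ _ => by simp⟩, by simp⟩
theorem co_t : S.CO S.t := fun _ h => h.1.1.symm
theorem co_L {l : G} (hl : l ∈ S.L) : S.CO l := fun _ h => (h.1.2 l hl).symm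
theorem mem_norm_V {d : G} (h1 : ∀ a, d * S.z4 a = S.z4 a * d) {c : F}
    (h2 : d * S.t * d⁻¹ = S.t * S.z4 c) : d ∈ 𝐍(S.V) := by
  refine mem_normalizer_fintype fun x hx => ?_
  have h3 : ∀ a, d * S.z4 a * d⁻¹ = S.z4 a := fun a => mul_inv_eq_iff_eq_mul.2 (h1 a)
  obtain ⟨a, rfl | rfl⟩ := S.mem_V.1 hx
  · exact S.mem_V.2 ⟨a, .inl (h3 a)⟩
  · exact S.mem_V.2 ⟨c + a, .inr (by rw [← conj_mul, h2, h3, S.z4_add, mul_assoc])⟩
theorem h_normV (c k : Fˣ) : S.h c k ∈ 𝐍(S.V) := mem_normalizer_fintype fun x hx => by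
  obtain ⟨a, rfl | rfl⟩ := S.mem_V.1 hx
  · exact S.mem_V.2 ⟨_, .inl (S.h_z4 c k a)⟩
  · exact S.mem_V.2 ⟨_, .inr (by rw [← conj_mul, S.conj_t (S.h_mem _ _), h_z4])⟩
/-- every element of `C(t)` is inner times field -/
theorem dec {g : G} (hg : g * S.t = S.t * g) :
    ∃ l ∈ S.L, ∃ m r, S.Act m r ∧ m * S.t = S.t * m ∧ g = l * m := by
  obtain ⟨l, r, h, h1, h2⟩ := S.aut (normalizerMonoidHom S.L ⟨g, S.Ct_norm_L (S.mem_Ct.2 hg)⟩)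
  have k : ∀ {x y : G}, g * x * g⁻¹ = l * y * (l : G)⁻¹ → (l : G)⁻¹ * g * x * ((l : G)⁻¹ * g)⁻¹ = y :=
    fun e => by rw [mul_inv_rev, mul_assoc (l : G)⁻¹, ← mul_assoc, mul_assoc (l : G)⁻¹, e]; group
  refine ⟨l, l.2, (l : G)⁻¹ * g, r, ⟨fun a => k (congrArg Subtype.val (h a)),
    mul_inv_eq_iff_eq_mul.1 (k (congrArg Subtype.val h1)),
    mul_inv_eq_iff_eq_mul.1 (k (congrArg Subtype.val h2))⟩, ?_, by group⟩
  rw [mul_assoc, hg, ← mul_assoc, ← S.t_comm (inv_mem l.2), mul_assoc]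
variable {S}
theorem Act.cn {m : G} (h : S.Act m 1) : S.Cn m := fun _ hl =>
  (mem_centralizer_singleton_iff.1 (S.L_le (X := centralizer {m})
    (fun a => mem_centralizer_singleton_iff.2 (mul_inv_eq_iff_eq_mul.1 (h.1 a)).symm)
    (mem_centralizer_singleton_iff.2 h.2.1.symm) (mem_centralizer_singleton_iff.2 h.2.2.symm) hl)).symm
theorem Act.z4 {m : G} {r : F ≃+* F} (h : S.Act m r) (a : F) : m * S.z4 a * m⁻¹ = S.z4 (r a) := by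
  rw [h.1]; congr 1; ext <;> simp [cmap]
theorem Cn.mul {g g' : G} (h : S.Cn g) (h' : S.Cn g') : S.Cn (g * g') :=
  fun l hl => (Commute.mul_left (h l hl) (h' l hl)).eq
theorem Cn.inv {g : G} (h : S.Cn g) : S.Cn g⁻¹ := fun l hl => (Commute.inv_left (h l hl)).eq
theorem cn_iff {g : G} : S.Cn g ↔ g ∈ 𝐂(S.L) :=
  ⟨fun h l hl => (h l hl).symm, fun h l hl => (h l hl).symm⟩
theorem C0.mul {g g' : G} (h : S.C0 g) (h' : S.C0 g') : S.C0 (g * g') :=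
  ⟨(Commute.mul_left h.1 h'.1).eq, h.2.mul h'.2⟩
theorem C0.inv {g : G} (h : S.C0 g) : S.C0 g⁻¹ := ⟨(Commute.inv_left h.1).eq, h.2.inv⟩
theorem C0.φ {g : G} (h : S.C0 g) (a : Co F) : g * S.φ a = S.φ a * g := h.2 _ (S.φ_mem a)
theorem C0.conj {g c : G} (h : S.C0 c) (hg : g * S.t = S.t * g) : S.C0 (g * c * g⁻¹) := by
  refine ⟨((Commute.mul_left hg h.1).mul_left (Commute.inv_left hg)).eq, fun l hl => ?_⟩
  have := h.2 _ (S.nL _ (Commute.inv_left hg).eq _ hl)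
  calc _ = g * (c * (g⁻¹ * l * g⁻¹⁻¹)) * g⁻¹ := by group
    _ = _ := by rw [this]; group
theorem C0.eq_one {g : G} (h : S.C0 g) (hl : g ∈ S.L) : g = 1 := S.ctr hl h.2
/-- the subgroup `C(t) ∩ C(L)` -/
def C0s (S : St F G) : Subgroup G where
  carrier := {g | S.C0 g}
  mul_mem' := C0.mul
  one_mem' := S.od_one.1
  inv_mem' := C0.inv
theorem mem_C0s {g : G} : g ∈ S.C0s ↔ S.C0 g := Iff.rfl
theorem C0.invol {g : G} (h : S.C0 g) (h2 : g * g = 1) : g = 1 ∨ g = S.t := by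
  by_contra k
  rw [not_or] at k
  have kf := H19.isKleinFour_closure_pair k.1 S.t1 k.2 h2 S.tt h.1
  have hc := S.cyc (closure {g, S.t}) (IsPGroup.of_card (n := 2) kf.card_four) fun r hr =>
    ((closure_le S.C0s).2 (by rintro _ (rfl | rfl); exacts [h, S.c0_t]) hr).2
  exact IsKleinFour.not_isCyclic hc
theorem Od.inv {g : G} (h : S.Od g) : S.Od g⁻¹ := ⟨h.1.inv, by rw [orderOf_inv]; exact h.2⟩
theorem Od.pow {g : G} (h : S.Od g) (n : ℕ) : S.Od (g ^ n) :=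
  ⟨pow_mem (S := S.C0s) h.1 n, h.2.of_dvd_nat (orderOf_pow_dvd n)⟩
theorem Od.conj {g o : G} (h : S.Od o) (hg : g * S.t = S.t * g) : S.Od (g * o * g⁻¹) :=
  ⟨h.1.conj hg, by rw [← MulAut.conj_apply, MulEquiv.orderOf_eq]; exact h.2⟩
theorem Od.eq_one {o : G} (h : S.Od o) {k : ℕ} (e : o ^ 2 ^ k = 1) : o = 1 :=
  orderOf_eq_one_iff.1 (Nat.eq_one_of_dvd_coprimes (((Nat.coprime_two_right.2 h.2).pow_right k))
    dvd_rfl (orderOf_dvd_of_pow_eq_one e))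
theorem Od.eq_one_sq {o : G} (h : S.Od o) (e : o * o = 1) : o = 1 := h.eq_one (k := 1) (by rw [← e, pow_one, sq])
theorem Od.eq_one_four {o : G} (h : S.Od o) (e : o * o * (o * o) = 1) : o = 1 :=
  h.eq_one_sq (by rw [← sq]; exact (h.pow 2).eq_one_sq (by rw [sq, e]))
theorem Od.exists_sqrt {o : G} (h : S.Od o) : ∃ n : ℕ, o ^ n * o ^ n = o := by
  obtain ⟨k, hk⟩ := h.2
  exact ⟨k + 1, by rw [← pow_add, show k + 1 + (k + 1) = 2 * k + 1 + 1 by ring, ← hk, pow_succ,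
    pow_orderOf_eq_one, one_mul]⟩
theorem CO.mul {g g' : G} (h : S.CO g) (h' : S.CO g') : S.CO (g * g') := fun o ho => (Commute.mul_left (h o ho) (h' o ho)).eq
theorem CO.inv {g : G} (h : S.CO g) : S.CO g⁻¹ := fun o ho => (Commute.inv_left (h o ho)).eq
theorem CO.conj {g c : G} (h : S.CO c) (hg : g * S.t = S.t * g) : S.CO (g * c * g⁻¹) := fun o ho => by
  have := h _ (ho.conj (Commute.inv_left hg).eq)
  calc _ = g * (c * (g⁻¹ * o * g⁻¹⁻¹)) * g⁻¹ := by group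
    _ = _ := by rw [this]; group
theorem Db.hom (h : S.Db) : ∃ f : S.C0s →* S.C0s, (∀ x, f x = 1 ∨ (f x : G) = S.t) ∧
    (∀ x, f x = 1 ↔ Odd (orderOf (x : G))) := by
  obtain ⟨P⟩ : Nonempty (Sylow 2 S.C0s) := inferInstance
  have hP : ∀ x ∈ (P : Subgroup S.C0s), x = 1 ∨ (x : G) = S.t := fun x hx => by
    obtain ⟨j, hj⟩ := P.isPGroup' ⟨x, hx⟩
    exact (h.two _ x.2 j (congrArg (fun y : P => ((y : S.C0s) : G)) hj)).imp_left Subtype.ext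
  have hc : 𝐍((P : Subgroup S.C0s)) ≤ 𝐂((P : Subgroup S.C0s)) := fun g _ x hx => by
    rcases hP x hx with rfl | e
    · simp
    · exact Subtype.ext (by rw [coe_mul, coe_mul, e]; exact g.2.1.symm)
  let f := MonoidHom.transferSylow P hc
  refine ⟨(P : Subgroup S.C0s).subtype.comp f, fun x => hP _ (f x).2, fun x => ?_⟩
  rw [Subgroup.orderOf_coe, ← Nat.not_even_iff_odd, even_iff_two_dvd]
  refine ⟨fun e k => MonoidHom.not_dvd_card_ker_transferSylow P hc (k.trans ?_), fun k => ?_⟩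
  · exact Subgroup.orderOf_dvd_natCard _ (Subtype.ext e : f x = 1)
  · obtain ⟨j, hj⟩ := P.isPGroup' (f x)
    have : f x = 1 := orderOf_eq_one_iff.1 (Nat.eq_one_of_dvd_coprimes
      (((Nat.prime_two.coprime_iff_not_dvd).2 k).symm.pow_right j) (orderOf_map_dvd f x)
      (orderOf_dvd_of_pow_eq_one hj))
    exact congrArg Subtype.val this
theorem Db.mul (h : S.Db) {g g' : G} (h1 : S.Od g) (h2 : S.Od g') : S.Od (g * g') := by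
  obtain ⟨f, -, hf⟩ := h.hom
  exact ⟨h1.1.mul h2.1, (hf (⟨g, h1.1⟩ * ⟨g', h2.1⟩)).1
    (by rw [map_mul, (hf ⟨g, h1.1⟩).2 h1.2, (hf ⟨g', h2.1⟩).2 h2.2, one_mul])⟩
theorem Db.cases (h : S.Db) {c : G} (hc : S.C0 c) : ∃ o, S.Od o ∧ (c = o ∨ c = S.t * o) := by
  obtain ⟨f, h1, hf⟩ := h.hom
  have ht : (f ⟨S.t, S.c0_t⟩ : G) = S.t := (h1 _).resolve_left fun e => by
    have := (hf _).1 e
    rw [orderOf_eq_prime (by rw [sq]; exact S.tt) S.t1] at this; exact absurd this (by decide)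
  rcases h1 ⟨c, hc⟩ with e | e
  · exact ⟨c, ⟨hc, (hf _).1 e⟩, .inl rfl⟩
  · exact ⟨S.t * c, ⟨S.c0_t.mul hc, (hf (⟨S.t, S.c0_t⟩ * ⟨c, hc⟩)).1 (Subtype.ext
      (by rw [map_mul, coe_mul, ht, e, S.tt]; rfl))⟩, .inr (by rw [← mul_assoc, S.tt, one_mul])⟩
theorem Db.comm (h : S.Db) {c c' : G} (hc : S.C0 c) (hc' : S.C0 c') : S.Od ⁅c, c'⁆ := by
  obtain ⟨f, h1, hf⟩ := h.hom
  refine ⟨((hc.mul hc').mul hc.inv).mul hc'.inv, (hf ⁅(⟨c, hc⟩ : S.C0s), ⟨c', hc'⟩⁆).1 ?_⟩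
  rw [map_commutatorElement, commutatorElement_eq_one_iff_mul_comm]
  rcases h1 ⟨c, hc⟩ with e | e
  · rw [e, one_mul, mul_one]
  · exact Subtype.ext (by rw [coe_mul, coe_mul, e]; exact (f _).2.1.symm)
end St

theorem auto_bas : True := by
  have := @St.par.eq_1.{0, 0}
  have := @St.ι.eq_1.{0, 0}
  have := @St.C0s.eq_1.{0, 0}
  trivial

end H51.RS
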