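import Cfsg.Agent.Lib.RS4.XD

/-! Standard components of type `²F₄(q)`, package D4a: see `blueprint/RS4/README.md`. -/

set_option autoImplicit false
set_option linter.unusedSectionVars false

namespace H51.RS
open Subgroup H69 H78.Oct H78.Oct.Co
open scoped commutatorElement

variable {F G : Type*} [Field F] [Tits F] [Finite F] [Group G] [Finite G]

namespace D4a

theorem cj4 {a b x : G} : a * b * a * b * x * (a * b * a * b)⁻¹ =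
    MulAut.conj a (MulAut.conj b (MulAut.conj a (MulAut.conj b x))) := by
  simp only [MulAut.conj_apply]
  group

theorem cje {a x y : G} (h : a * x * a⁻¹ = y) : MulAut.conj a x = y := h

theorem cjf {a x : G} (h : x * a = a * x) : MulAut.conj a x = x := by
  rw [MulAut.conj_apply, ← h, mul_inv_cancel_right]

variable {S : St F G} {Z : Z2 S} (q : X5S Z)

include q in
theorem cM4 (r p : F × F) {x : Co F} (hx : Mid x) :
    Z.Y2 p * Z.Y8 r * Z.Y2 p * Z.Y8 r * S.φ x = S.φ x * (Z.Y2 p * Z.Y8 r * Z.Y2 p * Z.Y8 r) := by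
  rw [← mul_inv_eq_iff_eq_mul, cj4]
  simp only [cje (q.Y8_Mid r hx), cje (q.Y2_Mid p hx), map_mul, cjf (q.D_Y2 _ _ _ _), cjf (q.D_Y8 _ _ _ _),
    mul_assoc, q.D_mul]
  rw [mul_eq_left, ← q.D_zero]
  congr 1 <;> ext <;> simp <;> grind

theorem k8 {b : F} (k : q.K1 b) (p : F × F) (u : F) :
    ∃ a4 a5 a6, Z.Y2 p * S.z8 u * (Z.Y2 p)⁻¹ = S.z8 u * q.D a4 a5 a6 := by
  refine ⟨u • sg b p, u • p, σ u • p, ?_⟩
  rw [mul_inv_eq_iff_eq_mul, mul_assoc, q.D_Y2, ← k u p, ← mul_assoc, ← mul_assoc, S.z8_sq, one_mul]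

theorem k2 {b : F} (k : q.K1 b) (p : F × F) (u : F) :
    ∃ a4 a5 a6, Z.Y8 p * S.z2 u * (Z.Y8 p)⁻¹ = S.z2 u * q.D a4 a5 a6 := by
  obtain ⟨a4, a5, a6, e⟩ := k8 q k p u
  refine ⟨a6, a5, a4, ?_⟩
  rw [← q.n1_D, ← S.n1_z8, conj_mul, ← e, Z2.Y8]
  group

theorem ct4 {b : F} (k : q.K1 b) (r p : F × F) : ∃ a4 a5 a6, Z.Y2 p * Z.Y8 r * Z.Y2 p * Z.Y8 r * S.t *
    (Z.Y2 p * Z.Y8 r * Z.Y2 p * Z.Y8 r)⁻¹ = S.t * q.D a4 a5 a6 := by
  obtain ⟨a4, a5, a6, e⟩ := k8 q k p r.2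
  obtain ⟨b4, b5, b6, e'⟩ := k2 q k r p.2
  have c2 : S.z2 p.2 * Z.Y2 p = Z.Y2 p * S.z2 p.2 := by rw [← Z.Y2_ext, ← Z.Y2_add, ← Z.Y2_add, add_comm]
  have c8 : S.z8 r.2 * Z.Y8 r = Z.Y8 r * S.z8 r.2 := by rw [← Z.Y8_ext, ← Z.Y8_add, ← Z.Y8_add, add_comm]
  have d2 : ∀ a b c g, q.D a b c * (S.z2 p.2 * g) = S.z2 p.2 * (q.D a b c * g) := fun a b c g => by
    rw [← mul_assoc, ← mul_assoc, ← Z.Y2_ext, q.D_Y2]
  have d8 : ∀ a b c g, q.D a b c * (S.z8 r.2 * g) = S.z8 r.2 * (q.D a b c * g) := fun a b c g => by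
    rw [← mul_assoc, ← mul_assoc, ← Z.Y8_ext, q.D_Y8]
  have kk : ∀ g, S.z2 p.2 * (S.z8 r.2 * (S.z2 p.2 * (S.z8 r.2 * g))) =
      q.D (r.2 • sg b (p.2, 0)) (r.2 • (p.2, 0)) (σ r.2 • (p.2, 0)) * g := fun g => by
    have := k r.2 (p.2, 0)
    rw [Z.Y2_ext] at this
    rw [← mul_assoc (S.z8 _), ← mul_assoc (S.z8 _ * _), this, mul_assoc, ← mul_assoc, S.z2_sq, one_mul]
  rw [cj4]
  simp only [cje (Z.Y8_t r), cje (Z.Y2_t p), cje e, cje e', cjf c2, cjf c8, map_mul, cjf (q.D_Y2 _ _ _ _),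
    cjf (q.D_Y8 _ _ _ _)]
  simp only [mul_assoc, d2, d8, kk, q.D_mul]
  exact ⟨_, _, _, rfl⟩

end D4a

open D4a

theorem X5S.d4a {S : St F G} (h : S.Db) {Z : Z2 S} (q : X5S Z) {b : F} (k : q.K1 b) (r p : F × F) :
    ∃ a4 a5 a6, Z.Y8 r * Z.Y2 p * Z.Y8 r = Z.Y2 p * q.D a4 a5 a6 := by
  obtain ⟨a, a', a'', e⟩ := ct4 q k r p
  have m := fun x hx => cM4 q r p (x := x) hx
  have cD : ∀ a b c, Z.Y2 p * Z.Y8 r * Z.Y2 p * Z.Y8 r * q.D a b c =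
      q.D a b c * (Z.Y2 p * Z.Y8 r * Z.Y2 p * Z.Y8 r) := fun a b c => by
    have c2 : Commute (q.D a b c) (Z.Y2 p) := q.D_Y2 ..
    have c8 : Commute (q.D a b c) (Z.Y8 r) := q.D_Y8 ..
    exact (((c2.mul_right c8).mul_right c2).mul_right c8).symm
  have iv : MulAut.conj (Z.Y2 p) (Z.Y2 p * Z.Y8 r * Z.Y2 p * Z.Y8 r) * (Z.Y2 p * Z.Y8 r * Z.Y2 p * Z.Y8 r) = 1 := by
    have c2 : ∀ g, Z.Y2 p * (Z.Y2 p * g) = g := fun g => by rw [← mul_assoc, Z.Y2_sq, one_mul]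
    have c8 : ∀ g, Z.Y8 r * (Z.Y8 r * g) = g := fun g => by rw [← mul_assoc, Z.Y8_sq, one_mul]
    simp only [MulAut.conj_apply, mul_assoc, inv_mul_cancel_left, c2, c8, Z.Y8_sq]
  suffices ∃ a4 a5 a6, Z.Y2 p * Z.Y8 r * Z.Y2 p * Z.Y8 r = q.D a4 a5 a6 by
    obtain ⟨a4, a5, a6, e⟩ := this
    exact ⟨a4, a5, a6, by rw [← e, ← mul_assoc, ← mul_assoc, ← mul_assoc, Z.Y2_sq, one_mul]⟩
  generalize Z.Y2 p * Z.Y8 r * Z.Y2 p * Z.Y8 r = g at e m cD iv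
  have s2 : q.D (bar a + a) (bar a' + a') (bar a'' + a'') = q.D 0 0 0 := by
    rw [← q.D_mul, ← q.t_D, S.t_inv, mul_assoc (S.t * _), ← e, conj_mul, S.tt, mul_one, mul_inv_cancel, q.D_zero]
  obtain ⟨z1, z2, z3⟩ := q.D_inj s2
  have im : ∀ c : F × F, bar c + c = 0 → (c.1, 0) = c := fun c hc => by
    have := congrArg Prod.fst hc
    simp only [bar, Prod.fst_add, Prod.fst_zero] at this
    exact Prod.ext rfl (by grind)
  have e' := q.D_t (0, a.1) (0, a'.1) (0, a''.1)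
  rw [im a z1, im a' z2, im a'' z3, ← e] at e'
  obtain ⟨c, c', c'', o, ho, f⟩ := St.Db.trM h (g := (q.D (0, a.1) (0, a'.1) (0, a''.1))⁻¹ * g) (w := Z.Y4 (0, 1))
    (by rw [← mul_inv_eq_iff_eq_mul, mul_inv_rev, mul_assoc _ g, mul_assoc, ← mul_assoc (g * _), ← e']; group)
    (fun x hx => by rw [mul_assoc, m x hx, ← mul_assoc, ← mul_assoc, (Commute.inv_left (q.D_Mid _ _ _ hx)).eq])
    (Z.Y4_CO _) (fun x _ => Z.Y4_P0 _ (S.φ_memP x))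
    (fun d => by
      have := Z.Y4_t (0, 1)
      rw [d, mul_inv_cancel_right, left_eq_mul, ← S.z4_zero] at this
      exact one_ne_zero (S.z4_inj this))
    (by
      rw [← q.D_4, mul_assoc, cD, ← mul_assoc, ← mul_assoc, inv_eq_of_mul_eq_one_right (q.D_sq ..), q.D_mul,
        q.D_mul, add_comm _ (0, 1), add_comm (0 : F × F), add_comm (0 : F × F)])
  rw [← q.D_ext, inv_mul_eq_iff_eq_mul, ← mul_assoc, q.D_mul] at f
  rw [f, map_mul, cjf (q.D_Y2 ..), cjf (Z.Y2_CO p o ho).symm, mul_assoc, ← mul_assoc o, ← q.D_CO _ _ _ o ho,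
    mul_assoc, ← mul_assoc, q.D_sq, one_mul] at iv
  exact ⟨_, _, _, by rw [f, ho.eq_one_sq iv, mul_one]⟩

end H51.RS
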