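import Cfsg.Agent.Lib.RS4.XD

/-! Standard components of type `²F₄(q)`, package D4b: see `blueprint/RS4/README.md`. -/

set_option autoImplicit false
set_option linter.unusedSectionVars false

namespace H51.RS
open Subgroup H69 H78.Oct H78.Oct.Co
open scoped commutatorElement

variable {F G : Type*} [Field F] [Tits F] [Finite F] [Group G] [Finite G]

namespace D4bH

variable {S : St F G} {Z : Z2 S} (q : X5S Z)

/-- the commutator relation -/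
def R (r p a4 a5 a6 : F × F) : Prop := Z.Y8 r * Z.Y2 p * Z.Y8 r = Z.Y2 p * q.D a4 a5 a6

variable {q} {r r' p p' a4 a5 a6 c4 c5 c6 : F × F}

theorem R.uniq (h : R q r p a4 a5 a6) (h' : R q r p c4 c5 c6) : a4 = c4 ∧ a5 = c5 ∧ a6 = c6 :=
  q.D_inj (mul_left_cancel ((Eq.symm h).trans h'))

theorem R.addp (h : R q r p a4 a5 a6) (h' : R q r p' c4 c5 c6) :
    R q r (p + p') (a4 + c4) (a5 + c5) (a6 + c6) := by
  unfold R at *
  calc Z.Y8 r * Z.Y2 (p + p') * Z.Y8 r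
      = Z.Y8 r * Z.Y2 p * (Z.Y8 r * Z.Y8 r) * Z.Y2 p' * Z.Y8 r := by
        rw [Z.Y8_sq, Z.Y2_add]; group
    _ = (Z.Y8 r * Z.Y2 p * Z.Y8 r) * (Z.Y8 r * Z.Y2 p' * Z.Y8 r) := by group
    _ = Z.Y2 p * (q.D a4 a5 a6 * Z.Y2 p') * q.D c4 c5 c6 := by rw [h, h']; group
    _ = _ := by rw [q.D_Y2, Z.Y2_add, ← q.D_mul]; group

theorem R.addr (h : R q r p a4 a5 a6) (h' : R q r' p c4 c5 c6) :
    R q (r + r') p (a4 + c4) (a5 + c5) (a6 + c6) := by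
  unfold R at *
  calc Z.Y8 (r + r') * Z.Y2 p * Z.Y8 (r + r')
      = Z.Y8 r * (Z.Y8 r' * Z.Y2 p * Z.Y8 r') * Z.Y8 r := by
        conv_lhs => rw [Z.Y8_add, ← Z.Y8_add r r', add_comm r r']
        conv_lhs => enter [1, 1]; rw [add_comm r' r]
        rw [Z.Y8_add, Z.Y8_add]; group
    _ = Z.Y8 r * Z.Y2 p * (q.D c4 c5 c6 * Z.Y8 r) := by rw [h']; group
    _ = Z.Y8 r * Z.Y2 p * Z.Y8 r * q.D c4 c5 c6 := by rw [q.D_Y8]; group
    _ = _ := by rw [h, ← q.D_mul]; group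

theorem R.cj (h : R q r p a4 a5 a6) (g : G) : (g * Z.Y8 r * g⁻¹) * (g * Z.Y2 p * g⁻¹) * (g * Z.Y8 r * g⁻¹) =
    (g * Z.Y2 p * g⁻¹) * (g * q.D a4 a5 a6 * g⁻¹) := by
  unfold R at h
  calc _ = g * (Z.Y8 r * Z.Y2 p * Z.Y8 r) * g⁻¹ := by group
    _ = _ := by rw [h]; group

theorem R.symm (h : R q r p a4 a5 a6) : R q p r a6 a5 a4 := by
  have h1 := h.cj S.n1
  rw [Z.n1_Y8, q.n1_D, show S.n1 * Z.Y2 p * S.n1⁻¹ = Z.Y8 p from rfl] at h1
  unfold R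
  calc Z.Y8 p * Z.Y2 r * Z.Y8 p = (Z.Y2 r * Z.Y2 r) * Z.Y8 p * Z.Y2 r * Z.Y8 p := by rw [Z.Y2_sq, one_mul]
    _ = Z.Y2 r * (Z.Y2 r * Z.Y8 p * Z.Y2 r) * Z.Y8 p := by group
    _ = Z.Y2 r * Z.Y8 p * (q.D a6 a5 a4 * Z.Y8 p) := by rw [h1]; group
    _ = Z.Y2 r * (Z.Y8 p * Z.Y8 p) * q.D a6 a5 a4 := by rw [q.D_Y8]; group
    _ = _ := by rw [Z.Y8_sq, mul_one]

theorem R.t (h : R q r p a4 a5 a6) : R q (bar r) (bar p) (bar a4) (bar a5) (bar a6) := by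
  have h1 := h.cj S.t
  rwa [Z.t_Y8, Z.t_Y2, q.t_D] at h1

theorem R.zero (p : F × F) : R q 0 p 0 0 0 := by
  unfold R
  rw [Z.Y8_zero, q.D_zero, one_mul]

theorem R.smul (h : R q r p a4 a5 a6) (a b : F) :
    R q (b • r) (a • p) ((σ a * b) • a4) ((a * b) • a5) ((a * σ b) • a6) := by
  rcases eq_or_ne b 0 with rfl | hb
  · simpa using R.zero (q := q) (a • p)
  rcases eq_or_ne a 0 with rfl | ha
  · simpa using (R.zero (q := q) (b • r)).symm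
  obtain ⟨c, k, e1, e2, e3, e4, e5⟩ := wt28 (Units.mk0 a ha) (Units.mk0 b hb)
  have h1 := h.cj (S.h c k)
  rwa [Z.h_Y8, Z.h_Y2, q.h_D, e1, e2, e3, e4, e5] at h1

theorem R.congr (h : R q r p a4 a5 a6) (e1 : r = r') (e2 : p = p') (e4 : a4 = c4) (e5 : a5 = c5)
    (e6 : a6 = c6) : R q r' p' c4 c5 c6 := by
  subst e1 e2 e4 e5 e6
  exact h

theorem of_K1 {b : F} (k : q.K1 b) (u : F) (p : F × F) : R q (u, 0) p (u • sg b p) (u • p) (σ u • p) := by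
  unfold R
  rw [Z.Y8_ext]
  exact k u p

theorem two0 : (2 : F) = 0 := by
  have h := Tits.sq (2 : F)
  rw [map_ofNat, map_ofNat] at h
  linear_combination -h

end D4bH

open D4bH in
theorem X5S.d4b {S : St F G} {Z : Z2 S} (q : X5S Z) {b : F} (k : q.K1 b)
    (hD : ∀ r p, ∃ a4 a5 a6, Z.Y8 r * Z.Y2 p * Z.Y8 r = Z.Y2 p * q.D a4 a5 a6) : ∃ α ε, q.K2 α b ε := by
  obtain ⟨⟨ε, δ⟩, ⟨α, β⟩, a6, h⟩ := hD (0, 1) (0, 1)
  replace h : R q (0, 1) (0, 1) (ε, δ) (α, β) a6 := h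
  obtain ⟨-, -, rfl⟩ := h.uniq h.symm
  have h2 := two0 (F := F)
  have h1 := (of_K1 k 1 ((1, 0) + (0, 1))).addr ((of_K1 k 1 (0, 1)).symm.addp h)
  obtain ⟨e4, e5, -⟩ := (h1.congr (r' := bar (0, 1)) (p' := bar (0, 1)) (by simp [bar]) (by simp [bar])
    rfl rfl rfl).uniq h.t
  have e4' := congrArg Prod.fst e4
  have e5' := congrArg Prod.fst e5
  simp only [bar, sg, Prod.fst_add, Prod.snd_add, Prod.smul_fst, smul_eq_mul, map_one, map_zero, add_zero,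
    zero_add, mul_one, one_mul, mul_zero] at e4' e5'
  have hδ : δ = b + 1 := by linear_combination -e4'
  have hβ : β = 1 := by linear_combination -e5'
  subst hδ hβ
  refine ⟨α, ε, fun r p => ?_⟩
  have h4 := (h.smul p.2 r.2).congr (r' := (0, r.2)) (by simp) rfl rfl rfl rfl
  have h5 := ((of_K1 k p.1 (0, r.2)).symm.addp h4).congr (p' := p) rfl (by simp) rfl rfl rfl
  have h3 := (of_K1 k r.1 p).addr h5
  refine (h3.congr (r' := r) (by simp) rfl ?_ ?_ ?_ : R q r p (B4 b ε p r) (mu α p r) (B4 b ε r p))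
  · ext <;> simp [B4, sg] <;> ring
  · ext <;> simp [mu] <;> ring
  · ext <;> simp [B4, sg] <;> ring

end H51.RS
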