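import Cfsg.Agent.Lib.RS4.E4

/-! Standard components of type `²F₄(q)`, package D5: see `blueprint/RS4/README.md`. -/

set_option autoImplicit false
set_option linter.unusedSectionVars false

namespace H51.RS
open Subgroup H69 H78.Oct H78.Oct.Co
open scoped commutatorElement

variable {F G : Type*} [Field F] [Tits F] [Finite F] [Group G] [Finite G]

namespace D5
variable {S : St F G} {Z : Z2 S} (q : X5S Z) {α b ε : F}

theorem two (p : F × F) : p + p = 0 := by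
  ext <;> simp [CharTwo.add_self_eq_zero]

theorem ex (k : q.K2 α b ε) (p r : F × F) :
    ∃ f, Z.Y8 r * q.X3 p * Z.Y8 r = q.X3 p * q.D f 0 (mu α p r) := by
  obtain ⟨s, hs⟩ := q.ky p
  obtain ⟨s', hs'⟩ := q.kd (B4 b ε p r) (mu α p r) (B4 b ε r p)
  have c := Z.Y8_y8 r 1 0
  have h1 : Z.Y8 r * (S.φ (y8 1 0) * Z.Y2 p * (S.φ (y8 1 0))⁻¹) * Z.Y8 r =
      S.φ (y8 1 0) * (Z.Y8 r * Z.Y2 p * Z.Y8 r) * (S.φ (y8 1 0))⁻¹ := by
    have c' : (S.φ (y8 1 0))⁻¹ * Z.Y8 r = Z.Y8 r * (S.φ (y8 1 0))⁻¹ := (Commute.inv_right c).symm.eq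
    simp only [← mul_assoc, c]
    simp only [mul_assoc, c']
  have h2 : Z.Y8 r * (Z.Y2 p * q.X3 p * q.D s p p) * Z.Y8 r =
      (Z.Y8 r * Z.Y2 p * Z.Y8 r) * (Z.Y8 r * q.X3 p * Z.Y8 r) * q.D s p p := by
    simp only [mul_assoc]
    rw [← mul_assoc (Z.Y8 r) (Z.Y8 r), Z.Y8_sq, one_mul, q.D_Y8]
  have h3 : S.φ (y8 1 0) * (Z.Y2 p * q.D (B4 b ε p r) (mu α p r) (B4 b ε r p)) * (S.φ (y8 1 0))⁻¹ =
      Z.Y2 p * q.X3 p * q.D s p p * q.D s' (mu α p r) (mu α p r + B4 b ε r p) := by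
    rw [← hs, ← hs']; group
  rw [hs, h2, k, h3] at h1
  have ab := q.eb.ab _ (q.X3_mem p) _ (q.D_mem (B4 b ε p r) (mu α p r) (B4 b ε r p))
  refine ⟨B4 b ε p r + s', ?_⟩
  have h4 : q.D (B4 b ε p r) (mu α p r) (B4 b ε r p) * (Z.Y8 r * q.X3 p * Z.Y8 r) =
      q.X3 p * q.D s' (mu α p r) (mu α p r + B4 b ε r p) := by
    have ab' := q.eb.ab _ (q.D_mem s p p) _ (q.D_mem s' (mu α p r) (mu α p r + B4 b ε r p))
    rw [mul_assoc (Z.Y2 p * q.X3 p), ab', ← mul_assoc (Z.Y2 p * q.X3 p)] at h1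
    have := mul_right_cancel h1
    rw [mul_assoc (Z.Y2 p), mul_assoc (Z.Y2 p)] at this
    exact mul_left_cancel this
  rw [← one_mul (Z.Y8 r * q.X3 p * Z.Y8 r), ← q.D_sq (B4 b ε p r) (mu α p r) (B4 b ε r p), mul_assoc, h4,
    ← mul_assoc, ← ab, mul_assoc, q.D_mul, two, add_comm (mu α p r), ← add_assoc, two, zero_add]

end D5

theorem X5S.d5 {S : St F G} {Z : Z2 S} (q : X5S Z) {α b ε : F} (k : q.K2 α b ε) (v r : F × F) :
    q.X3 v * Z.Y8 r * q.X3 v = Z.Y8 r * Z.Y6 (mu α v r) := by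
  choose f hf using D5.ex q k v
  have add : ∀ r r', f (r + r') = f r + f r' := fun r r' => by
    have h := hf (r + r')
    have e : Z.Y8 (r + r') * q.X3 v * Z.Y8 (r + r') = Z.Y8 r * (Z.Y8 r' * q.X3 v * Z.Y8 r') * Z.Y8 r := by
      nth_rewrite 2 [add_comm r r']
      simp only [Z.Y8_add, mul_assoc]
    rw [e, hf, ← mul_assoc, mul_assoc _ _ (Z.Y8 r), q.D_Y8, ← mul_assoc, hf, mul_assoc, q.D_mul] at h
    exact (q.D_inj (mul_left_cancel h)).1.symm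
  have z : f ((1 : F) • r) = 0 := nadd S.big (f := fun a : F => f (a • r)) (fun a a' => by rw [add_smul, add])
    fun μ hμ => by
      obtain ⟨c, rfl⟩ := N_surj μ
      have c0 : c ≠ 0 := fun h => hμ (by rw [h, zero_mul])
      let u := Units.mk0 c c0
      have h := congrArg (fun g => S.h u (u * σu u) * g * (S.h u (u * σu u))⁻¹) (hf r)
      have m : ∀ x y : G, S.h u (u * σu u) * (x * y) * (S.h u (u * σu u))⁻¹ =
          S.h u (u * σu u) * x * (S.h u (u * σu u))⁻¹ * (S.h u (u * σu u) * y * (S.h u (u * σu u))⁻¹) :=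
        fun x y => by group
      simp only [m, q.h_X3, q.h_D, Z.h_Y8, Units.val_mul, σu_val, u, Units.val_mk0] at h
      rw [mul_inv_cancel₀ hμ, one_smul, hf, show (c * σ c) ^ 2 * σ (c * σ c) * (c * σ c)⁻¹ = c * σ c * σ (c * σ c) by
        field_simp] at h
      rw [one_smul]
      exact (q.D_inj (mul_left_cancel h)).1
  have h := hf r
  rw [one_smul] at z
  rw [z, q.D_6] at h
  have c := q.D_Y8 0 0 (mu α v r) r
  rw [q.D_6] at c
  rw [← c, ← mul_one (q.X3 v * Z.Y8 r * q.X3 v), ← Z.Y8_sq r, ← mul_assoc, mul_assoc (q.X3 v), mul_assoc (q.X3 v), h,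
    ← mul_assoc, q.X3_sq, one_mul]

end H51.RS
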