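import Cfsg.Agent.Lib.RS4.D6a

/-! Standard components of type `²F₄(q)`, package D6: see `blueprint/RS4/README.md`. -/

set_option autoImplicit false
set_option linter.unusedSectionVars false

namespace H51.RS
open Subgroup H69 H78.Oct H78.Oct.Co
open scoped commutatorElement

variable {F G : Type*} [Field F] [Tits F] [Finite F] [Group G] [Finite G]

namespace D6H

theorem mu_comm (α : F) (p q : F × F) : mu α p q = mu α q p := by
  simp only [mu, Prod.mk.injEq]; constructor <;> ring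

theorem mu_assoc (α : F) (p q r : F × F) : mu α (mu α p q) r = mu α p (mu α q r) := by
  simp only [mu, Prod.mk.injEq]; constructor <;> ring

theorem mu_one (α : F) (p : F × F) : mu α p (1, 0) = p := by
  simp [mu]

theorem one_mu (α : F) (p : F × F) : mu α (1, 0) p = p := by
  simp [mu]

theorem mu_add (α : F) (p q r : F × F) : mu α p (q + r) = mu α p q + mu α p r := by
  simp only [mu, Prod.fst_add, Prod.snd_add, Prod.mk_add_mk, Prod.mk.injEq]; constructor <;> ring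

theorem mu_zero (α : F) (p : F × F) : mu α p 0 = 0 := by
  simp [mu]

theorem add_self (p : F × F) : p + p = 0 := by
  ext <;> simp [CharTwo.add_self_eq_zero]

theorem eq_of_add {p q : F × F} (h : p + q = 0) : p = q := by
  have : p + q + q = q := by rw [h, zero_add]
  rwa [add_assoc, add_self, add_zero] at this

theorem B_one (b ε : F) (p : F × F) : B4 b ε p (1, 0) = sg b p := by
  simp only [B4, sg, Prod.mk.injEq]; constructor <;> ring

theorem B_eq (α b : F) (p q : F × F) : B4 b α p q = mu α (sg b p) q := by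
  simp only [B4, sg, mu, Prod.mk.injEq]; constructor <;> ring

section Grp
variable {S : St F G} {m B : F × F → F × F → F × F} {τ : F × F → F × F} {ι : F → F × F} (f : Fam S m B τ ι)

theorem Y0 (j : ZMod 8) : f.Y j 0 = 1 := by
  have := f.Yadd j 0 0
  rw [add_zero] at this
  exact left_eq_mul.1 this

theorem X0 (j : ZMod 8) : f.X j 0 = 1 := by
  have := f.Xadd j 0 0
  rw [add_zero] at this
  exact left_eq_mul.1 this

theorem YY (j : ZMod 8) (p : F × F) : f.Y j p * f.Y j p = 1 := by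
  rw [← f.Yadd, add_self, Y0]

/-- the general element of `Y₁ X₁ Y₂` -/
def T (p q r : F × F) : G := f.Y 1 p * f.X 1 q * f.Y 2 r

theorem T_add (p q r p' q' r' : F × F) : T f (p + p') (q + q') (r + r') = T f p q r * T f p' q' r' := by
  have h1 : ∀ p q, f.X 1 p * f.Y 2 q = f.Y 2 q * f.X 1 p := f.x1' 1
  have h2 : ∀ p q, f.Y 1 p * f.Y 2 q = f.Y 2 q * f.Y 1 p := f.c2 1
  have h3 := f.x1 1
  simp only [T, f.Yadd, f.Xadd]
  calc f.Y 1 p * f.Y 1 p' * (f.X 1 q * f.X 1 q') * (f.Y 2 r * f.Y 2 r')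
      = f.Y 1 p * (f.Y 1 p' * f.X 1 q) * (f.X 1 q' * f.Y 2 r) * f.Y 2 r' := by simp only [mul_assoc]
    _ = f.Y 1 p * (f.X 1 q * f.Y 1 p') * (f.Y 2 r * f.X 1 q') * f.Y 2 r' := by rw [h3, h1]
    _ = f.Y 1 p * f.X 1 q * (f.Y 1 p' * f.Y 2 r) * f.X 1 q' * f.Y 2 r' := by simp only [mul_assoc]
    _ = _ := by rw [h2]; simp only [mul_assoc]

theorem T_inj {p q r p' q' r' : F × F} (h : T f p q r = T f p' q' r') : p = p' ∧ q = q' ∧ r = r' := by
  have h1 : T f (p + p') (q + q') (r + r') = 1 := by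
    rw [T_add, ← h, ← T_add, add_self, add_self, add_self]
    simp only [T, Y0, X0, mul_one]
  obtain ⟨a, b, c⟩ := f.inj 1 _ _ _ h1
  exact ⟨eq_of_add a, eq_of_add b, eq_of_add c⟩

theorem Y_inj {j : ZMod 8} {p : F × F} (h : f.Y j p = 1) : p = 0 :=
  (f.inj j p 0 0 (by rw [h, X0, Y0, mul_one, mul_one])).1

theorem key {g : G} {w v θ : F × F → F × F} (h0 : ∀ s, g * f.Y 0 s * g⁻¹ = f.Y 0 (w s))
    (h1 : ∀ s, g * f.Y 1 s * g⁻¹ = f.Y 1 (v s)) (h2 : ∀ s, g * f.Y 2 s * g⁻¹ = f.Y 2 (θ s))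
    (h3 : ∀ s, g * f.Y 3 s * g⁻¹ = f.Y 3 (θ s)) (s u : F × F) :
    g * f.X 1 (m s u) * g⁻¹ = T f (v (B s u) + B (w s) (θ u)) (m (w s) (θ u)) (B (θ u) (w s) + θ (B u s)) := by
  have k : ∀ u s, f.Y 3 u * f.Y 0 s * f.Y 3 u = f.Y 0 s * (f.Y 1 (B s u) * f.X 1 (m s u) * f.Y 2 (B u s)) := f.k6 0
  have c : g * (f.Y 3 u * f.Y 0 s * f.Y 3 u) * g⁻¹ = f.Y 3 (θ u) * f.Y 0 (w s) * f.Y 3 (θ u) := by
    rw [← h3, ← h0]; group
  have c' : g * (f.Y 0 s * (f.Y 1 (B s u) * f.X 1 (m s u) * f.Y 2 (B u s))) * g⁻¹ =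
      f.Y 0 (w s) * (f.Y 1 (v (B s u)) * (g * f.X 1 (m s u) * g⁻¹) * f.Y 2 (θ (B u s))) := by
    rw [← h0, ← h1, ← h2]; group
  rw [k, c', k] at c
  have c2 := mul_left_cancel c
  simp only [T, f.Yadd]
  calc g * f.X 1 (m s u) * g⁻¹
      = (f.Y 1 (v (B s u)) * f.Y 1 (v (B s u))) * (g * f.X 1 (m s u) * g⁻¹) *
          (f.Y 2 (θ (B u s)) * f.Y 2 (θ (B u s))) := by rw [YY, YY, one_mul, mul_one]
    _ = f.Y 1 (v (B s u)) * (f.Y 1 (v (B s u)) * (g * f.X 1 (m s u) * g⁻¹) * f.Y 2 (θ (B u s))) *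
          f.Y 2 (θ (B u s)) := by simp only [mul_assoc]
    _ = _ := by rw [c2]; simp only [mul_assoc]

end Grp

theorem exists_vw (h8 : 8 ≤ Nat.card F) (α : F) : ∃ (c : F) (w : F × F), mu α (c, 1) w = (1, 0) := by
  have : ∃ c : F, c ^ 2 + c + α ≠ 0 := by
    by_cases h : α = 0
    · obtain ⟨d, h0, h1, -⟩ := exists_ne h8 (0 : F) 1 1
      refine ⟨d, fun e => ?_⟩
      have : d * (d + 1) = 0 := by rw [h] at e; linear_combination e
      rcases mul_eq_zero.1 this with e | e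
      · exact h0 e
      · exact h1 (by rw [← CharTwo.add_eq_zero]; exact e)
    · exact ⟨0, by simpa using h⟩
  obtain ⟨c, hc⟩ := this
  refine ⟨c, ((c ^ 2 + c + α)⁻¹ * (c + 1), (c ^ 2 + c + α)⁻¹), ?_⟩
  have e := inv_mul_cancel₀ hc
  have h2 : (2 : F) = 0 := CharTwo.two_eq_zero
  simp only [mu, Prod.mk.injEq]
  constructor
  · linear_combination e
  · linear_combination ((c ^ 2 + c + α)⁻¹ * (c + 1)) * h2

end D6H

open D6H in
theorem Fam.d6 {S : St F G} {α b ε : F} (f : Fam1 S α b ε) : ε = α ∧ α = b + σ b := by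
  obtain ⟨c, w, hvw⟩ := exists_vw S.big α
  obtain ⟨g, h0, h1, h2, h3, h4⟩ := f.d6a hvw
  set v : F × F := (c, 1) with hv
  have hwv : mu α w v = (1, 0) := by rw [mu_comm, hvw]
  have canw : ∀ x, mu α v (mu α w x) = x := fun x => by rw [← mu_assoc, hvw, one_mu]
  have canv : ∀ x, mu α w (mu α v x) = x := fun x => by rw [← mu_assoc, hwv, one_mu]
  have K := key f (θ := fun s => B4 b ε v (mu α v s)) h0 h1 h2 h3
  have cmp := fun s : F × F => T_inj f ((K s (1, 0)).symm.trans (by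
    rw [mu_comm α s]; exact K (1, 0) s))
  simp only [mu_one] at cmp
  -- `θ s = s μ`
  have hθ : ∀ s, B4 b ε v (mu α v s) = mu α s (B4 b ε v v) := fun s => by
    have e := congrArg (mu α v) (cmp s).2.1
    rw [mu_assoc, canw, canw] at e
    exact e.symm
  have hB : ∀ u, B4 b ε v u = mu α u (sg b v) := fun u => by
    have e1 := hθ (mu α w u)
    have e2 := hθ w
    rw [canw] at e1
    rw [hvw, B_one] at e2
    rw [e1, e2, mu_comm α w u, mu_assoc]
  have hε : ε = α := by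
    have e := congrArg Prod.fst (hB (0, 1))
    simpa [B4, mu, sg, hv] using e
  subst hε
  refine ⟨rfl, ?_⟩
  set μ := B4 b ε v v with hμ
  have hμ' : μ = mu ε v (sg b v) := hB v
  -- `sg μ = μ v`
  obtain ⟨a, -, -, ha⟩ := exists_unit (F := F) S.big
  have e3 := (cmp (a, 0)).2.2
  rw [hθ, hθ, hθ, B_eq, B_eq, B_eq, B_one] at e3
  have hs : mu ε (sg b μ) w = μ := by
    have ha' : (a : F) + σ (a : F) ≠ 0 := fun e => ha (CharTwo.add_eq_zero.1 e).symm
    apply eq_of_add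
    have e4 : ((a : F) + σ (a : F)) • (mu ε (sg b μ) w + μ) = 0 := by
      have h2 : (2 : F) = 0 := CharTwo.two_eq_zero
      simp only [mu, sg, Prod.mk_add_mk, Prod.mk.injEq, map_add, map_mul, map_zero, map_one] at e3
      obtain ⟨e5, e6⟩ := e3
      ext
      · simp only [mu, sg, Prod.smul_fst, Prod.fst_add, smul_eq_mul, Prod.fst_zero]
        linear_combination e5 + (σ (a : F) * ((σ μ.1 + b * σ μ.2) * w.1 + ε * (σ μ.2 * w.2) + μ.1)) * h2
      · simp only [mu, sg, Prod.smul_snd, Prod.snd_add, smul_eq_mul, Prod.snd_zero]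
        linear_combination e6 +
          (σ (a : F) * ((σ μ.1 + b * σ μ.2) * w.2 + σ μ.2 * w.1 + σ μ.2 * w.2 + μ.2)) * h2
    exact (smul_eq_zero.1 e4).resolve_left ha'
  have hs' : sg b μ = mu ε v μ := by
    have e := congrArg (mu ε v) hs
    rwa [mu_comm ε _ w, canw] at e
  -- `sg (v s) = sg v * sg s`
  have e7 := h4 (sg b v) (1, 0)
  rw [hθ, B_one, mu_one, B_eq, ← hμ', hs'] at e7
  have e8 : B4 b ε v (mu ε v (sg b (sg b v) + mu ε v v)) = 0 := by
    rw [hθ, mu_comm, mu_add, mu_comm ε μ, e7, ← mu_assoc, mu_comm ε μ v, add_self]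
  have e9 := h2 (sg b (sg b v) + mu ε v v)
  rw [e8, Y0] at e9
  have e10 : f.Y 2 (sg b (sg b v) + mu ε v v) = 1 := by
    have := congrArg (fun x => g⁻¹ * x * g) e9
    simpa [mul_assoc] using this
  have e11 := congrArg Prod.fst (eq_of_add (Y_inj f e10))
  simp only [sg, mu, hv, map_add, map_mul, map_one, Tits.sq, mul_one] at e11
  have h2 : (2 : F) = 0 := CharTwo.two_eq_zero
  linear_combination -e11

end H51.RS
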