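import Cfsg.Agent.Lib.RS4.UA
import Cfsg.Agent.Lib.G2S.Cg

/-! Standard components of type `²F₄(q)`, package D6a: see `blueprint/RS4/README.md`. -/

set_option autoImplicit false
set_option linter.unusedSectionVars false

namespace H51.RS
open Subgroup H69 H78.Oct H78.Oct.Co
open scoped commutatorElement

variable {F G : Type*} [Field F] [Tits F] [Finite F] [Group G] [Finite G]

namespace D6a
open H89.G2S.Cg

theorem two (p : F × F) : p + p = 0 :=
  Prod.ext (CharTwo.add_self_eq_zero _) (CharTwo.add_self_eq_zero _)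

theorem mu_assoc (α : F) (p q r : F × F) : mu α p (mu α q r) = mu α (mu α p q) r := by
  ext <;> simp only [mu] <;> ring

theorem mu_comm (α : F) (p q : F × F) : mu α p q = mu α q p := by
  ext <;> simp only [mu] <;> ring

theorem one_mu (α : F) (p : F × F) : mu α (1, 0) p = p := by
  ext <;> simp [mu]

theorem mu_smul (α a c : F) (p q : F × F) : mu α (a • p) (c • q) = (a * c) • mu α p q := by
  ext <;> simp only [mu, Prod.smul_fst, Prod.smul_snd, smul_eq_mul] <;> ring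

theorem mu_smul' (α a : F) (p q : F × F) : mu α p (a • q) = a • mu α p q := by
  ext <;> simp only [mu, Prod.smul_fst, Prod.smul_snd, smul_eq_mul] <;> ring

theorem B4_smul (b ε a c : F) (p q : F × F) : B4 b ε (a • p) (c • q) = (σ a * c) • B4 b ε p q := by
  ext <;> simp only [B4, Prod.smul_fst, Prod.smul_snd, smul_eq_mul, map_mul] <;> ring

theorem one_B4 (b ε : F) (p : F × F) : B4 b ε (1, 0) p = p := by
  ext <;> simp [B4]

variable {S : St F G} {α b ε : F} (f : Fam1 S α b ε)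

theorem Y0 (j : ZMod 8) : f.Y j 0 = 1 := by
  have := f.Yadd j 0 0
  rwa [add_zero, left_eq_mul] at this

theorem X0 (j : ZMod 8) : f.X j 0 = 1 := by
  have := f.Xadd j 0 0
  rwa [add_zero, left_eq_mul] at this

theorem Ysq (j : ZMod 8) (p : F × F) : f.Y j p * f.Y j p = 1 := by rw [← f.Yadd, two, Y0]
theorem Xsq (j : ZMod 8) (p : F × F) : f.X j p * f.X j p = 1 := by rw [← f.Xadd, two, X0]

/-- the Weyl elements -/
def m (v w : F × F) : G := f.X 2 v * f.X 6 w * f.X 2 v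

theorem sl2 {A C : F × F → G} {v w : F × F} (h : mu α v w = (1, 0)) (A2 : ∀ p, A p * A p = 1)
    (C2 : ∀ p, C p * C p = 1) (c : ∀ p q, A p * C q = C q * A p)
    (h1 : ∀ s, f.X 2 v * A s * f.X 2 v = A s * C (mu α v s)) (h2 : ∀ s, f.X 2 v * C s = C s * f.X 2 v)
    (h3 : ∀ s, f.X 6 w * C s * f.X 6 w = C s * A (mu α w s)) (h4 : ∀ s, f.X 6 w * A s = A s * f.X 6 w) (s : F × F) :
    cg (m f v w) (A s) = C (mu α v s) ∧ cg (m f v w) (C s) = A (mu α w s) := by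
  have k1 : ∀ s, cg (f.X 2 v) (A s) = A s * C (mu α v s) := fun s => (cg_invol (Xsq f _ _) _).trans (h1 s)
  have k2 : ∀ s, cg (f.X 2 v) (C s) = C s := fun s => cg_fix (h2 s)
  have k3 : ∀ s, cg (f.X 6 w) (C s) = C s * A (mu α w s) := fun s => (cg_invol (Xsq f _ _) _).trans (h3 s)
  have k4 : ∀ s, cg (f.X 6 w) (A s) = A s := fun s => cg_fix (h4 s)
  constructor
  · rw [m, mul_cg, mul_cg, k1, cg_mul (f.X 6 w), k4, k3, mu_assoc, mu_comm α w, h, one_mu, ← mul_assoc, c,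
      mul_assoc, A2, mul_one, k2]
  · rw [m, mul_cg, mul_cg, k2, k3, cg_mul, k2, k1, mu_assoc, h, one_mu, ← mul_assoc, ← c, mul_assoc, C2, mul_one]

theorem m01 {v w : F × F} (h : mu α v w = (1, 0)) (s : F × F) :
    cg (m f v w) (f.Y 0 s) = f.Y 1 (mu α v s) ∧ cg (m f v w) (f.Y 1 s) = f.Y 0 (mu α w s) :=
  sl2 f h (Ysq f 0) (Ysq f 1) (f.c2 0) (f.dn 0 v) (f.x3 1 v) (f.up 6 w) (f.x3' 6 w) s

theorem m54 {v w : F × F} (h : mu α v w = (1, 0)) (s : F × F) :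
    cg (m f v w) (f.Y 5 s) = f.Y 4 (mu α v s) ∧ cg (m f v w) (f.Y 4 s) = f.Y 5 (mu α w s) :=
  sl2 f h (Ysq f 5) (Ysq f 4) (fun p q => (f.c2 4 q p).symm) (f.up 2 v) (f.x3' 2 v) (f.dn 4 w) (f.x3 5 w) s

/-- coordinates on the middle part -/
def Φ (p q r : F × F) : G := f.Y 2 p * f.X 2 q * f.Y 3 r

theorem Φ_add (p q r p' q' r' : F × F) : Φ f (p + p') (q + q') (r + r') = Φ f p q r * Φ f p' q' r' := by
  have a : f.X 2 q * f.Y 2 p' = f.Y 2 p' * f.X 2 q := f.x1 2 q p'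
  have c : f.Y 2 p' * f.Y 3 r = f.Y 3 r * f.Y 2 p' := f.c2 2 p' r
  have d : f.X 2 q' * f.Y 3 r = f.Y 3 r * f.X 2 q' := f.x1' 2 q' r
  rw [Φ, Φ, Φ, f.Yadd, f.Yadd, f.Xadd]
  calc _ = f.Y 2 p * (f.Y 2 p' * f.X 2 q) * (f.X 2 q' * f.Y 3 r) * f.Y 3 r' := by simp only [mul_assoc]
    _ = f.Y 2 p * f.X 2 q * (f.Y 2 p' * f.Y 3 r) * f.X 2 q' * f.Y 3 r' := by rw [← a, d]; simp only [mul_assoc]
    _ = _ := by rw [c]; simp only [mul_assoc]

theorem Φ_T (s u : F × F) :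
    Φ f (B4 b ε s u) (mu α s u) (B4 b ε u s) = f.Y 1 s * (f.Y 4 u * f.Y 1 s * f.Y 4 u) := by
  have a : f.Y 4 u * f.Y 1 s * f.Y 4 u = f.Y 1 s * Φ f (B4 b ε s u) (mu α s u) (B4 b ε u s) := f.k6 1 u s
  rw [a, ← mul_assoc, Ysq, one_mul]

theorem auto_D6a : True := by have := @m.eq_1.{0, 0}; have := @Φ.eq_1.{0, 0}; trivial

end D6a
open D6a H89.G2S.Cg

/-- the torus element belonging to a unit `v` -/
theorem Fam.d6a {S : St F G} {α b ε : F} (f : Fam1 S α b ε) {v w : F × F} (h : mu α v w = (1, 0)) :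
    ∃ g : G, (∀ s, g * f.Y 0 s * g⁻¹ = f.Y 0 (mu α w s)) ∧ (∀ s, g * f.Y 1 s * g⁻¹ = f.Y 1 (mu α v s)) ∧
      (∀ s, g * f.Y 2 s * g⁻¹ = f.Y 2 (B4 b ε v (mu α v s))) ∧
      (∀ s, g * f.Y 3 s * g⁻¹ = f.Y 3 (B4 b ε v (mu α v s))) ∧
      ∀ s u, B4 b ε v (mu α v (B4 b ε s u)) = B4 b ε (mu α v s) (mu α v u) := by
  have h1 : mu α ((1, 0) : F × F) (1, 0) = (1, 0) := one_mu α _
  obtain ⟨g, hg⟩ : ∃ g, g = m f v w * m f (1, 0) (1, 0) := ⟨_, rfl⟩
  have g0 : ∀ s, cg g (f.Y 0 s) = f.Y 0 (mu α w s) := fun s => by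
    rw [hg, mul_cg, (m01 f h1 s).1, one_mu, (m01 f h s).2]
  have g1 : ∀ s, cg g (f.Y 1 s) = f.Y 1 (mu α v s) := fun s => by
    rw [hg, mul_cg, (m01 f h1 s).2, one_mu, (m01 f h s).1]
  have g4 : ∀ s, cg g (f.Y 4 s) = f.Y 4 (mu α v s) := fun s => by
    rw [hg, mul_cg, (m54 f h1 s).2, one_mu, (m54 f h s).1]
  let P : F → F → F → Prop := fun x y z => ∀ s u,
    cg g (Φ f (x • B4 b ε s u) (y • mu α s u) (z • B4 b ε u s)) =
      Φ f (x • B4 b ε (mu α v s) (mu α v u)) (y • mu α (mu α v s) (mu α v u)) (z • B4 b ε (mu α v u) (mu α v s))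
  have P0 : P 0 0 0 := fun s u => by simp only [zero_smul, Φ, Y0, X0, mul_one, cg_one]
  have Pa : ∀ x y z x' y' z', P x y z → P x' y' z' → P (x + x') (y + y') (z + z') :=
    fun x y z x' y' z' p p' s u => by simp only [add_smul, Φ_add, cg_mul, p s u, p' s u]
  have Pb : ∀ a c, P (σ a * c) (a * c) (a * σ c) := fun a c s u => by
    rw [mul_comm a (σ c), ← B4_smul, ← B4_smul, ← B4_smul, ← B4_smul, ← mu_smul, ← mu_smul, Φ_T, Φ_T]
    simp only [cg_mul, g1, g4, mu_smul']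
  obtain ⟨l, l1, l2, l3⟩ := tri S.big
  have Pl : ∀ l : List (F × F), P (l.map fun p => σ p.1 * p.2).sum (l.map fun p => p.1 * p.2).sum
      (l.map fun p => p.1 * σ p.2).sum ∧ P (l.map fun p => p.1 * σ p.2).sum (l.map fun p => p.1 * p.2).sum
      (l.map fun p => σ p.1 * p.2).sum := fun l => by
    induction l with
    | nil => exact ⟨P0, P0⟩
    | cons p l ih =>
      simp only [List.map_cons, List.sum_cons]
      refine ⟨Pa _ _ _ _ _ _ (Pb _ _) ih.1, Pa _ _ _ _ _ _ ?_ ih.2⟩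
      have := Pb p.2 p.1
      rwa [mul_comm (σ p.2), mul_comm p.2, mul_comm p.2] at this
  obtain ⟨p2, p3⟩ := Pl l
  rw [l1, l2, l3] at p2 p3
  have g2 : ∀ s u, cg g (f.Y 2 (B4 b ε s u)) = f.Y 2 (B4 b ε (mu α v s) (mu α v u)) := fun s u => by
    simpa only [zero_smul, one_smul, Φ, Y0, X0, mul_one] using p2 s u
  have g3 : ∀ s u, cg g (f.Y 3 (B4 b ε u s)) = f.Y 3 (B4 b ε (mu α v u) (mu α v s)) := fun s u => by
    simpa only [zero_smul, one_smul, Φ, Y0, X0, one_mul] using p3 s u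
  have v1 : mu α v (1, 0) = v := by rw [mu_comm, one_mu]
  have g2' : ∀ s, cg g (f.Y 2 s) = f.Y 2 (B4 b ε v (mu α v s)) := fun s => by
    simpa only [one_B4, v1] using g2 (1, 0) s
  have g3' : ∀ s, cg g (f.Y 3 s) = f.Y 3 (B4 b ε v (mu α v s)) := fun s => by
    simpa only [one_B4, v1] using g3 s (1, 0)
  refine ⟨g, g0, g1, g2', g3', fun s u => ?_⟩
  have e := (g2' (B4 b ε s u)).symm.trans (g2 s u)
  have := (f.inj 2 (B4 b ε v (mu α v (B4 b ε s u)) + B4 b ε (mu α v s) (mu α v u)) 0 0 (by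
    rw [X0, Y0, mul_one, mul_one, f.Yadd, e, Ysq])).1
  rwa [← two (B4 b ε (mu α v s) (mu α v u)), add_left_inj] at this

end H51.RS
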