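import Cfsg.Agent.Lib.RS4.XD

/-! Standard components of type `²F₄(q)`, package D7: see `blueprint/RS4/README.md`. -/

set_option autoImplicit false
set_option linter.unusedSectionVars false

namespace H51.RS
open Subgroup H69 H78.Oct H78.Oct.Co
open scoped commutatorElement

variable {F G : Type*} [Field F] [Tits F] [Finite F] [Group G] [Finite G]

namespace D7H
variable {S : St F G} {Z : Z2 S}

theorem mv (g : G) {i j k : ZMod 8} (h : i + j - 2 = k) : S.rot (S.rot g i) j = S.rot g k := by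
  rw [S.rot_rot, h]

theorem n2Y (Z : Z2 S) (p : F × F) : S.n2 * Z.Y4 p = Z.Y4 p * S.n2 :=
  (Z.Y4_P0 p (S.mem_P0.2 ⟨S.n2_mem, mul_inv_eq_iff_eq_mul.1 (S.n2_z4 1)⟩)).symm

theorem n1X (q : X5S Z) (p : F × F) : S.n1 * q.X p = q.X p * S.n1 :=
  mul_inv_eq_iff_eq_mul.1 (q.c1 p)

theorem e6 (Z : Z2 S) (p : F × F) : Z.Y6 p = S.rot (Z.Y4 p) 3 := by
  have := S.n1_rot (n2Y Z p) 2
  rw [S.rot_two, show (5 - 2 : ZMod 8) = 3 by decide] at this
  exact this

theorem e2 (Z : Z2 S) (p : F × F) : Z.Y2 p = S.rot (Z.Y4 p) 1 := by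
  have := S.n2_rot (n2Y Z p) 3
  rw [← e6, show (4 - 3 : ZMod 8) = 1 by decide] at this
  exact this

theorem e8 (Z : Z2 S) (p : F × F) : Z.Y8 p = S.rot (Z.Y4 p) 4 := by
  have := S.n1_rot (n2Y Z p) 1
  rw [← e2, show (5 - 1 : ZMod 8) = 4 by decide] at this
  exact this

theorem e3 (q : X5S Z) (p : F × F) : q.X3 p = S.rot (q.X p) 1 := by
  have := S.n2_rot' (n1X q p) 2
  rw [S.rot_two, show (3 - 2 : ZMod 8) = 1 by decide] at this
  exact this

theorem cm {a b : G} (h : a * b = b * a) (j : ZMod 8) :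
    S.rot a j * S.rot b j = S.rot b j * S.rot a j := by
  rw [← S.rot_mul, h, S.rot_mul]

theorem up1 (q : X5S Z) {α : F}
    (k' : ∀ v r, q.X3 v * Z.Y8 r * q.X3 v = Z.Y8 r * Z.Y6 (mu α v r)) (v u : F × F) :
    S.rot (q.X v) 1 * S.rot (Z.Y4 u) 4 * S.rot (q.X v) 1 =
      S.rot (Z.Y4 u) 4 * S.rot (Z.Y4 (mu α v u)) 3 := by
  rw [← e3, ← e8, ← e6, k']

theorem dn0 (q : X5S Z) {α : F}
    (k' : ∀ v r, q.X3 v * Z.Y8 r * q.X3 v = Z.Y8 r * Z.Y6 (mu α v r)) (v u : F × F) :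
    S.rot (q.X v) 2 * S.rot (Z.Y4 u) 0 * S.rot (q.X v) 2 =
      S.rot (Z.Y4 u) 0 * S.rot (Z.Y4 (mu α v u)) 1 := by
  have h := congrArg (fun g => S.n2 * g * S.n2⁻¹) (up1 q k' v u)
  simp only [← conj_mul] at h
  rw [S.n2_rot' (n1X q v), S.n2_rot (n2Y Z u), S.n2_rot (n2Y Z _),
    show (3 - 1 : ZMod 8) = 2 by decide, show (4 - 4 : ZMod 8) = 0 by decide,
    show (4 - 3 : ZMod 8) = 1 by decide] at h
  exact h

end D7H

open D7H in
theorem X5S.fam {S : St F G} {Z : Z2 S} (q : X5S Z) {α b ε : F} (k : q.K2 α b ε)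
    (k' : ∀ v r, q.X3 v * Z.Y8 r * q.X3 v = Z.Y8 r * Z.Y6 (mu α v r)) : Nonempty (Fam1 S α b ε) := by
  refine ⟨{
    Y := fun j p => S.rot (Z.Y4 p) j
    X := fun i p => S.rot (q.X p) i
    Yadd := fun j p p' => by rw [Z.Y4_add, S.rot_mul]
    Xadd := fun i p p' => by rw [q.add, S.rot_mul]
    c2 := fun j p p' => ?_
    c4 := fun j p p' => ?_
    k6 := fun j u s => ?_
    x1 := fun i p p' => cm (q.eb.ab _ (q.mem p) _ (q.eb.m4 p')) i
    x1' := fun i p p' => ?_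
    x3 := fun i p p' => ?_
    x3' := fun i p p' => ?_
    up := fun i v u => ?_
    dn := fun j v u => ?_
    inj := fun j p p' r h => ?_
    ct := fun j p => by rw [S.rot_t, Z.t_Y4]
    ext := fun j a => by rw [Z.Y4_ext] }⟩
  · have h := cm (S := S) (Z.Y46 p p') j
    rwa [e6, mv _ (k := j + 1) (by ring)] at h
  · have h := cm (S := S) (q.eb.ab _ (q.eb.m2 p) _ (q.eb.m6 p')) (j + 1)
    rwa [e6, e2, mv _ (i := 3) (k := j + 2) (by ring), mv _ (i := 1) (k := j) (by ring)] at h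
  · have h := congrArg (fun g => S.rot g (j + 1)) (k u s)
    simp only [X5S.D, S.rot_mul] at h
    rwa [e8, e6, e2, mv (Z.Y4 u) (k := j + 3) (by ring), mv (Z.Y4 s) (k := j) (by ring),
      mv _ (k := j + 2) (by ring)] at h
  · have h := cm (S := S) (q.eb.ab _ (q.mem p) _ (q.eb.m6 p')) i
    rwa [e6, mv _ (k := i + 1) (by ring)] at h
  · have h := cm (S := S) (q.eb.ab _ (q.mem p) _ (q.eb.m2 p')) (i + 1)
    rwa [e2, mv _ (k := i) (by ring)] at h
  · have h := cm (S := S) (q.D_Y8 0 p 0 p') i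
    rwa [q.D_5, e8, mv _ (k := i + 2) (by ring)] at h
  · have h := congrArg (fun g => S.rot g (i + 1)) (up1 q k' v u)
    simp only [S.rot_mul] at h
    rwa [mv (q.X v) (k := i) (by ring), mv (Z.Y4 u) (i := 4) (k := i + 3) (by ring),
      mv _ (i := 3) (k := i + 2) (by ring)] at h
  · have h := congrArg (fun g => S.rot g (j + 2)) (dn0 q k' v u)
    simp only [S.rot_mul] at h
    rwa [mv (q.X v) (k := j + 2) (by ring), mv (Z.Y4 u) (i := 0) (k := j) (by ring),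
      mv _ (i := 1) (k := j + 1) (by ring)] at h
  · have h' := congrArg (fun g => S.rot g (4 - j)) h
    simp only [S.rot_mul, S.rot_one] at h'
    rw [mv (Z.Y4 p) (i := j) (k := 2) (by ring), mv (q.X p') (k := 2) (by ring),
      mv (Z.Y4 r) (i := j + 1) (k := 3) (by ring), S.rot_two, S.rot_two, ← e6, ← q.D_zero] at h'
    exact q.D_inj h'

end H51.RS
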