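import Cfsg.Agent.Lib.RS4.UA

/-! Standard components of type `²F₄(q)`, package D8: see `blueprint/RS4/README.md`. -/

set_option autoImplicit false
set_option linter.unusedSectionVars false

namespace H51.RS
open Subgroup H69 H78.Oct H78.Oct.Co
open scoped commutatorElement

variable {F G : Type*} [Field F] [Tits F] [Finite F] [Group G] [Finite G]

namespace D8H

/-- change of the doubled parameters -/
def tr {S : St F G} {m B m' B' : F × F → F × F → F × F} {τ τ' : F × F → F × F} {ι ι' : F → F × F}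
    (f : Fam S m B τ ι) (e : F × F → F × F) (add : ∀ p q, e (p + q) = e p + e q) (inj : ∀ p, e p = 0 → p = 0)
    (hm : ∀ p q, e (m' p q) = m (e p) (e q)) (hB : ∀ p q, e (B' p q) = B (e p) (e q))
    (hτ : ∀ p, e (τ' p) = τ (e p)) (hι : ∀ a, e (ι' a) = ι a) : Fam S m' B' τ' ι' where
  Y j p := f.Y j (e p)
  X j p := f.X j (e p)
  Yadd j p q := by rw [add, f.Yadd]
  Xadd j p q := by rw [add, f.Xadd]
  c2 j p q := f.c2 j _ _
  c4 j p q := f.c4 j _ _
  k6 j u s := by rw [hm, hB, hB, f.k6]
  x1 i p q := f.x1 i _ _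
  x1' i p q := f.x1' i _ _
  x3 i p q := f.x3 i _ _
  x3' i p q := f.x3' i _ _
  up i v u := by rw [hm, f.up]
  dn i v u := by rw [hm, f.dn]
  inj j p q r h := (f.inj j _ _ _ h).imp (inj p) (And.imp (inj q) (inj r))
  ct j p := by rw [hτ, f.ct]
  ext j a := by rw [hι, f.ext]

/-- the inverse of the pair of characters -/
def ei (r : F) (p : F × F) : F × F := (p.2 + r * (p.1 + p.2), p.1 + p.2)

theorem ei_add (r : F) (p q : F × F) : ei r (p + q) = ei r p + ei r q := by
  ext <;> simp only [ei, Prod.fst_add, Prod.snd_add] <;> ring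

theorem ei_inj (r : F) (p : F × F) (h : ei r p = 0) : p = 0 := by
  have h1 : p.2 + r * (p.1 + p.2) = 0 := congrArg Prod.fst h
  have h2 : p.1 + p.2 = 0 := congrArg Prod.snd h
  rw [h2, mul_zero, add_zero] at h1
  rw [h1, add_zero] at h2
  exact Prod.ext h2 h1

theorem ei_mul {r α : F} (h : α = r ^ 2 + r) (p q : F × F) : ei r (p * q) = mu α (ei r p) (ei r q) := by
  subst h
  ext <;> simp only [ei, mu, Prod.fst_mul, Prod.snd_mul] <;> grind

theorem ei_swap (r : F) (p : F × F) : ei r p.swap = bar (ei r p) := by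
  ext <;> simp only [ei, bar, Prod.fst_swap, Prod.snd_swap] <;> grind

theorem ei_diag (r a : F) : ei r (a, a) = (a, 0) := by
  ext <;> simp only [ei] <;> grind

end D8H

open D8H in
theorem Fam.split {S : St F G} {b : F} (f : Fam1 S (b + σ b) b (b + σ b)) :
    Nonempty (FamW S) ∨ Nonempty (FamF S) := by
  obtain ⟨r, rfl | rfl⟩ := exists_r b
  · refine Or.inl ⟨tr f (ei r) (ei_add r) (ei_inj r) (ei_mul ?_) (fun p q => ?_) (ei_swap r) (ei_diag r)⟩
    · simp only [map_add, σσ]; grind
    · ext <;> simp only [ei, B4, map_add, map_mul, σσ] <;> grind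
  · refine Or.inr ⟨tr f (ei r) (ei_add r) (ei_inj r) (ei_mul ?_) (fun p q => ?_) (ei_swap r) (ei_diag r)⟩
    · simp only [map_add, map_one, σσ]; grind
    · ext <;> simp only [ei, B4, map_add, map_mul, map_one, σσ] <;> grind

end H51.RS
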