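import Cfsg.Agent.Lib.Oct.OP
import Cfsg.Agent.Lib.Oct.PB
import Cfsg.Agent.Lib.LocStruct.SylowIn

/-! # Standard components of type `²F₄(q)`: definitions.  See `blueprint/RS4/README.md`. -/

set_option autoImplicit false
set_option linter.unusedSectionVars false

namespace H51.RS
open Subgroup H69 H78.Oct H78.Oct.Co
open scoped commutatorElement

/-- a field automorphism applied to the coordinates -/
def cmap {F : Type*} [Field F] (ρ : F ≃+* F) (x : Co F) : Co F :=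
  ⟨ρ x.a1, ρ x.a2, ρ x.b2, ρ x.a3, ρ x.a4, ρ x.b4, ρ x.a5, ρ x.a6, ρ x.b6, ρ x.a7, ρ x.a8, ρ x.b8⟩

/-- the commutator pairing of `E` with `Q` -/
def Bf {F : Type*} [Field F] (e x : Co F) : F := e.b2 * x.a7 + e.a3 * x.a6 + e.a5 * x.a2 + e.b6 * x.a1

/-- `x ∈ U₃ ⋯ U₇` -/
def Mid {F : Type*} [Field F] (x : Co F) : Prop := x.a1 = 0 ∧ x.a2 = 0 ∧ x.b2 = 0 ∧ x.a8 = 0 ∧ x.b8 = 0

/-- the standing hypothesis -/
structure St (F G : Type*) [Field F] [Tits F] [Group G] where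
  L : Subgroup G
  O : Oct F L
  big : 8 ≤ Nat.card F
  autOdd : ∀ ρ : F ≃+* F, ρ * ρ = 1 → ρ = 1
  simple : IsSimpleGroup L
  cls : ∀ x : L, x * x = 1 → x = 1 ∨ IsConj O.z x ∨ IsConj (O.nf (x5 1)) x
  aut : ∀ θ : L ≃* L, ∃ l : L, ∃ ρ : F ≃+* F, (∀ a, θ (O.nf a) = l * O.nf (cmap ρ a) * l⁻¹) ∧
    θ O.n1 = l * O.n1 * l⁻¹ ∧ θ O.n2 = l * O.n2 * l⁻¹
  mult : ∀ (A : Subgroup G) (π : A →* G), ⁅A, A⁆ = A → π.range = L →
    (∀ x, π x = 1 → ∀ y, x * y = y * x) → Function.Injective π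
  t : G
  tt : t * t = 1
  t1 : t ≠ 1
  tL : ∀ l ∈ L, t * l = l * t
  nL : ∀ g, g * t = t * g → ∀ l ∈ L, g * l * g⁻¹ ∈ L
  cyc : ∀ R : Subgroup G, IsPGroup 2 R → (∀ r ∈ R, ∀ l ∈ L, r * l = l * r) → IsCyclic R

namespace St
variable {F G : Type*} [Field F] [Tits F] [Group G] (S : St F G)

def φ : Co F →* G := S.L.subtype.comp S.O.nf
def n1 : G := S.O.n1
def n2 : G := S.O.n2
def h (c k : Fˣ) : G := S.O.h (c, k)
abbrev z2 (a : F) : G := S.φ (y2 0 a)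
abbrev z4 (a : F) : G := S.φ (y4 0 a)
abbrev z6 (a : F) : G := S.φ (y6 0 a)
abbrev z8 (a : F) : G := S.φ (y8 0 a)
/-- the rotation of the octagon by two steps -/
def ρ : G := S.n1 * S.n2
/-- the family obtained from `g` by rotation; `S.rot g 2 = g` -/
def rot (g : G) (j : ZMod 8) : G := S.ρ ^ (j - 2).val * g * (S.ρ ^ (j - 2).val)⁻¹
def U : Subgroup G := S.φ.range
def Q : Subgroup G := Co.Q.map S.φ
def E : Subgroup G := Co.E.map S.φ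
def Z : Subgroup G := Co.Z.map S.φ
def P0 : Subgroup G := S.L ⊓ centralizer {S.z4 1}
def Ct : Subgroup G := centralizer {S.t}
/-- `g` centralises `L` -/
def Cn (g : G) : Prop := ∀ l ∈ S.L, g * l = l * g
/-- `m` acts as the field automorphism `r` -/
def Act (m : G) (r : F ≃+* F) : Prop :=
  (∀ a, m * S.φ a * m⁻¹ = S.φ (cmap r a)) ∧ m * S.n1 = S.n1 * m ∧ m * S.n2 = S.n2 * m
/-- `g ∈ C(t) ∩ C(L)` -/
def C0 (g : G) : Prop := g * S.t = S.t * g ∧ S.Cn g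
/-- `g ∈ C(t) ∩ C(L)` has odd order -/
def Od (g : G) : Prop := S.C0 g ∧ Odd (orderOf g)
/-- `g` centralises the elements of odd order of `C(t) ∩ C(L)` -/
def CO (g : G) : Prop := ∀ o, S.Od o → g * o = o * g
def V : Subgroup G := zpowers S.t ⊔ S.Z
def J : Subgroup G := zpowers S.t ⊔ S.U
/-- `g` centralises `Q` and moves `t` inside `tZ` -/
def D0 (g : G) : Prop := (∀ x ∈ S.Q, g * x = x * g) ∧ ∃ c, g * S.t * g⁻¹ = S.t * S.z4 c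
/-- the 2-elements of `D0` centralising the odd part -/
def DD (g : G) : Prop := S.D0 g ∧ S.CO g ∧ g * g ∈ S.V

/-- the case in which `t` is not isolated -/
structure Db : Prop where
  two : ∀ g, S.C0 g → ∀ k : ℕ, g ^ 2 ^ k = 1 → g = 1 ∨ g = S.t
  mv : ∃ g ∈ 𝐍(S.V), g * S.t * g⁻¹ ≠ S.t

/-- `y` translates `t` by `z₄(c)` and centralises `Z` and `P0/Q` -/
structure T0 (y : G) (c : F) : Prop where
  ct : y * S.t * y⁻¹ = S.t * S.z4 c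
  cZ : ∀ a, y * S.z4 a = S.z4 a * y
  cP : ∀ p ∈ S.P0, ∃ x ∈ Co.Q, y * p * y⁻¹ = p * S.φ x

/-- moreover `y` centralises `E` and `Q/Z` -/
structure T1 (y : G) (c : F) : Prop extends S.T0 y c where
  cE : ∀ e ∈ Co.E, y * S.φ e = S.φ e * y
  cQ : ∀ x ∈ Co.Q, ∃ a, y * S.φ x * y⁻¹ = S.φ x * S.z4 a

/-- the normal form of the action on `U` -/
structure T2 (y : G) (c β : F) : Prop where
  ct : y * S.t * y⁻¹ = S.t * S.z4 c
  cQ : ∀ x ∈ Co.Q, y * S.φ x * y⁻¹ = S.φ x * S.z4 (β * σ.symm x.a4)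
  c8 : ∀ u, y * S.z8 u * y⁻¹ = S.z8 u * S.z6 (β * σ.symm u)
  cy : ∀ b, ∃ f, y * S.φ (y8 b 0) * y⁻¹ = S.φ (y8 b 0) * S.φ (x5 (β * σ.symm b)) * S.z6 f

end St

section Stages
variable {F G : Type*} [Field F] [Tits F] [Group G]

/-- stage 1: the doubled centre of `U` -/
structure Z1 (S : St F G) where
  Zs : Subgroup G
  τ : G → F
  le : S.Z ≤ Zs
  ct : ∀ w ∈ Zs, w * S.t * w⁻¹ = S.t * S.z4 (τ w)
  ker : ∀ w ∈ Zs, τ w = 0 → w ∈ S.Z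
  onto : ∀ c, ∃ w ∈ Zs, τ w = c
  cP : ∀ w ∈ Zs, ∀ p ∈ S.P0, w * p = p * w
  cO : ∀ w ∈ Zs, S.CO w
  comm : ∀ w ∈ Zs, ∀ w' ∈ Zs, w * w' = w' * w
  sq : ∃ κ, ∀ w ∈ Zs, w * w = S.z4 (κ * τ w)
  hN : ∀ c k, ∀ w ∈ Zs, S.h c k * w * (S.h c k)⁻¹ ∈ Zs

/-- stage 2: it is a plane over `F` -/
structure Z2 (S : St F G) where
  W : F → G
  add : ∀ a b, W (a + b) = W a * W b
  ct : ∀ y, W y * S.t * (W y)⁻¹ = S.t * S.z4 y
  cP : ∀ y, ∀ p ∈ S.P0, W y * p = p * W y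
  cO : ∀ y, S.CO (W y)
  hW : ∀ c k y, S.h c k * W y * (S.h c k)⁻¹ = W ((c : F) * σ (c : F) * y)
  c46 : ∀ y y', S.n1 * W y * S.n1⁻¹ * W y' = W y' * (S.n1 * W y * S.n1⁻¹)
  c16 : ∀ u y, S.φ (x1 u) * (S.n1 * W y * S.n1⁻¹) * S.φ (x1 u) = S.n1 * W y * S.n1⁻¹ * W (u * y)

/-- the action of `t` on the doubled parameters `(re, im)` -/
def bar (p : F × F) : F × F := (p.1 + p.2, p.2)
/-- the product of `F[ω]/(ω² + ω + α)` -/
def mu (α : F) (p q : F × F) : F × F := (p.1 * q.1 + α * (p.2 * q.2), p.1 * q.2 + p.2 * q.1 + p.2 * q.2)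
/-- the extension of `σ` with `ω ↦ ω + b` -/
def sg (b : F) (p : F × F) : F × F := (σ p.1 + b * σ p.2, σ p.2)
/-- the general sesquilinear map extending `(s, u) ↦ σ s * u` -/
def B4 (b ε : F) (p q : F × F) : F × F :=
  (σ p.1 * q.1 + σ p.2 * (b * q.1 + ε * q.2), σ p.1 * q.2 + σ p.2 * (q.1 + (b + 1) * q.2))

namespace Z2
variable {S : St F G} (Z : Z2 S)
def Y4 (p : F × F) : G := S.z4 p.1 * Z.W p.2
def Y6 (p : F × F) : G := S.n1 * Z.Y4 p * S.n1⁻¹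
def Y2 (p : F × F) : G := S.n2 * Z.Y6 p * S.n2⁻¹
def Y8 (p : F × F) : G := S.n1 * Z.Y2 p * S.n1⁻¹
/-- `g` acts on `Q` as the central automorphism given by the vector `(v2, v3, v5, v6)` -/
def Ph (g : G) (v2 v3 v5 v6 : F × F) : Prop := ∀ x ∈ Co.Q,
  g * S.φ x * g⁻¹ = S.φ x * Z.Y4 (x.a7 • v2 + x.a6 • v3 + x.a2 • v5 + x.a1 • v6)

/-- stage 3: the doubled group `E` -/
structure EA (Es : Subgroup G) : Prop where
  ph : ∀ g ∈ Es, ∃ v2 v3 v5 v6, Z.Ph g v2 v3 v5 v6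
  ct : ∀ g ∈ Es, ∃ e ∈ Co.E, g * S.t * g⁻¹ = S.t * S.φ e
  cW : ∀ g ∈ Es, ∀ p, g * Z.Y4 p = Z.Y4 p * g
  cO : ∀ g ∈ Es, S.CO g
  ker : ∀ g ∈ Es, (∀ x ∈ S.Q, g * x = x * g) → ∃ p, g = Z.Y4 p
  sq : ∀ g ∈ Es, ∃ a, g * g = S.z4 a
  cm : ∀ g ∈ Es, ∀ g' ∈ Es, ∃ a, g * g' = g' * g * S.z4 a
  Ele : S.E ≤ Es
  m4 : ∀ p, Z.Y4 p ∈ Es
  m6 : ∀ p, Z.Y6 p ∈ Es
  m2 : ∀ p, Z.Y2 p ∈ Es
  nt : ∀ g ∈ Es, S.t * g * S.t⁻¹ ∈ Es
  nh : ∀ g ∈ Es, ∀ c k, S.h c k * g * (S.h c k)⁻¹ ∈ Es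
  nP : ∀ g ∈ Es, ∀ p ∈ S.P0, p * g * p⁻¹ ∈ Es

/-- stage 4: it is elementary abelian -/
structure EB (Es : Subgroup G) : Prop extends Z.EA Es where
  el : ∀ g ∈ Es, g * g = 1
  ab : ∀ g ∈ Es, ∀ g' ∈ Es, g * g' = g' * g
end Z2

/-- stage 5: the doubled root subgroup `U₅` -/
structure X5S {S : St F G} (Z : Z2 S) where
  Es : Subgroup G
  eb : Z.EB Es
  X : F × F → G
  mem : ∀ p, X p ∈ Es
  ph : ∀ p, Z.Ph (X p) 0 0 p 0
  add : ∀ p q, X (p + q) = X p * X q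
  ext : ∀ a, X (a, 0) = S.φ (x5 a)
  ch : ∀ c k p, S.h c k * X p * (S.h c k)⁻¹ = X (((c : F) * k) • p)
  ct : ∀ p, S.t * X p * S.t⁻¹ = X (bar p)
  c1 : ∀ p, S.n1 * X p * S.n1⁻¹ = X p

namespace X5S
variable {S : St F G} {Z : Z2 S} (q : X5S Z)
def X3 (p : F × F) : G := S.n2 * q.X p * S.n2⁻¹
/-- the general element of the doubled group `Z₄ U₅ Z₆` -/
def D (p4 p5 p6 : F × F) : G := Z.Y4 p4 * q.X p5 * Z.Y6 p6
/-- stage 6: the commutators of `Y₂` with `Z₈` -/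
def K1 (b : F) : Prop :=
  ∀ u p, S.z8 u * Z.Y2 p * S.z8 u = Z.Y2 p * q.D (u • sg b p) (u • p) (σ u • p)
/-- stage 7: the commutators of `Y₂` with `Y₈` -/
def K2 (α b ε : F) : Prop :=
  ∀ r p, Z.Y8 r * Z.Y2 p * Z.Y8 r = Z.Y2 p * q.D (B4 b ε p r) (mu α p r) (B4 b ε r p)
end X5S

/-- Doubled root subgroups all round the octagon: `Y j` in position `2j`, `X i` in position `2i+1`;
`m` is the product, `B` the sesquilinear map, `τ` the action of `t`, `ι` the embedding of `F`. -/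
structure Fam (S : St F G) (m B : F × F → F × F → F × F) (τ : F × F → F × F) (ι : F → F × F) where
  Y : ZMod 8 → F × F → G
  X : ZMod 8 → F × F → G
  Yadd : ∀ j p q, Y j (p + q) = Y j p * Y j q
  Xadd : ∀ i p q, X i (p + q) = X i p * X i q
  c2 : ∀ j p q, Y j p * Y (j + 1) q = Y (j + 1) q * Y j p
  c4 : ∀ j p q, Y j p * Y (j + 2) q = Y (j + 2) q * Y j p
  k6 : ∀ j u s, Y (j + 3) u * Y j s * Y (j + 3) u =
    Y j s * (Y (j + 1) (B s u) * X (j + 1) (m s u) * Y (j + 2) (B u s))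
  x1 : ∀ i p q, X i p * Y i q = Y i q * X i p
  x1' : ∀ i p q, X i p * Y (i + 1) q = Y (i + 1) q * X i p
  x3 : ∀ i p q, X (i + 1) p * Y i q = Y i q * X (i + 1) p
  x3' : ∀ i p q, X i p * Y (i + 2) q = Y (i + 2) q * X i p
  up : ∀ i v u, X i v * Y (i + 3) u * X i v = Y (i + 3) u * Y (i + 2) (m v u)
  dn : ∀ j v u, X (j + 2) v * Y j u * X (j + 2) v = Y j u * Y (j + 1) (m v u)
  inj : ∀ j p q r, Y j p * X j q * Y (j + 1) r = 1 → p = 0 ∧ q = 0 ∧ r = 0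
  ct : ∀ j p, S.t * Y j p * S.t⁻¹ = Y j (τ p)
  ext : ∀ j a, Y j (ι a) = S.rot (S.z4 a) j

/-- the first form of the doubling -/
abbrev Fam1 (S : St F G) (α b ε : F) := Fam S (mu α) (B4 b ε) bar fun a => (a, 0)
/-- the wreathed case -/
abbrev FamW (S : St F G) :=
  Fam S (· * ·) (fun s u => (σ s.1 * u.1, σ s.2 * u.2)) Prod.swap fun a => (a, a)
/-- the case `F₄(q)` -/
abbrev FamF (S : St F G) :=
  Fam S (· * ·) (fun s u => (σ s.2 * u.1, σ s.1 * u.2)) Prod.swap fun a => (a, a)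

/-- the subgroup generated by the doubled root subgroups -/
def Fam.G0 {S : St F G} {m B : F × F → F × F → F × F} {τ : F × F → F × F} {ι : F → F × F}
    (f : Fam S m B τ ι) : Subgroup G := closure {g | ∃ j p, g = f.Y j p}

/-- the data for the end game -/
structure EG (S : St F G) (G0 A Zh : Subgroup G) : Prop where
  perf : ⁅G0, G0⁆ = G0
  le : A ≤ G0
  two : IsPGroup 2 A
  nt : S.t ∈ 𝐍(A)
  tA : S.t ∉ A
  UA : S.U ≤ A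
  Zle : Zh ≤ A
  Zc : ∀ z ∈ Zh, ∀ a ∈ A, z * a = a * z
  card : Nat.card Zh = Nat.card F ^ 2
  lang : ∀ a ∈ A, a * (S.t * a * S.t⁻¹) = 1 → ∃ b ∈ A, a = b * (S.t * b⁻¹ * S.t⁻¹)

end Stages

theorem auto_defs : True := by
  have := @cmap.eq_1.{0}
  have := @Bf.eq_1.{0}
  have := @Mid.eq_1.{0}
  have := @St.φ.eq_1.{0, 0}
  have := @St.n1.eq_1.{0, 0}
  have := @St.n2.eq_1.{0, 0}
  have := @St.h.eq_1.{0, 0}
  have := @St.ρ.eq_1.{0, 0}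
  have := @St.rot.eq_1.{0, 0}
  have := @St.U.eq_1.{0, 0}
  have := @St.Q.eq_1.{0, 0}
  have := @St.E.eq_1.{0, 0}
  have := @St.Z.eq_1.{0, 0}
  have := @St.P0.eq_1.{0, 0}
  have := @St.Ct.eq_1.{0, 0}
  have := @St.Cn.eq_1.{0, 0}
  have := @St.Act.eq_1.{0, 0}
  have := @St.C0.eq_1.{0, 0}
  have := @St.Od.eq_1.{0, 0}
  have := @St.CO.eq_1.{0, 0}
  have := @St.V.eq_1.{0, 0}
  have := @St.J.eq_1.{0, 0}
  have := @St.D0.eq_1.{0, 0}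
  have := @St.DD.eq_1.{0, 0}
  have := @bar.eq_1.{0}
  have := @mu.eq_1.{0}
  have := @sg.eq_1.{0}
  have := @B4.eq_1.{0}
  have := @Z2.Y4.eq_1.{0, 0}
  have := @Z2.Y6.eq_1.{0, 0}
  have := @Z2.Y2.eq_1.{0, 0}
  have := @Z2.Y8.eq_1.{0, 0}
  have := @Z2.Ph.eq_1.{0, 0}
  have := @X5S.X3.eq_1.{0, 0}
  have := @X5S.D.eq_1.{0, 0}
  have := @X5S.K1.eq_1.{0, 0}
  have := @X5S.K2.eq_1.{0, 0}
  have := @Fam.G0.eq_1.{0, 0}
  trivial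

end H51.RS
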