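import Cfsg.Agent.Lib.RS4.PI

/-! Standard components of type `²F₄(q)`, package E1: see `blueprint/RS4/README.md`. -/

set_option autoImplicit false
set_option linter.unusedSectionVars false

namespace H51.RS
open Subgroup H69 H78.Oct H78.Oct.Co
open scoped commutatorElement

variable {F G : Type*} [Field F] [Tits F] [Finite F] [Group G] [Finite G]

namespace E1
variable {S : St F G} {Z : Z2 S} {g g' : G}

theorem E_le {e : Co F} (he : e ∈ Co.E) : e ∈ Co.F := by simp_all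

theorem E_sq {e : Co F} (he : e ∈ Co.E) : e * e = 1 := by
  rw [Co.mem_E] at he
  ext <;> simp [he] <;> grind

theorem two (v : F × F) : v + v = 0 := Prod.ext (CharTwo.add_self_eq_zero _) (CharTwo.add_self_eq_zero _)

/-- the candidates -/
structure E0 (Z : Z2 S) (g : G) : Prop where
  cO : S.CO g
  cW : ∀ p, g * Z.Y4 p = Z.Y4 p * g
  ph : ∃ v2 v3 v5 v6, Z.Ph g v2 v3 v5 v6
  ct : ∃ e ∈ Co.E, g * S.t * g⁻¹ = S.t * S.φ e

theorem ct_mul (h : E0 Z g) {e e' : Co F} (he' : e' ∈ Co.E) (k : g * S.t * g⁻¹ = S.t * S.φ e)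
    (k' : g' * S.t * g'⁻¹ = S.t * S.φ e') : g * g' * S.t * (g * g')⁻¹ = S.t * S.φ e * S.φ e' := by
  obtain ⟨v2, v3, v5, v6, hv⟩ := h.ph
  calc g * g' * S.t * (g * g')⁻¹ = g * (g' * S.t * g'⁻¹) * g⁻¹ := by group
    _ = g * S.t * g⁻¹ * (g * S.φ e' * g⁻¹) := by rw [k']; group
    _ = _ := by rw [k, hv.cF (E_le he'), mul_inv_cancel_right]

theorem E0.mul (h : E0 Z g) (h' : E0 Z g') : E0 Z (g * g') := by
  obtain ⟨v2, v3, v5, v6, hv⟩ := h.ph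
  obtain ⟨u2, u3, u5, u6, hu⟩ := h'.ph
  obtain ⟨e, he, k⟩ := h.ct
  obtain ⟨e', he', k'⟩ := h'.ct
  exact ⟨h.cO.mul h'.cO, fun p => by rw [mul_assoc, h'.cW, ← mul_assoc, h.cW, mul_assoc],
    ⟨_, _, _, _, hv.mul hu h.cW⟩, e * e', mul_mem he he', by rw [ct_mul h he' k k', map_mul, mul_assoc]⟩

theorem E0.inv (h : E0 Z g) : E0 Z g⁻¹ := by
  obtain ⟨v2, v3, v5, v6, hv⟩ := h.ph
  obtain ⟨e, he, k⟩ := h.ct
  refine ⟨h.cO.inv, fun p => (Commute.inv_left (h.cW p) :), ⟨_, _, _, _, hv.inv h.cW⟩, e⁻¹, inv_mem he, ?_⟩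
  have c : g⁻¹ * S.φ e * g = S.φ e := by rw [mul_assoc, ← hv.cF (E_le he), inv_mul_cancel_left]
  calc g⁻¹ * S.t * g⁻¹⁻¹ = g⁻¹ * (S.t * S.φ e) * g * (g⁻¹ * S.φ e * g)⁻¹ := by group
    _ = _ := by rw [← k, c, map_inv]; group

theorem cz (h : E0 Z g) (a : F) : g * S.z4 a = S.z4 a * g := by rw [← Z.Y4_ext, h.cW]

theorem cm (d : S.Db) (h : E0 Z g) (h' : E0 Z g') {a : F} (sq : g * g = S.z4 a) :
    ∃ b, g * g' = g' * g * S.z4 b := by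
  obtain ⟨v2, v3, v5, v6, hv⟩ := h.ph
  obtain ⟨u2, u3, u5, u6, hu⟩ := h'.ph
  obtain ⟨e, he, k⟩ := h.ct
  obtain ⟨e', he', k'⟩ := h'.ct
  have x := (h'.mul h).inv.mul (h.mul h')
  have p := ((hu.mul hv h'.cW).inv (h'.mul h).cW).mul (hv.mul hu h.cW) (h'.mul h).inv.cW
  rw [add_comm u2, add_comm u3, add_comm u5, add_comm u6, two, two, two, two] at p
  have t : (g' * g)⁻¹ * (g * g') * S.t * ((g' * g)⁻¹ * (g * g'))⁻¹ = S.t := by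
    have k1 := ct_mul h he' k k'
    have k2 := ct_mul h' he k' k
    rw [mul_assoc S.t, (Z2.ph_E (Z := Z) he').cF (E_le he), ← mul_assoc S.t, ← k1] at k2
    calc _ = (g' * g)⁻¹ * (g * g' * S.t * (g * g')⁻¹) * (g' * g) := by group
      _ = _ := by rw [← k2]; group
  obtain ⟨q, o, ho, e1⟩ := Z.tr d p.cent (one_mem _) (by rw [t, map_one, mul_one]) x.cW
  have q2 : q.2 = 0 := by
    have k1 : Z.Y4 q * o * S.t * (Z.Y4 q * o)⁻¹ = Z.Y4 q * S.t * (Z.Y4 q)⁻¹ := by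
      rw [mul_assoc _ o, ho.1.1]; group
    rw [e1, k1, Z.Y4_t] at t
    exact S.z4_inj ((mul_eq_left.1 t).trans S.z4_zero.symm)
  have e2 : g * g' = g' * g * (Z.Y4 q * o) := by rw [← e1, mul_inv_cancel_left]
  have c : g * (Z.Y4 q * o) = Z.Y4 q * o * g := by
    rw [← mul_assoc, h.cW, mul_assoc, h.cO o ho, mul_assoc]
  have o1 : o = 1 := by
    refine ho.eq_one_sq ?_
    have k1 : g * g * g' = g' * (g * g) * (Z.Y4 q * o * (Z.Y4 q * o)) :=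
      calc g * g * g' = g * g' * (g * (Z.Y4 q * o)) := by
            conv_lhs => rw [mul_assoc, e2]
            group
        _ = g' * (g * (Z.Y4 q * o * g)) * (Z.Y4 q * o) := by rw [e2]; group
        _ = _ := by rw [← c]; group
    rw [sq, ← cz h'] at k1
    have k2 := left_eq_mul.1 k1
    rwa [mul_assoc, ← mul_assoc o, ← Z.Y4_CO q o ho, mul_assoc, ← mul_assoc, Z.Y4_sq, one_mul] at k2
  refine ⟨q.1, ?_⟩
  rw [e2, o1, mul_one, ← Z.Y4_ext, ← q2]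

theorem e0_one : E0 Z 1 :=
  ⟨S.co_L (one_mem _), fun _ => by rw [one_mul, mul_one], ⟨_, _, _, _, Z2.ph_zero fun _ _ => by
    rw [one_mul, mul_one]⟩, 1, one_mem _, by simp⟩

/-- the doubled group -/
def Es (d : S.Db) (Z : Z2 S) : Subgroup G where
  carrier := {g | E0 Z g ∧ ∃ a, g * g = S.z4 a}
  one_mem' := ⟨e0_one, 0, by rw [one_mul, S.z4_zero]⟩
  inv_mem' := fun {g} ⟨h, a, k⟩ => ⟨h.inv, a, by rw [← _root_.mul_inv_rev, k, S.z4_inv]⟩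
  mul_mem' := fun {g g'} ⟨h, a, k⟩ ⟨h', a', k'⟩ => ⟨h.mul h', by
    obtain ⟨b, e⟩ := cm d h' h k'
    refine ⟨a + (b + a'), ?_⟩
    calc g * g' * (g * g') = g * (g' * g) * g' := by group
      _ = g * g * (g' * S.z4 b) * g' := by rw [e]; group
      _ = _ := by rw [cz h', S.z4_add, S.z4_add, ← k, ← k']; group⟩

theorem conj {d : S.Db} {n : G} (h : g ∈ Es d Z) (ht : n * S.t = S.t * n)
    (hW : ∀ p, ∃ p', n * Z.Y4 p' * n⁻¹ = Z.Y4 p) (hE : ∀ e ∈ Co.E, ∃ e' ∈ Co.E, n * S.φ e * n⁻¹ = S.φ e')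
    (hz : ∀ a, ∃ b, n * S.z4 a * n⁻¹ = S.z4 b) (ph : ∃ v2 v3 v5 v6, Z.Ph (n * g * n⁻¹) v2 v3 v5 v6) :
    n * g * n⁻¹ ∈ Es d Z := by
  obtain ⟨h, a, k⟩ := h
  obtain ⟨e, he, k1⟩ := h.ct
  obtain ⟨e', he', k2⟩ := hE e he
  obtain ⟨b, k3⟩ := hz a
  refine ⟨⟨h.cO.conj ht, fun p => ?_, ph, e', he', ?_⟩, b, by rw [← k3, ← k]; group⟩
  · obtain ⟨p', k4⟩ := hW p
    rw [← k4, conj_mul, conj_mul, h.cW]
  · have k4 : S.t = n * S.t * n⁻¹ := by rw [ht, mul_inv_cancel_right]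
    rw [k4, ← k2, conj_mul, conj_mul, ← k1]
    group

theorem nP {d : S.Db} (h : g ∈ Es d Z) {p : G} (hp : p ∈ S.P0) : p * g * p⁻¹ ∈ Es d Z := by
  obtain ⟨v2, v3, v5, v6, hv⟩ := h.1.ph
  exact conj h (S.t_comm (S.P0_le_L hp)).symm (fun q => ⟨q, by rw [← Z.Y4_P0 q hp, mul_inv_cancel_right]⟩)
    (fun _ he => S.P0_conj_E hp he) (fun a => ⟨a, by rw [S.P0_z4 hp, mul_inv_cancel_right]⟩) (hv.p0 hp)

theorem m6 (d : S.Db) (p : F × F) : Z.Y6 p ∈ Es d Z :=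
  ⟨⟨Z.Y6_CO p, fun q => (Z.Y46 q p).symm, ⟨_, _, _, _, Z2.ph_Y6 p⟩, y6 0 p.2, by simp, Z.Y6_t p⟩, 0,
    by rw [Z.Y6_sq, S.z4_zero]⟩

end E1

open E1 in
theorem Z2.ea {S : St F G} (h : S.Db) (Z : Z2 S) : ∃ Es, Z.EA Es := by
  refine ⟨Es h Z, fun g hg => hg.1.ph, fun g hg => hg.1.ct, fun g hg => hg.1.cW, fun g hg => hg.1.cO,
    fun g hg hQ => ?_, fun g hg => hg.2, fun g hg g' hg' => ?_, fun g hg => ?_, fun p => ?_, m6 h,
    fun p => nP (m6 h p) S.n2_memP, fun g hg => ?_, fun g hg c k => ?_, fun g hg p hp => nP hg hp⟩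
  · obtain ⟨e, he, k⟩ := hg.1.ct
    obtain ⟨a, k1⟩ := hg.2
    obtain ⟨p, o, ho, e1⟩ := Z.tr h hQ he k hg.1.cW
    rw [e1, mul_assoc, ← mul_assoc o, ← Z.Y4_CO p o ho, mul_assoc, ← mul_assoc, Z.Y4_sq, one_mul] at k1
    exact ⟨p, by rw [e1, ho.eq_one_sq ((ho.1.mul ho.1).eq_one (k1 ▸ S.φ_mem _)), mul_one]⟩
  · obtain ⟨a, k⟩ := hg.2
    exact cm h hg.1 hg'.1 k
  · obtain ⟨e, he, rfl⟩ := S.mem_E.1 hg
    exact ⟨⟨S.co_L (S.φ_mem e), fun p => (Z.Y4_P0 p (S.φ_memP e)).symm, ⟨_, _, _, _, Z2.ph_E he⟩, 1,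
      one_mem _, by rw [S.conj_t (S.φ_mem e), map_one, mul_one]⟩, 0,
      by rw [← map_mul, E_sq he, map_one, S.z4_zero]⟩
  · exact ⟨⟨Z.Y4_CO p, fun q => by rw [← Z.Y4_add, ← Z.Y4_add, add_comm], ⟨_, _, _, _, Z2.ph_Y4 p⟩,
      y4 0 p.2, by simp, Z.Y4_t p⟩, 0, by rw [Z.Y4_sq, S.z4_zero]⟩
  · obtain ⟨v2, v3, v5, v6, hv⟩ := hg.1.ph
    refine conj hg rfl (fun p => ⟨bar p, ?_⟩) (fun e he => ⟨e, he, by rw [S.t_φ, mul_inv_cancel_right]⟩)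
      (fun a => ⟨a, by rw [S.t_φ, mul_inv_cancel_right]⟩) ⟨_, _, _, _, hv.t⟩
    rw [Z.t_Y4]
    congr 1
    exact Prod.ext (by simp [bar, add_assoc, CharTwo.add_self_eq_zero]) rfl
  · obtain ⟨v2, v3, v5, v6, hv⟩ := hg.1.ph
    refine conj hg (S.t_comm (S.h_mem c k)).symm (fun p => ⟨((c : F) * σ (c : F))⁻¹ • p, ?_⟩)
      (fun e he => S.norm_E (S.h_normP c k) he) (fun a => ⟨_, S.h_z4 c k a⟩) ⟨_, _, _, _, hv.h c k⟩
    rw [Z.h_Y4, smul_inv_smul₀ (mul_ne_zero c.ne_zero (σ_ne c.ne_zero))]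

end H51.RS
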