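import Cfsg.Agent.Lib.RS4.PI

/-! Standard components of type `²F₄(q)`, package E2: see `blueprint/RS4/README.md`. -/

set_option autoImplicit false
set_option linter.unusedSectionVars false

namespace H51.RS
open Subgroup H69 H78.Oct H78.Oct.Co
open scoped commutatorElement

variable {F G : Type*} [Field F] [Tits F] [Finite F] [Group G] [Finite G]

namespace E2

/-- the vectors -/
abbrev V4 (F : Type*) := (F × F) × (F × F) × (F × F) × (F × F)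

theorem add_self2 (x : F) : x + x = 0 := CharTwo.add_self_eq_zero x

theorem add_selfp (p : F × F) : p + p = 0 := Prod.ext (add_self2 _) (add_self2 _)

theorem fix0 {c x : F} (hc : c ≠ 1) (h : x = c * x) : x = 0 := by
  have : (1 - c) * x = 0 := by rw [sub_mul, one_mul, ← h, sub_self]
  rcases mul_eq_zero.1 this with h1 | h1
  · exact absurd (sub_eq_zero.1 h1).symm hc
  · exact h1

/-- the algebraic core -/
theorem core {a : V4 F → V4 F → F} {q : V4 F → F} {N : F} (hN : N ≠ 1)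
    (add : ∀ u v w, a (u + v) w = a u w + a v w) (symm : ∀ u v, a u v = a v u)
    (qadd : ∀ u v, q (u + v) = q u + q v + a u v)
    (ah : ∀ p r, a (0, 0, p, 0) (0, 0, r, 0) = N * a (0, 0, p, 0) (0, 0, r, 0))
    (qh : ∀ p, q (0, 0, p, 0) = N * q (0, 0, p, 0))
    (an : ∀ v2 v3 v5 v6 w2 w3 w5 w6, a (v6, v5, v3, v2) (w6, w5, w3, w2) = a (v2, v3, v5, v6) (w2, w3, w5, w6))
    (qn : ∀ v2 v3 v5 v6, q (v6, v5, v3, v2) = q (v2, v3, v5, v6))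
    (a01 : ∀ p r, a (p, 0, p, p) (0, 0, 0, r) = a (p, 0, 0, 0) (0, 0, 0, r))
    (a10 : ∀ p r, a (p, p, p, p) (0, 0, 0, r) = a (p, 0, 0, 0) (0, 0, 0, r))
    (a10' : ∀ p r, a (p, p, p, p) (0, 0, r, r) = a (p, 0, 0, 0) (0, 0, r, 0))
    (q0 : ∀ (u : F) p, q (p, 0, u • p, σ u • p) = q (p, 0, 0, 0))
    (a66 : ∀ p r, a (0, 0, 0, p) (0, 0, 0, r) = 0) (q6 : ∀ p, q (0, 0, 0, p) = 0)
    (re : ∀ x r, a ((x, 0), 0, 0, 0) (0, 0, 0, r) = 0) :
    (∀ u v, a u v = 0) ∧ ∀ u, q u = 0 := by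
  have add' : ∀ u v w, a w (u + v) = a w u + a w v := fun u v w => by
    rw [symm, add, symm u, symm v]
  have dec : ∀ v2 v3 v5 v6 : F × F, ((v2, v3, v5, v6) : V4 F) =
      (v2, 0, 0, 0) + (0, v3, 0, 0) + (0, 0, v5, 0) + (0, 0, 0, v6) := fun _ _ _ _ => by simp
  have z0 : ∀ w, a (0, 0, 0, 0) w = 0 := fun w => by
    have := add (0, 0, 0, 0) (0, 0, 0, 0) w
    simpa using this
  have decl : ∀ v2 v3 v5 v6 w, a (v2, v3, v5, v6) w =
      a (v2, 0, 0, 0) w + a (0, v3, 0, 0) w + a (0, 0, v5, 0) w + a (0, 0, 0, v6) w := fun v2 v3 v5 v6 w => by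
    rw [← add, ← add, ← add, ← dec]
  have decr : ∀ v2 v3 v5 v6 w, a w (v2, v3, v5, v6) =
      a w (v2, 0, 0, 0) + a w (0, v3, 0, 0) + a w (0, 0, v5, 0) + a w (0, 0, 0, v6) := fun v2 v3 v5 v6 w => by
    rw [← add', ← add', ← add', ← dec]
  have z0' : ∀ w, a w (0, 0, 0, 0) = 0 := fun w => by rw [symm, z0]
  have a22 : ∀ p r, a (p, 0, 0, 0) (r, 0, 0, 0) = 0 := fun p r => by rw [← an, a66]
  have a56 : ∀ p r, a (0, 0, p, 0) (0, 0, 0, r) = 0 := fun p r => by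
    have := a01 p r
    rw [decl, z0, a66] at this
    simpa using this
  have a36 : ∀ p r, a (0, p, 0, 0) (0, 0, 0, r) = 0 := fun p r => by
    have := a10 p r
    rw [decl, a56, a66] at this
    simpa using this
  have a25 : ∀ p r, a (p, 0, 0, 0) (0, 0, r, 0) = 0 := fun p r => by rw [← an, symm, a36]
  have a23 : ∀ p r, a (p, 0, 0, 0) (0, r, 0, 0) = 0 := fun p r => by rw [← an, symm, a56]
  have a55 : ∀ p r, a (0, 0, p, 0) (0, 0, r, 0) = 0 := fun p r => fix0 hN (ah p r)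
  have a33 : ∀ p r, a (0, p, 0, 0) (0, r, 0, 0) = 0 := fun p r => by rw [← an, a55]
  have q5 : ∀ p, q (0, 0, p, 0) = 0 := fun p => fix0 hN (qh p)
  have q3 : ∀ p, q (0, p, 0, 0) = 0 := fun p => by rw [← qn, q5]
  have q2 : ∀ p, q (p, 0, 0, 0) = 0 := fun p => by rw [← qn, q6]
  have b26 : ∀ (l : F) p, a (p, 0, 0, 0) (0, 0, 0, l • p) = 0 := fun l p => by
    have := q0 (σ.symm l) p
    rw [RingEquiv.apply_symm_apply, dec p, qadd, qadd, qadd, add, add, add, q2, q3, q5, q6, a23, a25, a36, a56,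
      z0] at this
    simpa using this
  have re' : ∀ p y, a (p, 0, 0, 0) (0, 0, 0, (y, 0)) = 0 := fun p y => by rw [← an, symm, re]
  have a26 : ∀ p r, a (p, 0, 0, 0) (0, 0, 0, r) = 0 := fun p r => by
    have e1 : ((p, 0, 0, 0) : V4 F) = ((p.1, 0), 0, 0, 0) + ((0, p.2), 0, 0, 0) := by simp
    have e2 : ((0, 0, 0, r) : V4 F) = (0, 0, 0, (r.1, 0)) + (0, 0, 0, (0, r.2)) := by simp
    rw [e1, add, re, e2, add', re', zero_add, zero_add]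
    by_cases h : p.2 = 0
    · rw [h]; exact z0 _
    · have e3 : (((0 : F), r.2) : F × F) = (r.2 * p.2⁻¹) • ((0 : F), p.2) := by
        simp [inv_mul_cancel_right₀ h]
      rw [e3]; exact b26 _ _
  have a35 : ∀ p r, a (0, p, 0, 0) (0, 0, r, 0) = 0 := fun p r => by
    have := a10' p r
    rw [decl, decr 0 0 r r (p, 0, 0, 0), decr 0 0 r r (0, p, 0, 0), decr 0 0 r r (0, 0, p, 0),
      decr 0 0 r r (0, 0, 0, p), symm (0, 0, 0, p) (0, 0, r, 0)] at this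
    simpa only [z0', a25, a26, a36, a55, a56, a66, add_zero, zero_add] using this
  have all : ∀ u v, a u v = 0 := by
    rintro ⟨u2, u3, u5, u6⟩ ⟨v2, v3, v5, v6⟩
    rw [decl, decr v2 v3 v5 v6 (u2, 0, 0, 0), decr v2 v3 v5 v6 (0, u3, 0, 0), decr v2 v3 v5 v6 (0, 0, u5, 0),
      decr v2 v3 v5 v6 (0, 0, 0, u6), symm (0, u3, 0, 0) (v2, 0, 0, 0), symm (0, 0, u5, 0) (v2, 0, 0, 0),
      symm (0, 0, u5, 0) (0, v3, 0, 0), symm (0, 0, 0, u6) (v2, 0, 0, 0), symm (0, 0, 0, u6) (0, v3, 0, 0),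
      symm (0, 0, 0, u6) (0, 0, v5, 0)]
    simp only [a22, a23, a25, a26, a33, a35, a36, a55, a56, a66, add_zero]
  refine ⟨all, ?_⟩
  rintro ⟨u2, u3, u5, u6⟩
  rw [dec, qadd, qadd, qadd]
  simp only [all, q2, q3, q5, q6, add_zero]

variable {S : St F G} {Z : Z2 S} {Es : Subgroup G}

/-- `g ∈ Es` has the vector `v` -/
def Lf (Z : Z2 S) (Es : Subgroup G) (g : G) (v : V4 F) : Prop := g ∈ Es ∧ Z.Ph g v.1 v.2.1 v.2.2.1 v.2.2.2

theorem Lf.cast {g : G} {v w : V4 F} (h1 : Lf Z Es g v) (e : v = w) : Lf Z Es g w := e ▸ h1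

theorem Lf.mul (h : Z.EA Es) {g g' : G} {v w : V4 F} (h1 : Lf Z Es g v) (h2 : Lf Z Es g' w) :
    Lf Z Es (g * g') (v + w) := ⟨Es.mul_mem h1.1 h2.1, h1.2.mul h2.2 (h.cW g h1.1)⟩

theorem Lf.n2 (h : Z.EA Es) {g : G} {v2 v3 v5 v6 : F × F} (h1 : Lf Z Es g (v2, v3, v5, v6)) :
    Lf Z Es (S.n2 * g * S.n2⁻¹) (v6, v5, v3, v2) := ⟨h.nP g h1.1 _ S.n2_memP, h1.2.n2⟩

theorem Lf.y8 (h : Z.EA Es) {g : G} {v2 v3 v5 v6 : F × F} (h1 : Lf Z Es g (v2, v3, v5, v6)) (s v : F) :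
    Lf Z Es (S.φ (y8 s v) * g * (S.φ (y8 s v))⁻¹) (v2, s • v2 + v3, (s * σ s + v) • v2 + σ s • v3 + v5,
      (s ^ 2 * σ s + s * v + σ v) • v2 + v • v3 + s • v5 + v6) :=
  ⟨h.nP g h1.1 _ (S.φ_memP _), h1.2.y8 s v⟩

theorem lf2 (h : Z.EA Es) (p : F × F) : Lf Z Es (Z.Y2 p) (p, 0, 0, 0) := ⟨h.m2 p, Z2.ph_Y2 p⟩

theorem lf6 (h : Z.EA Es) (p : F × F) : Lf Z Es (Z.Y6 p) (0, 0, 0, p) := ⟨h.m6 p, Z2.ph_Y6 p⟩

theorem ex5 (h : Z.EA Es) (p : F × F) : ∃ g, Lf Z Es g (0, 0, p, 0) := by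
  have := (((lf2 h p).y8 h 0 1).mul h (lf2 h p)).mul h (lf6 h p)
  exact ⟨_, this.cast (by simp [add_selfp])⟩

theorem ex (h : Z.EA Es) (v : V4 F) : ∃ g, Lf Z Es g v := by
  obtain ⟨v2, v3, v5, v6⟩ := v
  obtain ⟨g3, h3⟩ := ex5 h v3
  obtain ⟨g5, h5⟩ := ex5 h v5
  have := (((lf2 h v2).mul h (h3.n2 h)).mul h h5).mul h (lf6 h v6)
  exact ⟨_, this.cast (by simp)⟩

theorem cz (h : Z.EA Es) {g : G} (hg : g ∈ Es) (a : F) : g * S.z4 a = S.z4 a * g := by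
  rw [← Z.Y4_ext]; exact h.cW g hg _

theorem exA (h : Z.EA Es) (v w : V4 F) : ∃ a, ∀ g g', Lf Z Es g v → Lf Z Es g' w → g * g' = g' * g * S.z4 a := by
  obtain ⟨x, hx⟩ := ex h v
  obtain ⟨y, hy⟩ := ex h w
  obtain ⟨a, ha⟩ := h.cm x hx.1 y hy.1
  refine ⟨a, fun g g' hg hg' => ?_⟩
  obtain ⟨p, rfl⟩ := h.diff hg.1 hx.1 hg.2 hx.2
  obtain ⟨r, rfl⟩ := h.diff hg'.1 hy.1 hg'.2 hy.2
  have c1 : Commute x (Z.Y4 r) := h.cW x hx.1 r
  have c2 : Commute y (Z.Y4 p) := h.cW y hy.1 p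
  have c3 : Commute (Z.Y4 p) (Z.Y4 r) := h.cW _ (h.m4 p) r
  have c4 : Commute (Z.Y4 p) (S.z4 a) := cz h (h.m4 p) a
  have c5 : Commute (Z.Y4 r) (S.z4 a) := cz h (h.m4 r) a
  calc x * Z.Y4 p * (y * Z.Y4 r) = x * (Z.Y4 p * y) * Z.Y4 r := by group
    _ = (x * y) * (Z.Y4 p * Z.Y4 r) := by rw [← c2.eq]; group
    _ = y * x * (S.z4 a * (Z.Y4 r * Z.Y4 p)) := by rw [ha, c3.eq]; group
    _ = y * (x * Z.Y4 r) * Z.Y4 p * S.z4 a := by rw [← (c5.mul_left c4).eq]; group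
    _ = _ := by rw [c1.eq]; group

theorem exq (h : Z.EA Es) (v : V4 F) : ∃ a, ∀ g, Lf Z Es g v → g * g = S.z4 a := by
  obtain ⟨x, hx⟩ := ex h v
  obtain ⟨a, ha⟩ := h.sq x hx.1
  refine ⟨a, fun g hg => ?_⟩
  obtain ⟨p, rfl⟩ := h.diff hg.1 hx.1 hg.2 hx.2
  have c1 : Commute x (Z.Y4 p) := h.cW x hx.1 p
  calc x * Z.Y4 p * (x * Z.Y4 p) = x * (Z.Y4 p * x) * Z.Y4 p := by group
    _ = x * x * (Z.Y4 p * Z.Y4 p) := by rw [← c1.eq]; group
    _ = _ := by rw [ha, Z.Y4_sq, mul_one]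

end E2

open E2 in
theorem Z2.EA.eb {S : St F G} {Z : Z2 S} {Es : Subgroup G} (h : Z.EA Es) : Z.EB Es := by
  choose a ha using exA h
  choose q hq using exq h
  have aeq : ∀ {v w g g' c}, Lf Z Es g v → Lf Z Es g' w → g * g' = g' * g * S.z4 c → a v w = c :=
    fun {v w g g' c} h1 h2 e => S.z4_inj (mul_left_cancel ((ha v w g g' h1 h2).symm.trans e))
  have qeq : ∀ {v g c}, Lf Z Es g v → g * g = S.z4 c → q v = c :=
    fun {v g c} h1 e => S.z4_inj ((hq v g h1).symm.trans e)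
  have acj : ∀ {v w v' w' g g'} (p : G) (μ : F), (∀ c, p * S.z4 c * p⁻¹ = S.z4 (μ * c)) → Lf Z Es g v →
      Lf Z Es g' w → Lf Z Es (p * g * p⁻¹) v' → Lf Z Es (p * g' * p⁻¹) w' → a v' w' = μ * a v w := by
    intro v w v' w' g g' p μ hp h1 h2 h3 h4
    refine aeq h3 h4 ?_
    rw [← hp]
    calc p * g * p⁻¹ * (p * g' * p⁻¹) = p * (g * g') * p⁻¹ := by group
      _ = _ := by rw [ha v w g g' h1 h2]; group
  have qcj : ∀ {v v' g} (p : G) (μ : F), (∀ c, p * S.z4 c * p⁻¹ = S.z4 (μ * c)) → Lf Z Es g v →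
      Lf Z Es (p * g * p⁻¹) v' → q v' = μ * q v := by
    intro v v' g p μ hp h1 h3
    refine qeq h3 ?_
    rw [← hp]
    calc p * g * p⁻¹ * (p * g * p⁻¹) = p * (g * g) * p⁻¹ := by group
      _ = _ := by rw [hq v g h1]
  have hP : ∀ p ∈ S.P0, ∀ c, p * S.z4 c * p⁻¹ = S.z4 (1 * c) := fun p hp c => by
    rw [one_mul, S.P0_z4 hp, mul_inv_cancel_right]
  obtain ⟨c, -, hc, -⟩ := exists_unit S.big
  have h5 : ∀ {g p}, Lf Z Es g (0, 0, p, 0) → Lf Z Es (S.h c c⁻¹ * g * (S.h c c⁻¹)⁻¹) (0, 0, p, 0) := by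
    intro g p h1
    refine ⟨h.nh g h1.1 _ _, ?_⟩
    have := h1.2.h c c⁻¹
    simpa using this
  have key : (∀ u v, a u v = 0) ∧ ∀ u, q u = 0 := by
    refine core hc ?_ ?_ ?_ ?_ ?_ ?_ ?_ ?_ ?_ ?_ ?_ ?_ ?_ ?_
    · intro u v w
      obtain ⟨x, hx⟩ := ex h u
      obtain ⟨y, hy⟩ := ex h v
      obtain ⟨g, hg⟩ := ex h w
      refine aeq (hx.mul h hy) hg ?_
      calc x * y * g = x * (y * g) := by group
        _ = (x * g) * y * S.z4 (a v w) := by rw [ha v w y g hy hg]; group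
        _ = g * x * (S.z4 (a u w) * y) * S.z4 (a v w) := by rw [ha u w x g hx hg]; group
        _ = _ := by rw [← cz h hy.1, S.z4_add]; group
    · intro u v
      obtain ⟨x, hx⟩ := ex h u
      obtain ⟨y, hy⟩ := ex h v
      refine aeq hx hy ?_
      rw [ha v u y x hy hx, mul_assoc, S.z4_sq, mul_one]
    · intro u v
      obtain ⟨x, hx⟩ := ex h u
      obtain ⟨y, hy⟩ := ex h v
      refine qeq (hx.mul h hy) ?_
      have e : y * x = x * y * S.z4 (a u v) := by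
        rw [ha u v x y hx hy, mul_assoc, S.z4_sq, mul_one]
      calc x * y * (x * y) = x * (y * x) * y := by group
        _ = x * x * y * (S.z4 (a u v) * y) := by rw [e]; group
        _ = (x * x) * (y * y) * S.z4 (a u v) := by rw [← cz h hy.1]; group
        _ = _ := by rw [hq u x hx, hq v y hy, S.z4_add, S.z4_add]
    · intro p r
      obtain ⟨x, hx⟩ := ex h (0, 0, p, 0)
      obtain ⟨y, hy⟩ := ex h (0, 0, r, 0)
      exact acj _ _ (S.h_z4 c c⁻¹) hx hy (h5 hx) (h5 hy)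
    · intro p
      obtain ⟨x, hx⟩ := ex h (0, 0, p, 0)
      exact qcj _ _ (S.h_z4 c c⁻¹) hx (h5 hx)
    · intro v2 v3 v5 v6 w2 w3 w5 w6
      obtain ⟨x, hx⟩ := ex h (v2, v3, v5, v6)
      obtain ⟨y, hy⟩ := ex h (w2, w3, w5, w6)
      rw [acj _ _ (hP _ S.n2_memP) hx hy (hx.n2 h) (hy.n2 h), one_mul]
    · intro v2 v3 v5 v6
      obtain ⟨x, hx⟩ := ex h (v2, v3, v5, v6)
      rw [qcj _ _ (hP _ S.n2_memP) hx (hx.n2 h), one_mul]
    · intro p r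
      have := acj _ _ (hP _ (S.φ_memP (y8 0 1))) (lf2 h p) (lf6 h r) ((lf2 h p).y8 h 0 1) ((lf6 h r).y8 h 0 1)
      simpa using this
    · intro p r
      have := acj _ _ (hP _ (S.φ_memP (y8 1 0))) (lf2 h p) (lf6 h r) ((lf2 h p).y8 h 1 0) ((lf6 h r).y8 h 1 0)
      simpa using this
    · intro p r
      obtain ⟨y, hy⟩ := ex h (0, 0, r, 0)
      have := acj _ _ (hP _ (S.φ_memP (y8 1 0))) (lf2 h p) hy ((lf2 h p).y8 h 1 0) (hy.y8 h 1 0)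
      simpa using this
    · intro u p
      have := qcj _ _ (hP _ (S.φ_memP (y8 0 u))) (lf2 h p) ((lf2 h p).y8 h 0 u)
      simpa using this
    · intro p r
      refine aeq (lf6 h p) (lf6 h r) ?_
      rw [S.z4_zero, mul_one, ← Z.Y6_add, ← Z.Y6_add, add_comm]
    · intro p
      refine qeq (lf6 h p) ?_
      rw [S.z4_zero, Z.Y6_sq]
    · intro x r
      refine aeq (lf2 h (x, 0)) (lf6 h r) ?_
      rw [S.z4_zero, mul_one, Z.Y2_ext]
      exact (Z.Y6_R r (by simp)).symm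
  refine { h with el := fun g hg => ?_, ab := fun g hg g' hg' => ?_ }
  · obtain ⟨v2, v3, v5, v6, hv⟩ := h.ph g hg
    rw [hq (v2, v3, v5, v6) g ⟨hg, hv⟩, key.2, S.z4_zero]
  · obtain ⟨v2, v3, v5, v6, hv⟩ := h.ph g hg
    obtain ⟨w2, w3, w5, w6, hw⟩ := h.ph g' hg'
    rw [ha (v2, v3, v5, v6) (w2, w3, w5, w6) g g' ⟨hg, hv⟩ ⟨hg', hw⟩, key.1, S.z4_zero, mul_one]

end H51.RS
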