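import Cfsg.Agent.Lib.RS4.PI

/-! Standard components of type `²F₄(q)`, package E3a: see `blueprint/RS4/README.md`. -/

set_option autoImplicit false
set_option linter.unusedSectionVars false

namespace H51.RS
open Subgroup H69 H78.Oct H78.Oct.Co
open scoped commutatorElement

variable {F G : Type*} [Field F] [Tits F] [Finite F] [Group G] [Finite G]

namespace E3a
variable {S : St F G} {Z : Z2 S} {Es : Subgroup G}

theorem dbl (p : F × F) : p + p = 0 := by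
  ext <;> simp [CharTwo.add_self_eq_zero]

theorem cg {g : G} {v2 v3 v5 v6 u2 u3 u5 u6 : F × F} (h : Z.Ph g v2 v3 v5 v6) (e2 : v2 = u2) (e3 : v3 = u3)
    (e5 : v5 = u5) (e6 : v6 = u6) : Z.Ph g u2 u3 u5 u6 := e2 ▸ e3 ▸ e5 ▸ e6 ▸ h

theorem lift (h : Z.EA Es) (p : F × F) : ∃ g ∈ Es, Z.Ph g 0 0 p 0 := by
  have m1 := h.nP _ (h.m2 p) _ (S.φ_memP (y8 0 1))
  have m2 := mul_mem m1 (h.m2 p)
  refine ⟨_, mul_mem m2 (h.m6 p), cg (((((Z2.ph_Y2 p).y8 0 1).mul (Z2.ph_Y2 p) (h.cW _ m1)).mul (Z2.ph_Y6 p)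
    (h.cW _ m2))) ?_ ?_ ?_ ?_⟩ <;> simp [dbl]

theorem conj_c {n a y : G} (hn : a * n = n * a) :
    a * (n * y * n⁻¹) * a⁻¹ = n * (a * y * a⁻¹) * n⁻¹ := by
  calc _ = a * n * y * (a * n)⁻¹ := by group
    _ = _ := by rw [hn]; group

theorem exu (h : Z.EA Es) {c : Fˣ} (hc : (c : F) * σ (c : F) ≠ 1) (p : F × F) :
    ∃! g, g ∈ Es ∧ Z.Ph g 0 0 p 0 ∧ S.h c c⁻¹ * g * (S.h c c⁻¹)⁻¹ = g := by
  have h1 : (1 + (c : F) * σ (c : F)) ≠ 0 := fun e => hc (by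
    rw [← add_zero ((c : F) * σ (c : F)), ← e, add_left_comm, CharTwo.add_self_eq_zero, add_zero])
  obtain ⟨g, hg, q⟩ := lift h p
  obtain ⟨d, e⟩ := h.diff (h.nh g hg c c⁻¹) hg (cg (q.h c c⁻¹) (by simp) (by simp) (by simp) (by simp)) q
  refine existsUnique_of_exists_of_unique ⟨g * Z.Y4 ((1 + (c : F) * σ (c : F))⁻¹ • d),
    mul_mem hg (h.m4 _), cg (q.mul (Z2.ph_Y4 _) (h.cW g hg)) ?_ ?_ ?_ ?_, ?_⟩ ?_
  iterate 4 simp
  · rw [← conj_mul, e, Z.h_Y4, mul_assoc, ← Z.Y4_add]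
    congr 2
    generalize (c : F) * σ (c : F) = N at h1
    have : N * (1 + N)⁻¹ + 1 = (1 + N)⁻¹ := by
      field_simp
      rw [add_left_comm, CharTwo.add_self_eq_zero, add_zero]
    conv_rhs => rw [← this]
    rw [smul_smul, add_smul, one_smul, add_comm]
  · rintro y y' ⟨a1, a2, a3⟩ ⟨b1, b2, b3⟩
    obtain ⟨f, rfl⟩ := h.diff a1 b1 a2 b2
    rw [← conj_mul, b3, Z.h_Y4, mul_right_inj] at a3
    have e1 := Z.Y4_inj a3
    have e2 : (1 + (c : F) * σ (c : F)) • f = 0 := by rw [add_smul, e1, one_smul, dbl]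
    rw [(smul_eq_zero.1 e2).resolve_left h1, Z.Y4_zero, mul_one]

end E3a

open E3a in
theorem Z2.EB.exX {S : St F G} {Z : Z2 S} {Es : Subgroup G} (h : Z.EB Es) : ∃ X : F × F → G,
    (∀ p, X p ∈ Es) ∧ (∀ p, Z.Ph (X p) 0 0 p 0) ∧ (∀ p q, X (p + q) = X p * X q) ∧
    (∀ a, X (a, 0) = S.φ (x5 a)) ∧ (∀ c k p, S.h c k * X p * (S.h c k)⁻¹ = X (((c : F) * k) • p)) ∧
    (∀ p, S.t * X p * S.t⁻¹ = X (bar p)) := by
  obtain ⟨c, -, hc, -⟩ := exists_unit (F := F) S.big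
  have h := h.toEA
  choose X hX hu using exu h hc
  have e5 : ∀ a : F, x5 a ∈ Co.E := fun a => by simp [Co.E, x5]
  refine ⟨X, fun k => (hX k).1, fun k => (hX k).2.1, fun a b => (hu _ _ ⟨mul_mem (hX a).1 (hX b).1,
    ?_, by rw [← conj_mul, (hX a).2.2, (hX b).2.2]⟩).symm, fun a => (hu _ _ ⟨h.Ele (S.φ_memE (e5 a)),
    ?_, ?_⟩).symm, fun l m k => hu _ _ ⟨h.nh _ (hX k).1 l m, ?_, ?_⟩, fun k => hu _ _ ⟨h.nt _ (hX k).1, ?_, ?_⟩⟩
  · exact cg ((hX a).2.1.mul (hX b).2.1 (h.cW _ (hX a).1)) (by simp) (by simp) rfl (by simp)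
  · exact cg (Z2.ph_E (e5 a)) rfl rfl rfl rfl
  · rw [S.h_φ]
    congr 1
    ext <;> simp [tor, x5]
  · exact cg ((hX k).2.1.h l m) (by simp) (by simp) rfl (by simp)
  · rw [conj_c (S.h_comm _ _ _ _), (hX k).2.2]
  · exact cg (hX k).2.1.t (by simp [bar]) (by simp [bar]) rfl (by simp [bar])
  · rw [conj_c (S.t_comm (S.h_mem _ _)).symm, (hX k).2.2]

end H51.RS
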