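import Cfsg.Agent.Lib.RS4.E3a

/-! Standard components of type `²F₄(q)`, package E3b: see `blueprint/RS4/README.md`. -/

set_option autoImplicit false
set_option linter.unusedSectionVars false

namespace H51.RS
open Subgroup H69 H78.Oct H78.Oct.Co
open scoped commutatorElement

variable {F G : Type*} [Field F] [Tits F] [Finite F] [Group G] [Finite G]

namespace E3b
variable {S : St F G} {Z : Z2 S}

/-- an element with vector `(0, 0, p, 0)` centralises the elements of `Q` with `a₂ = 0` -/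
theorem ph_comm {g : G} {p : F × F} (h : Z.Ph g 0 0 p 0) {x : Co F} (hx : x ∈ Co.Q) (h2 : x.a2 = 0) :
    Commute g (S.φ x) := by
  have := h x hx
  rw [h2, smul_zero, smul_zero, smul_zero, zero_smul, add_zero, add_zero, add_zero, Z.Y4_zero, mul_one,
    mul_inv_eq_iff_eq_mul] at this
  exact this

theorem comm_conj {n a b : G} (h : Commute a b) : Commute (n * a * n⁻¹) (n * b * n⁻¹) := by
  have := h.map (MulAut.conj n)
  simpa only [MulAut.conj_apply] using this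

theorem n1_n1 (g : G) : S.n1 * (S.n1 * g * S.n1⁻¹) * S.n1⁻¹ = g := by
  rw [S.n1_inv]
  calc _ = S.n1 * S.n1 * g * (S.n1 * S.n1) := by group
    _ = g := by rw [S.n11, one_mul, mul_one]

theorem ph_comm' {g : G} {p : F × F} (h : Z.Ph g 0 0 p 0) {x : Co F} (hx : Mid x) :
    Commute (S.n1 * g * S.n1⁻¹) (S.φ x) := by
  obtain ⟨h1, h2, h3, h4, h5⟩ := hx
  have k : Commute g (S.φ (w1 x)) := ph_comm h (by simp [h2, h3]) (by simp [h4])
  have := comm_conj (n := S.n1) k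
  rwa [← S.n1_φ h1, n1_n1] at this

theorem step (hd : S.Db) {Es : Subgroup G} (h : Z.EB Es) {X : F × F → G} (mem : ∀ p, X p ∈ Es)
    (ph : ∀ p, Z.Ph (X p) 0 0 p 0) (add : ∀ p q, X (p + q) = X p * X q) (ext : ∀ a, X (a, 0) = S.φ (x5 a))
    (ch : ∀ c k p, S.h c k * X p * (S.h c k)⁻¹ = X (((c : F) * k) • p))
    (ct : ∀ p, S.t * X p * S.t⁻¹ = X (bar p)) (p : F × F) : ∃ q, S.n1 * X p * S.n1⁻¹ = X q := by
  have ht : S.t * X p * S.t⁻¹ = X p * S.φ (x5 p.2) := by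
    rw [ct, ← ext, ← add]; congr 1; ext <;> simp [bar]
  have ht' : S.t * (S.n1 * X p * S.n1⁻¹) * S.t⁻¹ = S.n1 * X p * S.n1⁻¹ * S.φ (x5 p.2) := by
    have k : S.n1 * (S.t * X p * S.t⁻¹) * S.n1⁻¹ = S.n1 * (X p * S.φ (x5 p.2)) * S.n1⁻¹ := by rw [ht]
    rw [← conj_mul, ← conj_mul, ← conj_mul, S.n1_x5, S.t_inv, S.conj_t S.n1_mem] at k
    rw [S.t_inv]; exact k
  have c5 : ∀ a, S.φ (x5 a) ∈ Es := fun a => ext a ▸ mem _
  have gt : S.n1 * X p * S.n1⁻¹ * X p * S.t = S.t * (S.n1 * X p * S.n1⁻¹ * X p) := by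
    symm
    rw [← mul_inv_eq_iff_eq_mul, ← conj_mul, ht, ht', mul_assoc (S.n1 * X p * S.n1⁻¹),
      ← mul_assoc (S.φ (x5 p.2)), h.ab _ (c5 _) _ (mem p), mul_assoc (X p), h.el _ (c5 _), mul_one]
  have gw : Commute (S.n1 * X p * S.n1⁻¹ * X p) (Z.Y4 (0, 1)) := by
    refine Commute.mul_left ?_ (h.cW _ (mem p) _)
    rw [← Z.n1_Y6]
    exact comm_conj (h.ab _ (mem p) _ (h.m6 _))
  obtain ⟨a, b, e, o, ho, hg⟩ := hd.trM gt
    (fun e he => ((ph_comm' (ph p) he).mul_left (ph_comm (ph p) ⟨he.2.2.2.1, he.2.2.2.2⟩ he.2.1)).eq)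
    (Z.Y4_CO (0, 1)) (fun e _ => Z.Y4_P0 _ (S.φ_memP e)) (fun k => by
      have := Z.Y4_t (0, 1)
      rw [k, mul_inv_cancel_right, left_eq_mul, ← S.z4_zero] at this
      exact one_ne_zero (S.z4_inj this)) gw.eq
  rw [St.z4, St.z6, ← map_mul, ← map_mul] at hg
  have dE : y4 0 a * x5 b * y6 0 e ∈ (Co.E : Subgroup (Co F)) := by simp
  have dm : S.φ (y4 0 a * x5 b * y6 0 e) ∈ Es := h.Ele (S.φ_memE dE)
  have hx : S.n1 * X p * S.n1⁻¹ = S.φ (y4 0 a * x5 b * y6 0 e) * o * X p := by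
    rw [← hg, mul_assoc _ (X p) (X p), h.el _ (mem p), mul_one]
  have c1 : Commute (S.φ (y4 0 a * x5 b * y6 0 e)) o := (ho.1.φ _).symm
  have c2 : Commute (S.φ (y4 0 a * x5 b * y6 0 e)) (X p) := h.ab _ dm _ (mem p)
  have c3 : Commute o (X p) := (h.cO _ (mem p) o ho).symm
  have o1 : o = 1 := by
    refine ho.eq_one_sq ?_
    have k : S.n1 * X p * S.n1⁻¹ * (S.n1 * X p * S.n1⁻¹) = 1 := by
      rw [conj_mul, h.el _ (mem p), mul_one, mul_inv_cancel]
    rw [hx, ← sq, (c2.mul_left c3).mul_pow, c1.mul_pow, sq, sq, sq, h.el _ dm, h.el _ (mem p), one_mul,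
      mul_one] at k
    exact k
  rw [o1, mul_one] at hx
  obtain ⟨c, -, hc, -⟩ := exists_unit S.big
  have f1 : S.h c c⁻¹ * X p * (S.h c c⁻¹)⁻¹ = X p := by rw [ch, Units.mul_inv, one_smul]
  have f2 : S.h c c⁻¹ * (S.n1 * X p * S.n1⁻¹) * (S.h c c⁻¹)⁻¹ = S.n1 * X p * S.n1⁻¹ := by
    have k : S.h c⁻¹ c * X p * (S.h c⁻¹ c)⁻¹ = X p := by rw [ch, Units.inv_mul, one_smul]
    rw [← S.n1_h c⁻¹ c]
    conv_rhs => rw [← k]
    group
  rw [hx, ← conj_mul, f1, S.h_φ, mul_left_inj] at f2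
  have f3 := S.inj f2
  have ha : (c : F) * σ (c : F) * a = a := by simpa using congrArg Co.b4 f3
  have he : (c : F)⁻¹ * (σ (c : F))⁻¹ * e = e := by simpa using congrArg Co.b6 f3
  have ha0 : a = 0 := by
    by_contra k
    exact hc (mul_right_cancel₀ k (ha.trans (one_mul a).symm))
  have he0 : e = 0 := by
    by_contra k
    have := mul_right_cancel₀ k (he.trans (one_mul e).symm)
    rw [← mul_inv, inv_eq_one] at this
    exact hc this
  refine ⟨(b, 0) + p, ?_⟩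
  rw [hx, add, ext, ha0, he0]
  congr 2
  co

end E3b

theorem Z2.EB.x5s {S : St F G} (hd : S.Db) {Z : Z2 S} {Es : Subgroup G} (h : Z.EB Es) :
    Nonempty (X5S Z) := by
  obtain ⟨X, mem, ph, add, ext, ch, ct⟩ := h.exX
  refine ⟨⟨Es, h, X, mem, ph, add, ext, ch, ct, fun p => ?_⟩⟩
  have k : ∀ q, Commute (S.φ (x1 1)) (X q) := fun q => (E3b.ph_comm (ph q) (by simp) (by simp)).symm
  obtain ⟨q, hq⟩ := E3b.step hd h mem ph add ext ch ct p
  have k' : Commute (S.n1 * S.φ (x1 1) * S.n1) (X p) := by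
    have := E3b.comm_conj (n := S.n1) (k q)
    rwa [← hq, E3b.n1_n1, S.n1_inv] at this
  have k2 : Commute S.n1 (X p) := by
    have := ((k p).mul_left k').mul_left (k p)
    rwa [← S.n1_eq] at this
  rw [k2.eq, mul_inv_cancel_right]

end H51.RS
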