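import Cfsg.Agent.Lib.RS4.Bas

/-! Standard components of type `²F₄(q)`, package UA: see `blueprint/RS4/README.md`. -/

set_option autoImplicit false
set_option linter.unusedSectionVars false

namespace H51.RS
open Subgroup H69 H78.Oct H78.Oct.Co
open scoped commutatorElement

variable {F G : Type*} [Field F] [Tits F] [Finite F] [Group G] [Finite G]

theorem σ_fix {a : F} (h : σ a = a) : a = 0 ∨ a = 1 := by
  have h2 := σσ a
  rw [h, h] at h2
  have h3 : a * (a - 1) = 0 := by linear_combination -h2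
  rcases mul_eq_zero.1 h3 with h4 | h4
  · exact Or.inl h4
  · exact Or.inr (sub_eq_zero.1 h4)

namespace UA

theorem exists_ne4 (h8 : 8 ≤ Nat.card F) (a b c e : F) : ∃ d, d ≠ a ∧ d ≠ b ∧ d ≠ c ∧ d ≠ e := by
  classical
  by_contra hn
  have := Fintype.ofFinite F
  have h1 : (Finset.univ : Finset F) ⊆ {a, b, c, e} := by
    intro d _
    by_contra hd
    simp only [Finset.mem_insert, Finset.mem_singleton, not_or] at hd
    exact hn ⟨d, hd⟩
  have h2 := Finset.card_le_card h1
  have h3 : ({a, b, c, e} : Finset F).card ≤ 4 := Finset.card_le_four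
  rw [Finset.card_univ, ← Nat.card_eq_fintype_card] at h2
  omega

theorem two_zero : (2 : F) = 0 := by
  have := CharP.cast_eq_zero F 2
  exact_mod_cast this

theorem D_ne {a : F} (h0 : a ≠ 0) (h1 : a ≠ 1) : a + σ a ≠ 0 := by
  intro h
  have h2 : σ a = a := by linear_combination h - a * (two_zero : (2 : F) = 0)
  rcases σ_fix h2 with h3 | h3
  · exact h0 h3
  · exact h1 h3

theorem key {u : Co F} (g : F → Co F)
    (hg : ∀ a a', (g a')⁻¹ * g a * u = u * ((g a')⁻¹ * g a) → a = a') :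
    Nat.card (centralizer {u}) ≤ Nat.card F ^ 11 := by
  let f : F × centralizer ({u} : Set (Co F)) → Co F := fun p => g p.1 * p.2
  have hf : Function.Injective f := by
    rintro ⟨a, c⟩ ⟨a', c'⟩ h
    simp only [f] at h
    have e : (g a')⁻¹ * g a = (c' : Co F) * (c : Co F)⁻¹ := by
      rw [inv_mul_eq_iff_eq_mul, ← mul_assoc, ← h]; group
    have hm : (g a')⁻¹ * g a ∈ centralizer ({u} : Set (Co F)) := by
      rw [e]; exact mul_mem c'.2 (inv_mem c.2)
    have ha : a = a' := hg a a' (mem_centralizer_singleton_iff.1 hm)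
    subst ha
    have := mul_left_cancel h
    rw [Subtype.ext this]
  have h1 := Nat.card_le_card_of_injective f hf
  rw [Nat.card_prod, card_co, pow_succ'] at h1
  exact Nat.le_of_mul_le_mul_left h1 Nat.card_pos

theorem eq_of {a a' w : F} (hw : w ≠ 0) (h : w * (a' + a) = 0) : a = a' := by
  have h1 := (mul_eq_zero.1 h).resolve_left hw
  linear_combination h1 - a' * (two_zero : (2 : F) = 0)

theorem i1 (a a' : F) : (x1 a')⁻¹ * x1 a = x1 (a' + a) := by co
theorem i3 (a a' : F) : (x3 a')⁻¹ * x3 a = x3 (a' + a) := by co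
theorem i5 (a a' : F) : (x5 a')⁻¹ * x5 a = x5 (a' + a) := by co
theorem i7 (a a' : F) : (x7 a')⁻¹ * x7 a = x7 (a' + a) := by co
theorem iz2 (a a' : F) : (y2 0 a')⁻¹ * y2 0 a = y2 0 (a' + a) := by co
theorem iz6 (a a' : F) : (y6 0 a')⁻¹ * y6 0 a = y6 0 (a' + a) := by co
theorem iy2 (a a' : F) : (y2 a' 0)⁻¹ * y2 a 0 = y2 (a' + a) (a' * σ a + a' * σ a') := by co
theorem iy6 (a a' : F) : (y6 a' 0)⁻¹ * y6 a 0 = y6 (a' + a) (a' * σ a + a' * σ a') := by co

end UA

theorem exists_ne (h8 : 8 ≤ Nat.card F) (a b c : F) : ∃ d, d ≠ a ∧ d ≠ b ∧ d ≠ c := by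
  obtain ⟨d, h1, h2, h3, _⟩ := UA.exists_ne4 h8 a b c c
  exact ⟨d, h1, h2, h3⟩

theorem exists_unit (h8 : 8 ≤ Nat.card F) : ∃ c : Fˣ, (c : F) ≠ 1 ∧ (c : F) * σ (c : F) ≠ 1 ∧ σ (c : F) ≠ c := by
  obtain ⟨d, h0, h1, _⟩ := exists_ne h8 (0 : F) 1 1
  refine ⟨Units.mk0 d h0, h1, fun h => h1 (N_inj (y := 1) (by simpa using h)), fun h => ?_⟩
  rcases σ_fix h with h2 | h2
  · exact h0 h2
  · exact h1 h2

/-- `μ ↦ μ σ(μ)` is not additive -/
theorem nadd (h8 : 8 ≤ Nat.card F) {M : Type*} [AddCommGroup M] [Module F M] {f : F → M}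
    (add : ∀ a b, f (a + b) = f a + f b) (h : ∀ μ, μ ≠ 0 → f (μ * σ μ) = μ • f 1) : f 1 = 0 := by
  obtain ⟨μ, h0, h1, _⟩ := exists_ne h8 (0 : F) 1 1
  obtain ⟨ν, hν⟩ := N_surj (μ * σ μ + 1)
  have t := (UA.two_zero : (2 : F) = 0)
  have hν0 : ν ≠ 0 := by
    rintro rfl
    apply h1
    apply N_inj (y := 1)
    rw [map_one]
    rw [zero_mul] at hν
    linear_combination -hν - t
  have e1 := h ν hν0
  rw [hν, add, h μ h0] at e1
  by_contra hne
  have e2 : (ν - (μ + 1)) • f 1 = 0 := by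
    rw [sub_smul, add_smul, one_smul, e1, sub_self]
  have e3 : ν = μ + 1 := sub_eq_zero.1 ((smul_eq_zero.1 e2).resolve_right hne)
  rw [e3, map_add, map_one] at hν
  exact UA.D_ne h0 h1 (by linear_combination hν)

theorem tri (h8 : 8 ≤ Nat.card F) : ∃ l : List (F × F), (l.map fun p => σ p.1 * p.2).sum = 1 ∧
    (l.map fun p => p.1 * p.2).sum = 0 ∧ (l.map fun p => p.1 * σ p.2).sum = 0 := by
  have t := (UA.two_zero : (2 : F) = 0)
  obtain ⟨a, h0, h1, _⟩ := exists_ne h8 (0 : F) 1 1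
  obtain ⟨a', k0, k1, k2, k3⟩ := UA.exists_ne4 h8 (0 : F) 1 a (a + 1)
  have d1 := UA.D_ne h0 h1
  have d2 := UA.D_ne k0 k1
  have d3 : (a + a') + σ (a + a') ≠ 0 :=
    UA.D_ne (fun e => k2 (by linear_combination e - a * t))
      (fun e => k3 (by linear_combination e - a * t))
  rw [map_add] at d3
  obtain ⟨b, hb⟩ := (σ : F ≃+* F).surjective ((a' + σ a') / (a + σ a))
  have hb' : σ b * (a + σ a) = a' + σ a' := by rw [hb]; field_simp
  have b0 : b ≠ 0 := by
    rintro rfl
    rw [map_zero, zero_mul] at hb'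
    exact d2 hb'.symm
  have b1 : b ≠ 1 := by
    rintro rfl
    rw [map_one, one_mul] at hb'
    exact d3 (by linear_combination hb' + (a' + σ a') * t)
  have d4 := mul_ne_zero d1 (UA.D_ne b0 b1)
  obtain ⟨m, hm⟩ : ∃ m, (a + σ a) * (b + σ b) * m = 1 := ⟨_, mul_inv_cancel₀ d4⟩
  refine ⟨[(a, b * m), (1, a * b * m), (a', m), (1, a' * m)], ?_, ?_, ?_⟩
  · simp only [List.map_cons, List.map_nil, List.sum_cons, List.sum_nil, map_one]
    linear_combination hm - m * hb'
  · simp only [List.map_cons, List.map_nil, List.sum_cons, List.sum_nil]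
    linear_combination (a * b * m + a' * m) * t
  · simp only [List.map_cons, List.map_nil, List.sum_cons, List.sum_nil, map_mul]
    linear_combination σ m * hb' + σ m * (a' + σ a') * t

theorem exists_r (b : F) : ∃ r, b = r + σ r ∨ b = r + σ r + 1 := by
  have t := (UA.two_zero : (2 : F) = 0)
  let D : F →+ F := AddMonoidHom.mk' (fun r => r + σ r) fun x y => by rw [map_add]; ring
  have hD : ∀ r, D r = r + σ r := fun _ => rfl
  have hk : (D.ker : Set F) = {0, 1} := by
    ext x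
    simp only [SetLike.mem_coe, AddMonoidHom.mem_ker, hD, Set.mem_insert_iff, Set.mem_singleton_iff]
    constructor
    · intro h
      by_contra hn
      rw [not_or] at hn
      exact UA.D_ne hn.1 hn.2 h
    · rintro (rfl | rfl)
      · simp
      · rw [map_one]; linear_combination t
  have hc : Nat.card D.ker = 2 := by
    have : Nat.card (D.ker : Set F) = 2 := by
      rw [hk, Nat.card_coe_set_eq, Set.ncard_pair zero_ne_one]
    exact this
  have e1 := D.ker.card_mul_index
  have e2 := D.range.card_mul_index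
  rw [AddSubgroup.index_ker, hc] at e1
  have hi : D.range.index = 2 := by
    have hp : 0 < Nat.card D.range := Nat.card_pos
    apply Nat.eq_of_mul_eq_mul_left hp
    rw [e2, ← e1, mul_comm]
  have h1 : (1 : F) ∉ D.range := by
    rintro ⟨x, hx⟩
    rw [hD] at hx
    have s1 : σ x = x + 1 := by linear_combination hx - x * t
    have s2 := σσ x
    rw [s1, map_add, map_one, s1] at s2
    have s3 : x * (x - 1) = 0 := by linear_combination -s2 + t
    rcases mul_eq_zero.1 s3 with h | h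
    · rw [h] at hx; simp at hx
    · rw [sub_eq_zero.1 h, map_one] at hx
      exact one_ne_zero (α := F) (by linear_combination hx)
  by_cases hb : b ∈ D.range
  · obtain ⟨r, hr⟩ := hb
    exact ⟨r, Or.inl hr.symm⟩
  · obtain ⟨r, hr⟩ : b + 1 ∈ D.range :=
      (AddSubgroup.add_mem_iff_of_index_two hi).2 (iff_of_false hb h1)
    rw [hD] at hr
    exact ⟨r, Or.inr (by linear_combination -hr - t)⟩

/-- the weights on `Z₂` and `Z₈` are independent -/
theorem wt28 (a b : Fˣ) : ∃ c k : Fˣ, (c : F) ^ 2 * σ (c : F) * ((k : F) * σ (k : F))⁻¹ = a ∧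
    (k : F) ^ 2 * σ (k : F) * ((c : F) * σ (c : F))⁻¹ = b ∧ (c : F) * σ (c : F) = σ (a : F) * b ∧
    (k : F) * σ (k : F) = a * σ (b : F) ∧ (c : F) * k = a * b := by
  have ha := a.ne_zero
  have hb := b.ne_zero
  have ha' := σ_ne ha
  have hb' := σ_ne hb
  refine ⟨a ^ 2 * σu b * (σu a * b)⁻¹, b ^ 2 * σu a * (σu b * a)⁻¹, ?_, ?_, ?_, ?_, ?_⟩ <;>
    simp only [Units.val_mul, Units.val_pow_eq_pow_val, Units.val_inv_eq_inv_val, σu_val, map_mul,
      map_pow, map_inv₀, σσ] <;> field_simp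

theorem card_cent {u : Co F} (hu : u ∉ Co.Z) : Nat.card (centralizer {u}) ≤ Nat.card F ^ 11 := by
  by_cases h8 : u.a8 = 0
  swap
  · refine UA.key x5 fun a a' h => UA.eq_of h8 ?_
    rw [UA.i5] at h
    have := congrArg Co.b6 h
    simp at this
    grind
  by_cases k8 : u.b8 = 0
  swap
  · refine UA.key x3 fun a a' h => UA.eq_of k8 ?_
    rw [UA.i3] at h
    have := congrArg Co.b6 h
    simp [h8] at this
    grind
  by_cases h1 : u.a1 = 0
  swap
  · refine UA.key (y6 0) fun a a' h => UA.eq_of h1 ?_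
    rw [UA.iz6] at h
    have := congrArg Co.b4 h
    simp [h8, k8] at this
    grind
  by_cases h7 : u.a7 = 0
  swap
  · refine UA.key (y2 0) fun a a' h => UA.eq_of h7 ?_
    rw [UA.iz2] at h
    have := congrArg Co.b4 h
    simp [h8, k8, h1] at this
    grind
  by_cases h2 : u.a2 = 0
  swap
  · refine UA.key x5 fun a a' h => UA.eq_of h2 ?_
    rw [UA.i5] at h
    have := congrArg Co.b4 h
    simp [h8, k8, h1, h7] at this
    grind
  by_cases h6 : u.a6 = 0
  swap
  · refine UA.key x3 fun a a' h => UA.eq_of h6 ?_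
    rw [UA.i3] at h
    have := congrArg Co.b4 h
    simp [h8, k8, h1, h7, h2] at this
    grind
  by_cases h4 : u.a4 = 0
  swap
  · refine UA.key x1 fun a a' h => UA.eq_of h4 ?_
    rw [UA.i1] at h
    have := congrArg Co.b2 h
    simp [h8, k8, h1, h7, h2, h6] at this
    grind
  by_cases k2 : u.b2 = 0
  swap
  · refine UA.key x7 fun a a' h => UA.eq_of k2 ?_
    rw [UA.i7] at h
    have := congrArg Co.b4 h
    simp [h8, k8, h1, h7, h2, h6, h4] at this
    grind
  by_cases h3 : u.a3 = 0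
  swap
  · refine UA.key (fun a => y6 a 0) fun a a' h => UA.eq_of h3 ?_
    rw [UA.iy6] at h
    have := congrArg Co.b4 h
    simp [h8, k8, h1, h7, h2, h6, h4, k2] at this
    grind
  by_cases h5 : u.a5 = 0
  swap
  · refine UA.key (fun a => y2 a 0) fun a a' h => UA.eq_of h5 ?_
    rw [UA.iy2] at h
    have := congrArg Co.b4 h
    simp [h8, k8, h1, h7, h2, h6, h4, k2, h3] at this
    grind
  have k6 : u.b6 ≠ 0 := fun k6 => hu ⟨h1, h2, k2, h3, h4, h5, h6, k6, h7, h8, k8⟩
  refine UA.key x1 fun a a' h => UA.eq_of k6 ?_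
  rw [UA.i1] at h
  have := congrArg Co.b4 h
  simp [h8, k8, h1, h7, h2, h6, h4, k2, h3, h5] at this
  grind

end H51.RS
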