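import Cfsg.Agent.Lib.RS4.XD
import Cfsg.Agent.Lib.RS4.UA

/-! Standard components of type `²F₄(q)`, package E4: see `blueprint/RS4/README.md`. -/

set_option autoImplicit false
set_option linter.unusedSectionVars false

namespace H51.RS
open Subgroup H69 H78.Oct H78.Oct.Co
open scoped commutatorElement

variable {F G : Type*} [Field F] [Tits F] [Finite F] [Group G] [Finite G]

namespace E4H
variable {S : St F G} {Z : Z2 S} (q : X5S Z)

theorem X3_zero : q.X3 0 = 1 := by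
  have h := q.X3_add 0 0
  rw [add_zero] at h
  exact left_eq_mul.1 h

theorem form {g : G} (hg : g ∈ q.Es) {v2 v3 v5 v6 : F × F} (h : Z.Ph g v2 v3 v5 v6) :
    ∃ r, g = Z.Y2 v2 * q.X3 v3 * q.D r v5 v6 := by
  have m1 : Z.Y2 v2 * q.X3 v3 ∈ q.Es := q.Es.mul_mem (q.eb.m2 v2) (q.X3_mem v3)
  have h1 := (Z2.ph_Y2 (Z := Z) v2).mul (q.ph_X3 v3) (q.eb.cW _ (q.eb.m2 v2))
  have h2 := h1.mul (q.ph_D 0 v5 v6) (q.eb.cW _ m1)
  simp only [add_zero, zero_add] at h2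
  obtain ⟨r, hr⟩ := q.eb.toEA.diff hg (q.Es.mul_mem m1 (q.D_mem 0 v5 v6)) h h2
  refine ⟨r, ?_⟩
  rw [hr, mul_assoc, ← q.D_4, q.D_mul]
  simp only [add_zero, zero_add]

theorem ex8 (u : F) (p : F × F) :
    ∃ r, S.z8 u * Z.Y2 p * S.z8 u = Z.Y2 p * q.D r (u • p) (σ u • p) := by
  have h := (Z2.ph_Y2 (Z := Z) p).y8 0 u
  have hm := q.eb.nP _ (q.eb.m2 p) _ (S.φ_memP (y8 0 u))
  obtain ⟨r, hr⟩ := form q hm h
  refine ⟨r, ?_⟩
  have e : (S.φ (y8 0 u))⁻¹ = S.z8 u := S.z8_inv u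
  rw [e] at hr
  rw [hr]
  simp [X3_zero]

theorem co1 (u s : F) :
    S.z8 u * S.z2 s * S.z8 u = S.z2 s * (S.z4 (σ s * u) * S.φ (x5 (u * s)) * S.z6 (σ u * s)) := by
  simp only [← map_mul]
  congr 1
  co

end E4H

namespace X5S
variable {S : St F G} {Z : Z2 S} (q : X5S Z)
theorem k1 : ∃ b, q.K1 b := by
  choose f hf using E4H.ex8 q
  have add : ∀ u p p', f u (p + p') = f u p + f u p' := by
    intro u p p'
    have h := hf u (p + p')
    have e : S.z8 u * Z.Y2 (p + p') * S.z8 u =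
        (S.z8 u * Z.Y2 p * S.z8 u) * (S.z8 u * Z.Y2 p' * S.z8 u) := by
      rw [Z.Y2_add]
      calc _ = S.z8 u * Z.Y2 p * (S.z8 u * S.z8 u) * Z.Y2 p' * S.z8 u := by
            rw [S.z8_sq]; simp only [mul_one, mul_assoc]
        _ = _ := by simp only [mul_assoc]
    rw [e, hf, hf, mul_assoc, ← mul_assoc (q.D _ _ _), q.D_Y2, mul_assoc, q.D_mul, ← mul_assoc,
      ← Z.Y2_add] at h
    exact (q.D_inj (mul_left_cancel h)).1.symm
  have ext : ∀ u s, f u (s, 0) = (σ s * u, 0) := by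
    intro u s
    have h := hf u (s, 0)
    rw [Z.Y2_ext, E4H.co1, ← q.D_ext] at h
    exact (q.D_inj (mul_left_cancel h)).1.symm
  have z0 : ∀ p, f 0 p = 0 := by
    intro p
    have h := hf 0 p
    rw [S.z8_zero, one_mul, ← q.D_zero] at h
    exact (q.D_inj (mul_left_cancel h)).1.symm
  have hom : ∀ (a b : Fˣ) u p, f (b * u) ((a : F) • p) = (σ (a : F) * b) • f u p := by
    intro a b u p
    obtain ⟨c, k, h1, h2, h3, -, -⟩ := wt28 a b
    have h8 : S.h c k * S.z8 u * (S.h c k)⁻¹ = S.z8 (b * u) := by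
      rw [← Z.Y8_ext, Z.h_Y8, h2, ← Z.Y8_ext]
      simp
    have h := hf (b * u) ((a : F) • p)
    have e : S.z8 (b * u) * Z.Y2 ((a : F) • p) * S.z8 (b * u) =
        S.h c k * (S.z8 u * Z.Y2 p * S.z8 u) * (S.h c k)⁻¹ := by
      rw [← h8, ← h1, ← Z.h_Y2]; group
    have e2 : ∀ x y : G, S.h c k * (x * y) * (S.h c k)⁻¹ =
        (S.h c k * x * (S.h c k)⁻¹) * (S.h c k * y * (S.h c k)⁻¹) := fun x y => by group
    rw [e, hf, e2, Z.h_Y2, q.h_D, h1, h3] at h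
    exact (q.D_inj (mul_left_cancel h)).1.symm
  have tb : ∀ u p, f u (bar p) = bar (f u p) := by
    intro u p
    have h := hf u (bar p)
    have h8 : S.t * S.z8 u * S.t⁻¹ = S.z8 u := by rw [S.t_φ]; simp
    have e : S.z8 u * Z.Y2 (bar p) * S.z8 u = S.t * (S.z8 u * Z.Y2 p * S.z8 u) * S.t⁻¹ := by
      calc _ = (S.t * S.z8 u * S.t⁻¹) * (S.t * Z.Y2 p * S.t⁻¹) * (S.t * S.z8 u * S.t⁻¹) := by
            rw [h8, Z.t_Y2]
        _ = _ := by group
    have e2 : ∀ x y : G, S.t * (x * y) * S.t⁻¹ = (S.t * x * S.t⁻¹) * (S.t * y * S.t⁻¹) :=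
      fun x y => by group
    rw [e, hf, e2, Z.t_Y2, q.t_D] at h
    exact (q.D_inj (mul_left_cancel h)).1.symm
  have h01 : (f 1 (0, 1)).2 = 1 := by
    have h := tb 1 (0, 1)
    have e : bar ((0 : F), (1 : F)) = (0, 1) + (1, 0) := by simp [bar]
    rw [e, add, ext] at h
    have := congrArg Prod.fst h
    simpa [bar] using this.symm
  refine ⟨(f 1 (0, 1)).1, fun u p => ?_⟩
  rw [hf]
  congr 2
  have e : p = (p.1, 0) + (0, p.2) := by simp
  have h2 : f u (0, p.2) = (σ p.2 * u) • f 1 (0, 1) := by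
    by_cases hu : u = 0
    · rw [hu, z0]; simp
    by_cases hp : p.2 = 0
    · rw [hp, ext]; simp [Prod.ext_iff]
    have := hom (Units.mk0 _ hp) (Units.mk0 _ hu) 1 (0, 1)
    simpa using this
  conv_lhs => rw [e, add, ext, h2]
  ext
  · simp [sg]; ring
  · simp [sg, h01]; ring

theorem ky (p : F × F) : ∃ r, S.φ (y8 1 0) * Z.Y2 p * (S.φ (y8 1 0))⁻¹ = Z.Y2 p * q.X3 p * q.D r p p := by
  have h := (Z2.ph_Y2 (Z := Z) p).y8 1 0
  have hm := q.eb.nP _ (q.eb.m2 p) _ (S.φ_memP (y8 1 0))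
  obtain ⟨r, hr⟩ := E4H.form q hm h
  refine ⟨r, ?_⟩
  rw [hr]
  simp

theorem kd (a b c : F × F) : ∃ r, S.φ (y8 1 0) * q.D a b c * (S.φ (y8 1 0))⁻¹ = q.D r b (b + c) := by
  have h := (q.ph_D a b c).y8 1 0
  have hm := q.eb.nP _ (q.D_mem a b c) _ (S.φ_memP (y8 1 0))
  obtain ⟨r, hr⟩ := E4H.form q hm h
  refine ⟨r, ?_⟩
  rw [hr]
  simp [E4H.X3_zero, Z.Y2_zero]

end X5S

end H51.RS
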