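import Cfsg.Agent.Lib.RS4.K1
import Cfsg.Agent.Lib.Tech58.Extremal

/-! Standard components of type `²F₄(q)`, package EG: see `blueprint/RS4/README.md`. -/

set_option autoImplicit false
set_option linter.unusedSectionVars false

namespace H51.RS
open Subgroup H69 H78.Oct H78.Oct.Co
open scoped commutatorElement

variable {F G : Type*} [Field F] [Tits F] [Finite F] [Group G] [Finite G]

namespace EGH
variable {S : St F G}

theorem into (h : S.Db) {g : G} {P : Subgroup G} (hP : IsPGroup 2 P)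
    (hc : ∀ p ∈ P, p * (g * S.t * g⁻¹) = g * S.t * g⁻¹ * p) : ∃ k, P ^ᶜ k ≤ S.J := by
  have : Fact (Nat.Prime 2) := ⟨Nat.prime_two⟩
  obtain ⟨l, -, hl⟩ := h.sylJ.exists_cj_le (isPGroup_cj hP g⁻¹) fun x hx => by
    obtain ⟨p, hp, rfl⟩ := mem_cj'.1 hx
    rw [S.mem_Ct]
    calc g⁻¹ * p * g⁻¹⁻¹ * S.t = g⁻¹ * (p * (g * S.t * g⁻¹)) * g := by group
      _ = S.t * (g⁻¹ * p * g⁻¹⁻¹) := by rw [hc p hp]; group
  exact ⟨_, cj_cj P g⁻¹ l ▸ hl⟩

theorem card_t (S : St F G) {B : Subgroup G} (hB : B ≤ S.L) :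
    Nat.card (zpowers S.t ⊔ B : Subgroup G) = 2 * Nat.card B :=
  H89.G2S.card_sup_zp S.tt (fun k => S.t_notMem (hB k)) fun _ hb => S.t_comm (hB hb)

theorem strip (S : St F G) {y p : G} {u w : Co F} (hy : y = S.φ u ∨ y = S.t * S.φ u)
    (hp : p = S.φ w ∨ p = S.t * S.φ w) (c : y * p = p * y) : w * u = u * w := by
  apply S.inj
  rw [map_mul, map_mul]
  have a1 : Commute S.t (S.φ u) := S.t_φ u
  have a2 : Commute S.t (S.φ w) := S.t_φ w
  have c' : Commute y p := c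
  have c1 : Commute (S.φ u) p := by
    rcases hy with rfl | rfl
    · exact c'
    · have a3 : Commute S.t p := by
        rcases hp with rfl | rfl
        exacts [a2, (Commute.refl _).mul_right a2]
      simpa using a3.inv_left.mul_left c'
  rcases hp with rfl | rfl
  · exact c1.symm.eq
  · simpa using (a1.symm.inv_right.mul_right c1).symm.eq

theorem cen (S : St F G) {P : Subgroup G} (hP : P ≤ S.J) (hb : Nat.card F ^ 12 ≤ Nat.card P) {y : G}
    (hy : y ∈ P) (hz : ∀ p ∈ P, y * p = p * y) : y ∈ S.V := by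
  obtain ⟨u, hu⟩ := S.mem_J.1 (hP hy)
  have uZ : u ∈ Co.Z := by
    by_contra k
    have hB : (centralizer {u}).map S.φ ≤ S.L := by
      rintro _ ⟨w, -, rfl⟩
      exact S.φ_mem w
    have h1 : P ≤ zpowers S.t ⊔ (centralizer {u}).map S.φ := fun p hp => by
      obtain ⟨w, hw⟩ := S.mem_J.1 (hP hp)
      have m : S.φ w ∈ zpowers S.t ⊔ (centralizer {u}).map S.φ :=
        mem_sup_right ⟨w, mem_centralizer_singleton_iff.2 (strip S hu hw (hz p hp)), rfl⟩
      rcases hw with rfl | rfl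
      exacts [m, mul_mem (mem_sup_left (mem_zpowers _)) m]
    have h2 := card_le_of_le h1
    rw [card_t S hB, card_map_of_injective S.inj] at h2
    have h3 := card_cent k
    have h4 := S.big
    have h5 : 0 < Nat.card F ^ 11 := pow_pos (by omega) _
    rw [pow_succ] at hb
    nlinarith
  have m : S.φ u ∈ S.V := mem_sup_right ⟨u, uZ, rfl⟩
  rcases hu with rfl | rfl
  exacts [m, mul_mem (mem_sup_left (mem_zpowers _)) m]

end EGH

namespace St.Db
variable {S : St F G} (h : S.Db)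
include h
theorem c1 {g : G} {P : Subgroup G} (hP : IsPGroup 2 P)
    (hc : ∀ p ∈ P, p * (g * S.t * g⁻¹) = g * S.t * g⁻¹ * p) : Nat.card P ≤ 2 * Nat.card F ^ 12 := by
  obtain ⟨k, hk⟩ := EGH.into h hP hc
  rw [← card_cj P k, ← S.card_J]
  exact card_le_of_le hk

theorem c2 {g : G} {P Y : Subgroup G} (hP : IsPGroup 2 P)
    (hc : ∀ p ∈ P, p * (g * S.t * g⁻¹) = g * S.t * g⁻¹ * p) (hb : Nat.card F ^ 12 ≤ Nat.card P)
    (hY : Y ≤ P) (hz : ∀ y ∈ Y, ∀ p ∈ P, y * p = p * y) : Nat.card Y ≤ 2 * Nat.card F := by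
  obtain ⟨k, hk⟩ := EGH.into h hP hc
  have h1 : Y ^ᶜ k ≤ S.V := fun y hy =>
    EGH.cen S hk (by rwa [card_cj]) (cj_mono k hY hy) fun p hp => by
      obtain ⟨y', hy', rfl⟩ := mem_cj'.1 hy
      obtain ⟨p', hp', rfl⟩ := mem_cj'.1 hp
      rw [conj_mul, conj_mul, hz y' hy' p' hp']
  rw [← card_cj Y k, ← S.card_Z, ← EGH.card_t S (S.Z_le_Q.trans (S.Q_le_U.trans S.U_le_L))]
  exact card_le_of_le h1

theorem syl {G0 A Zh : Subgroup G} (e : EG S G0 A Zh) : IsSylowIn 2 (A ⊔ zpowers S.t) ⊤ := by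
  have : Fact (Nat.Prime 2) := ⟨Nat.prime_two⟩
  have hn : zpowers S.t ≤ 𝐍(A) := zpowers_le.2 e.nt
  have hT : IsPGroup 2 (A ⊔ zpowers S.t : Subgroup G) :=
    e.two.to_sup_of_normal_left' (H89.G2S.isP_zp S.tt) hn
  have mt : S.t ∈ A ⊔ zpowers S.t := mem_sup_right (mem_zpowers _)
  have mem : ∀ x ∈ A ⊔ zpowers S.t, x * S.t ∈ A ∨ x ∈ A := fun x hx => by
    obtain ⟨a, ha, b, hb, rfl⟩ := (mem_sup_of_le_normalizer_left hn).1 hx
    rcases (H89.G2S.Gen.mem_zp S.tt).1 hb with rfl | rfl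
    · exact Or.inr (by rwa [mul_one])
    · exact Or.inl (by rwa [mul_assoc, S.tt, mul_one])
  have JT : S.J ≤ A ⊔ zpowers S.t := sup_le le_sup_right (e.UA.trans le_sup_left)
  by_contra k
  obtain ⟨g, gN, gT, hg⟩ := H89.G2S.exists_norm hT k
  rcases mem _ (conj_mem_of_mem_normalizer gN mt) with m | m
  · obtain ⟨b, hb, eb⟩ := e.lang _ m (by
      calc g * S.t * g⁻¹ * S.t * (S.t * (g * S.t * g⁻¹ * S.t) * S.t⁻¹)
          = g * S.t * g⁻¹ * (S.t * S.t) * (g * S.t * g⁻¹) := by group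
        _ = 1 := by rw [S.tt, mul_one, conj_mul, S.tt, mul_one, mul_inv_cancel])
    have c : b⁻¹ * g ∈ S.Ct := by
      rw [S.mem_Ct]
      have e1 : g * S.t * g⁻¹ = b * S.t * b⁻¹ := by
        calc g * S.t * g⁻¹ = g * S.t * g⁻¹ * S.t * S.t := by rw [mul_assoc _ S.t S.t, S.tt, mul_one]
          _ = b * S.t * b⁻¹ := by rw [eb]; group
      calc b⁻¹ * g * S.t = b⁻¹ * (g * S.t * g⁻¹) * g := by group
        _ = S.t * (b⁻¹ * g) := by rw [e1]; group
    have e2 := h.sylJ.max ((A ⊔ zpowers S.t ⊔ zpowers g) ⊓ S.Ct)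
      (le_inf (JT.trans le_sup_left) h.sylJ.le) inf_le_right hg.to_inf_left
    have m1 : b⁻¹ * g ∈ A ⊔ zpowers S.t ⊔ zpowers g :=
      mul_mem (inv_mem (mem_sup_left (mem_sup_left hb))) (mem_sup_right (mem_zpowers g))
    have m2 : b⁻¹ * g ∈ S.J := e2 ▸ mem_inf.2 ⟨m1, c⟩
    exact gT (by simpa using mul_mem (mem_sup_left hb : b ∈ A ⊔ zpowers S.t) (JT m2))
  · have KT : S.J ^ᶜ g ≤ A ⊔ zpowers S.t := cj_le_of_mem_normalizer JT gN
    have i1 : A.relIndex (A ⊔ zpowers S.t) ∣ 2 := relIndex_dvd_two_iff.2 ⟨_, mt, mem⟩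
    have i2 := (relIndex_le_of_le_right KT (ne_zero_of_dvd_ne_zero two_ne_zero i1)).trans
      (Nat.le_of_dvd two_pos i1)
    have i3 := H89.G2S.Gen.card_rel (inf_le_right : A ⊓ S.J ^ᶜ g ≤ S.J ^ᶜ g)
    rw [inf_relIndex_right, card_cj, S.card_J] at i3
    have i4 : A ⊓ S.J ^ᶜ g ≤ A ⊓ centralizer {g * S.t * g⁻¹} := by
      rw [← cj_centralizer_singleton]
      exact inf_le_inf_left _ (cj_mono g h.sylJ.le)
    have i5 := card_le_of_le i4
    have i6 := h.c2 (g := g) (P := A ⊓ centralizer {g * S.t * g⁻¹}) (Y := Zh) e.two.to_inf_left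
      (fun p hp => mem_centralizer_singleton_iff.1 hp.2) (by nlinarith)
      (le_inf e.Zle fun z hz => mem_centralizer_singleton_iff.2 (e.Zc z hz _ m))
      fun z hz p hp => e.Zc z hz p hp.1
    have i7 := S.big
    rw [e.card] at i6
    nlinarith

end St.Db

end H51.RS
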