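import Cfsg.Agent.Lib.RS4.EG
import Cfsg.Agent.Lib.EvenChar.ModuleV
import Cfsg.Agent.Lib.Inv73.Transfer

/-! Standard components of type `²F₄(q)`, package EH: see `blueprint/RS4/README.md`. -/

set_option autoImplicit false
set_option linter.unusedSectionVars false

namespace H51.RS
open Subgroup H69 H78.Oct H78.Oct.Co
open scoped commutatorElement

variable {F G : Type*} [Field F] [Tits F] [Finite F] [Group G] [Finite G]

namespace EH

theorem mem_T {A : Subgroup G} {t x : G} (tt : t * t = 1) (nt : t ∈ 𝐍(A)) (hx : x ∈ A ⊔ zpowers t) :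
    x ∈ A ∨ x * t ∈ A := by
  obtain ⟨a, ha, _, ⟨k, rfl⟩, rfl⟩ := (mem_sup_of_le_normalizer_left (zpowers_le.2 nt)).1 hx
  rcases Int.even_or_odd' k with ⟨j, rfl | rfl⟩
  · left
    simp only
    rwa [zpow_mul, zpow_two, tt, one_zpow, mul_one]
  · right
    simp only
    rwa [zpow_add, zpow_mul, zpow_two, tt, one_zpow, one_mul, zpow_one, mul_assoc, tt, mul_one]

theorem rel2 {A : Subgroup G} {t : G} (tt : t * t = 1) (nt : t ∈ 𝐍(A)) (tA : t ∉ A) :
    A.relIndex (A ⊔ zpowers t) = 2 := by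
  refine index_eq_two_iff.2 ⟨⟨t, mem_sup_right (mem_zpowers t)⟩, fun ⟨x, hx⟩ => ?_⟩
  change Xor (x * t ∈ A) (x ∈ A)
  by_cases k : x ∈ A
  · exact Or.inr ⟨k, fun k' => tA ((mul_mem_cancel_left k).1 k')⟩
  · exact Or.inl ⟨(mem_T tt nt hx).resolve_left k, k⟩

theorem odd_normal : (Cfsg.oddGenerated (⊤ : Subgroup G)).Normal := by
  refine ⟨fun x hx g => ?_⟩
  have : Cfsg.oddGenerated (⊤ : Subgroup G) ≤
      (Cfsg.oddGenerated (⊤ : Subgroup G)).comap (MulAut.conj g).toMonoidHom :=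
    H20.oddGenerated_le_iff.2 fun y _ hy => H20.mem_oddGenerated (mem_top _)
      (by rwa [← (MulAut.conj g).orderOf_eq y] at hy)
  exact this hx

theorem no_two (N : Subgroup (Cfsg.oddGenerated (⊤ : Subgroup G))) : N.index ≠ 2 := by
  intro hN
  have : Cfsg.oddGenerated (⊤ : Subgroup G) ≤ N.map (Subgroup.subtype _) :=
    H20.oddGenerated_le_iff.2 fun y _ hy => by
      refine ⟨⟨y, H20.mem_oddGenerated (mem_top _) hy⟩, ?_, rfl⟩
      generalize hz : (⟨y, H20.mem_oddGenerated (mem_top _) hy⟩ : Cfsg.oddGenerated (⊤ : Subgroup G)) = z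
      have oz : Odd (orderOf z) := by rw [← hz, Subgroup.orderOf_mk]; exact hy
      obtain ⟨k, hk⟩ := oz
      have e : z * (z ^ 2) ^ k = 1 := by rw [← pow_mul, ← pow_succ', ← hk, pow_orderOf_eq_one]
      rw [eq_inv_of_mul_eq_one_left e]
      exact inv_mem (pow_mem (sq_mem_of_index_two hN z) k)
  have e : N = ⊤ := eq_top_iff.2 fun z _ => by
    obtain ⟨w, hw, e⟩ := this z.2
    rwa [← (Subtype.ext e : w = z)]
  rw [e, index_top] at hN
  exact absurd hN (by decide)

end EH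

theorem St.Db.endgame {S : St F G} (h : S.Db) {G0 A Zh : Subgroup G} (e : EG S G0 A Zh) :
    G0 ≤ Cfsg.oddGenerated (⊤ : Subgroup G) ∧ Odd (G0.relIndex (Cfsg.oddGenerated (⊤ : Subgroup G))) := by
  haveI := Fact.mk Nat.prime_two
  have l0 : G0 ≤ Cfsg.oddGenerated (⊤ : Subgroup G) := by
    rw [← H20.oddGenerated_eq_of_perfect e.perf]
    exact H20.oddGenerated_le_iff.2 fun x _ hx => H20.mem_oddGenerated (mem_top _) hx
  have nH := EH.odd_normal (G := G)
  have n2 := EH.no_two (G := G)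
  have sT := h.syl e
  generalize Cfsg.oddGenerated (⊤ : Subgroup G) = H at l0 nH n2 ⊢
  refine ⟨l0, ?_⟩
  have AH : A ≤ H := e.le.trans l0
  by_cases tH : S.t ∈ H
  · exfalso
    have TH : A ⊔ zpowers S.t ≤ H := sup_le AH (zpowers_le.2 tH)
    obtain ⟨P, hP⟩ := (sT.mono TH le_top).exists_sylow_subgroupOf
    have i2 : ((A.subgroupOf H).subgroupOf (P : Subgroup H)).index = 2 := by
      change (A.subgroupOf H).relIndex (P : Subgroup H) = 2
      rw [hP, relIndex_subgroupOf TH]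
      exact EH.rel2 S.tt e.nt e.tA
    have JT : S.J ≤ A ⊔ zpowers S.t := sup_le le_sup_right (e.UA.trans le_sup_left)
    obtain ⟨g, hg, k1, k2⟩ := H58.exists_extremal_conj n2 P (H73.signHom _ i2) (-1)
      (fun s _ => Int.units_eq_one_or _) (y := ⟨S.t, tH⟩) (Subtype.ext (by rw [pow_two]; exact S.tt))
      (S.J.subgroupOf H) h.sylJ.isP.comap_subtype (mem_sup_left (mem_zpowers S.t))
      (fun r hr => mem_centralizer_singleton_iff.2
        (Subtype.ext (mem_centralizer_singleton_iff.1 (h.sylJ.le hr))))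
    have tA : (g : G)⁻¹ * S.t * (g : G)⁻¹⁻¹ ∈ A := by
      rw [inv_inv]; exact (H73.signHom_eq_one_iff i2).1 k1
    have JT' : S.J ^ᶜ (g : G)⁻¹ ≤ A ⊔ zpowers S.t := by
      intro x hx
      obtain ⟨r, hr, rfl⟩ := mem_cj'.1 hx
      have := k2 ⟨r, TH (JT hr)⟩ hr
      rw [hP] at this
      rw [inv_inv]; exact this
    generalize (g : G)⁻¹ = k at tA JT'
    have JC : S.J ^ᶜ k ≤ centralizer {k * S.t * k⁻¹} := by
      rw [← cj_centralizer_singleton]; exact cj_mono k h.sylJ.le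
    have c1 : Nat.card F ^ 12 ≤ Nat.card (A ⊓ centralizer {k * S.t * k⁻¹} : Subgroup G) := by
      have a1 : A.relIndex (S.J ^ᶜ k) ≤ 2 := by
        rw [← EH.rel2 S.tt e.nt e.tA]
        exact relIndex_le_of_le_right JT' (by rw [EH.rel2 S.tt e.nt e.tA]; decide)
      have a2 := (A.subgroupOf (S.J ^ᶜ k)).card_mul_index
      rw [card_cj, S.card_J] at a2
      have a3 : Nat.card (A.subgroupOf (S.J ^ᶜ k)) ≤ Nat.card (A ⊓ centralizer {k * S.t * k⁻¹} : Subgroup G) :=
        Nat.card_le_card_of_injective (fun x => ⟨x.1.1, x.2, JC x.1.2⟩)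
          fun x y hxy => Subtype.ext (Subtype.ext (congrArg (fun z => z.1) hxy))
      have a4 := Nat.mul_le_mul a3 a1
      change _ * (A.subgroupOf (S.J ^ᶜ k)).index ≤ _ at a4
      omega
    have c2 := h.c2 (g := k) (Y := Zh) (e.two.to_inf_left (K := centralizer {k * S.t * k⁻¹}))
      (fun p hp => mem_centralizer_singleton_iff.1 hp.2) c1
      (fun z hz => ⟨e.Zle hz, mem_centralizer_singleton_iff.2 (e.Zc z hz _ tA)⟩)
      (fun y hy p hp => e.Zc y hy p hp.1)
    rw [e.card] at c2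
    have := S.big
    nlinarith
  · have s1 := sT.inf_normal (le_top : H ≤ ⊤) (normal_iff_top_le_normalizer.1 nH)
    have e1 : (A ⊔ zpowers S.t) ⊓ H = A := by
      refine le_antisymm (fun x hx => ?_) (le_inf le_sup_left AH)
      exact (EH.mem_T S.tt e.nt hx.1).resolve_right fun k => tH ((H.mul_mem_cancel_left hx.2).1 (AH k))
    rw [e1] at s1
    exact Nat.not_even_iff_odd.1 fun k => s1.not_dvd_relIndex_of_le e.le l0 (even_iff_two_dvd.1 k)

end H51.RS
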