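import Cfsg.Agent.Lib.RS4.Bas
import Cfsg.Agent.Lib.Stein3.CTMain

/-! Standard components of type `²F₄(q)`, package FC: the local relations. -/

set_option autoImplicit false
set_option linter.unusedSectionVars false

namespace H51.RS.FCT
open Subgroup H78.Oct H78.Oct.Co
open Cfsg Cfsg.Lie

/-- positions: family, index, length -/
abbrev Ps : Type := Bool × ZMod 8 × Bool

/-- the position of a local root -/
def pos (r : ℕ) : Ps :=
  if r = 24 then (true, 5, true) else if r = 23 then (true, 1, true) else if r = 25 then (false, 3, true) else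
  if r = 22 then (false, 7, true) else if r = 26 then (false, 4, true) else if r = 21 then (false, 0, true) else
  if r = 30 then (false, 1, true) else if r = 17 then (false, 5, true) else if r = 33 then (true, 5, false) else
  if r = 14 then (true, 1, false) else if r = 27 then (false, 0, false) else if r = 20 then (false, 4, false) else
  if r = 34 then (false, 7, false) else if r = 13 then (false, 3, false) else if r = 28 then (false, 2, false) else
  (false, 6, false)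

/-- the terms with odd coefficient -/
def tm (r s : ℕ) : List (Ps × ℕ × ℕ) :=
  ((chevF4.commTerms r s).filter fun c => c.2.1 % 2 = 1).map fun c => (pos c.1, c.2.2)

/-- commuting positions -/
def Cm (P Q : Ps) : Prop :=
  (P.1 = false ∧ Q.1 = false ∧ (Q.2.1 = P.2.1 ∨ Q.2.1 = P.2.1 + 1 ∨ Q.2.1 = P.2.1 + 2)) ∨
  (P.1 = true ∧ Q.1 = false ∧ (Q.2.1 = P.2.1 ∨ Q.2.1 = P.2.1 + 1 ∨ Q.2.1 = P.2.1 + 2 ∨ P.2.1 = Q.2.1 + 1 ∨
    (Q.2.2 = !P.2.2 ∧ (Q.2.1 = P.2.1 + 3 ∨ P.2.1 = Q.2.1 + 2)))) ∨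
  (P.1 = true ∧ Q.1 = true ∧ (Q.2.1 = P.2.1 ∨ (Q.2.2 = !P.2.2 ∧ Q.2.1 = P.2.1 + 4)))

/-- positions with one commutator term -/
def O1 (P Q R : Ps) : Prop := Q.1 = false ∧ Q.2.2 = P.2.2 ∧ R.2.2 = P.2.2 ∧
  ((P.1 = true ∧ R.1 = false ∧ Q.2.1 = P.2.1 + 3 ∧ R.2.1 = P.2.1 + 2) ∨
   (P.1 = true ∧ R.1 = false ∧ P.2.1 = Q.2.1 + 2 ∧ R.2.1 = Q.2.1 + 1) ∨
   (P.1 = false ∧ R.1 = true ∧ Q.2.1 = P.2.1 + 3 ∧ R.2.1 = P.2.1 + 1))

/-- positions with two commutator terms -/
def O2 (P Q : Ps) (L : List (Ps × ℕ × ℕ)) (sw : Bool) : Prop :=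
  P.1 = false ∧ Q.1 = false ∧ Q.2.1 = P.2.1 + 3 ∧ Q.2.2 = (!P.2.2) ∧
  L = [((false, if P.2.2 then P.2.1 + 1 else P.2.1 + 2, false), 1, 1),
    ((false, if P.2.2 then P.2.1 + 2 else P.2.1 + 1, true), if P.2.2 = sw then (2, 1) else (1, 2))]

/-- the table -/
def Ok (P Q : Ps) (L : List (Ps × ℕ × ℕ)) : Prop :=
  (L = [] ∧ (Cm P Q ∨ Cm Q P)) ∨ (L = [((L.headD (P, 0, 0)).1, 1, 1)] ∧
    (O1 P Q (L.headD (P, 0, 0)).1 ∨ O1 Q P (L.headD (P, 0, 0)).1)) ∨ O2 P Q L false ∨ O2 Q P L true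

instance decCm (P Q : Ps) : Decidable (Cm P Q) := by unfold Cm; infer_instance
instance decO1 (P Q R : Ps) : Decidable (O1 P Q R) := by unfold O1; infer_instance
instance decO2 (P Q : Ps) (L : List (Ps × ℕ × ℕ)) (b : Bool) : Decidable (O2 P Q L b) := by
  unfold O2; infer_instance
instance decOk (P Q : Ps) (L : List (Ps × ℕ × ℕ)) : Decidable (Ok P Q L) := by unfold Ok; infer_instance

/-- local roots -/
def inS (i j r : ℕ) : Bool :=
  (List.range 4).all fun k => k == i || k == j || (chevF4.coroot.getD r #[]).getD k 0 == 0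

theorem inS_iff {i j r : ℕ} : chevF4.InRankTwoSub i j r ↔ r < 48 ∧ i < 4 ∧ j < 4 ∧ inS i j r = true := by
  refine and_congr_right fun _ => and_congr_right fun _ => and_congr_right fun _ => ?_
  simp only [inS, List.all_eq_true, List.mem_range, Bool.or_eq_true, beq_iff_eq]
  refine forall_congr' fun k => imp_congr Iff.rfl ?_
  tauto

set_option synthInstance.maxSize 2000 in
theorem tab : ∀ i < 4, ∀ j < 4, ∀ r < 48, inS i j r = true → ∀ s < 48, inS i j s = true → s ≠ r →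
    s ≠ chevF4.neg r → Ok (pos r) (pos s) (tm r s) := by decide +kernel

variable {F G : Type*} [Field F] [Tits F] [Group G] {S : St F G}

/-- the parameter -/
def em (e : Bool) (t : F) : F × F := if e then (t, 0) else (0, σ t)

/-- the element at a position -/
def el (f : FamF S) (P : Ps) (t : F) : G := if P.1 then f.X P.2.1 (em P.2.2 t) else f.Y P.2.1 (em P.2.2 t)

theorem eqns_FCt : True := by
  have := @pos.eq_1
  have := @tm.eq_1
  have := @Cm.eq_1
  have := @O1.eq_1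
  have := @O2.eq_1
  have := @Ok.eq_1
  have := @inS.eq_1
  have := @em.eq_1.{0}
  have := @el.eq_1.{0, 0}
  trivial

variable (f : FamF S)

theorem pp (p : F × F) : p + p = 0 := Prod.ext (CharTwo.add_self_eq_zero _) (CharTwo.add_self_eq_zero _)
theorem Y0 (j : ZMod 8) : f.Y j 0 = 1 := by simpa using f.Yadd j 0 0
theorem X0 (j : ZMod 8) : f.X j 0 = 1 := by simpa using f.Xadd j 0 0
theorem YY (j : ZMod 8) (p : F × F) : f.Y j p * f.Y j p = 1 := by rw [← f.Yadd, pp, Y0]
theorem XX (j : ZMod 8) (p : F × F) : f.X j p * f.X j p = 1 := by rw [← f.Xadd, pp, X0]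

theorem em_add (e : Bool) (a b : F) : em e (a + b) = em e a + em e b := by cases e <;> simp [em]
theorem em_mul (e : Bool) (a b : F) : em e a * em e b = em e (a * b) := by cases e <;> simp [em]
theorem em_not (e : Bool) (a b : F) : em e a * em (!e) b = 0 := by cases e <;> simp [em]

theorem el_add (P : Ps) (a b : F) : el f P a * el f P b = el f P (a + b) := by
  unfold el
  split_ifs <;> rw [em_add]
  exacts [(f.Xadd _ _ _).symm, (f.Yadd _ _ _).symm]

theorem el_zero (P : Ps) : el f P 0 = 1 := by simpa using el_add f P 0 0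

theorem el_sq (P : Ps) (a : F) : el f P a * el f P a = 1 := by
  rw [el_add, CharTwo.add_self_eq_zero, el_zero]

theorem flip {a b w : G} (ha : a * a = 1) (hb : b * b = 1) (hw : w * w = 1) (h : a * b * a = b * w) :
    b * a * b * a = w ∧ a * b * a * b = w := by
  have h1 : b * a * b * a = w := by rw [mul_assoc b, mul_assoc b, h, ← mul_assoc, hb, one_mul]
  refine ⟨h1, ?_⟩
  rw [← inv_eq_of_mul_eq_one_right hw, ← h1]
  simp only [mul_inv_rev, inv_eq_of_mul_eq_one_right ha, inv_eq_of_mul_eq_one_right hb, mul_assoc]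

theorem of_triv {a b : G} (ha : a * a = 1) (h : a * b * a = b * 1) : Commute a b := by
  rw [Commute, SemiconjBy, ← mul_one (a * b), ← ha, ← mul_assoc, h, mul_one]

theorem k1 (j : ZMod 8) (e : Bool) (t u : F) : f.Y (j + 3) (em e u) * f.Y j (em e t) * f.Y (j + 3) (em e u) =
    f.Y j (em e t) * f.X (j + 1) (em e (t * u)) := by
  rw [f.k6, ← em_mul]
  cases e <;> simp [em, Prod.mk_zero_zero, Y0]

theorem cXX (i : ZMod 8) (e : Bool) (t u : F) : Commute (f.X i (em e t)) (f.X (i + 4) (em (!e) u)) := by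
  have h := (flip (YY f _ _) (YY f _ _) (XX f _ _) (k1 f (i + 3) (!e) u 1)).1
  have c1 : Commute (f.X i (em e t)) (f.Y (i + 3) (em (!e) u)) :=
    of_triv (XX f _ _) (by rw [f.up, em_not, Y0])
  have c2 : Commute (f.X i (em e t)) (f.Y (i + 3 + 3) (em (!e) 1)) := by
    have := f.dn (i + 3 + 3) (em e t) (em (!e) 1)
    rw [show i + 3 + 3 + 2 = i by ring_nf; rw [show (8 : ZMod 8) = 0 from rfl, zero_add], em_not, Y0] at this
    exact of_triv (XX f _ _) this
  rw [mul_one, show i + 3 + 1 = i + 4 by ring] at h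
  rw [← h]
  exact ((c1.mul_right c2).mul_right c1).mul_right c2

theorem cm {P Q : Ps} (h : Cm P Q) (t u : F) : Commute (el f P t) (el f Q u) := by
  obtain ⟨b, i, e⟩ := P
  obtain ⟨b', j, e'⟩ := Q
  simp only [Cm] at h
  rcases h with ⟨rfl, rfl, h⟩ | ⟨rfl, rfl, h⟩ | ⟨rfl, rfl, h⟩ <;>
    simp only [el, if_true, Bool.false_eq_true, if_false]
  · rcases h with rfl | rfl | rfl
    · rw [Commute, SemiconjBy, ← f.Yadd, ← f.Yadd, add_comm]
    · exact f.c2 _ _ _
    · exact f.c4 _ _ _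
  · rcases h with rfl | rfl | rfl | rfl | ⟨rfl, rfl | rfl⟩
    · exact f.x1 _ _ _
    · exact f.x1' _ _ _
    · exact f.x3' _ _ _
    · exact f.x3 _ _ _
    · exact of_triv (XX f _ _) (by rw [f.up, em_not, Y0])
    · exact of_triv (XX f _ _) (by rw [f.dn, em_not, Y0])
  · rcases h with rfl | ⟨rfl, rfl⟩
    · rw [Commute, SemiconjBy, ← f.Xadd, ← f.Xadd, add_comm]
    · exact cXX f _ _ _ _

theorem o1 {P Q R : Ps} (h : O1 P Q R) (t u : F) :
    el f Q u * el f P t * el f Q u * el f P t = el f R (t * u) ∧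
      el f P t * el f Q u * el f P t * el f Q u = el f R (t * u) := by
  obtain ⟨b, i, e⟩ := P
  obtain ⟨b', j, e'⟩ := Q
  obtain ⟨b'', k, e''⟩ := R
  simp only [O1] at h
  obtain ⟨rfl, rfl, rfl, ⟨rfl, rfl, rfl, rfl⟩ | ⟨rfl, rfl, rfl, rfl⟩ | ⟨rfl, rfl, rfl, rfl⟩⟩ := h <;>
    simp only [el, if_true, Bool.false_eq_true, if_false]
  · exact flip (XX f _ _) (YY f _ _) (YY f _ _) (by rw [f.up, em_mul])
  · exact flip (XX f _ _) (YY f _ _) (YY f _ _) (by rw [f.dn, em_mul])
  · exact (flip (YY f _ _) (YY f _ _) (XX f _ _) (k1 f _ _ t u)).symm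

theorem sq2 {a b : G} (ha : a * a = 1) (hb : b * b = 1) (c : a * b = b * a) : a * b * (a * b) = 1 := by
  rw [mul_assoc, ← mul_assoc b, ← c, mul_assoc a b b, hb, mul_one, ha]

theorem k2 (j : ZMod 8) (t u : F) : f.Y (j + 3) (0, σ u) * f.Y j (t, 0) * f.Y (j + 3) (0, σ u) =
    f.Y j (t, 0) * (f.Y (j + 1) (0, σ (t * u)) * f.Y (j + 2) (t * u ^ 2, 0)) := by
  rw [f.k6]
  simp [Prod.mk_zero_zero, X0, Tits.sq, mul_comm]

theorem k3 (j : ZMod 8) (t u : F) : f.Y (j + 3) (u, 0) * f.Y j (0, σ t) * f.Y (j + 3) (u, 0) =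
    f.Y j (0, σ t) * (f.Y (j + 2) (0, σ (t * u)) * f.Y (j + 1) (t ^ 2 * u, 0)) := by
  have := f.c2 (j + 1)
  rw [show j + 1 + 1 = j + 2 by ring] at this
  rw [f.k6, ← this]
  simp [Prod.mk_zero_zero, X0, Tits.sq, mul_comm]

theorem ok {P Q : Ps} {L : List (Ps × ℕ × ℕ)} (h : Ok P Q L) (t u : F) :
    el f Q u * el f P t * el f Q u * el f P t = (L.map fun c => el f c.1 (t ^ c.2.1 * u ^ c.2.2)).prod := by
  have c2 : ∀ (j : ZMod 8) p q, f.Y (j + 1) p * f.Y (j + 2) q = f.Y (j + 2) q * f.Y (j + 1) p := fun j => by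
    have := f.c2 (j + 1)
    rwa [show j + 1 + 1 = j + 2 by ring] at this
  rcases h with ⟨rfl, h⟩ | ⟨e, h⟩ | h | h
  · have : Commute (el f Q u) (el f P t) := h.elim (fun h => (cm f h t u).symm) fun h => cm f h u t
    rw [mul_assoc]
    exact sq2 (el_sq f _ _) (el_sq f _ _) this
  · rw [e]
    simp only [List.map_cons, List.map_nil, List.prod_cons, List.prod_nil, mul_one, pow_one]
    rcases h with h | h
    · exact (o1 f h t u).1
    · rw [mul_comm t]; exact (o1 f h u t).2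
  · obtain ⟨b, i, e⟩ := P
    obtain ⟨b', j, e'⟩ := Q
    obtain ⟨rfl, rfl, rfl, rfl, rfl⟩ := h
    cases e
    · simpa [el, em] using
        (flip (YY f _ _) (YY f _ _) (sq2 (YY f _ _) (YY f _ _) (c2 _ _ _).symm) (k3 f i t u)).2
    · simpa [el, em] using (flip (YY f _ _) (YY f _ _) (sq2 (YY f _ _) (YY f _ _) (c2 _ _ _)) (k2 f i t u)).2
  · obtain ⟨b, i, e⟩ := P
    obtain ⟨b', j, e'⟩ := Q
    obtain ⟨rfl, rfl, rfl, rfl, rfl⟩ := h
    cases e'
    · simpa [el, em, mul_comm] using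
        (flip (YY f _ _) (YY f _ _) (sq2 (YY f _ _) (YY f _ _) (c2 _ _ _).symm) (k3 f j u t)).1
    · simpa [el, em, mul_comm] using
        (flip (YY f _ _) (YY f _ _) (sq2 (YY f _ _) (YY f _ _) (c2 _ _ _)) (k2 f j u t)).1

theorem word (l : List (ℕ × ℤ × ℕ × ℕ)) (t u : F) :
    (l.map fun c => el f (pos c.1) ((c.2.1 : F) * (-t) ^ c.2.2.1 * u ^ c.2.2.2)).prod =
      ((l.filter fun c => c.2.1 % 2 = 1).map fun c => el f (pos c.1) (t ^ c.2.2.1 * u ^ c.2.2.2)).prod := by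
  induction l with
  | nil => rfl
  | cons c l ih =>
    have e : (c.2.1 : F) = ((c.2.1 % 2 : ℤ) : F) := by
      conv_lhs => rw [← Int.emod_add_mul_ediv c.2.1 2]
      simp [CharTwo.two_eq_zero]
    rw [List.map_cons, List.prod_cons, ih, List.filter_cons, e]
    rcases Int.emod_two_eq_zero_or_one c.2.1 with h | h <;> simp [h, el_zero, CharTwo.neg_eq]

theorem rel {i j r s : ℕ} (hr : chevF4.InRankTwoSub i j r) (hs : chevF4.InRankTwoSub i j s) (h1 : s ≠ r)
    (h2 : s ≠ chevF4.neg r) (t u : F) : el f (pos s) u * el f (pos r) t = el f (pos r) t * el f (pos s) u *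
      ((chevF4.commWord F r s t u).map fun p => el f (pos p.1) p.2).prod := by
  obtain ⟨a1, a2, a3, a4⟩ := inS_iff.1 hr
  obtain ⟨b1, -, -, b4⟩ := inS_iff.1 hs
  have := ok f (tab i a2 j a3 r a1 a4 s b1 b4 h1 h2) t u
  rw [tm, List.map_map] at this
  rw [ChevalleyDatum.commWord, List.map_map]
  refine Eq.trans ?_ (congrArg _ (this.trans (word f _ t u).symm))
  have p := el_sq f (pos r) t
  have q := el_sq f (pos s) u
  generalize el f (pos r) t = a at *
  generalize el f (pos s) u = b at *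
  calc b * a = a * a * (b * a) := by rw [p, one_mul]
    _ = a * (b * b) * a * (b * a) := by rw [q, mul_one]
    _ = _ := by simp only [mul_assoc]

end H51.RS.FCT
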