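import Cfsg.Agent.Lib.RS4.Bas
import Cfsg.Agent.Lib.Stein3.CTMain
import Cfsg.Agent.Lib.Stein3.CTA
import Cfsg.Agent.Lib.Stein3.Mult
import Cfsg.Agent.Lib.Chev.Simple
import Cfsg.Agent.Lib.RS4.FCt

/-! Standard components of type `²F₄(q)`, package FC: see `blueprint/RS4/README.md`. -/

set_option autoImplicit false
set_option linter.unusedSectionVars false

namespace H51.RS
open Subgroup H69 H78.Oct H78.Oct.Co
open scoped commutatorElement
open Cfsg Cfsg.Lie H38

variable {F G : Type*} [Field F] [Tits F] [Finite F] [Group G] [Finite G]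

namespace FCH
open FCT
variable {S : St F G} (f : FamF S)

theorem mem4 : chevF4 ∈ [chevG2, chevB2, chevD4, chevF4, chevE6, chevE7, chevE8] := by simp

theorem exists_hom {R : RootSys chevF4} {E : Elts R.toRS F (GL chevF4.Idx F)} (hE : IsMat R E) :
    ∃ φ : chevF4.group F →* G, ∀ (i j : Fin chevF4.rank) (r : Fin chevF4.nroots), R.InSub {i, j} r →
      ∀ t, φ (hE.grp.x r t) = el f (pos r) t := by
  obtain ⟨hn, M, hM⟩ := H6.ct_data mem4 R
  let y : ℕ → F → G × chevF4.group F := fun r t => (el f (pos r) t, hE.grpRel.x r t)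
  have ya : ∀ r < chevF4.nroots, ∀ a b, y r a * y r b = y r (a + b) := fun r hr a b =>
    Prod.ext (el_add f _ a b) (hE.grpRel.x_add r hr a b)
  have yn : ∀ r < chevF4.nroots, ∀ a, y r (-a) = (y r a)⁻¹ := fun r hr a =>
    eq_inv_of_mul_eq_one_left (by
      rw [ya r hr, neg_add_cancel]; exact mul_eq_left.1 ((ya r hr 0 0).trans (by rw [add_zero])))
  let C : H6.CT hE.grp (MonoidHom.snd G (chevF4.group F)) :=
    { x := fun r t => y r t
      x_add := fun i j r _ => ya r r.2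
      comm' := fun i j r s hr hs n1 n2 t u => by
        have m1 : (s : ℕ) ≠ r := fun e => n1 (Fin.ext e)
        have m2 : (s : ℕ) ≠ chevF4.neg r := fun e => n2 (Fin.ext (e.trans (R.neg_eq r).symm))
        have : y s (-u) * y r (-t) = y r (-t) * y s (-u) *
            ((chevF4.commWord F r s (-t) (-u)).map fun p => y p.1 p.2).prod := by
          refine Prod.ext ((rel f ((H6.inRankTwoSub_iff R).2 hr) ((H6.inRankTwoSub_iff R).2 hs) m1 m2
            (-t) (-u)).trans (congrArg _ ?_)) ((hE.grpRel.comm r r.2 s s.2 m1 m2 (-t) (-u)).trans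
              (congrArg _ ?_))
          · exact ((map_list_prod (MonoidHom.fst G (chevF4.group F)) (List.map (fun p : ℕ × F => y p.1 p.2) _)).trans
              (congrArg _ List.map_map)).symm
          · exact ((map_list_prod (MonoidHom.snd G (chevF4.group F)) (List.map (fun p : ℕ × F => y p.1 p.2) _)).trans
              (congrArg _ List.map_map)).symm
        rw [yn r r.2, yn s s.2, ← inv_mul_eq_iff_eq_mul] at this
        rw [← inv_mem_iff]
        convert (this ▸ Subgroup.list_prod_mem _ fun g hg => ?_ : _ ∈ _) using 1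
        · group
        · obtain ⟨p, hp, rfl⟩ := List.mem_map.1 hg
          obtain ⟨c, hc, rfl⟩ := List.mem_map.1 hp
          obtain ⟨k, h1, h2, h3, h4⟩ := R.commTerms_ok r s hc
          exact subset_closure ⟨k, ⟨_, _, by exact_mod_cast h2, by exact_mod_cast h3, h4⟩, _, by rw [h1]⟩
      map_x := fun i j r _ t => hE.grpRel_x r t }
  obtain ⟨P, h1, h2⟩ := C.exists_preElts hE.grp_faith hn hM
  obtain ⟨ψ, hψ⟩ := H6.exists_hom_st mem4 hE.grpRel (fun r t => (hE.grpRel_x r t).symm) hE.grp_faith h1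
  let e := MulEquiv.ofBijective hE.θ ⟨hE.θ.ker_eq_bot_iff.1
    ((hE.θ_ker mem4).trans (H6.center_st_eq_bot mem4 smithF4)), hE.θ_surjective⟩
  refine ⟨((MonoidHom.fst _ _).comp ψ).comp e.symm.toMonoidHom, fun i j r hr t => ?_⟩
  rw [← hE.θ_isHom]
  exact (congrArg (fun z => (ψ z).1) (e.symm_apply_apply _)).trans
    ((congrArg Prod.fst (hψ r t)).trans (congrArg Prod.fst (h2 i j r hr t)))

theorem Ym (j : ZMod 8) (p : F × F) : f.Y j p ∈ f.G0 := subset_closure ⟨j, p, rfl⟩

theorem elm (P : Ps) (t : F) : el f P t ∈ f.G0 := by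
  obtain ⟨b, i, e⟩ := P
  cases b
  · exact Ym f _ _
  · have := (FCT.flip (YY f _ _) (YY f _ _) (XX f _ _) (k1 f (i - 1) e t 1)).1
    rw [mul_one, sub_add_cancel] at this
    exact (this ▸ mul_mem (mul_mem (mul_mem (Ym f _ _) (Ym f _ _)) (Ym f _ _)) (Ym f _ _) : f.X i (em e t) ∈ _)

theorem sep (h8 : 8 ≤ Nat.card F) {H : Subgroup G} {j : ZMod 8} (h1 : ∀ t, f.Y j (t, 0) ∈ H)
    (h2 : ∀ u, f.Y (j + 3) (0, σ u) ∈ H) :
    (∀ t, f.Y (j + 2) (t, 0) ∈ H) ∧ ∀ t, f.Y (j + 1) (0, σ t) ∈ H := by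
  have k : ∀ t u, f.Y (j + 1) (0, σ (t * u)) * f.Y (j + 2) (t * u ^ 2, 0) ∈ H := fun t u =>
    (H.mul_mem_cancel_left (h1 t)).1 (k2 f j t u ▸ mul_mem (mul_mem (h2 u) (h1 t)) (h2 u))
  classical
  obtain ⟨a, ha⟩ := H63.St.exists_not_mem_of_lt_card (K := F) (n := 2) (by omega) {0, 1} Finset.card_le_two
  simp only [Finset.mem_insert, Finset.mem_singleton, not_or] at ha
  have a1 : a + a ^ 2 ≠ 0 := by
    rw [show a + a ^ 2 = a * (a + 1) by ring]
    exact mul_ne_zero ha.1 fun e => ha.2 (by rw [← CharTwo.neg_eq (1 : F)]; exact eq_neg_of_add_eq_zero_left e)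
  have l : ∀ t, f.Y (j + 2) (t, 0) ∈ H := fun t => by
    have := mul_mem (inv_mem (k (t / (a + a ^ 2) * a) 1)) (k (t / (a + a ^ 2)) a)
    rw [mul_one, mul_inv_rev, mul_assoc, inv_mul_cancel_left, inv_eq_of_mul_eq_one_right (YY f _ _),
      ← f.Yadd] at this
    convert this using 2
    ext
    · simp only [Prod.fst_add]; rw [one_pow, mul_one, ← mul_add, div_mul_cancel₀ _ a1]
    · simp
  refine ⟨l, fun t => ?_⟩
  simpa using (H.mul_mem_cancel_right (l _)).1 (k t 1)

theorem loc : ∀ r ∈ [24, 23, 25, 22, 26, 21, 30, 17, 33, 14, 27, 20, 34, 13, 28, 19],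
    ∃ i : Fin chevF4.rank, ∃ j : Fin chevF4.rank, r < 48 ∧ (i : ℕ) < 4 ∧ (j : ℕ) < 4 ∧ inS i j r = true := by
  decide +kernel

end FCH

open FCT FCH

theorem Fam.f4 {S : St F G} (f : FamF S) : ∃ (e : chevF4.group F ≃* f.G0) (g g' : chevF4.group F),
    ((g : GL chevF4.Idx F) : Matrix chevF4.Idx chevF4.Idx F) = chevF4.x F 25 1 ∧
    ((g' : GL chevF4.Idx F) : Matrix chevF4.Idx chevF4.Idx F) = chevF4.x F 13 1 ∧
    (e g : G) = f.Y 3 (1, 0) ∧ (e g' : G) = f.Y 3 (0, 1) := by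
  obtain ⟨R, E, hE⟩ := exists_isMat mem4 F
  obtain ⟨φ, hφ⟩ := exists_hom f hE
  have k : ∀ r ∈ [24, 23, 25, 22, 26, 21, 30, 17, 33, 14, 27, 20, 34, 13, 28, 19], ∀ t,
      φ (hE.grpRel.x r t) = el f (pos r) t := fun r hr t => by
    obtain ⟨i, j, h⟩ := loc r hr
    exact (congrArg φ (hE.grpRel_x ⟨r, h.1⟩ t)).trans
      (hφ i j ⟨r, h.1⟩ ((H6.inRankTwoSub_iff R).1 (inS_iff.2 h)) t)
  have inj : Function.Injective φ := (MonoidHom.ker_eq_bot_iff _).1
    (((hE.simple mem4 fun h => absurd (h.imp (congrArg ChevalleyDatum.rank) (congrArg ChevalleyDatum.rank))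
      (by decide)).1.eq_bot_or_eq_top_of_normal _ inferInstance).resolve_right
      fun c => by
        have h1 : el f (pos 25) 1 = 1 := (k 25 (by simp) 1).symm.trans (c.ge (mem_top _))
        have := (f.inj 3 (1, 0) 0 0 (by rw [X0, Y0, mul_one, mul_one]; exact h1)).1
        exact one_ne_zero (congrArg Prod.fst this))
  have m : ∀ r ∈ [24, 23, 25, 22, 26, 21, 30, 17, 33, 14, 27, 20, 34, 13, 28, 19], ∀ t,
      el f (pos r) t ∈ φ.range := fun r hr t => ⟨_, k r hr t⟩
  have rg : φ.range = f.G0 := by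
    refine le_antisymm ?_ ((closure_le _).2 ?_)
    · rintro _ ⟨g, rfl⟩
      have : hE.grp.Gp ≤ f.G0.comap φ := hE.grp.XS_le.2 fun r _ t =>
        H6.x_mem_of_inSub hE.grp (J := Set.univ) (fun i _ r hr t => by
          rw [mem_comap, hφ i i r (by simpa using hr)]
          exact elm f _ _) (R.inSub_univ r) t
      exact this (hE.grp_top ▸ mem_top g)
    · rintro _ ⟨j, ⟨a, b⟩, rfl⟩
      obtain ⟨b, rfl⟩ := (σ (K := F)).surjective b
      obtain ⟨l2, s1⟩ := sep f S.big (j := 0) (m 21 (by simp)) (m 13 (by simp))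
      obtain ⟨l6, s5⟩ := sep f S.big (j := 4) (m 26 (by simp)) (m 34 (by simp))
      have : ((a, σ b) : F × F) = (a, 0) + (0, σ b) := by simp
      rw [this, f.Yadd]
      refine mul_mem ?_ ?_
      · fin_cases j
        exacts [m 21 (by simp) a, m 30 (by simp) a, l2 a, m 25 (by simp) a, m 26 (by simp) a,
          m 17 (by simp) a, l6 a, m 22 (by simp) a]
      · fin_cases j
        exacts [m 27 (by simp) b, s1 b, m 28 (by simp) b, m 13 (by simp) b, m 20 (by simp) b, s5 b,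
          m 19 (by simp) b, m 34 (by simp) b]
  refine ⟨(MonoidHom.ofInjective inj).trans (MulEquiv.subgroupCongr rg), hE.grpRel.x 25 1, hE.grpRel.x 13 1,
    rfl, rfl, k 25 (by simp) 1, (k 13 (by simp) 1).trans ?_⟩
  change f.Y 3 (0, σ 1) = _
  rw [map_one]

end H51.RS
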