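import Cfsg.Agent.Lib.RS4.Bas
import Cfsg.Agent.Lib.ChevAut.H1

/-! Standard components of type `²F₄(q)`, package FL2: see `blueprint/RS4/README.md`. -/

set_option autoImplicit false
set_option linter.unusedSectionVars false

namespace H51.RS
open Subgroup H69 H78.Oct H78.Oct.Co
open scoped commutatorElement
open Cfsg Cfsg.Lie H38

namespace FL2

variable {ι Γ : Type*} [Group Γ] {X : ι → Subgroup Γ} {S : Set ι} {f f1 f2 : ι → ℤ}

theorem inf_gen (h : Filt X S f) (hI : Indep X S f) (hS : S.Finite) {S1 S2 : Set ι}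
    (h1 : Filt X S1 f1) (h2 : Filt X S2 f2) (hS1 : S1 ⊆ S) (hS2 : S2 ⊆ S) {g : Γ}
    (g1 : g ∈ gen X S1) (g2 : g ∈ gen X S2) : g ∈ gen X (S1 ∩ S2) := by
  classical
  have hL := Finset.nodup_toList hS.toFinset
  obtain ⟨y1, a1, a2, a3⟩ := h1.exists_prod (hS.subset hS1) hL (fun r hr => by simpa using hS1 hr) g1
  obtain ⟨y2, b1, b2, b3⟩ := h2.exists_prod (hS.subset hS2) hL (fun r hr => by simpa using hS2 hr) g2
  have := h.prod_unique hI hS hL (fun r _ => a1 r) (fun r _ => b1 r)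
    (fun r _ hr => a2 r fun e => hr (hS1 e)) (fun r _ hr => b2 r fun e => hr (hS2 e))
    (a3.symm.trans b3)
  rw [a3]
  refine list_prod_mem_gen fun r hr => ?_
  by_cases e1 : r ∈ S1
  · by_cases e2 : r ∈ S2
    · exact mem_gen (S := S1 ∩ S2) ⟨e1, e2⟩ (a1 r)
    · rw [this r hr, b2 r e2]; exact Subgroup.one_mem _
  · rw [a2 r e1]; exact Subgroup.one_mem _

theorem filt_sub (h : Filt X S f) {T : Set ι} (hT : T ⊆ S) (hu : ∀ s ∈ T, ∀ k ∈ S, f s < f k → k ∈ T) :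
    Filt X T f := fun r hr s hs a ha b hb =>
  mem_gen_mono (h r (hT hr) s (hT hs) a ha b hb) fun k hk => ⟨hu r hr k hk.1 hk.2.1, hk.2⟩

theorem filt_add (h : Filt X S f1) (hI : Indep X S f1) (hS : S.Finite) (h2 : Filt X S f2) :
    Filt X S fun r => f1 r + f2 r := fun r hr s hs a ha b hb =>
  mem_gen_mono (inf_gen h hI hS
    (filt_sub h (T := {k | k ∈ S ∧ f1 r < f1 k ∧ f1 s < f1 k}) (fun _ hk => hk.1)
      fun _ h1 _ hk h2 => ⟨hk, h1.2.1.trans h2, h1.2.2.trans h2⟩)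
    (filt_sub h2 (T := {k | k ∈ S ∧ f2 r < f2 k ∧ f2 s < f2 k}) (fun _ hk => hk.1)
      fun _ h1 _ hk h2 => ⟨hk, h1.2.1.trans h2, h1.2.2.trans h2⟩)
    (fun _ hk => hk.1) (fun _ hk => hk.1) (h r hr s hs a ha b hb) (h2 r hr s hs a ha b hb))
    fun _ hk => ⟨hk.1.1, add_lt_add hk.1.2.1 hk.2.2.1, add_lt_add hk.1.2.2 hk.2.2.2⟩

theorem filt_one (hc : ∀ r, ∀ a ∈ X r, ∀ b ∈ X r, a * b = b * a) (s : ι) : Filt X {s} f := by
  intro r hr t ht a ha b hb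
  rw [Set.mem_singleton_iff] at hr ht
  subst hr ht
  have : a * b * a⁻¹ * b⁻¹ = 1 := by rw [hc _ a ha b hb]; group
  rw [this]
  exact one_mem _

theorem indep_of (h : Filt X S f1) (hI : Indep X S f1) (hS : S.Finite) (h2 : Filt X S f2)
    (hc : ∀ r, ∀ a ∈ X r, ∀ b ∈ X r, a * b = b * a) : Indep X S f2 := by
  intro s hs a ha h3
  have h5 : Filt X {r | r ∈ S ∧ r ≠ s ∧ f2 s ≤ f2 r} f2 :=
    filt_sub h2 (fun _ hk => hk.1) fun _ h1 _ hk h2 =>
      ⟨hk, fun e => absurd (h1.2.2.trans_lt h2) (by rw [e]; exact lt_irrefl _), h1.2.2.trans h2.le⟩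
  have h6 : a ∈ gen X ({s} ∩ {r | r ∈ S ∧ r ≠ s ∧ f2 s ≤ f2 r}) :=
    inf_gen h hI hS (filt_one (f := f1) hc s) h5 (Set.singleton_subset_iff.2 hs) (fun _ hk => hk.1)
      (mem_gen (S := {s}) (Set.mem_singleton s) ha) h3
  have h4 : a ∈ gen X ∅ := mem_gen_mono h6 fun r hr => hr.2.2.1 hr.1
  rwa [gen_empty, mem_bot] at h4

variable {β : Γ ≃* Γ} {π : ι → ι}

theorem map_mem (hπ : ∀ r, ∀ a ∈ X r, β a ∈ X (π r)) {T T' : Set ι} (hT : ∀ r ∈ T, π r ∈ T') {g : Γ}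
    (hg : g ∈ gen X T) : β g ∈ gen X T' :=
  (gen_le (H := (gen X T').comap β.toMonoidHom)).2 (fun r hr a ha => mem_gen (hT r hr) (hπ r a ha)) hg

theorem filt_pi (h : Filt X S f) (hβ : ∀ g, β (β g) = g) (hπ : ∀ r, ∀ a ∈ X r, β a ∈ X (π r))
    (hpos : ∀ r ∈ S, π r ∈ S) (hππ : ∀ r, π (π r) = r) : Filt X S fun r => f (π r) :=
  fun r hr s hs a ha b hb => by
  have := map_mem hπ (T' := {k | k ∈ S ∧ f (π r) < f (π k) ∧ f (π s) < f (π k)})
    (fun k hk => ⟨hpos k hk.1, by rw [hππ]; exact hk.2⟩)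
    (h _ (hpos r hr) _ (hpos s hs) _ (hπ r a ha) _ (hπ s b hb))
  simpa only [map_mul, map_inv, hβ] using this

theorem lang (h : Filt X S f) (hI : Indep X S f) (hS : S.Finite) (hβ : ∀ g, β (β g) = g)
    (hπ : ∀ r, ∀ a ∈ X r, β a ∈ X (π r)) (hne : ∀ r, π r ≠ r) (hππ : ∀ r, π (π r) = r)
    (hf : ∀ r, f (π r) = f r) (n : ℕ) : ∀ T : Set ι, T.ncard = n → T ⊆ S → (∀ r ∈ T, π r ∈ T) →
      (∀ s ∈ T, ∀ k ∈ S, f s < f k → k ∈ T) → ∀ u ∈ gen X T, u * β u = 1 →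
      ∃ v ∈ gen X S, u = v * (β v)⁻¹ := by
  induction n using Nat.strong_induction_on with
  | _ n ih =>
  intro T hn hT hp hup u hu e
  rcases T.eq_empty_or_nonempty with rfl | hne'
  · rw [gen_empty, mem_bot] at hu
    exact ⟨1, one_mem _, by simp [hu]⟩
  have hTf := hS.subset hT
  obtain ⟨r, hr, hmin⟩ := Set.exists_min_image T f hTf hne'
  have up1 : ∀ s ∈ T \ {r}, ∀ k ∈ S, f s < f k → k ∈ T \ {r} := fun s hs k hk hlt =>
    ⟨hup s hs.1 k hk hlt, fun e => absurd ((hmin s hs.1).trans_lt hlt) (by rw [e]; exact lt_irrefl _)⟩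
  have up2 : ∀ s ∈ T \ {r, π r}, ∀ k ∈ S, f s < f k → k ∈ T \ {r, π r} := fun s hs k hk hlt =>
    ⟨hup s hs.1 k hk hlt, fun e => absurd ((hmin s hs.1).trans_lt hlt) (by
      rcases e with e | e <;> rw [e]
      · exact lt_irrefl _
      · rw [hf]; exact lt_irrefl _)⟩
  have hp2 : ∀ s ∈ T \ {r, π r}, π s ∈ T \ {r, π r} := fun s hs => ⟨hp s hs.1, fun e => hs.2 (by
    rcases e with e | e
    · exact Or.inr (by rw [← e, hππ]; rfl)
    · exact Or.inl (by rw [← hππ s, e, hππ]))⟩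
  obtain ⟨a, ha, w, hw, rfl⟩ := (filt_sub h hT hup).exists_mul hTf (S1 := {r}) (S2 := T \ {r})
    (fun s hs => by by_cases e : s = r <;> simp [e, hs]) hu
  replace ha : a ∈ X r := gen_singleton (X := X) r ▸ gen_mono Set.inter_subset_right ha
  obtain ⟨b, hb, c, hc, rfl⟩ := (filt_sub h (Set.diff_subset.trans hT) up1).exists_mul hTf.diff
    (S1 := {π r}) (S2 := T \ {r, π r}) (fun s hs => by
      by_cases e : s = π r
      · exact Or.inl e
      · exact Or.inr ⟨hs.1, fun k => k.elim hs.2 e⟩) (gen_mono Set.inter_subset_right hw)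
  replace hb : b ∈ X (π r) := gen_singleton (X := X) (π r) ▸ gen_mono Set.inter_subset_right hb
  replace hc : c ∈ gen X (T \ {r, π r}) := gen_mono Set.inter_subset_right hc
  have hc' : (β a)⁻¹ * c * (β a)⁻¹⁻¹ ∈ gen X (T \ {r, π r}) :=
    h.conj_mem (Set.diff_subset.trans hT) up2 (inv_mem (mem_gen (hT (hp r hr)) (hπ r a ha))) hc
  have p1 : b * β a = 1 := by
    have sub : T \ {r, π r} ⊆ {k | k ∈ S ∧ k ≠ π r ∧ f (π r) ≤ f k} := fun k hk =>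
      ⟨hT hk.1, fun e => hk.2 (Or.inr e), (hf r).le.trans (hmin k hk.1)⟩
    have mr : r ∈ {k | k ∈ S ∧ k ≠ π r ∧ f (π r) ≤ f k} := ⟨hT hr, (hne r).symm, (hf r).le⟩
    refine hI _ (hT (hp r hr)) _ (mul_mem hb (hπ r a ha)) ?_
    have e1 : b * β a = a⁻¹ * (β c)⁻¹ * (β b)⁻¹ * ((β a)⁻¹ * c * (β a)⁻¹⁻¹)⁻¹ := by
      rw [map_mul, map_mul] at e
      calc _ = a⁻¹ * (a * (b * c) * (β a * (β b * β c))) * (β c)⁻¹ * (β b)⁻¹ *
            ((β a)⁻¹ * c * (β a)⁻¹⁻¹)⁻¹ := by group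
        _ = _ := by rw [e, mul_one]
    rw [e1]
    exact mul_mem (mul_mem (mul_mem (inv_mem (mem_gen mr ha)) (inv_mem (gen_mono sub (map_mem hπ hp2 hc))))
      (inv_mem (mem_gen mr (hππ r ▸ hπ _ b hb)))) (inv_mem (gen_mono sub hc'))
  have e2 : (β a)⁻¹ * c * (β a)⁻¹⁻¹ = a⁻¹ * (a * (b * c)) * β a := by
    rw [eq_inv_of_mul_eq_one_left p1]; group
  obtain ⟨v, hv, e3⟩ := ih _ (hn ▸ Set.ncard_lt_ncard (t := T)
    ⟨Set.diff_subset, fun k => (k hr).2 (Or.inl rfl)⟩ hTf) _ rfl (Set.diff_subset.trans hT) hp2 up2 _ hc' (by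
      rw [e2, map_mul β, map_mul β, map_inv, hβ]
      calc _ = a⁻¹ * (a * (b * c) * β (a * (b * c))) * a := by group
        _ = 1 := by rw [e]; group)
  refine ⟨a * v, mul_mem (mem_gen (hT hr) ha) hv, ?_⟩
  rw [map_mul, mul_inv_rev, mul_assoc, ← mul_assoc v, ← e3, e2]
  group

end FL2

variable {F G : Type*} [Field F] [Tits F] [Finite F] [Group G] [Finite G]

/-- an involution of the unipotent group which permutes the root subgroups without fixed points -/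
theorem lang_swap {ι l : Type} [Fintype l] [DecidableEq l] [Finite ι] {R : RS ι l} {K : Type*} [Field K]
    [CharP K 2] {Γ : Type*} [Group Γ] {E : Elts R K Γ} (hF : E.Faith) {β : Γ ≃* Γ} (hβ : ∀ g, β (β g) = g)
    {π : ι → ι} (hπ : ∀ r t, β (E.x r t) ∈ E.X (π r)) (hpos : ∀ r, R.Pos r → R.Pos (π r))
    (hne : ∀ r, π r ≠ r) (hππ : ∀ r, π (π r) = r) {u : Γ} (hu : u ∈ E.U) (h : u * β u = 1) :
    ∃ v ∈ E.U, u = v * (β v)⁻¹ := by
  have h1 := E.filt R.closed_pos fun _ h => h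
  have hπ' : ∀ r, ∀ a ∈ E.X r, β a ∈ E.X (π r) := by
    rintro r _ ⟨t, rfl⟩; exact hπ r t
  have h2 := FL2.filt_add h1 hF.indep (Set.toFinite _) (FL2.filt_pi h1 hβ hπ' hpos hππ)
  exact FL2.lang h2 (FL2.indep_of h1 hF.indep (Set.toFinite _) h2 (by
    rintro r _ ⟨a, rfl⟩ _ ⟨b, rfl⟩; exact E.x_comm r a b)) (Set.toFinite _) hβ hπ' hne hππ
    (fun r => by rw [hππ, add_comm]) _ _ rfl subset_rfl hpos (fun _ _ _ hk _ => hk) u hu h

end H51.RS
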