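import Cfsg.Agent.Lib.RS4.FL0
import Cfsg.Agent.Lib.RS4.FL2

/-! Standard components of type `²F₄(q)`, package FL1: see `blueprint/RS4/README.md`. -/

set_option autoImplicit false
set_option linter.unusedSectionVars false

namespace H51.RS
open Subgroup H69 H78.Oct H78.Oct.Co
open scoped commutatorElement
open Cfsg Cfsg.Lie H38

namespace FL1H

section Abs
variable {ι l : Type} [Fintype l] [DecidableEq l] [Finite ι] {R : RS ι l} {K : Type*} [Field K]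
  {Γ : Type*} [Group Γ] {E : Elts R K Γ}

theorem root_eq (hF : E.Faith) {r s : ι} {t u : K} (ht : t ≠ 0) (e : E.x r t = E.x s u) : r = s := by
  obtain ⟨w, hw, i, rfl⟩ := R.exists_W_sim s
  obtain ⟨n, hn⟩ := E.exists_rep_of_mem_W hw
  obtain ⟨c, hc, h1⟩ := hn.inv.conj_x r
  obtain ⟨d, -, h2⟩ := hn.inv.conj_x (w (R.sim i))
  have h3 : E.x (w⁻¹ r) (c * t) = E.x (R.sim i) (d * u) := by
    have := h2 u
    rw [← e, h1 t] at this
    simpa using this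
  have h4 := H61.eq_sim_of_x_eq hF (mul_ne_zero hc ht) h3
  rw [← h4]; simp

theorem exists_pi {θ : Γ ≃* Γ} {ρ : l → l} {c : l → Kˣ} {f : l → K ≃+* K}
    (h : H61.Pinned E θ ρ c f) : ∃ π : ι → ι, (∀ r t, θ (E.x r t) ∈ E.X (π r)) ∧
      ∀ r, ∃ i, R.len r = R.len (R.sim i) ∧ R.len (π r) = R.len (R.sim (ρ i)) := by
  have key : ∀ r, ∃ s, (∀ t, θ (E.x r t) ∈ E.X s) ∧
      ∃ i, R.len r = R.len (R.sim i) ∧ R.len s = R.len (R.sim (ρ i)) := by
    intro r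
    obtain ⟨w, hw, i, rfl⟩ := R.exists_W_sim r
    obtain ⟨L, -, rfl⟩ := R.exists_list_of_mem_WJ hw
    refine ⟨_, fun t => h.map_X L i t, i, R.len_W hw _, R.len_W ?_ _⟩
    have := R.list_prod_mem_WJ (J := Set.univ) (L := L.map ρ) (fun _ _ => Set.mem_univ _)
    rw [List.map_map] at this
    exact this
  choose π h1 h2 using key
  exact ⟨π, h1, h2⟩

/-- reduction to a pinned automorphism -/
theorem exists_pin [Finite K] [Finite Γ] (hF : E.Faith) (hG : E.Gp = ⊤) (hZ : H61.Centerless E)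
    {α : Γ ≃* Γ} (hα : ∀ x, α (α x) = x) (hU : ∀ a ∈ E.U, α a ∈ E.U) :
    ∃ (β : Γ ≃* Γ) (ρ : Equiv.Perm l) (c : l → Kˣ) (f : l → K ≃+* K), H61.Pinned E β ρ c f ∧
      ∃ u ∈ E.U, ∀ x, α x = u * β x * u⁻¹ := by
  obtain ⟨a, ρ, c, f, h⟩ := H61.exists_pinned hF hG hZ α
  have hP := h.pres_U hF
  have ha : a ∈ Subgroup.normalizer (E.U : Set Γ) := by
    rw [Subgroup.mem_normalizer_iff]
    intro x
    have h1 := hP (α x)
    have e : (α.trans (MulAut.conj a)) (α x) = a * x * a⁻¹ := by simp [hα]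
    rw [e] at h1
    rw [h1]
    exact ⟨hU x, fun h2 => by simpa [hα] using hU _ h2⟩
  rw [H61.normalizer_U hF hG] at ha
  obtain ⟨u, hu, k, hk, e⟩ := E.mem_B.1 (inv_mem ha)
  obtain ⟨d, hd⟩ := H61.exists_pinned_conj hk
  refine ⟨_, ρ, _, _, h.trans hd, u, hu, fun x => ?_⟩
  have e' : a = (u * k)⁻¹ := by rw [← e, inv_inv]
  simp only [MulEquiv.trans_apply, MulAut.conj_apply, e']
  group

theorem core [CharP K 2] (hF : E.Faith) (hG : E.Gp = ⊤) {α β : Γ ≃* Γ} (hα : ∀ x, α (α x) = x)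
    {ρ : Equiv.Perm l} {c : l → Kˣ} {f : l → K ≃+* K} (h : H61.Pinned E β ρ c f)
    (hρ : ∀ i, R.len (R.sim (ρ i)) ≠ R.len (R.sim i)) {u : Γ} (hu : u ∈ E.U)
    (e : ∀ x, α x = u * β x * u⁻¹) {a : Γ} (ha : a ∈ E.U) (h1 : a * α a = 1) :
    ∃ b ∈ E.U, a = b * (α b)⁻¹ := by
  have hw : u * β u ∈ E.U := mul_mem hu (h.mem_U hF hu)
  have e2 : β.trans β = MulAut.conj (u * β u)⁻¹ := by
    ext x
    have := hα x
    rw [e, e, map_mul, map_mul, map_inv] at this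
    simp only [MulEquiv.trans_apply, MulAut.conj_apply]
    conv_rhs => rw [← this]
    group
  have hp := h.trans h
  rw [e2] at hp
  have hH : (u * β u)⁻¹ ∈ E.H := H61.Pinned.mem_H_of_conj hF hG (ρ := ρ * ρ) hp
  have hu1 : u * β u = 1 := inv_eq_one.1 (hF.U_inf_H (inv_mem hw) hH)
  have hβ : ∀ x, β (β x) = x := fun x => by
    have := DFunLike.congr_fun e2 x
    simpa [hu1] using this
  obtain ⟨π, hπ, hl⟩ := exists_pi h
  have hx : ∀ r, ∃ t, t ≠ 0 ∧ β (E.x r 1) = E.x (π r) t := by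
    intro r
    obtain ⟨t, ht⟩ := hπ r 1
    refine ⟨t, fun h0 => ?_, ht.symm⟩
    rw [h0, E.x_zero] at ht
    exact one_ne_zero (hF.x_eq_one r 1 (β.injective (by rw [← ht, map_one])))
  have hpos : ∀ r, R.Pos r → R.Pos (π r) := by
    intro r hr
    obtain ⟨t, ht, e3⟩ := hx r
    refine hF.pos_of_x_mem_B ht (E.U_le_B ?_)
    rw [← e3]
    exact h.mem_U hF (E.x_mem_U hr 1)
  have hne : ∀ r, π r ≠ r := by
    intro r hr
    obtain ⟨i, h3, h4⟩ := hl r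
    rw [hr] at h4
    exact hρ i (h4.symm.trans h3)
  have hππ : ∀ r, π (π r) = r := by
    intro r
    obtain ⟨t, -, e3⟩ := hx r
    obtain ⟨t', e4⟩ := hπ (π r) t
    rw [← e3, hβ] at e4
    exact (root_eq hF one_ne_zero e4.symm).symm
  obtain ⟨v, hv, ev⟩ := lang_swap hF hβ hπ hpos hne hππ hu hu1
  have e5 : ∀ x, α x = v * β (v⁻¹ * x * v) * v⁻¹ := by
    intro x
    rw [e, map_mul, map_mul, map_inv]
    conv_lhs => rw [ev]
    group
  have ha' : v⁻¹ * a * v ∈ E.U := mul_mem (mul_mem (inv_mem hv) ha) hv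
  have h6 : v⁻¹ * a * v * β (v⁻¹ * a * v) = 1 := by
    rw [e5] at h1
    calc v⁻¹ * a * v * β (v⁻¹ * a * v) = v⁻¹ * (a * (v * β (v⁻¹ * a * v) * v⁻¹)) * v := by group
      _ = 1 := by rw [h1]; group
  obtain ⟨b, hb, eb⟩ := lang_swap hF hβ hπ hpos hne hππ ha' h6
  refine ⟨v * b * v⁻¹, mul_mem (mul_mem hv hb) (inv_mem hv), ?_⟩
  have e7 : v⁻¹ * (v * b * v⁻¹) * v = b := by group
  rw [e5, e7]
  calc a = v * (v⁻¹ * a * v) * v⁻¹ := by group
    _ = _ := by rw [eb]; group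

end Abs

variable {F : Type*} [Field F] [Tits F] [Finite F]

theorem langU {R : RootSys chevF4} {E : Elts R.toRS F (GL chevF4.Idx F)} (hE : IsMat R E)
    {α : chevF4.group F ≃* chevF4.group F} (hα : ∀ x, α (α x) = x)
    (hc : IsConj (hE.grp.x ⟨13, by decide⟩ 1) (α (hE.grp.x ⟨25, by decide⟩ 1)))
    (hU : ∀ a ∈ hE.grp.U, α a ∈ hE.grp.U) {a : chevF4.group F} (ha : a ∈ hE.grp.U)
    (h1 : a * α a = 1) : ∃ b ∈ hE.grp.U, a = b * (α b)⁻¹ := by
  obtain ⟨β, ρ, c, f, h, u, hu, e⟩ :=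
    exists_pin hE.grp_faith hE.grp_top (H61.centerless hE) hα hU
  rcases H61.symmetry_F4 ρ (H61.isDiagramSymmetry_of_pinned hE h) with rfl | rfl
  · exfalso
    obtain ⟨π, hπ, hl⟩ := exists_pi h
    obtain ⟨t, ht⟩ := hπ ⟨25, by decide⟩ 1
    obtain ⟨i, h3, h4⟩ := hl ⟨25, by decide⟩
    have h5 : R.len ⟨13, by decide⟩ ≠ R.len (π ⟨25, by decide⟩) := by
      rw [h4]
      exact fun h6 => len_25_13 R (h3.trans h6.symm)
    refine ls_nc hE h5 (b := t) one_ne_zero (hc.trans ?_)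
    rw [e, ht]
    exact (isConj_iff.2 ⟨u, rfl⟩).symm
  · exact core hE.grp_faith hE.grp_top hα h (len_rev R) hu e ha h1

end FL1H

variable {F G : Type*} [Field F] [Tits F] [Finite F] [Group G] [Finite G]

theorem lang_F4 {g g' : chevF4.group F}
    (hg : ((g : GL chevF4.Idx F) : Matrix chevF4.Idx chevF4.Idx F) = chevF4.x F 25 1)
    (hg' : ((g' : GL chevF4.Idx F) : Matrix chevF4.Idx chevF4.Idx F) = chevF4.x F 13 1) :
    ¬ IsConj g g' ∧ ∀ α : chevF4.group F ≃* chevF4.group F, (∀ x, α (α x) = x) → α g = g' →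
      ∀ A : Subgroup (chevF4.group F), IsSylowIn 2 A ⊤ → (∀ a ∈ A, α a ∈ A) →
        (∀ a ∈ A, a * α a = 1 → ∃ b ∈ A, a = b * (α b)⁻¹) ∧
        ∃ Zh ≤ A, Nat.card Zh = Nat.card F ^ 2 ∧ ∀ z ∈ Zh, ∀ a ∈ A, z * a = a * z := by
  obtain ⟨R, E, hE⟩ := H38.exists_isMat (D := chevF4) (by simp) F
  obtain rfl : g = hE.grp.x ⟨25, by decide⟩ 1 := (H61.eq_grp_x_iff hE (r := ⟨25, by decide⟩)).1 hg
  obtain rfl : g' = hE.grp.x ⟨13, by decide⟩ 1 := (H61.eq_grp_x_iff hE (r := ⟨13, by decide⟩)).1 hg'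
  refine ⟨ls_nc hE (len_25_13 R) one_ne_zero, fun α hα hgg A hA hAα => ?_⟩
  haveI : Fact (Nat.Prime 2) := ⟨Nat.prime_two⟩
  obtain ⟨k, -, rfl⟩ := (sylU_F4 hE).conj hA
  constructor
  · intro a ha h1
    let α' : chevF4.group F ≃* chevF4.group F := ((MulAut.conj k).trans α).trans (MulAut.conj k⁻¹)
    have e : ∀ x, α' x = k⁻¹ * α (k * x * k⁻¹) * k := fun x => by simp [α']
    have hα' : ∀ x, α' (α' x) = x := fun x => by
      have e1 : k * (k⁻¹ * α (k * x * k⁻¹) * k) * k⁻¹ = α (k * x * k⁻¹) := by group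
      rw [e, e, e1, hα]; group
    have hc : IsConj (hE.grp.x ⟨13, by decide⟩ 1) (α' (hE.grp.x ⟨25, by decide⟩ 1)) := by
      rw [e, map_mul, map_mul, map_inv, hgg]
      exact isConj_iff.2 ⟨k⁻¹ * α k, by group⟩
    have hU : ∀ a ∈ hE.grp.U, α' a ∈ hE.grp.U := fun x hx => by
      rw [e]
      exact mem_cj.1 (hAα _ (mem_cj'.2 ⟨x, hx, rfl⟩))
    have e2 : k * (k⁻¹ * a * k) * k⁻¹ = a := by group
    obtain ⟨b, hb, eb⟩ := FL1H.langU hE hα' hc hU (mem_cj.1 ha) (by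
      rw [e, e2]
      calc k⁻¹ * a * k * (k⁻¹ * α a * k) = k⁻¹ * (a * α a) * k := by group
        _ = 1 := by rw [h1]; group)
    refine ⟨k * b * k⁻¹, mem_cj'.2 ⟨b, hb, rfl⟩, ?_⟩
    rw [e] at eb
    rw [← e2, eb]
    group
  · obtain ⟨Zh, h1, h2, h3⟩ := cen_F4 hE
    refine ⟨Zh ^ᶜ k, cj_mono k h1, by rw [card_cj, h2], fun z hz a ha => ?_⟩
    obtain ⟨z', hz', rfl⟩ := mem_cj'.1 hz
    obtain ⟨a', ha', rfl⟩ := mem_cj'.1 ha
    calc k * z' * k⁻¹ * (k * a' * k⁻¹) = k * (z' * a') * k⁻¹ := by group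
      _ = _ := by rw [h3 z' hz' a' ha']; group

end H51.RS
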