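import Cfsg.Agent.Lib.RS4.UA

/-! Standard components of type `²F₄(q)`, package FPA: see `blueprint/RS4/README.md`. -/

set_option autoImplicit false
set_option linter.unusedSectionVars false

namespace H51.RS
open Subgroup H69 H78.Oct H78.Oct.Co
open scoped commutatorElement

variable {F G : Type*} [Field F] [Tits F] [Finite F] [Group G] [Finite G]

namespace FPA

theorem solve {w : F} (hw : w ≠ 1) (a : F) : ∃ c, w * c + c = a := by
  have h : w + 1 ≠ 0 := fun h => hw (by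
    have := CharTwo.add_self_eq_zero (1 : F)
    linear_combination h - this)
  exact ⟨a / (w + 1), by field_simp⟩

/-- a subgroup containing all root elements but those of `U₄` and an element `g` contains `y₄(g.a4, ·)` -/
theorem y4_mem {Y : Subgroup (Co F)} {g : Co F} (hg : g ∈ Y) (h1 : x1 g.a1 ∈ Y) (h2 : y2 g.a2 g.b2 ∈ Y)
    (h3 : ∀ a, x3 a ∈ Y) (h4 : ∀ a, y4 0 a ∈ Y) (h5 : ∀ a, x5 a ∈ Y) (h6 : y6 g.a6 g.b6 ∈ Y)
    (h7 : ∀ a, x7 a ∈ Y) (h8 : y8 g.a8 g.b8 ∈ Y) (b : F) : y4 g.a4 b ∈ Y := by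
  have e := eq_prod g
  rw [e] at hg
  have k1 := (Y.mul_mem_cancel_right (h5 _)).1 ((Y.mul_mem_cancel_right h6).1
    ((Y.mul_mem_cancel_right (h7 _)).1 ((Y.mul_mem_cancel_right h8).1 hg)))
  have k2 := (Y.mul_mem_cancel_left (mul_mem (mul_mem h1 h2) (h3 _))).1 k1
  have e2 : y4 g.a4 b = y4 g.a4 g.b4 * y4 0 (g.b4 + b) := by co
  rw [e2]; exact mul_mem k2 (h4 _)

theorem top_of {Y : Subgroup (Co F)} (h1 : ∀ a, x1 a ∈ Y) (h2 : ∀ a b, y2 a b ∈ Y)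
    (h3 : ∀ a, x3 a ∈ Y) (h4 : ∀ a b, y4 a b ∈ Y) (h5 : ∀ a, x5 a ∈ Y) (h6 : ∀ a b, y6 a b ∈ Y)
    (h7 : ∀ a, x7 a ∈ Y) (h8 : ∀ a b, y8 a b ∈ Y) (g : Co F) : g ∈ Y := by
  rw [eq_prod g]
  exact mul_mem (mul_mem (mul_mem (mul_mem (mul_mem (mul_mem (mul_mem (h1 _) (h2 _ _)) (h3 _)) (h4 _ _))
    (h5 _)) (h6 _ _)) (h7 _)) (h8 _ _)

theorem top_of_tor (h8 : 8 ≤ Nat.card F) {Y : Subgroup (Co F)} (ht : ∀ k a, tor 1 k a * a⁻¹ ∈ Y)
    (hc : ∀ a b, a * b * a⁻¹ * b⁻¹ ∈ Y) (g : Co F) : g ∈ Y := by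
  obtain ⟨k, k1, kN, -⟩ := exists_unit (F := F) h8
  have k0 : (k : F) ≠ 0 := k.ne_zero
  have kσ : σ (k : F) ≠ 1 := fun h => k1 (σ.injective (h.trans (map_one _).symm))
  have kN' : ((k : F) * σ (k : F))⁻¹ ≠ 1 := fun h => kN (inv_eq_one.1 h)
  have k1' : (k : F)⁻¹ ≠ 1 := fun h => k1 (inv_eq_one.1 h)
  have k8 : (k : F) ^ 2 * σ (k : F) ≠ 1 := fun h => kN (σ.injective (by
    rw [map_mul, σσ, map_one, mul_comm]; exact h))
  have h1 : ∀ a : F, x1 a ∈ Y := fun a => by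
    obtain ⟨c, rfl⟩ := solve kN' a
    convert ht k (x1 c) using 1; co
  have h2' : ∀ a : F, y2 0 a ∈ Y := fun a => by
    obtain ⟨c, rfl⟩ := solve kN' a
    convert ht k (y2 0 c) using 1; co
  have h2 : ∀ a b : F, y2 a b ∈ Y := fun a b => by
    obtain ⟨c, rfl⟩ := solve k1' a
    convert mul_mem (ht k (y2 c 0)) (h2' ((tor 1 k (y2 c 0) * (y2 c 0)⁻¹).b2 + b)) using 1; co
  have h3 : ∀ a : F, x3 a ∈ Y := fun a => by
    obtain ⟨c, rfl⟩ := solve k1' a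
    convert ht k (x3 c) using 1; co
  have h4' : ∀ a : F, y4 0 a ∈ Y := fun a => by
    convert hc (x1 a) (y6 0 1) using 1; co
  have h5 : ∀ a : F, x5 a ∈ Y := fun a => by
    obtain ⟨c, rfl⟩ := solve k1 a
    convert ht k (x5 c) using 1; co
  have h6' : ∀ a : F, y6 0 a ∈ Y := fun a => by
    obtain ⟨c, rfl⟩ := solve kN a
    convert ht k (y6 0 c) using 1; co
  have h6 : ∀ a b : F, y6 a b ∈ Y := fun a b => by
    obtain ⟨c, rfl⟩ := solve k1 a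
    convert mul_mem (ht k (y6 c 0)) (h6' ((tor 1 k (y6 c 0) * (y6 c 0)⁻¹).b6 + b)) using 1; co
  have h7 : ∀ a : F, x7 a ∈ Y := fun a => by
    obtain ⟨c, rfl⟩ := solve kN a
    convert ht k (x7 c) using 1; co
  have h8' : ∀ a : F, y8 0 a ∈ Y := fun a => by
    obtain ⟨c, rfl⟩ := solve k8 a
    convert ht k (y8 0 c) using 1; co
  have h8 : ∀ a b : F, y8 a b ∈ Y := fun a b => by
    obtain ⟨c, rfl⟩ := solve kσ a
    convert mul_mem (ht k (y8 c 0)) (h8' ((tor 1 k (y8 c 0) * (y8 c 0)⁻¹).b8 + b)) using 1; co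
  refine top_of h1 h2 h3 (fun a b => ?_) h5 h6 h7 h8 g
  have := y4_mem (hc (y8 1 0) (y2 (σ.symm a) 0)) (h1 _) (h2 _ _) h3 h4' h5 (h6 _ _) h7 (h8 _ _) b
  convert this using 2
  simp
  grind

variable (S : St F G)

theorem r_add (i j : ZMod 8) : S.ρ ^ (i + j).val = S.ρ ^ i.val * S.ρ ^ j.val := by
  rw [ZMod.val_add, ← pow_add, ← pow_eq_pow_mod _ S.ρ8]

theorem r_neg (j : ZMod 8) : S.ρ ^ (-j).val = (S.ρ ^ j.val)⁻¹ :=
  eq_inv_of_mul_eq_one_left (by rw [← r_add, neg_add_cancel, ZMod.val_zero, pow_zero])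

theorem r_refl {n : G} (hn : n * S.ρ * n⁻¹ = S.ρ⁻¹) (j : ZMod 8) :
    n * S.ρ ^ j.val * n⁻¹ = S.ρ ^ (-j).val := by
  rw [r_neg, ← conj_pow, hn, inv_pow]

theorem refl_rot {n g : G} (hn : n * S.ρ * n⁻¹ = S.ρ⁻¹) (h : n * g = g * n) (j : ZMod 8) :
    n * S.rot g j * n⁻¹ = S.rot g (4 - j) := by
  have e : (4 - j - 2 : ZMod 8) = -(j - 2) := by ring
  rw [St.rot, St.rot, e, ← r_refl S hn, ← conj_mul, ← conj_mul, ← conj_inv, h, mul_inv_cancel_right]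

theorem n1_ρ : S.n1 * S.ρ * S.n1⁻¹ = S.ρ⁻¹ := by
  rw [St.ρ, ← mul_assoc, S.n11, one_mul, mul_inv_rev, S.n2_inv]

theorem n2_ρ : S.n2 * S.ρ * S.n2⁻¹ = S.ρ⁻¹ := by
  rw [St.ρ, mul_inv_rev, S.n1_inv, ← mul_assoc, mul_inv_cancel_right, S.n2_inv]

end FPA

namespace St
variable (S : St F G)
theorem perfP : ⁅S.P0, S.P0⁆ = S.P0 := by
  refine le_antisymm (commutator_le.2 fun a ha b hb => ?_) (S.P0_gen2 fun p hp j hj => ?_)
  · exact mul_mem (mul_mem (mul_mem ha hb) (inv_mem ha)) (inv_mem hb)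
  have hU : ∀ a, S.φ a ∈ ⁅S.P0, S.P0⁆ := FPA.top_of_tor S.big (Y := ⁅S.P0, S.P0⁆.comap S.φ)
    (fun k a => by
      rw [mem_comap, map_mul, map_inv, ← S.h_φ]
      exact commutator_mem_commutator (S.h_memP k) (S.φ_memP a))
    (fun a b => by
      rw [mem_comap, map_mul, map_mul, map_mul, map_inv, map_inv]
      exact commutator_mem_commutator (S.φ_memP a) (S.φ_memP b))
  obtain ⟨c, rfl⟩ := S.ex_ι hp
  have hc : c ^ 2 ^ j = 1 := S.ι_inj (by rw [map_pow, hj, map_one])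
  obtain ⟨d, hd⟩ := S.par.sylow (zpowers c) fun ⟨x, n, hn⟩ => ⟨j, Subtype.ext (by
    subst hn
    change (c ^ n) ^ 2 ^ j = 1
    rw [← zpow_natCast, ← zpow_mul, mul_comm, zpow_mul, zpow_natCast, hc, one_zpow])⟩
  obtain ⟨a, ha⟩ := hd c (mem_zpowers c)
  have e : S.ι c = ⁅(S.ι d)⁻¹, S.φ a⁆ * S.φ a := by
    rw [← S.ι_nf, ← ha, map_mul, map_mul, map_inv, commutatorElement_def]; group
  rw [e]
  exact mul_mem (commutator_mem_commutator (inv_mem (S.ι_mem d)) (S.φ_memP a)) (hU a)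

theorem inv_L {x : G} (hx : x ∈ S.L) (h2 : x * x = 1) :
    x = 1 ∨ (∃ l ∈ S.L, l * x * l⁻¹ = S.z4 1) ∨ ∃ l ∈ S.L, l * x * l⁻¹ = S.φ (x5 1) := by
  have k : ∀ {y : S.L}, IsConj y ⟨x, hx⟩ → ∃ l ∈ S.L, l * x * l⁻¹ = y := fun h => by
    obtain ⟨c, hc⟩ := isConj_iff.1 h.symm
    exact ⟨c, c.2, congrArg Subtype.val hc⟩
  rcases S.cls ⟨x, hx⟩ (Subtype.ext h2) with h | h | h
  · exact .inl (congrArg Subtype.val h)
  · exact .inr (.inl (k h))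
  · exact .inr (.inr (k h))

theorem d_cls (a : F) {b : F} (hb : b ≠ 0) (c : F) :
    ∃ l ∈ S.L, l * (S.z4 a * S.φ (x5 b) * S.z6 c) * l⁻¹ = S.φ (x5 1) := by
  obtain ⟨d, hd⟩ := S.par.pb_5 a c hb
  refine ⟨S.ι d, (S.ι_mem d).1, ?_⟩
  have e : S.z4 a * S.φ (x5 b) * S.z6 c = S.φ (pbE 0 0 a b c) := by
    rw [← map_mul, ← map_mul]; congr 1; ext <;> simp [pbE]
  rw [e, ← S.ι_nf, ← S.ι_nf, ← hd, map_mul, map_mul, map_inv]

theorem rot_two (g : G) : S.rot g 2 = g := by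
  rw [rot, sub_self, ZMod.val_zero, pow_zero, one_mul, inv_one, mul_one]

theorem rot_succ (g : G) (j : ZMod 8) : S.rot g (j + 1) = S.ρ * S.rot g j * S.ρ⁻¹ := by
  have e : (j + 1 - 2 : ZMod 8) = 1 + (j - 2) := by ring
  have e1 : (1 : ZMod 8).val = 1 := rfl
  rw [rot, rot, e, FPA.r_add, e1, pow_one]; group

theorem rot_mul (g g' : G) (j : ZMod 8) : S.rot (g * g') j = S.rot g j * S.rot g' j := by
  rw [rot, rot, rot, conj_mul]

theorem rot_one (j : ZMod 8) : S.rot 1 j = 1 := by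
  rw [rot, mul_one, mul_inv_cancel]

theorem rot_rot (g : G) (i j : ZMod 8) : S.rot (S.rot g i) j = S.rot g (i + j - 2) := by
  have e : (i + j - 2 - 2 : ZMod 8) = (j - 2) + (i - 2) := by ring
  rw [rot, rot, rot, e, FPA.r_add]; simp only [mul_assoc, mul_inv_rev]

theorem rot_inj {g g' : G} {j : ZMod 8} (h : S.rot g j = S.rot g' j) : g = g' :=
  mul_left_cancel (mul_right_cancel h)

theorem rot_t (g : G) (j : ZMod 8) : S.t * S.rot g j * S.t⁻¹ = S.rot (S.t * g * S.t⁻¹) j := by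
  have h : S.t * S.ρ ^ (j - 2).val * S.t⁻¹ = S.ρ ^ (j - 2).val :=
    mul_inv_eq_iff_eq_mul.2 (S.t_comm (pow_mem S.ρ_mem _))
  rw [rot, rot, ← conj_mul, ← conj_mul, ← conj_inv, h]

theorem n2_rot {g : G} (h : S.n2 * g = g * S.n2) (j : ZMod 8) : S.n2 * S.rot g j * S.n2⁻¹ = S.rot g (4 - j) :=
  FPA.refl_rot S (FPA.n2_ρ S) h j

theorem n1_rot {g : G} (h : S.n2 * g = g * S.n2) (j : ZMod 8) : S.n1 * S.rot g j * S.n1⁻¹ = S.rot g (5 - j) := by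
  have e : (5 - j : ZMod 8) = 4 - j + 1 := by ring
  have e1 : S.n1 = S.ρ * S.n2 := by rw [ρ, mul_assoc, S.n22, mul_one]
  rw [e, rot_succ, ← S.n2_rot h]
  conv_lhs => rw [e1]
  simp only [mul_assoc, mul_inv_rev]

theorem n1_rot' {g : G} (h : S.n1 * g = g * S.n1) (j : ZMod 8) : S.n1 * S.rot g j * S.n1⁻¹ = S.rot g (4 - j) :=
  FPA.refl_rot S (FPA.n1_ρ S) h j

theorem n2_rot' {g : G} (h : S.n1 * g = g * S.n1) (j : ZMod 8) : S.n2 * S.rot g j * S.n2⁻¹ = S.rot g (3 - j) := by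
  have e : (4 - j : ZMod 8) = 3 - j + 1 := by ring
  have e1 : S.n1 = S.ρ * S.n2 := by rw [ρ, mul_assoc, S.n22, mul_one]
  have k := S.n1_rot' h j
  rw [e, rot_succ] at k
  conv_lhs at k => rw [e1]
  refine mul_left_cancel (a := S.ρ) (mul_right_cancel (b := S.ρ⁻¹) ?_)
  rw [← k]; simp only [mul_assoc, mul_inv_rev]

/-- `L` is generated by the centres of the even root subgroups -/
theorem closure_rot : closure {g | ∃ j a, g = S.rot (S.z4 a) j} = S.L := by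
  set X := closure {g | ∃ j a, g = S.rot (S.z4 a) j} with hX
  have hXL : X ≤ S.L := (closure_le _).2 (by
    rintro _ ⟨j, a, rfl⟩
    exact mul_mem (mul_mem (pow_mem S.ρ_mem _) (S.φ_mem _)) (inv_mem (pow_mem S.ρ_mem _)))
  have hz : ∀ a, S.n2 * S.z4 a = S.z4 a * S.n2 := fun a => mul_inv_eq_iff_eq_mul.1 (S.n2_z4 a)
  have hn : ∀ n : G, (∀ j a, ∃ i, n * S.rot (S.z4 a) j * n⁻¹ = S.rot (S.z4 a) i) →
      ∀ x ∈ X, n * x * n⁻¹ ∈ X := fun n h x hx => by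
    refine closure_induction (p := fun x _ => n * x * n⁻¹ ∈ X) ?_ ?_ ?_ ?_ hx
    · rintro _ ⟨j, a, rfl⟩
      obtain ⟨i, e⟩ := h j a
      exact subset_closure ⟨i, a, e⟩
    · simp
    · intro x y _ _ hx hy; rw [← conj_mul]; exact mul_mem hx hy
    · intro x _ hx; rw [← conj_inv]; exact inv_mem hx
  have hn1 := hn S.n1 fun j a => ⟨_, S.n1_rot (hz a) j⟩
  have hn2 := hn S.n2 fun j a => ⟨_, S.n2_rot (hz a) j⟩
  let Y : Subgroup (Co F) := X.comap S.φ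
  have w1Y : ∀ {a b : Co F}, a ∈ Y → a.a1 = 0 → w1 a = b → b ∈ Y := fun ha h e => by
    have := hn1 _ ha
    rw [S.n1_φ h, e] at this; exact this
  have w2Y : ∀ {a b : Co F}, a ∈ Y → a.a8 = 0 → a.b8 = 0 → w2 a = b → b ∈ Y := fun ha h h' e => by
    have := hn2 _ ha
    rw [S.n2_φ h h', e] at this; exact this
  have h4' : ∀ a : F, y4 0 a ∈ Y := fun a => subset_closure ⟨2, a, (S.rot_two _).symm⟩
  have h6' : ∀ a : F, y6 0 a ∈ Y := fun a => w1Y (h4' a) rfl (by co)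
  have h2' : ∀ a : F, y2 0 a ∈ Y := fun a => w2Y (h6' a) rfl rfl (by co)
  have h8' : ∀ a : F, y8 0 a ∈ Y := fun a => w1Y (h2' a) rfl (by co)
  have h5 : ∀ a : F, x5 a ∈ Y := fun a => by
    have e : y8 0 1 * y2 0 a * y8 0 1 = y2 0 a * y4 0 (σ a) * x5 a * y6 0 a := by co
    have := mul_mem (mul_mem (h8' 1) (h2' a)) (h8' 1)
    rw [e] at this
    exact (Y.mul_mem_cancel_left (mul_mem (h2' _) (h4' _))).1 ((Y.mul_mem_cancel_right (h6' _)).1 this)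
  have h3 : ∀ a : F, x3 a ∈ Y := fun a => w2Y (h5 a) rfl rfl (by co)
  have h7 : ∀ a : F, x7 a ∈ Y := fun a => w1Y (h3 a) rfl (by co)
  have h1 : ∀ a : F, x1 a ∈ Y := fun a => w2Y (h7 a) rfl rfl (by co)
  have h4 : ∀ a b : F, y4 a b ∈ Y := fun a b => by
    obtain ⟨k, -, -, hk⟩ := exists_unit (F := F) S.big
    have hk' : σ (k : F) + k ≠ 0 := fun h => hk (by
      have := CharTwo.add_self_eq_zero (k : F)
      linear_combination h - this)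
    obtain ⟨u, rfl⟩ : ∃ u, u * (σ (k : F) + k) = a := ⟨a / (σ (k : F) + k), by field_simp⟩
    have hg : ∀ t u : F, ∃ g ∈ Y, g.a1 = 0 ∧ g.a2 = 0 ∧ g.a8 = 0 ∧ g.b8 = 0 ∧ g.a4 = u * σ t ∧ g.a6 = u * t :=
      fun t u => ⟨_, mul_mem (mul_mem (mul_mem (h1 t) (h8' u)) (h1 t)) (h8' u), by simp <;> grind⟩
    obtain ⟨g, hg1, a1, a2, a8, b8, a4, a6⟩ := hg k u
    obtain ⟨g', hg2, a1', a2', a8', b8', a4', a6'⟩ := hg 1 (u * k)
    have e2 : (g * g').a2 = 0 := by simp [*]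
    have e6 : (g * g').a6 = 0 := by simp [*]; grind
    have e8 : (g * g').a8 = 0 := by simp [*]
    have e4 : (g * g').a4 = u * (σ (k : F) + k) := by simp [*]; ring
    have := FPA.y4_mem (mul_mem hg1 hg2) (h1 _) (e2 ▸ h2' _) h3 h4' h5 (e6 ▸ h6' _) h7 (e8 ▸ h8' _) b
    rwa [e4] at this
  have h6 : ∀ a b : F, y6 a b ∈ Y := fun a b => w1Y (h4 a b) rfl (by co)
  have h2 : ∀ a b : F, y2 a b ∈ Y := fun a b => w2Y (h6 a b) rfl rfl (by co)
  have h8 : ∀ a b : F, y8 a b ∈ Y := fun a b => w1Y (h2 a b) rfl (by co)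
  have hU : ∀ a, S.φ a ∈ X := FPA.top_of h1 h2 h3 h4 h5 h6 h7 h8
  have hN : S.L ≤ 𝐍(X) := S.L_le (fun a => le_normalizer (hU a)) (mem_normalizer_fintype hn1)
    (mem_normalizer_fintype hn2)
  haveI := S.simple
  haveI : (X.subgroupOf S.L).Normal := (normal_subgroupOf_iff_le_normalizer hXL).2 hN
  refine le_antisymm hXL ?_
  rcases IsSimpleGroup.eq_bot_or_eq_top_of_normal (X.subgroupOf S.L) this with h | h
  · have : (⟨S.z4 1, S.φ_mem _⟩ : S.L) ∈ X.subgroupOf S.L := hU _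
    rw [h, mem_bot] at this
    exact absurd (S.z4_inj ((congrArg Subtype.val this).trans S.z4_zero.symm)) one_ne_zero
  · exact subgroupOf_eq_top.1 h

end St

end H51.RS
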