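import Cfsg.Agent.Lib.RS4.FC
import Cfsg.Agent.Lib.RS4.FL1
import Cfsg.Agent.Lib.RS4.FPA

/-! Standard components of type `²F₄(q)`, package FG: see `blueprint/RS4/README.md`. -/

set_option autoImplicit false
set_option linter.unusedSectionVars false

namespace H51.RS
open Subgroup H69 H78.Oct H78.Oct.Co
open scoped commutatorElement
open Cfsg Cfsg.Lie H38

variable {F G : Type*} [Field F] [Tits F] [Finite F] [Group G] [Finite G]

namespace FG

theorem conj_mem {S : St F G} (f : FamF S) {g : G} (hg : g ∈ f.G0) : S.t * g * S.t⁻¹ ∈ f.G0 := by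
  induction hg using closure_induction with
  | mem x hx =>
    obtain ⟨j, p, rfl⟩ := hx
    rw [f.ct]
    exact subset_closure ⟨j, _, rfl⟩
  | one => rw [mul_one, mul_inv_cancel]; exact one_mem _
  | mul x y _ _ hx hy =>
    rw [← conj_mul]; exact mul_mem hx hy
  | inv x _ hx =>
    rw [← conj_inv]; exact inv_mem hx

theorem tt_conj (S : St F G) (g : G) : S.t * (S.t * g * S.t⁻¹) * S.t⁻¹ = g := by
  rw [S.t_inv]
  calc S.t * (S.t * g * S.t) * S.t = S.t * S.t * g * (S.t * S.t) := by group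
    _ = g := by rw [S.tt, one_mul, mul_one]

theorem mem_norm (S : St F G) {A : Subgroup G} (h : ∀ g ∈ A, S.t * g * S.t⁻¹ ∈ A) :
    S.t ∈ 𝐍(A) :=
  mem_normalizer_iff.2 fun g => ⟨h g, fun hg => tt_conj S g ▸ h _ hg⟩

theorem L_le {S : St F G} (f : FamF S) : S.L ≤ f.G0 := by
  rw [← S.closure_rot, closure_le]
  rintro g ⟨j, a, rfl⟩
  exact subset_closure ⟨j, _, (f.ext j a).symm⟩

theorem J_isP (S : St F G) : IsPGroup 2 S.J := by
  intro g
  refine ⟨4, Subtype.ext ?_⟩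
  obtain ⟨u, h | h⟩ := S.mem_J.1 g.2
  · rw [Subgroup.coe_pow, h, S.φ_16, Subgroup.coe_one]
  · have c : Commute S.t (S.φ u) := S.t_φ u
    rw [Subgroup.coe_pow, h, c.mul_pow, S.φ_16, Subgroup.coe_one, mul_one,
      show 2 ^ 4 = 2 * 8 from rfl, pow_mul, sq, S.tt, one_pow]

end FG

theorem Fam.fg {S : St F G} (f : FamF S) :
    (∃ A Zh, EG S f.G0 A Zh) ∧ Nonempty (f.G0 ≃* chevF4.group F) := by
  haveI : Fact (Nat.Prime 2) := ⟨Nat.prime_two⟩
  obtain ⟨e, g, g', hg, hg', eg, eg'⟩ := f.f4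
  refine ⟨?_, ⟨e.symm⟩⟩
  obtain ⟨nc, hl⟩ := lang_F4 hg hg'
  have ht : S.t ∈ 𝐍(f.G0) := FG.mem_norm S fun _ => FG.conj_mem f
  let ψ : chevF4.group F →* G := f.G0.subtype.comp e.toMonoidHom
  have hψ : ∀ x, ψ x = (e x : G) := fun _ => rfl
  have ψi : Function.Injective ψ := Subtype.val_injective.comp e.injective
  have ψm : ∀ x, ψ x ∈ f.G0 := fun x => (e x).2
  have ψs : ∀ a ∈ f.G0, ∃ x, ψ x = a := fun a ha =>
    ⟨e.symm ⟨a, ha⟩, by rw [hψ, e.apply_symm_apply]⟩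
  let α : chevF4.group F ≃* chevF4.group F :=
    e.trans ((f.G0.normalizerMonoidHom ⟨S.t, ht⟩ : MulAut f.G0).trans e.symm)
  have hα : ∀ x, ψ (α x) = S.t * ψ x * S.t⁻¹ := fun x => by
    rw [hψ, hψ]
    show ((e (e.symm _) : f.G0) : G) = _
    rw [e.apply_symm_apply]
    rfl
  have αα : ∀ x, α (α x) = x := fun x => ψi (by rw [hα, hα, FG.tt_conj])
  have αg : α g = g' := ψi (by rw [hα, hψ, hψ, eg, eg', f.ct]; rfl)
  have tG : S.t ∉ f.G0 := fun h => by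
    obtain ⟨x, hx⟩ := ψs _ h
    refine nc (isConj_iff.2 ⟨x, ψi ?_⟩)
    rw [← αg, hα, map_mul, map_mul, map_inv, hx]
  have hJ : S.J ≤ zpowers S.t ⊔ f.G0 := sup_le_sup_left (S.U_le_L.trans (FG.L_le f)) _
  obtain ⟨T, hT, JT⟩ := exists_isSylowIn_le (FG.J_isP S) hJ
  have hA : IsSylowIn 2 (T ⊓ f.G0) f.G0 :=
    hT.inf_normal le_sup_right (sup_le (zpowers_le.2 ht) le_normalizer)
  have tT : S.t ∈ T := JT (mem_sup_left (mem_zpowers _))
  have hcj : ∀ a ∈ T ⊓ f.G0, S.t * a * S.t⁻¹ ∈ T ⊓ f.G0 := fun a ha =>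
    ⟨T.mul_mem (T.mul_mem tT ha.1) (T.inv_mem tT), FG.conj_mem f ha.2⟩
  have hA' : IsSylowIn 2 ((T ⊓ f.G0).comap ψ) ⊤ := by
    have := hA.subgroupOf_top.map e.symm.toMonoidHom
    rw [map_top_of_surjective _ e.symm.surjective] at this
    convert this using 1
    ext x
    constructor
    · intro hx
      exact ⟨e x, hx, e.symm_apply_apply x⟩
    · rintro ⟨y, hy, rfl⟩
      show ψ (e.symm y) ∈ T ⊓ f.G0
      rw [hψ, e.apply_symm_apply]
      exact hy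
  obtain ⟨lang, Zh, Zle, Zc, Zz⟩ := hl α αα αg _ hA' fun a ha => by
    show ψ (α a) ∈ T ⊓ f.G0
    rw [hα]
    exact hcj _ ha
  refine ⟨T ⊓ f.G0, Zh.map ψ, ?_, inf_le_right, hA.isP, FG.mem_norm S hcj, fun h => tG h.2,
    le_inf (le_sup_right.trans JT) (S.U_le_L.trans (FG.L_le f)), map_le_iff_le_comap.2 Zle,
    ?_, ?_, ?_⟩
  · obtain ⟨R, E, hE⟩ := H38.exists_isMat (D := chevF4) (by simp) F
    have hp := hE.perfect (by simp) fun _ =>
      let ⟨d, h0, h1, _⟩ := exists_ne S.big 0 1 1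
      ⟨d, h0, h1⟩
    have e0 : (⊤ : Subgroup (chevF4.group F)).map ψ = f.G0 := by
      refine le_antisymm ?_ fun a ha => ?_
      · rintro _ ⟨x, -, rfl⟩
        exact ψm x
      · obtain ⟨x, rfl⟩ := ψs a ha
        exact ⟨x, trivial, rfl⟩
    rw [← e0, ← map_commutator, ← _root_.commutator_def, hp]
  · rintro _ ⟨z, hz, rfl⟩ a ha
    obtain ⟨x, rfl⟩ := ψs a ha.2
    rw [← map_mul, ← map_mul, Zz z hz x ha]
  · rw [← Zc]
    exact Nat.card_congr (Zh.equivMapOfInjective ψ ψi).toEquiv.symm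
  · intro a ha h
    obtain ⟨x, rfl⟩ := ψs a ha.2
    obtain ⟨b, hb, rfl⟩ := lang x ha (ψi (by rw [map_mul, hα, h, map_one]))
    exact ⟨ψ b, hb, by rw [map_mul, map_inv, hα, conj_inv]⟩

end H51.RS
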