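import Cfsg.Agent.Lib.RS4.Bas
import Cfsg.Agent.Lib.ChevAut.Main
import Cfsg.Agent.Lib.Chev.Top

/-! Standard components of type `²F₄(q)`, package FL0: see `blueprint/RS4/README.md`. -/

set_option autoImplicit false
set_option linter.unusedSectionVars false

namespace H51.RS
open Subgroup H69 H78.Oct H78.Oct.Co
open scoped commutatorElement
open Cfsg Cfsg.Lie H38

variable {F G : Type*} [Field F] [Tits F] [Finite F] [Group G] [Finite G]

namespace FL0

section Gen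
variable {ι l : Type} [Fintype l] [DecidableEq l] [Finite ι] {R : RS ι l} {K : Type*} [Field K]
  {Γ : Type*} [Group Γ] {E : Elts R K Γ}

theorem top (r : ι) : ∃ w ∈ R.W, R.Pos (w r) ∧ ∀ w' ∈ R.W, R.ht (w' r) ≤ R.ht (w r) := by
  obtain ⟨w, hw⟩ := Finite.exists_max fun w : R.W => R.ht ((w : Equiv.Perm ι) r)
  refine ⟨w, w.2, (R.ht_pos_iff _).1 ?_, fun w' h => hw ⟨w', h⟩⟩
  obtain ⟨v, hv, i, rfl⟩ := R.exists_W_sim r
  have := hw ⟨v⁻¹, inv_mem hv⟩
  simp only [Equiv.Perm.coe_inv, Equiv.symm_apply_apply, R.ht_sim] at this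
  omega

theorem key (hF : E.Faith) (hG : E.Gp = ⊤) {r s : ι} (hr : R.Pos r) (hs : R.Pos s) {a b : K} (ha : a ≠ 0)
    (h : IsConj (E.x r a) (E.x s b)) : ∃ w ∈ R.W, w r = s ∨ R.ht s < R.ht (w r) := by
  obtain ⟨g, h⟩ := isConj_iff.1 h
  obtain ⟨β, hb, n, w, hn, u, hu, rfl⟩ := E.bruhat (g := g) (hG ▸ mem_top g)
  have T := E.lead_ht hs
  have h1 := T.B_conj (inv_mem hb) (E.x_mem_XS (.inl rfl) b)
  rw [← h] at h1
  have h2 := (E.lead_ht hr).weyl_mem (List.nodup_singleton r) (by simp) hF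
    (c := fun _ => a) (one_mem _) T.closed T.pos hn (E.mem_XS_mono hu fun _ h => h.1) (by
      convert h1 using 1
      simp only [List.map_singleton, List.prod_singleton]; group) _ rfl ha
  exact ⟨w, hn.mem_W, h2⟩

theorem mv {w : Equiv.Perm ι} (hw : w ∈ R.W) (r : ι) {a : K} (ha : a ≠ 0) :
    ∃ c, c ≠ 0 ∧ IsConj (E.x r a) (E.x (w r) c) := by
  obtain ⟨n, hn⟩ := E.exists_rep_of_mem_W hw
  obtain ⟨c, hc, e⟩ := hn.conj_x r
  exact ⟨c * a, mul_ne_zero hc ha, isConj_iff.2 ⟨n, e a⟩⟩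

theorem nc (hF : E.Faith) (hG : E.Gp = ⊤) {r s : ι} (h : R.len r ≠ R.len s) {a b : K} (ha : a ≠ 0) :
    ¬ IsConj (E.x r a) (E.x s b) := fun e => by
  have hb : b ≠ 0 := fun e0 => by
    rw [e0, E.x_zero, isConj_one_left] at e
    exact ha (hF.x_eq_one r a e)
  obtain ⟨v, hv, pv, mv1⟩ := top (R := R) r
  obtain ⟨w, hw, pw, mw⟩ := top (R := R) s
  obtain ⟨c, hc, e1⟩ := mv (E := E) hv r ha
  obtain ⟨d, hd, e2⟩ := mv (E := E) hw s hb
  have e3 := (e1.symm.trans e).trans e2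
  obtain ⟨x, hx, h1⟩ := key hF hG pv pw hc e3
  obtain ⟨y, hy, h2⟩ := key hF hG pw pv hd e3.symm
  have h3 := h1.resolve_left fun e => h (by
    rw [← R.len_W hv r, ← R.len_W hx (v r), e, R.len_W hw])
  have h4 := h2.resolve_left fun e => h (by
    rw [← R.len_W hw s, ← R.len_W hy (w s), e, R.len_W hv])
  have h5 := mv1 _ (mul_mem hx hv)
  have h6 := mw _ (mul_mem hy hw)
  rw [Equiv.Perm.mul_apply] at h5 h6
  omega

end Gen

theorem len_ne (R : RootSys chevF4) {r s : Fin chevF4.nroots}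
    (h : chevF4.pairing r s ≠ chevF4.pairing s r) : R.len r ≠ R.len s := fun e => by
  have h1 := R.len_mul_pair r s
  rw [← R.pairing_eq, ← R.pairing_eq, e] at h1
  exact h (mul_left_cancel₀ (R.len_ne s) h1)

theorem len_eq (R : RootSys chevF4) {r s : Fin chevF4.nroots}
    (h : chevF4.pairing r s = chevF4.pairing s r ∧ chevF4.pairing s r ≠ 0) : R.len r = R.len s := by
  have h1 := R.len_mul_pair r s
  rw [← R.pairing_eq, ← R.pairing_eq, h.1] at h1
  exact mul_right_cancel₀ h.2 h1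

theorem cm {R : RootSys chevF4} {E : Elts R.toRS F (GL chevF4.Idx F)} (hE : IsMat R E)
    {k : Fin chevF4.nroots} (hk : ∀ r : Fin chevF4.nroots, chevF4.IsPosRoot r → r ≠ k →
      (k : ℕ) ≠ chevF4.neg r ∧ ∀ c ∈ chevF4.commTerms r k, c.2.1 % 2 = 0 ∧ c.1 < chevF4.nroots)
    (u : F) {a : chevF4.group F} (ha : a ∈ hE.grp.U) : hE.grp.x k u * a = a * hE.grp.x k u := by
  refine hE.grp.XS_induction (P := fun a => hE.grp.x k u * a = a * hE.grp.x k u) ha
    (fun r hr t => ?_) (by simp) fun a b _ _ h1 h2 => Commute.mul_right h1 h2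
  by_cases e : r = k
  · rw [e, hE.grp.x_add, hE.grp.x_add, add_comm]
  obtain ⟨h1, h2⟩ := hk r ((R.isPosRoot_iff r).2 hr) e
  have := hE.grpRel.comm r r.2 k k.2 (fun h => e (Fin.ext h.symm)) h1 t u
  rw [hE.grpRel_x, hE.grpRel_x] at this
  rw [this, List.prod_eq_one, mul_one]
  intro x hx
  obtain ⟨p, hp, rfl⟩ := List.mem_map.1 hx
  obtain ⟨c, hc, rfl⟩ := List.mem_map.1 hp
  obtain ⟨h3, h4⟩ := h2 c hc
  have : ((c.2.1 : ℤ) : F) = 0 := (CharP.intCast_eq_zero_iff F 2 _).2 (Int.dvd_of_emod_eq_zero h3)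
  simp only [this, zero_mul]
  exact hE.grpRel.x_zero h4

end FL0

open FL0

/-- long and short root elements are not conjugate -/
theorem ls_nc {R : RootSys chevF4} {E : Elts R.toRS F (GL chevF4.Idx F)} (hE : IsMat R E)
    {r s : Fin chevF4.nroots} (h : R.len r ≠ R.len s) {a b : F} (ha : a ≠ 0) :
    ¬ IsConj (hE.grp.x r a) (hE.grp.x s b) :=
  nc hE.grp_faith hE.grp_top h ha

theorem len_25_13 (R : RootSys chevF4) : R.len ⟨25, by decide⟩ ≠ R.len ⟨13, by decide⟩ :=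
  len_ne R (by decide +kernel)

theorem len_rev (R : RootSys chevF4) (i : Fin chevF4.rank) : R.len (R.sim (Fin.revPerm i)) ≠ R.len (R.sim i) := by
  have s : ∀ (j : Fin chevF4.rank) (k : Fin chevF4.nroots), chevF4.simple j = k → R.sim j = k :=
    fun j k e => Fin.ext ((R.sim_eq j).trans e)
  have a := len_eq R (r := ⟨33, by decide⟩) (s := ⟨27, by decide⟩) (by decide +kernel)
  have b := len_ne R (r := ⟨27, by decide⟩) (s := ⟨25, by decide⟩) (by decide +kernel)
  have c := len_eq R (r := ⟨25, by decide⟩) (s := ⟨24, by decide⟩) (by decide +kernel)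
  have s0 := s ⟨0, by decide⟩ ⟨33, by decide⟩ rfl
  have s1 := s ⟨1, by decide⟩ ⟨27, by decide⟩ rfl
  have s2 := s ⟨2, by decide⟩ ⟨25, by decide⟩ rfl
  have s3 := s ⟨3, by decide⟩ ⟨24, by decide⟩ rfl
  rw [← s0, ← s1] at a
  rw [← s1, ← s2] at b
  rw [← s2, ← s3] at c
  obtain ⟨i, hi⟩ := i
  have hi' : i < 4 := hi
  interval_cases i
  · exact fun e => b (a.symm.trans (e.symm.trans c.symm))
  · exact b.symm
  · exact b
  · exact fun e => b (a.symm.trans (e.trans c.symm))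

theorem sylU_F4 {R : RootSys chevF4} {E : Elts R.toRS F (GL chevF4.Idx F)} (hE : IsMat R E) :
    IsSylowIn 2 hE.grp.U ⊤ := by
  obtain ⟨S, hS⟩ := H61.exists_sylow_U hE.grp_faith hE.grp_top (H61.centerless hE) 2
  exact hS ▸ isSylowIn_top S

/-- the centre of the unipotent group -/
theorem cen_F4 {R : RootSys chevF4} {E : Elts R.toRS F (GL chevF4.Idx F)} (hE : IsMat R E) :
    ∃ Zh ≤ hE.grp.U, Nat.card Zh = Nat.card F ^ 2 ∧ ∀ z ∈ Zh, ∀ a ∈ hE.grp.U, z * a = a * z := by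
  let k : Fin chevF4.nroots := ⟨44, by decide⟩
  let m : Fin chevF4.nroots := ⟨47, by decide⟩
  have pk : R.Pos k := (R.isPosRoot_iff k).1 (by decide +kernel)
  have pm : R.Pos m := (R.isPosRoot_iff m).1 (by decide +kernel)
  have ck := fun u a => cm hE (k := k) (by decide +kernel) u (a := a)
  have cm' := fun u a => cm hE (k := m) (by decide +kernel) u (a := a)
  have hc : R.Closed {k, m} := by
    have h1 : ∀ r ∈ ({k, m} : Set (Fin chevF4.nroots)), 1 ≤ R.pair m r := by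
      rintro r (rfl | rfl) <;> rw [← R.pairing_eq] <;> decide +kernel
    rintro r hr s hs j ⟨a, b, ha, hb, e⟩
    have h2 : R.pair m j = a * R.pair m r + b * R.pair m s := by
      rw [RS.pair, e, RS.pv_add, RS.pv_smul, RS.pv_smul]; rfl
    have h3 : 2 ≤ R.pair m j := by have := h1 r hr; have := h1 s hs; nlinarith
    rw [← R.pairing_eq] at h3
    exact Or.inr ((by decide +kernel : ∀ j : Fin chevF4.nroots, 2 ≤ chevF4.pairing m j → j = m) j h3)
  refine ⟨hE.grp.XS {k, m}, hE.grp.XS_le.2 (by rintro r (rfl | rfl) t <;> exact hE.grp.x_mem_XS ‹_› t), ?_,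
    fun z hz a ha => ?_⟩
  · rw [hE.grp_faith.card_XS hc (by rintro r (rfl | rfl) <;> assumption), Set.ncard_pair (by decide)]
  · refine hE.grp.XS_induction (P := fun z => z * a = a * z) hz ?_ (by simp)
      fun a b _ _ h1 h2 => Commute.mul_left h1 h2
    rintro r (rfl | rfl) t
    exacts [ck t a ha, cm' t a ha]

end H51.RS
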