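import Cfsg.Agent.Lib.RS4.FPA
import Cfsg.Agent.Lib.G2S.Gen

/-! Standard components of type `²F₄(q)`, package K1: see `blueprint/RS4/README.md`. -/

set_option autoImplicit false
set_option linter.unusedSectionVars false

namespace H51.RS
open Subgroup H69 H78.Oct H78.Oct.Co
open scoped commutatorElement

variable {F G : Type*} [Field F] [Tits F] [Finite F] [Group G] [Finite G]

namespace K1

theorem comm_C0 {S : St F G} {p c x : G} (hc : S.C0 c) (hx : x ∈ S.L) (h : p * c * x = x * (p * c)) :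
    p * x = x * p := by
  rwa [mul_assoc p, hc.2 x hx, ← mul_assoc, ← mul_assoc, mul_left_inj] at h

theorem pow_dec (S : St F G) {l m : G} (hl : l ∈ S.L) (hm : m * S.t = S.t * m) (n : ℕ) :
    ∃ l' ∈ S.L, (l * m) ^ n = l' * m ^ n := by
  induction n with
  | zero => exact ⟨1, one_mem _, by simp⟩
  | succ n ih =>
    obtain ⟨l', h', e⟩ := ih
    exact ⟨l * (m * l' * m⁻¹), mul_mem hl (S.nL m hm l' h'), by rw [pow_succ', e, pow_succ']; group⟩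

theorem pow_z4 {S : St F G} {m : G} {r : F ≃+* F} (h : S.Act m r) (n : ℕ) (a : F) :
    m ^ n * S.z4 a * (m ^ n)⁻¹ = S.z4 ((r ^ n) a) := by
  induction n with
  | zero => simp
  | succ n ih =>
    rw [pow_succ', pow_succ', show m * m ^ n * S.z4 a * (m * m ^ n)⁻¹ = m * (m ^ n * S.z4 a * (m ^ n)⁻¹) * m⁻¹ by group,
      ih, h.z4]
    rfl

theorem aut_one (S : St F G) (k : ℕ) : ∀ r : F ≃+* F, r ^ 2 ^ k = 1 → r = 1 := by
  induction k with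
  | zero => intro r h; simpa using h
  | succ k ih => intro r h; exact S.autOdd r (ih _ (by rw [← pow_two, ← pow_mul, ← pow_succ', h]))

theorem C0s_cent {S : St F G} {R X : Subgroup G} (h : R ≤ S.C0s) (hX : X ≤ S.L) : R ≤ 𝐍(X) :=
  le_normalizer_of_le_centralizer fun r hr x hx => ((h hr).2 x (hX hx)).symm

end K1

namespace St
variable (S : St F G) {g : G}
theorem cZ (ht : g * S.t = S.t * g) (h : ∀ a, g * S.z4 a = S.z4 a * g) :
    ∃ p ∈ S.P0, ∃ c, S.C0 c ∧ g = p * c := by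
  obtain ⟨l, hl, c, r, hc, ct, rfl⟩ := S.dec ht
  have k : ∀ a, l * S.z4 (r a) = S.z4 a * l := fun a => by
    rw [← hc.z4, ← mul_assoc, ← mul_assoc, h]; group
  have hp : l ∈ S.P0 := S.mem_P0.2 ⟨hl, by simpa using k 1⟩
  refine ⟨l, hp, c, ⟨ct, Act.cn ?_⟩, rfl⟩
  rwa [show r = 1 from RingEquiv.ext fun a => S.z4_inj (by
    have := k a
    rwa [S.P0_z4 hp, mul_left_inj] at this)] at hc

theorem cQ (ht : g * S.t = S.t * g) (h : ∀ x ∈ S.Q, g * x = x * g) : ∃ a c, S.C0 c ∧ g = S.z4 a * c := by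
  obtain ⟨p, hp, c, hc, rfl⟩ := S.cZ ht fun a => h _ (S.φ_memQ (by simp))
  obtain ⟨a, rfl⟩ := S.cent_Q (S.P0_le_L hp) fun e he => K1.comm_C0 hc (S.φ_mem e) (h _ (S.φ_memQ he))
  exact ⟨a, c, hc, rfl⟩

theorem cE (ht : g * S.t = S.t * g) (h : ∀ e ∈ Co.E, g * S.φ e = S.φ e * g) :
    ∃ f ∈ Co.F, ∃ c, S.C0 c ∧ g = S.φ f * c := by
  obtain ⟨p, hp, c, hc, rfl⟩ := S.cZ ht fun a => h _ (by simp)
  obtain ⟨a, ha, rfl⟩ := S.cent_E (S.P0_le_L hp) fun e he => K1.comm_C0 hc (S.φ_mem e) (h _ he)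
  exact ⟨a, ha, c, hc, rfl⟩

theorem cR (ht : g * S.t = S.t * g) (h : ∀ e ∈ Co.R, g * S.φ e = S.φ e * g) :
    ∃ a b c, S.C0 c ∧ g = S.z4 a * S.z6 b * c := by
  obtain ⟨p, hp, c, hc, rfl⟩ := S.cZ ht fun a => h _ (by simp)
  obtain ⟨a, b, rfl⟩ := S.cent_R (S.P0_le_L hp) fun e he => K1.comm_C0 hc (S.φ_mem e) (h _ he)
  exact ⟨a, b, c, hc, rfl⟩

theorem cM (ht : g * S.t = S.t * g) (h : ∀ e, Mid e → g * S.φ e = S.φ e * g) :
    ∃ a b e c, S.C0 c ∧ g = S.z4 a * S.φ (x5 b) * S.z6 e * c := by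
  obtain ⟨p, hp, c, hc, rfl⟩ := S.cZ ht fun a => h _ (by simp [Mid])
  obtain ⟨a, b, e, rfl⟩ := S.cent_Mid (S.P0_le_L hp) fun e he => K1.comm_C0 hc (S.φ_mem e) (h _ he)
  exact ⟨a, b, e, c, hc, rfl⟩

theorem dec2 (ht : g * S.t = S.t * g) {k : ℕ} (h : g ^ 2 ^ k = 1) : ∃ l ∈ S.L, ∃ c, S.C0 c ∧ g = l * c := by
  obtain ⟨l, hl, c, r, hc, ct, rfl⟩ := S.dec ht
  obtain ⟨l', hl', e⟩ := K1.pow_dec S hl ct (2 ^ k)
  have m : c ^ 2 ^ k ∈ S.L := by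
    rw [eq_inv_of_mul_eq_one_right (e.symm.trans h)]; exact inv_mem hl'
  have hp : c ^ 2 ^ k ∈ S.P0 := S.mem_P0.2 ⟨m, by
    have := K1.pow_z4 hc (2 ^ k) 1
    rw [map_one] at this
    exact mul_inv_eq_iff_eq_mul.1 this⟩
  refine ⟨l, hl, c, ⟨ct, Act.cn ?_⟩, rfl⟩
  rwa [K1.aut_one S k r (RingEquiv.ext fun a => S.z4_inj (by
    rw [← K1.pow_z4 hc, S.P0_z4 hp, mul_inv_cancel_right]; rfl))] at hc

variable {S}
theorem sylT {R : Subgroup G} (h : IsSylowIn 2 R S.C0s) : IsSylowIn 2 (S.U ⊔ R) S.Ct := by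
  have k := H89.G2S.sylSup S.sylU h (K1.C0s_cent le_rfl le_rfl) (K1.C0s_cent h.le S.U_le_L)
  refine ⟨k.le.trans (sup_le S.L_le_Ct fun c hc => S.mem_Ct.2 hc.1), k.isP, fun P h1 h2 hP => k.max P h1 (fun x hx => ?_) hP⟩
  obtain ⟨j, hj⟩ := hP ⟨x, hx⟩
  obtain ⟨l, hl, c, hc, rfl⟩ := S.dec2 (S.mem_Ct.1 (h2 hx)) (k := j) (congrArg Subtype.val hj)
  exact mul_mem_sup hl hc

theorem mem_T {R : Subgroup G} (h : R ≤ S.C0s) : g ∈ S.U ⊔ R ↔ ∃ u, ∃ r ∈ R, g = S.φ u * r := by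
  rw [mem_sup_of_le_normalizer_left (K1.C0s_cent h S.U_le_L)]
  exact ⟨fun ⟨_, ⟨u, e⟩, m, hm, e'⟩ => ⟨u, m, hm, e ▸ e'⟩, fun ⟨u, m, hm, e⟩ => ⟨_, S.φ_memU u, m, hm, e⟩⟩

theorem Db.sylJ (h : S.Db) : IsSylowIn 2 S.J S.Ct := by
  rw [St.J, sup_comm]
  refine sylT ⟨zpowers_le.2 S.c0_t, H89.G2S.isP_zp S.tt, fun P h1 h2 hP => le_antisymm (fun x hx => ?_) h1⟩
  obtain ⟨j, hj⟩ := hP ⟨x, hx⟩
  exact (H89.G2S.Gen.mem_zp S.tt).2 (h.two x (h2 hx) j (congrArg Subtype.val hj))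

/-- `cM` for elements centralising the odd part and an element moving `t` -/
theorem Db.trM (h : S.Db) (ht : g * S.t = S.t * g) (hc : ∀ e, Mid e → g * S.φ e = S.φ e * g) {w : G}
    (hw : S.CO w) (h1 : ∀ e ∈ Co.E, w * S.φ e = S.φ e * w) (h2 : w * S.t ≠ S.t * w) (h3 : g * w = w * g) :
    ∃ a b e o, S.Od o ∧ g = S.z4 a * S.φ (x5 b) * S.z6 e * o := by
  obtain ⟨a, b, e, c, h0, rfl⟩ := S.cM ht hc
  obtain ⟨o, ho, rfl | rfl⟩ := h.cases h0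
  · exact ⟨a, b, e, _, ho, rfl⟩
  refine (h2 ?_).elim
  have c1 : Commute w (S.z4 a * S.φ (x5 b) * S.z6 e) :=
    ((show Commute w (S.z4 a) from h1 _ (by simp)).mul_right (show Commute w (S.φ (x5 b)) from h1 _ (by simp))).mul_right
      (show Commute w (S.z6 e) from h1 _ (by simp))
  have c2 := (c1.inv_right.mul_right (show Commute w _ from h3.symm)).mul_right
    (show Commute w o from hw o ho).inv_right
  rwa [inv_mul_cancel_left, mul_inv_cancel_right] at c2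

end St

end H51.RS
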