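import Cfsg.Agent.Lib.RS4.P2C

/-! Standard components of type `²F₄(q)`, package P2D: see `blueprint/RS4/README.md`. -/

set_option autoImplicit false
set_option linter.unusedSectionVars false

namespace H51.RS
open Subgroup H69 H78.Oct H78.Oct.Co
open scoped commutatorElement

variable {F G : Type*} [Field F] [Tits F] [Finite F] [Group G] [Finite G]

namespace P2D
variable {S : St F G} {c c' : F} {d e : G}

/-- `d` centralises `Q` and translates `t` by `c` -/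
structure D (S : St F G) (c : F) (d : G) : Prop where
  q : ∀ x ∈ S.Q, d * x = x * d
  t : d * S.t * d⁻¹ = S.t * S.z4 c

theorem h_t (l m : Fˣ) : S.h l m * S.t = S.t * S.h l m := (S.t_comm (S.h_mem l m)).symm
theorem z4V (a : F) : S.z4 a ∈ S.V := S.mem_V.2 ⟨a, Or.inl rfl⟩
theorem D.d0 (h : D S c d) : S.D0 d := ⟨h.1, c, h.2⟩
theorem of_d0 (h : S.D0 d) : ∃ c, D S c d := let ⟨h1, c, h2⟩ := h; ⟨c, h1, h2⟩
theorem D.x3 (h : D S c d) (a : F) : d * S.z4 a = S.z4 a * d := h.1 _ (S.Z_le_Q (S.z4_mem a))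
theorem D.mul (h : D S c d) (h' : D S c' e) : D S (c + c') (d * e) :=
  ⟨fun x hx => (Commute.mul_left (h.1 x hx) (h'.1 x hx)).eq, by
    rw [show d * e * S.t * (d * e)⁻¹ = d * (e * S.t * e⁻¹) * d⁻¹ by group, h'.2, ← conj_mul, h.2, h.x3,
      mul_inv_cancel_right, S.z4_add, mul_assoc]⟩
theorem D.inv (h : D S c d) : D S c d⁻¹ :=
  ⟨fun x hx => (Commute.inv_left (h.1 x hx)).eq, by
    calc d⁻¹ * S.t * d⁻¹⁻¹ = d⁻¹ * (S.t * S.z4 c) * (S.z4 c * d) := by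
          rw [mul_assoc _ (S.t * _), mul_assoc S.t, ← mul_assoc (S.z4 c), S.z4_sq, one_mul, inv_inv,
            mul_assoc]
      _ = d⁻¹ * (d * S.t * d⁻¹) * (d * S.z4 c) := by rw [h.2, h.x3]
      _ = _ := by group⟩
theorem D.h (h : D S c d) (l m : Fˣ) :
    D S ((l : F) * σ (l : F) * c) (S.h l m * d * (S.h l m)⁻¹) := by
  refine ⟨fun x hx => ?_, ?_⟩
  · obtain ⟨a, ha, rfl⟩ := S.mem_Q.1 hx
    obtain ⟨b, hb, e⟩ := S.norm_Q (inv_mem (S.h_normP l m)) ha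
    have := h.1 _ (S.φ_memQ hb)
    rw [← e] at this
    calc _ = S.h l m * (d * ((S.h l m)⁻¹ * S.φ a * (S.h l m)⁻¹⁻¹)) * (S.h l m)⁻¹ := by group
      _ = _ := by rw [this]; group
  have e : S.h l m * S.t * (S.h l m)⁻¹ = S.t := by rw [h_t, mul_inv_cancel_right]
  calc _ = S.h l m * d * (S.h l m)⁻¹ * (S.h l m * S.t * (S.h l m)⁻¹) * (S.h l m * d * (S.h l m)⁻¹)⁻¹ := by
        rw [e]
    _ = S.h l m * (d * S.t * d⁻¹) * (S.h l m)⁻¹ := by group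
    _ = _ := by rw [h.2, ← conj_mul, e, S.h_z4]
theorem D.uniq (h : D S c d) (h' : D S c' d) : c = c' :=
  S.z4_inj (mul_left_cancel (h.2.symm.trans h'.2))
theorem D.zero (h : D S 0 d) : d * S.t = S.t * d := by
  have := h.2; rwa [S.z4_zero, mul_one, mul_inv_eq_iff_eq_mul] at this
theorem z4_D (a : F) : D S 0 (S.z4 a) :=
  ⟨fun x hx => (S.P0_z4 (S.U_le_P0 (S.Q_le_U hx)) a).symm, by
    rw [S.z4_zero, mul_one, ← S.t_φ, mul_inv_cancel_right]⟩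

theorem dd_inv (hd : S.DD d) : S.DD d⁻¹ :=
  let ⟨_, h⟩ := of_d0 hd.1
  ⟨h.inv.d0, hd.2.1.inv, by rw [← mul_inv_rev]; exact inv_mem hd.2.2⟩

theorem dd_x3 (a : F) : S.DD (S.z4 a) :=
  ⟨(z4_D a).d0, S.co_L (S.φ_mem _), mul_mem (z4V a) (z4V a)⟩
theorem dd_one : S.DD 1 := by
  have := dd_x3 (S := S) 0
  rwa [S.z4_zero] at this
theorem dd_comm (hd : S.DD d) (a : F) : d * S.z4 a = S.z4 a * d := hd.1.1 _ (S.Z_le_Q (S.z4_mem a))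
theorem dd_h (hd : S.DD d) (l m : Fˣ) : S.DD (S.h l m * d * (S.h l m)⁻¹) :=
  let ⟨_, h⟩ := of_d0 hd.1
  ⟨(h.h l m).d0, hd.2.1.conj (h_t l m), by
    rw [conj_mul]; exact (mem_normalizer_iff.1 (S.h_normV l m) _).1 hd.2.2⟩

theorem dd_sq (h : S.Db) (hd : S.DD d) : ∃ a, d * d = S.z4 a := by
  obtain ⟨a, e | e⟩ := S.mem_V.1 hd.2.2
  · exact ⟨a, e⟩
  · have h1 : d * S.t = S.t * d := by
      have : d * (d * d) = d * d * d := (mul_assoc _ _ _).symm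
      rwa [e, mul_assoc, ← dd_comm hd, ← mul_assoc, ← mul_assoc, mul_left_inj] at this
    exact ⟨0, by rw [S.V_sq (h.dd_ker hd h1), S.z4_zero]⟩

theorem dd_inv_eq (h : S.Db) (hd : S.DD d) : ∃ a, d⁻¹ = d * S.z4 a := by
  obtain ⟨a, e⟩ := dd_sq h hd
  exact ⟨a, by rw [inv_eq_iff_mul_eq_one, ← mul_assoc, e, S.z4_sq]⟩

theorem dd_swap (h : S.Db) (hd : S.DD d) (he : S.DD e) : ∃ a, d * e = e * d * S.z4 a := by
  obtain ⟨a, h1⟩ := dd_sq h hd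
  obtain ⟨b, h2⟩ := dd_sq h he
  obtain ⟨c, h3⟩ := dd_inv_eq h (h.dd_mul he hd)
  refine ⟨c + (b + a), ?_⟩
  rw [S.z4_add, ← mul_assoc, ← h3, S.z4_add, ← h2, ← h1, mul_inv_rev, mul_assoc d⁻¹, ← mul_assoc e⁻¹,
    inv_mul_cancel_left, h1, dd_comm he, ← h1]
  group

/-- the doubled highest root subgroup -/
theorem exists_Zs (h : S.Db) (μ : Fˣ) : ∃ Zs : Subgroup G, ∀ w, w ∈ Zs ↔
    ∃ d, S.DD d ∧ ∃ a, w = d * (S.h μ 1 * d⁻¹ * (S.h μ 1)⁻¹) * S.z4 a := by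
  refine ⟨{ carrier := {w | ∃ d, S.DD d ∧ ∃ a, w = d * (S.h μ 1 * d⁻¹ * (S.h μ 1)⁻¹) * S.z4 a}
            one_mem' := ⟨1, dd_one, 0, by rw [S.z4_zero]; simp⟩
            mul_mem' := ?_
            inv_mem' := ?_ }, fun _ => Iff.rfl⟩
  · rintro _ _ ⟨d, hd, a, rfl⟩ ⟨e, he, b, rfl⟩
    have h1 := h.dd_mul he (dd_h (dd_inv he) μ 1)
    obtain ⟨c, h2⟩ := dd_swap h (dd_h (dd_inv hd) μ 1) h1
    refine ⟨d * e, h.dd_mul hd he, c + (a + b), ?_⟩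
    rw [mul_assoc _ (S.z4 a), ← mul_assoc (S.z4 a), ← dd_comm h1, mul_assoc _ (S.z4 a), ← S.z4_add,
      ← mul_assoc, mul_assoc d, h2, S.z4_add c]
    group
  · rintro _ ⟨d, hd, a, rfl⟩
    obtain ⟨b, e⟩ := dd_inv_eq h (h.dd_mul (h.dd_mul hd (dd_h (dd_inv hd) μ 1)) (dd_x3 a))
    exact ⟨d, hd, a + b, by rw [e, S.z4_add, mul_assoc _ (S.z4 a)]⟩

variable {μ : Fˣ} {Zs : Subgroup G}

theorem zs_dd (h : S.Db)
    (hZ : ∀ w, w ∈ Zs ↔ ∃ d, S.DD d ∧ ∃ a, w = d * (S.h μ 1 * d⁻¹ * (S.h μ 1)⁻¹) * S.z4 a)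
    {w : G} (hw : w ∈ Zs) : S.DD w := by
  obtain ⟨d, hd, a, rfl⟩ := (hZ w).1 hw
  exact h.dd_mul (h.dd_mul hd (dd_h (dd_inv hd) μ 1)) (dd_x3 a)

theorem zs_D {c : F} (hd : D S c d) (a : F) :
    D S ((1 + μ * σ (μ : F)) * c) (d * (S.h μ 1 * d⁻¹ * (S.h μ 1)⁻¹) * S.z4 a) := by
  have := (hd.mul (hd.inv.h μ 1)).mul (z4_D a)
  rwa [show c + μ * σ (μ : F) * c + 0 = (1 + μ * σ (μ : F)) * c by ring] at this

theorem zs_ker (h : S.Db)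
    (hZ : ∀ w, w ∈ Zs ↔ ∃ d, S.DD d ∧ ∃ a, w = d * (S.h μ 1 * d⁻¹ * (S.h μ 1)⁻¹) * S.z4 a)
    (hμ : (1 : F) + μ * σ (μ : F) ≠ 0) {w : G} (hw : w ∈ Zs) (h0 : D S 0 w) : w ∈ S.Z := by
  obtain ⟨d, hd, a, rfl⟩ := (hZ w).1 hw
  obtain ⟨c, hc⟩ := of_d0 hd.1
  obtain rfl : c = 0 := (mul_eq_zero.1 ((zs_D hc a).uniq h0)).resolve_left hμ
  refine mul_mem ?_ (S.z4_mem a)
  obtain ⟨b, rfl | rfl⟩ := S.mem_V.1 (h.dd_ker hd hc.zero)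
  · rw [S.z4_inv, S.h_z4]; exact mul_mem (S.z4_mem _) (S.z4_mem _)
  · rw [mul_inv_rev, S.z4_inv, S.t_inv, ← conj_mul, S.h_z4, h_t, mul_inv_cancel_right, ← S.t_φ,
      S.t_φ (y4 0 b), mul_assoc, ← mul_assoc S.t, S.tt, one_mul]
    exact mul_mem (S.z4_mem _) (S.z4_mem _)

theorem zs_h
    (hZ : ∀ w, w ∈ Zs ↔ ∃ d, S.DD d ∧ ∃ a, w = d * (S.h μ 1 * d⁻¹ * (S.h μ 1)⁻¹) * S.z4 a)
    (l m : Fˣ) {w : G} (hw : w ∈ Zs) : S.h l m * w * (S.h l m)⁻¹ ∈ Zs := by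
  obtain ⟨d, hd, a, rfl⟩ := (hZ w).1 hw
  refine (hZ _).2 ⟨_, dd_h hd l m, l * σ (l : F) * a, ?_⟩
  have := S.h_comm l m μ 1
  calc _ = S.h l m * d * (S.h l m)⁻¹ * ((S.h l m * S.h μ 1) * d⁻¹ * (S.h l m * S.h μ 1)⁻¹) *
        (S.h l m * S.z4 a * (S.h l m)⁻¹) := by group
    _ = _ := by rw [this, S.h_z4]; group

end P2D
open P2D

theorem St.Db.z1 {S : St F G} (h : S.Db) : Nonempty (Z1 S) := by
  obtain ⟨μ, -, hμ, -⟩ := exists_unit S.big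
  have hμ' : (1 : F) + μ * σ (μ : F) ≠ 0 := fun k => hμ (CharTwo.add_eq_zero.1 k).symm
  obtain ⟨Zs, hZ⟩ := exists_Zs h μ
  have ex : ∀ w : G, ∃ c, w ∈ Zs → D S c w := fun w => by
    by_cases hw : w ∈ Zs
    · obtain ⟨c, hc⟩ := of_d0 (zs_dd h hZ hw).1; exact ⟨c, fun _ => hc⟩
    · exact ⟨0, fun k => absurd k hw⟩
  choose τ hτ using ex
  have onto : ∀ c, ∃ w ∈ Zs, τ w = c := fun c => by
    obtain ⟨d, hd, e⟩ := h.dd_onto (c / (1 + μ * σ (μ : F)))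
    have hw : d * (S.h μ 1 * d⁻¹ * (S.h μ 1)⁻¹) * S.z4 0 ∈ Zs := (hZ _).2 ⟨d, hd, 0, rfl⟩
    exact ⟨_, hw, ((hτ _ hw).uniq (zs_D ⟨hd.1.1, e⟩ 0)).trans (mul_div_cancel₀ c hμ')⟩
  have sq : ∃ κ, ∀ w ∈ Zs, w * w = S.z4 (κ * τ w) := by
    obtain ⟨w0, h0, e0⟩ := onto 1
    obtain ⟨κ, hκ⟩ := dd_sq h (zs_dd h hZ h0)
    refine ⟨κ, fun w hw => ?_⟩
    by_cases ht : τ w = 0
    · obtain ⟨a, rfl⟩ := S.mem_Z.1 (zs_ker h hZ hμ' hw (ht ▸ hτ w hw))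
      rw [ht, mul_zero, S.z4_sq, S.z4_zero]
    obtain ⟨ν₀, hν₀⟩ := N_surj (τ w)
    have n0 : ν₀ ≠ 0 := fun k => ht (by rw [← hν₀, k, zero_mul])
    obtain ⟨ν, hν⟩ : ∃ ν : Fˣ, (ν : F) * σ (ν : F) = τ w := ⟨Units.mk0 ν₀ n0, hν₀⟩
    have h1 := zs_h hZ ν 1 h0
    have h2 := ((hτ _ h0).h ν 1).inv.mul (hτ w hw)
    rw [e0, mul_one, hν, CharTwo.add_self_eq_zero] at h2
    obtain ⟨a, ea⟩ := S.mem_Z.1 (zs_ker h hZ hμ' (mul_mem (inv_mem h1) hw) h2)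
    rw [eq_inv_mul_iff_mul_eq] at ea
    rw [← congrArg₂ (· * ·) ea ea, mul_assoc _ (S.z4 a), ← mul_assoc (S.z4 a),
      ← dd_comm (zs_dd h hZ h1), mul_assoc _ (S.z4 a), S.z4_sq, mul_one, conj_mul, hκ, S.h_z4, hν,
      mul_comm]
  refine ⟨⟨Zs, τ, fun x hx => ?_, fun w hw => (hτ w hw).2,
    fun w hw e => zs_ker h hZ hμ' hw (e ▸ hτ w hw), onto,
    fun w hw p hp => h.dP (zs_dd h hZ hw).1 hp, fun w hw => (zs_dd h hZ hw).2.1,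
    fun w hw w' hw' => ?_, sq, fun l m w hw => zs_h hZ l m hw⟩⟩
  · obtain ⟨a, rfl⟩ := S.mem_Z.1 hx
    exact (hZ _).2 ⟨1, dd_one, a, by simp⟩
  · obtain ⟨κ, hκ⟩ := sq
    have h1 := hκ _ (mul_mem hw hw')
    rw [(hτ _ (mul_mem hw hw')).uniq ((hτ w hw).mul (hτ w' hw')), mul_add, S.z4_add, ← hκ w hw,
      ← hκ w' hw', mul_assoc, mul_assoc, mul_right_inj, ← mul_assoc, ← mul_assoc, mul_left_inj] at h1
    exact h1.symm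

end H51.RS
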