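import Cfsg.Agent.Lib.RS4.P2E

/-! Standard components of type `²F₄(q)`, package P2F: see `blueprint/RS4/README.md`. -/

set_option autoImplicit false
set_option linter.unusedSectionVars false

namespace H51.RS
open Subgroup H69 H78.Oct H78.Oct.Co
open scoped commutatorElement

variable {F G : Type*} [Field F] [Tits F] [Finite F] [Group G] [Finite G]

namespace P2F
open H89.G2S.Cg (cg cg_def cg_mul mul_cg cg_inv cg_one one_cg cg_fix cg_fix' comm_of_cg inv_cg cg_cg cg_cg'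
  cg_comm cg_invol cg_cg_self cg_commutator comm_mul_left four_of)
variable {S : St F G} (Z : Z1 S) {w v : G}

theorem cg_L_t {l : G} (hl : l ∈ S.L) : cg l S.t = S.t := cg_fix' (S.tL l hl)
theorem cg_φ_t (a : Co F) : cg (S.φ a) S.t = S.t := cg_L_t (S.φ_mem a)
theorem cg_nn (x : G) : cg S.n1 (cg S.n1 x) = x := cg_cg_self S.n11 x
theorem cg_n4 (a : F) : cg S.n1 (S.z4 a) = S.z6 a := S.n1_z4 a
theorem x1_add (a b : F) : S.φ (x1 (a + b)) = S.φ (x1 a) * S.φ (x1 b) :=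
  (congrArg S.φ (by co)).trans (map_mul _ _ _)
theorem x1_zero : S.φ (x1 0) = 1 := S.φ.map_one
theorem x1_sq (a : F) : S.φ (x1 a) * S.φ (x1 a) = 1 := by
  rw [← x1_add, CharTwo.add_self_eq_zero, x1_zero]
theorem x1_inv (a : F) : (S.φ (x1 a))⁻¹ = S.φ (x1 a) := inv_eq_of_mul_eq_one_right (x1_sq a)
theorem cg_16 (u a : F) : cg (S.φ (x1 u)) (S.z6 a) = S.z6 a * S.z4 (u * a) := by
  rw [cg_invol (x1_sq _), ← map_mul, ← map_mul, ← map_mul]; congr 1; co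
theorem cg_4 (u : Co F) (a : F) : cg (S.φ u) (S.z4 a) = S.z4 a := cg_fix (S.φ_z4 u a)
theorem inj64 {a b a' b' : F} (h : S.z6 a * S.z4 b = S.z6 a' * S.z4 b') : a = a' ∧ b = b' := by
  rw [← map_mul, ← map_mul] at h
  have h1 := congrArg Co.b6 (S.inj h)
  have h3 := congrArg Co.b4 (S.inj h)
  simp at h1 h3
  exact ⟨h1, h3⟩
theorem e_sq (b e : F) : S.z6 b * S.z4 e * (S.z6 b * S.z4 e) = 1 := by
  rw [← map_mul, ← map_mul, ← map_one S.φ]; congr 1; co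

theorem ct' (hw : w ∈ Z.Zs) : cg w S.t = S.t * S.z4 (Z.τ w) := Z.ct w hw
theorem cφ (hw : w ∈ Z.Zs) (a : Co F) : w * S.φ a = S.φ a * w := Z.cP w hw _ (S.φ_memP a)
theorem cg_X (hw : w ∈ Z.Zs) (a : Co F) : cg w (S.φ a) = S.φ a := cg_fix (cφ Z hw a)
theorem X_cg (hw : w ∈ Z.Zs) (a : Co F) : cg (S.φ a) w = w := cg_fix' (cφ Z hw a)
theorem τ_eq (hw : w ∈ Z.Zs) {c : F} (e : cg w S.t = S.t * S.z4 c) : Z.τ w = c :=
  S.z4_inj (mul_left_cancel ((ct' Z hw).symm.trans e))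
theorem τ_mul (hw : w ∈ Z.Zs) (hv : v ∈ Z.Zs) : Z.τ (w * v) = Z.τ w + Z.τ v := by
  refine τ_eq Z (mul_mem hw hv) ?_
  rw [mul_cg, ct' Z hv, cg_mul, ct' Z hw, cg_X Z hw, mul_assoc, ← S.z4_add]
theorem z4_mem (a : F) : S.z4 a ∈ Z.Zs := Z.le (S.z4_mem a)
theorem τ_z4 (a : F) : Z.τ (S.z4 a) = 0 :=
  τ_eq Z (z4_mem Z a) (by rw [cg_φ_t, S.z4_zero, mul_one])
theorem cti (hw : w ∈ Z.Zs) : cg w⁻¹ S.t = S.t * S.z4 (Z.τ w) := by
  refine inv_cg ?_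
  rw [cg_mul, ct' Z hw, cg_X Z hw, mul_assoc, S.z4_sq, mul_one]
theorem pr_t (hw : w ∈ Z.Zs) : cg (cg S.n1 w) S.t = S.t * S.z6 (Z.τ w) := by
  rw [cg_cg, cg_L_t (inv_mem S.n1_mem), ct' Z hw, cg_mul, cg_L_t S.n1_mem, cg_n4]
theorem pr_c (hw : w ∈ Z.Zs) (e : Co F) (he : e ∈ Co.R) : cg S.n1 w * S.φ e = S.φ e * cg S.n1 w := by
  have h : cg S.n1 (S.φ (w1 e)) = S.φ e := by rw [← S.n1_φ he, ← cg_def, cg_nn]
  rw [← h]
  exact cg_comm _ (cφ Z hw _)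
theorem pr_6 (hw : w ∈ Z.Zs) (a : F) : cg (cg S.n1 w) (S.z6 a) = S.z6 a := cg_fix (pr_c Z hw _ (by simp))
theorem pr_4 (hw : w ∈ Z.Zs) (a : F) : cg (cg S.n1 w) (S.z4 a) = S.z4 a := cg_fix (pr_c Z hw _ (by simp))
theorem pr_ti (hw : w ∈ Z.Zs) : cg (cg S.n1 w)⁻¹ S.t = S.t * S.z6 (Z.τ w) := by
  refine inv_cg ?_
  rw [cg_mul, pr_t Z hw, pr_6 Z hw, mul_assoc, S.z6_sq, mul_one]
theorem pr_CO (hw : w ∈ Z.Zs) : S.CO (cg S.n1 w) := (Z.cO w hw).conj (S.tL _ S.n1_mem).symm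

theorem uniq (hv : v ∈ Z.Zs) {a : F} (e : S.z6 a = v) : a = 0 := by
  have h0 : Z.τ v = 0 := τ_eq Z hv (by rw [← e, cg_φ_t, S.z4_zero, mul_one])
  obtain ⟨c, hc⟩ := S.mem_Z.1 (Z.ker v hv h0)
  have : S.z6 a * S.z4 0 = S.z6 0 * S.z4 c := by rw [S.z4_zero, S.z6_zero, mul_one, one_mul, e, hc]
  exact (inj64 this).1

theorem uniq' (hw : w ∈ Z.Zs) (hv : v ∈ Z.Zs) {a b : F} (e : S.z6 a * w = S.z6 b * v) : a = b := by
  have h1 : S.z6 (b + a) = v * w⁻¹ := by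
    rw [S.z6_add, eq_mul_inv_iff_mul_eq, mul_assoc, e, ← mul_assoc, S.z6_sq, one_mul]
  have h2 := uniq Z (mul_mem hv (inv_mem hw)) h1
  rw [← CharTwo.add_eq_zero, add_comm]; exact h2

theorem cent1 {y : G} (hy : ∀ e ∈ Co.R, y * S.φ e = S.φ e * y) (u : F) (e : Co F) (he : e ∈ Co.R) :
    cg (S.φ (x1 u)) y * S.φ e = S.φ e * cg (S.φ (x1 u)) y := by
  have h1 : cg (S.φ (x1 u)) (S.φ (x1 u * e * x1 u)) = S.φ e := by
    rw [map_mul, map_mul, ← cg_invol (x1_sq u), cg_cg_self (x1_sq u)]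
  rw [← h1]
  refine cg_comm _ (hy _ ?_)
  rw [mem_R] at he ⊢
  simp [he]; grind

theorem gu (h : S.Db) (hw : w ∈ Z.Zs) (u : F) : ∃ b e o, ∃ x ∈ Z.Zs, Z.τ x = u * Z.τ w ∧ S.Od o ∧
    (cg (S.φ (x1 u)) (cg S.n1 w) = cg S.n1 w * (S.z6 b * S.z4 e * o * x) ∨
      cg (S.φ (x1 u)) (cg S.n1 w) = cg S.n1 w * (S.z6 b * S.z4 e * S.t * o * x)) := by
  obtain ⟨x, hx, hτ⟩ := Z.onto (u * Z.τ w)
  have hy := cent1 (pr_c Z hw) u
  have hyt : cg (cg (S.φ (x1 u)) (cg S.n1 w)) S.t = S.t * (S.z6 (Z.τ w) * S.z4 (u * Z.τ w)) := by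
    rw [cg_cg, x1_inv, cg_φ_t, pr_t Z hw, cg_mul, cg_φ_t, cg_16]
  have ht : cg ((cg S.n1 w)⁻¹ * cg (S.φ (x1 u)) (cg S.n1 w) * x⁻¹) S.t = S.t := by
    rw [mul_cg, mul_cg, cti Z hx, hτ, cg_mul, hyt, cg_fix (hy _ (by simp)), mul_assoc,
      mul_assoc, S.z4_sq, mul_one, cg_mul, pr_ti Z hw, inv_cg (pr_6 Z hw _), mul_assoc,
      S.z6_sq, mul_one]
  have hc : ∀ e ∈ Co.R, ((cg S.n1 w)⁻¹ * cg (S.φ (x1 u)) (cg S.n1 w) * x⁻¹) * S.φ e =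
      S.φ e * ((cg S.n1 w)⁻¹ * cg (S.φ (x1 u)) (cg S.n1 w) * x⁻¹) := by
    intro e he
    have c1 : Commute (cg S.n1 w) (S.φ e) := pr_c Z hw e he
    have c2 : Commute x (S.φ e) := cφ Z hx e
    have c3 : Commute (cg (S.φ (x1 u)) (cg S.n1 w)) (S.φ e) := hy e he
    exact (c1.inv_left.mul_left c3).mul_left c2.inv_left
  obtain ⟨b, e, o, ho, hg | hg⟩ := h.tr2 (comm_of_cg ht) hc
  · exact ⟨b, e, o, x, hx, hτ, ho, .inl (by rw [← hg]; group)⟩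
  · exact ⟨b, e, o, x, hx, hτ, ho, .inr (by rw [← hg]; group)⟩

theorem comm_g2 (hv : v ∈ Z.Zs) {o x : G} (ho : S.Od o) (hx : x ∈ Z.Zs) (b e : F) :
    ⁅S.z6 b * S.z4 e * S.t * o * x, v⁆ = S.z4 (Z.τ v) := by
  have h1 : ⁅S.z6 b * S.z4 e, v⁆ = 1 := by
    rw [commutatorElement_eq_one_iff_commute]
    exact Commute.mul_left (cφ Z hv _).symm (cφ Z hv _).symm
  have h2 : ⁅o * x, v⁆ = 1 := by
    rw [commutatorElement_eq_one_iff_commute]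
    exact Commute.mul_left (Z.cO v hv o ho).symm (Z.comm x hx v hv)
  have h3 : ⁅S.t, v⁆ = S.z4 (Z.τ v) := by
    calc _ = S.t * cg v S.t := by rw [commutatorElement_def, S.t_inv, cg_def]; group
      _ = _ := by rw [ct' Z hv, ← mul_assoc, S.tt, one_mul]
  rw [mul_assoc, comm_mul_left, h2, cg_one, one_mul, comm_mul_left, h1, mul_one, h3, mul_cg, cg_4, cg_4]

theorem c46 (h : S.Db) (hw : w ∈ Z.Zs) (hv : v ∈ Z.Zs) : cg S.n1 w * v = v * cg S.n1 w := Z.c46 h hw hv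

theorem sq4 {κ : F} (hκ : ∀ w ∈ Z.Zs, w * w = S.z4 (κ * Z.τ w)) (hw : w ∈ Z.Zs) :
    w * w * (w * w) = 1 := by rw [hκ w hw, S.z4_sq]

theorem pu (h : S.Db) (hw : w ∈ Z.Zs) (u : F) : ∃ p, ∃ x ∈ Z.Zs, Z.τ x = u * Z.τ w ∧
    cg (S.φ (x1 u)) (cg S.n1 w) = cg S.n1 w * (S.z6 p * x) := by
  obtain ⟨κ, hκ⟩ := Z.sq
  obtain ⟨b, e, o, x, hx, hτ, ho, hy | hy⟩ := gu Z h hw u
  · refine ⟨b, S.z4 e * x, mul_mem (z4_mem Z e) hx, by
      rw [τ_mul Z (z4_mem Z e) hx, τ_z4, zero_add, hτ], ?_⟩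
    have cx : x * o = o * x := Z.cO x hx o ho
    have hE : S.z6 b * S.z4 e ∈ S.L := mul_mem (S.φ_mem _) (S.φ_mem _)
    have e1 : cg (S.φ (x1 u)) (cg S.n1 w) = cg S.n1 w * (S.z6 b * S.z4 e) * x * o := by
      rw [hy, mul_assoc (S.z6 b * S.z4 e), ← cx]; group
    have c1 : Commute (cg S.n1 w) (S.z6 b * S.z4 e) :=
      Commute.mul_right (pr_c Z hw _ (by simp)) (pr_c Z hw _ (by simp))
    have c2 : Commute (cg S.n1 w) x := c46 Z h hw hx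
    have c3 : Commute (S.z6 b * S.z4 e) x := Commute.mul_left (cφ Z hx _).symm (cφ Z hx _).symm
    have p4 : ∀ {a : G}, a * a * (a * a) = a ^ 4 := fun {a} => by
      simp only [pow_succ, pow_zero, one_mul, mul_assoc]
    have h4 : o = 1 := by
      refine ho.eq_one_four (four_of e1 ?_ ?_ ?_)
      · exact (((pr_CO Z hw).mul (S.co_L hE)).mul (Z.cO x hx)) o ho
      · rw [← cg_mul, ← cg_mul, ← cg_mul, ← cg_mul, sq4 Z hκ hw, cg_one, cg_one]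
      · rw [p4, (c2.mul_left c3).mul_pow, c1.mul_pow, ← p4, ← p4, ← p4, e_sq, sq4 Z hκ hx,
          ← cg_mul, ← cg_mul, sq4 Z hκ hw, cg_one]
        simp
    rw [e1, h4]; group
  · exfalso
    obtain ⟨v, hv, h1⟩ := Z.onto 1
    have h2 : ⁅cg (S.φ (x1 u)) (cg S.n1 w), v⁆ = 1 := by
      rw [← X_cg Z hv (x1 u), ← cg_commutator,
        commutatorElement_eq_one_iff_mul_comm.2 (c46 Z h hw hv), cg_one]
    rw [hy, comm_mul_left, comm_g2 Z hv ho hx, pr_4 Z hw,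
      commutatorElement_eq_one_iff_mul_comm.2 (c46 Z h hw hv), mul_one, h1, ← S.z4_zero] at h2
    exact one_ne_zero (S.z4_inj h2)

theorem addf {u u' p p' : F} {x x' : G} (hx : x ∈ Z.Zs) (hx' : x' ∈ Z.Zs)
    (e : cg (S.φ (x1 u)) (cg S.n1 w) = cg S.n1 w * (S.z6 p * x))
    (e' : cg (S.φ (x1 u')) (cg S.n1 w) = cg S.n1 w * (S.z6 p' * x')) :
    cg (S.φ (x1 (u' + u))) (cg S.n1 w) =
      cg S.n1 w * (S.z6 (p' + p) * (x' * S.z4 (u' * p) * x)) := by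
  rw [x1_add, mul_cg, e, cg_mul, cg_mul, e', cg_16, X_cg Z hx, S.z6_add]
  have c := cφ Z hx' (y6 0 p)
  calc _ = cg S.n1 w * (S.z6 p' * (x' * S.z6 p) * S.z4 (u' * p) * x) := by group
    _ = _ := by rw [c]; group

theorem pval {κ : F} (hκ : ∀ w ∈ Z.Zs, w * w = S.z4 (κ * Z.τ w)) {u p : F} {x : G}
    (hx : x ∈ Z.Zs) (hτ : Z.τ x = u * Z.τ w) (hu : u ≠ 0)
    (e : cg (S.φ (x1 u)) (cg S.n1 w) = cg S.n1 w * (S.z6 p * x)) : p = κ * Z.τ w := by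
  have h1 := addf Z hx hx e e
  rw [CharTwo.add_self_eq_zero, CharTwo.add_self_eq_zero, x1_zero, S.z6_zero, one_cg, one_mul,
    left_eq_mul, cφ Z hx, mul_assoc, hκ x hx, ← S.z4_add, ← S.z4_zero, hτ] at h1
  have h2 := S.z4_inj h1
  have h3 : u * (p + κ * Z.τ w) = 0 := by rw [← h2]; ring
  have h4 := (mul_eq_zero.1 h3).resolve_left hu
  rwa [CharTwo.add_eq_zero] at h4

theorem mu' (h : S.Db) (hw : w ∈ Z.Zs) (u : F) : ∃ x ∈ Z.Zs, Z.τ x = u * Z.τ w ∧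
    cg (S.φ (x1 u)) (cg S.n1 w) = cg S.n1 w * x := by
  by_cases hu : u = 0
  · refine ⟨1, one_mem _, ?_, by rw [hu, x1_zero, one_cg, mul_one]⟩
    rw [hu, zero_mul, ← S.z4_zero, τ_z4]
  obtain ⟨κ, hκ⟩ := Z.sq
  obtain ⟨c, hc0, hc1, -⟩ := exists_ne S.big 0 1 1
  obtain ⟨p1, x1, hx1, hτ1, e1⟩ := pu Z h hw 1
  obtain ⟨p2, x2, hx2, hτ2, e2⟩ := pu Z h hw c
  obtain ⟨p3, x3, hx3, hτ3, e3⟩ := pu Z h hw (c + 1)
  have v1 := pval Z hκ hx1 hτ1 one_ne_zero e1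
  have v2 := pval Z hκ hx2 hτ2 hc0 e2
  have v3 := pval Z hκ hx3 hτ3 (fun e => hc1 (CharTwo.add_eq_zero.1 e)) e3
  have e4 := addf Z hx1 hx2 e1 e2
  rw [e3] at e4
  have v4 := uniq' Z hx3 (mul_mem (mul_mem hx2 (z4_mem Z _)) hx1) (mul_left_cancel e4)
  have v5 : κ * Z.τ w = 0 := by rw [← v3, v4, v1, v2, CharTwo.add_self_eq_zero]
  obtain ⟨p, x, hx, hτ, e⟩ := pu Z h hw u
  rw [pval Z hκ hx hτ hu e, v5, S.z6_zero, one_mul] at e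
  exact ⟨x, hx, hτ, e⟩

theorem eq_one_of_pr (hw : w ∈ Z.Zs) (hw' : cg S.n1 w ∈ Z.Zs) : w = 1 := by
  have h1 := (pr_t Z hw).symm.trans (ct' Z hw')
  have h2 : S.z6 (Z.τ w) * S.z4 0 = S.z6 0 * S.z4 (Z.τ (cg S.n1 w)) := by
    rw [S.z4_zero, S.z6_zero, mul_one, one_mul]; exact mul_left_cancel h1
  obtain ⟨a, ha⟩ := S.mem_Z.1 (Z.ker w hw (inj64 h2).1)
  have h3 : S.z6 a = cg S.n1 w := by rw [← ha, cg_n4]
  rw [← ha, uniq Z hw' h3, S.z4_zero]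

theorem m1 (h : S.Db) (hv : v ∈ Z.Zs) : cg (S.φ (x1 1)) (cg S.n1 v) = cg S.n1 v * v := by
  obtain ⟨x, hx, -, e⟩ := mu' Z h hv 1
  obtain ⟨x', hx', -, e'⟩ := mu' Z h hx 1
  have h1 : cg S.n1 v = v * (cg S.n1 x * x') := by
    conv_lhs => rw [S.n1_eq]
    rw [mul_cg, mul_cg, mul_cg, mul_cg, X_cg Z hv, e, cg_mul, cg_nn, cg_mul, X_cg Z hv, e']
  have h2 : cg S.n1 (x⁻¹ * v) = v * x' := by
    rw [cg_mul, cg_inv, h1, ← mul_assoc v, ← c46 Z h hx hv]; group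
  have h3 := eq_one_of_pr Z (mul_mem (inv_mem hx) hv) (h2 ▸ mul_mem hv hx')
  rw [inv_mul_eq_one] at h3
  rw [e, h3]

theorem d_cg (hw : w ∈ Z.Zs) (k : Fˣ) : cg (S.h 1 k) w = w := cg_fix' (Z.cP w hw _ (S.h_memP k))

theorem mL (h : S.Db) (hv : v ∈ Z.Zs) (c : Fˣ) :
    cg (S.φ (x1 ((c : F) * σ (c : F)))) (cg S.n1 v) = cg S.n1 v * cg (S.h c 1) v := by
  have e := congrArg (cg (S.h c 1)) (m1 Z h hv)
  have e5 : cg (S.h c 1) (S.φ (x1 1)) = S.φ (x1 ((c : F) * σ (c : F))) := by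
    rw [cg_def, S.h_φ]; congr 1; ext <;> simp
  have en : cg (S.h c 1) (cg S.n1 v) = cg S.n1 v := by
    rw [← S.n1_h 1 c, ← cg_def, cg_cg', d_cg Z hv]
  rwa [← cg_cg', e5, en, cg_mul, en] at e

theorem ex_unit {y : F} (hy : y ≠ 0) : ∃ c : Fˣ, (c : F) * σ (c : F) = y := by
  obtain ⟨c, rfl⟩ := N_surj y
  exact ⟨Units.mk0 c (left_ne_zero_of_mul hy), rfl⟩

end P2F

open H89.G2S.Cg (cg cg_def cg_mul mul_cg cg_one one_cg cg_invol) in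
open P2F in
theorem Z1.z2 {S : St F G} (h : S.Db) (Z : Z1 S) : Nonempty (Z2 S) := by
  obtain ⟨w, hw, hτ⟩ := Z.onto 1
  let W : F → G := fun y => (cg S.n1 w)⁻¹ * cg (S.φ (x1 y)) (cg S.n1 w)
  have hW : ∀ y, cg (S.φ (x1 y)) (cg S.n1 w) = cg S.n1 w * W y := fun y => by
    simp only [W]; group
  have hm : ∀ y, W y ∈ Z.Zs ∧ Z.τ (W y) = y := fun y => by
    obtain ⟨x, hx, h1, e⟩ := mu' Z h hw y
    rw [hW, mul_right_inj] at e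
    rw [e, h1, hτ, mul_one]; exact ⟨hx, rfl⟩
  have W0 : W 0 = 1 := by simp only [W]; rw [x1_zero, one_cg, inv_mul_cancel]
  have WL : ∀ c : Fˣ, W ((c : F) * σ (c : F)) = cg (S.h c 1) w := fun c => by
    have e := mL Z h hw c
    rwa [hW, mul_right_inj] at e
  have hh : ∀ c k y, cg (S.h c k) (W y) = W ((c : F) * σ (c : F) * y) := fun c k y => by
    by_cases hy : y = 0
    · rw [hy, mul_zero, W0, cg_one]
    · obtain ⟨e, rfl⟩ := ex_unit hy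
      have e1 : S.h c k * S.h e 1 = S.h (c * e) 1 * S.h 1 k := by
        rw [← S.h_mul, ← S.h_mul, mul_one, mul_one, one_mul]
      rw [WL, ← mul_cg, e1, mul_cg, d_cg Z hw, ← WL]
      congr 1
      rw [Units.val_mul, map_mul]; ring
  refine ⟨⟨W, fun a b => ?_, fun y => ?_, fun y => Z.cP _ (hm y).1, fun y => Z.cO _ (hm y).1,
    hh, fun y y' => P2F.c46 Z h (hm y).1 (hm y').1, fun u y => ?_⟩⟩
  · have e := hW (a + b)
    rw [x1_add, mul_cg, hW b, cg_mul, hW a, X_cg Z (hm b).1, mul_assoc, mul_right_inj] at e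
    exact e.symm
  · rw [Z.ct _ (hm y).1, (hm y).2]
  · rw [← cg_def, ← cg_invol (x1_sq _)]
    by_cases hu : u = 0
    · rw [hu, zero_mul, W0, x1_zero, one_cg, mul_one]
    obtain ⟨c, rfl⟩ := ex_unit hu
    rw [mL Z h (hm _).1, hh]

end H51.RS
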