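import Cfsg.Agent.Lib.RS4.W1

/-! Standard components of type `²F₄(q)`, package W2: see `blueprint/RS4/README.md`. -/

set_option autoImplicit false
set_option linter.unusedSectionVars false

namespace H51.RS
open Subgroup H69 H78.Oct H78.Oct.Co
open scoped commutatorElement

variable {F G : Type*} [Field F] [Tits F] [Finite F] [Group G] [Finite G]

namespace W2H
variable {S : St F G} (f : FamW S)

/-- the product map -/
def Ψ : Fam.A1 f × Fam.A1 f →* G :=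
  MonoidHom.mk' (fun p => p.1 * (S.t * p.2 * S.t⁻¹)) fun p q => by
    simp only [Prod.fst_mul, Prod.snd_mul, coe_mul]
    rw [← conj_mul, mul_assoc (p.1 : G), ← mul_assoc (q.1 : G), Fam.A1_comm f q.1.2 p.2.2]
    simp only [mul_assoc]

theorem Ψ_apply (x y : Fam.A1 f) : Ψ f (x, y) = x * (S.t * y * S.t⁻¹) := rfl

theorem Ψ_inj : Function.Injective (Ψ f) := by
  refine (injective_iff_map_eq_one _).2 fun ⟨x, y⟩ e => ?_
  rw [Ψ_apply] at e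
  have hy : (y : G) = 1 := Fam.A1_disj f y.2 (eq_inv_of_mul_eq_one_right e ▸ inv_mem x.2)
  rw [hy, mul_one, mul_inv_cancel, mul_one] at e
  exact Prod.ext (Subtype.ext e) (Subtype.ext hy)

theorem Ψ_range : (Ψ f).range = f.G0 := by
  ext g
  rw [Fam.mem_G0 f]
  exact ⟨fun ⟨⟨x, y⟩, e⟩ => ⟨x, x.2, y, y.2, e.symm⟩, fun ⟨x, hx, y, hy, e⟩ => ⟨(⟨x, hx⟩, ⟨y, hy⟩), e.symm⟩⟩

theorem Ψ_t (x y : Fam.A1 f) : S.t * Ψ f (x, y) * S.t⁻¹ = Ψ f (y, x) := by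
  rw [Ψ_apply, Ψ_apply, Fam.A1_comm f y.2 x.2, ← conj_mul, ← mul_assoc S.t, ← mul_assoc S.t, S.tt, one_mul,
    mul_assoc (y : G), ← mul_inv_rev, S.tt, inv_one, mul_one]

end W2H

open W2H

theorem Fam.wr_iso {S : St F G} (f : FamW S) : Nonempty (f.G0 ≃* S.L × S.L) := by
  obtain ⟨π, -, inj, r⟩ := Fam.A1_pi f
  let e : Fam.A1 f ≃* S.L := (MonoidHom.ofInjective inj).trans (MulEquiv.subgroupCongr r)
  exact ⟨((MulEquiv.subgroupCongr (Ψ_range f)).symm.trans (MonoidHom.ofInjective (Ψ_inj f)).symm).trans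
    (MulEquiv.prodCongr e e)⟩

theorem Fam.wr {S : St F G} (f : FamW S) : ∃ A Zh, EG S f.G0 A Zh := by
  obtain ⟨π, hπ, inj, r⟩ := Fam.A1_pi f
  have ZU : S.Z ≤ S.U := S.Z_le_Q.trans S.Q_le_U
  have p16 : ∀ x ∈ S.U.comap π, x ^ 2 ^ 4 = 1 := fun x hx => inj (by
    obtain ⟨u, e⟩ := S.mem_U.1 hx
    rw [map_pow, ← e, S.φ_16, map_one])
  have zc : ∀ z ∈ S.Z.comap π, ∀ x ∈ S.U.comap π, z * x = x * z := fun z hz x hx => inj (by
    obtain ⟨u, e⟩ := S.mem_U.1 hx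
    obtain ⟨a, e'⟩ := S.mem_Z.1 hz
    rw [map_mul, map_mul, ← e, ← e', S.φ_z4])
  refine ⟨((S.U.comap π).prod (S.U.comap π)).map (Ψ f), ((S.Z.comap π).prod (S.Z.comap π)).map (Ψ f),
    ?_, Ψ_range f ▸ map_le_range _ _, ?_, ?_, ?_, ?_, map_mono (prod_mono (comap_mono ZU) (comap_mono ZU)),
    ?_, ?_, ?_⟩
  · have e : ⁅(⊤ : Subgroup (Fam.A1 f)), (⊤ : Subgroup (Fam.A1 f))⁆ = ⊤ := map_injective (Fam.A1 f).subtype_injective (by
      rw [map_commutator, ← MonoidHom.range_eq_map, range_subtype, Fam.A1_perf])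
    rw [← Ψ_range, MonoidHom.range_eq_map, ← map_commutator, ← top_prod_top, commutator_prod_prod, e]
  · rintro ⟨_, ⟨x, y⟩, ⟨hx, hy⟩, rfl⟩
    refine ⟨4, Subtype.ext ?_⟩
    change Ψ f (x, y) ^ 2 ^ 4 = 1
    rw [← map_pow, Prod.pow_mk, p16 x hx, p16 y hy]
    exact map_one _
  · refine mem_normalizer_fintype ?_
    rintro _ ⟨⟨x, y⟩, ⟨hx, hy⟩, rfl⟩
    exact ⟨(y, x), ⟨hy, hx⟩, (Ψ_t f x y).symm⟩
  · rintro ⟨⟨x, y⟩, -, e⟩
    refine Fam.A1_ne f (eq_bot_iff.2 fun a ha => Fam.A1_disj f ha ?_)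
    rw [Ψ_apply] at e
    have k : S.t * a * S.t⁻¹ = x * a * (x : G)⁻¹ := by
      nth_rw 1 [← e]
      rw [mul_assoc (x : G), ← Fam.A1_comm f ha y.2, mul_inv_eq_iff_eq_mul]
      nth_rw 3 [← e]
      group
    exact k ▸ mul_mem (mul_mem x.2 ha) (inv_mem x.2)
  · intro u hu
    obtain ⟨x, rfl⟩ := r.ge (S.U_le_L hu)
    exact ⟨(x, x), ⟨hu, hu⟩, (hπ x).symm⟩
  · rintro _ ⟨⟨z, z'⟩, ⟨hz, hz'⟩, rfl⟩ _ ⟨⟨x, y⟩, ⟨hx, hy⟩, rfl⟩
    rw [← map_mul, ← map_mul, Prod.mk_mul_mk, Prod.mk_mul_mk, zc z hz x hx, zc z' hz' y hy]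
  · have c : Nat.card (S.Z.comap π) = Nat.card F := by
      rw [← card_map_of_injective inj, map_comap_eq_self (r ▸ ZU.trans S.U_le_L), S.card_Z]
    rw [card_map_of_injective (Ψ_inj f), Nat.card_congr (prodEquiv _ _).toEquiv, Nat.card_prod, c, pow_two]
  · rintro _ ⟨⟨x, y⟩, ⟨hx, hy⟩, rfl⟩ e
    rw [Ψ_t, ← map_mul, ← map_one (Ψ f)] at e
    obtain rfl : y = x⁻¹ := eq_inv_of_mul_eq_one_right (congrArg Prod.fst (Ψ_inj f e))
    refine ⟨Ψ f (x, 1), ⟨(x, 1), ⟨hx, one_mem _⟩, rfl⟩, ?_⟩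
    rw [← map_inv, Prod.inv_mk, Ψ_t, ← map_mul]
    simp

theorem W2H.auto : True := by
  have := @W2H.Ψ.eq_1.{0, 0}
  trivial

end H51.RS
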