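import Cfsg.Agent.Lib.RS4.P1C
import Cfsg.Agent.Lib.RS4.P2D
import Cfsg.Agent.Lib.RS4.P2F
import Cfsg.Agent.Lib.RS4.E1
import Cfsg.Agent.Lib.RS4.E2
import Cfsg.Agent.Lib.RS4.E3b
import Cfsg.Agent.Lib.RS4.D4a
import Cfsg.Agent.Lib.RS4.D4b
import Cfsg.Agent.Lib.RS4.D5
import Cfsg.Agent.Lib.RS4.D6
import Cfsg.Agent.Lib.RS4.D7
import Cfsg.Agent.Lib.RS4.D8
import Cfsg.Agent.Lib.RS4.W2
import Cfsg.Agent.Lib.RS4.FG
import Cfsg.Agent.Lib.RS4.EH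

/-! Standard components of type `²F₄(q)`: the group-theoretic theorem. -/

set_option autoImplicit false
set_option linter.unusedSectionVars false

namespace H51.RS
open Subgroup H69 H78.Oct H78.Oct.Co

variable {F G : Type*} [Field F] [Tits F] [Finite F] [Group G] [Finite G]

theorem St.Db.fam {S : St F G} (h : S.Db) : Nonempty (FamW S) ∨ Nonempty (FamF S) := by
  obtain ⟨Z₁⟩ := h.z1
  obtain ⟨Z⟩ := Z1.z2 h Z₁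
  obtain ⟨Es, hE⟩ := Z.ea h
  obtain ⟨q⟩ := hE.eb.x5s h
  obtain ⟨b, k⟩ := q.k1
  obtain ⟨α, ε, k2⟩ := q.d4b k (q.d4a h k)
  obtain ⟨f⟩ := q.fam k2 (q.d5 k2)
  obtain ⟨h1, h2⟩ := Fam.d6 f
  subst h1
  subst h2
  exact Fam.split f

theorem St.Db.main {S : St F G} (h : S.Db) : ∃ G₀ : Subgroup G, G₀ ≤ Cfsg.oddGenerated (⊤ : Subgroup G) ∧
    Odd (G₀.relIndex (Cfsg.oddGenerated (⊤ : Subgroup G))) ∧
    (Nonempty (G₀ ≃* Cfsg.Lie.chevF4.group F) ∨ Nonempty (G₀ ≃* S.L × S.L)) := by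
  rcases h.fam with ⟨⟨f⟩⟩ | ⟨⟨f⟩⟩
  · obtain ⟨A, Zh, e⟩ := Fam.wr f
    exact ⟨f.G0, (h.endgame e).1, (h.endgame e).2, Or.inr (Fam.wr_iso f)⟩
  · obtain ⟨⟨A, Zh, e⟩, hi⟩ := Fam.fg f
    exact ⟨f.G0, (h.endgame e).1, (h.endgame e).2, Or.inl hi⟩

end H51.RS
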