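import Cfsg.Agent.Lib.RS4.K1

/-! Standard components of type `²F₄(q)`, package P1B: see `blueprint/RS4/README.md`. -/

set_option autoImplicit false
set_option linter.unusedSectionVars false

namespace H51.RS
open Subgroup H69 H78.Oct H78.Oct.Co H89.G2S
open scoped commutatorElement

variable {F G : Type*} [Field F] [Tits F] [Finite F] [Group G] [Finite G]

namespace P1B

theorem exists_invol {c : G} (m : ℕ) (h : c ^ 2 ^ m = 1) (c1 : c ≠ 1) :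
    ∃ r : ℕ, c ^ r ≠ 1 ∧ c ^ r * c ^ r = 1 := by
  induction m generalizing c with
  | zero => exact absurd (by simpa using h) c1
  | succ m ih =>
    by_cases e : c * c = 1
    · exact ⟨1, by rwa [pow_one], by rwa [pow_one]⟩
    · obtain ⟨r, h1, h2⟩ := ih (c := c ^ 2) (by rw [← pow_mul, ← pow_succ', h]) (by rwa [pow_two])
      exact ⟨2 * r, by rwa [pow_mul], by rwa [pow_mul]⟩

theorem ex_unit {a : F} (h : a ≠ 0) : ∃ c : Fˣ, (c : F) * σ (c : F) = a := by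
  obtain ⟨x, hx⟩ := N_surj a
  exact ⟨Units.mk0 x (by rintro rfl; exact h (by rw [← hx, zero_mul])), hx⟩

variable {S : St F G} {R : Subgroup G}

theorem ht (c k : Fˣ) : S.h c k * S.t * (S.h c k)⁻¹ = S.t := S.conj_t (S.h_mem c k)

theorem comm16 (a : F) : ⁅S.φ (x1 1), S.z6 a⁆ = S.z4 a := by
  rw [commutatorElement_def, S.Q_conj (by simp) (by simp), S.φ_z4, mul_inv_cancel_right]
  simp [Bf]

theorem two_dvd (S : St F G) : 2 ∣ Nat.card F := by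
  haveI : Fact (Nat.Prime 2) := ⟨Nat.prime_two⟩
  have := (S.U_isP.to_le (S.Z_le_Q.trans S.Q_le_U)).card_eq_or_dvd
  rw [S.card_Z] at this
  exact this.resolve_left fun e => absurd (e ▸ S.big) (by norm_num)

variable (h1 : IsSylowIn 2 R S.C0s)
include h1

theorem c0 {r : G} (hr : r ∈ R) : S.C0 r := St.mem_C0s.1 (h1.le hr)

theorem φT (u : Co F) : S.φ u ∈ S.U ⊔ R := mem_sup_left (S.φ_memU u)

theorem tC : S.t ∈ 𝐂(S.U ⊔ R) := fun _ hx => S.mem_Ct.1 ((St.sylT h1).le hx)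

theorem zC (a : F) : S.z4 a ∈ 𝐂(S.U ⊔ R) := fun x hx => by
  obtain ⟨u, m, hm, rfl⟩ := (St.mem_T h1.le).1 hx
  exact Commute.mul_left (S.φ_z4 u a) ((c0 h1 hm).φ _)

theorem tT : S.t ∈ S.U ⊔ R :=
  (St.sylT h1).le_of_le_normalizer (isP_zp S.tt) (zpowers_le.2 (S.mem_Ct.2 rfl))
    (fun x hx => cj_eq_self_iff.1 (by rw [cj_zpowers, mul_inv_eq_iff_eq_mul.2 (tC h1 x hx)])) (mem_zpowers _)

theorem cen {x : G} (hx : x ∈ S.U ⊔ R) (hc : x ∈ 𝐂(S.U ⊔ R)) : ∃ a m, S.C0 m ∧ x = S.z4 a * m := by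
  obtain ⟨u, m, hm, rfl⟩ := (St.mem_T h1.le).1 hx
  obtain ⟨a, ha⟩ := S.cent_Q (S.φ_mem u) fun e _ => by
    have := hc _ (φT h1 e)
    rw [mul_assoc, (c0 h1 hm).φ e, ← mul_assoc, ← mul_assoc, mul_left_inj] at this
    exact this.symm
  exact ⟨a, m, c0 h1 hm, ha ▸ rfl⟩

theorem sq {a : F} {m : G} (hm : S.C0 m) : S.z4 a * m * (S.z4 a * m) = m * m := by
  rw [Commute.mul_mul_mul_comm (hm.φ _), S.z4_sq, one_mul]

theorem Rc {m n : G} (hm : m ∈ R) (hn : n ∈ R) : m * n = n * m := by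
  haveI := S.cyc R h1.isP fun r hr => (c0 h1 hr).2
  exact congrArg Subtype.val (mul_comm' (⟨m, hm⟩ : R) ⟨n, hn⟩)

theorem cT {r : G} (hr : r ∈ S.U ⊔ R) (c : S.C0 r) : r ∈ 𝐂(S.U ⊔ R) := fun x hx => by
  obtain ⟨u, m, hm, rfl⟩ := (St.mem_T h1.le).1 hr
  have e : S.φ u = 1 := St.C0.eq_one (by simpa using c.mul (c0 h1 hm).inv) (S.φ_mem u)
  obtain ⟨v, n, hn, rfl⟩ := (St.mem_T h1.le).1 hx
  rw [e, one_mul]
  exact Commute.mul_left ((c0 h1 hm).φ v).symm (Rc h1 hn hm)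

theorem comm {x y : G} (hx : x ∈ S.U ⊔ R) (hy : y ∈ S.U ⊔ R) : ⁅x, y⁆ ∈ S.U := by
  obtain ⟨u, m, hm, rfl⟩ := (St.mem_T h1.le).1 hx
  obtain ⟨v, n, hn, rfl⟩ := (St.mem_T h1.le).1 hy
  have mn := Rc h1 hm hn
  have e : ⁅S.φ u * m, S.φ v * n⁆ = S.φ ⁅u, v⁆ := by
    have c1 : m * (S.φ v * n) = S.φ v * n * m := Commute.mul_right ((c0 h1 hm).φ v) mn
    rw [map_commutatorElement]
    calc _ = S.φ u * (m * (S.φ v * n)) * m⁻¹ * (S.φ u)⁻¹ * (S.φ v * n)⁻¹ := by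
          rw [commutatorElement_def]; group
      _ = S.φ u * S.φ v * (n * S.φ u⁻¹) * n⁻¹ * (S.φ v)⁻¹ := by rw [c1, map_inv]; group
      _ = _ := by rw [(c0 h1 hn).φ, map_inv, commutatorElement_def]; group
  exact e ▸ S.φ_memU _

end P1B

open P1B

namespace St
variable {S : St F G} {R : Subgroup G} (h1 : IsSylowIn 2 R S.C0s)
include h1
theorem norm_V_of_T {g : G} (h : g ∈ 𝐍(S.U ⊔ R)) : g ∈ 𝐍(S.V) ∧ g * S.t * g⁻¹ ∉ S.Z := by
  refine ⟨mem_normalizer_of_cj_le fun y hy => ?_, fun hz => S.t_notMem ?_⟩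
  · obtain ⟨x, hx, rfl⟩ := mem_cj'.1 hy
    have hT : x ∈ (S.U ⊔ R) ⊓ 𝐂(S.U ⊔ R) := by
      obtain ⟨a, rfl | rfl⟩ := S.mem_V.1 hx
      exacts [⟨φT h1 _, zC h1 a⟩, mul_mem (⟨tT h1, tC h1⟩ : S.t ∈ (S.U ⊔ R) ⊓ 𝐂(S.U ⊔ R)) ⟨φT h1 _, zC h1 a⟩]
    obtain ⟨a, m, hm, e⟩ := P1B.cen h1 (conj_mem_of_mem_normalizer h hT.1)
      (conj_mem_of_mem_normalizer (normalizer_le_normalizer_centralizer _ h) hT.2)
    rcases hm.invol (by rw [← sq h1 (a := a) hm, ← e, conj_mul, S.V_sq hx]; group) with rfl | rfl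
    · exact S.mem_V.2 ⟨a, Or.inl (by rw [e, mul_one])⟩
    · exact S.mem_V.2 ⟨a, Or.inr (by rw [e, S.t_φ])⟩
  · obtain ⟨a, ha⟩ := S.mem_Z.1 hz
    have := comm h1 (conj_mem_of_mem_normalizer (inv_mem h) (φT h1 (x1 1)))
      (conj_mem_of_mem_normalizer (inv_mem h) (φT h1 (y6 0 a)))
    rw [← conjugate_commutatorElement, comm16, ha,
      show g⁻¹ * (g * S.t * g⁻¹) * g⁻¹⁻¹ = S.t by group] at this
    exact S.U_le_L this

theorem db_of_not_syl (h : ¬ IsSylowIn 2 (S.U ⊔ R) ⊤) : S.Db := by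
  haveI : Fact (Nat.Prime 2) := ⟨Nat.prime_two⟩
  obtain ⟨g, hg, n, p⟩ := exists_norm (sylT h1).isP h
  have gt : g * S.t * g⁻¹ ≠ S.t := fun e => n ((sylT h1).max _ le_sup_left (sup_le (sylT h1).le
    (zpowers_le.2 (S.mem_Ct.2 (mul_inv_eq_iff_eq_mul.1 e)))) p ▸ mem_sup_right (mem_zpowers g))
  have key : ∀ r ∈ S.U ⊔ R, S.C0 r → r = 1 ∨ r = S.t := fun r hr c => c.invol (by_contra fun r2 => by
    obtain ⟨k, hk⟩ := isPGroup_iff_mem.1 (sylT h1).isP _ (pow_mem hr 2)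
    obtain ⟨j, j1, j2⟩ := exists_invol k hk (by rwa [pow_two])
    rw [← pow_mul, mul_comm, pow_mul, pow_two] at j1 j2
    have cy : S.C0 (r ^ j) := mem_C0s.1 (pow_mem (mem_C0s.2 c) j)
    have hy := pow_mem hr j
    generalize r ^ j = y at j1 j2 cy hy
    have e := ((cy.mul cy).invol j2).resolve_left j1
    obtain ⟨a, m, cm, e'⟩ := P1B.cen h1 (conj_mem_of_mem_normalizer hg hy)
      (conj_mem_of_mem_normalizer (normalizer_le_normalizer_centralizer _ hg) (cT h1 hy cy))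
    have : g * S.t * g⁻¹ = m * m := by rw [← e, ← conj_mul, e', sq h1 cm]
    rcases (cm.mul cm).invol (by rw [← this, conj_mul, S.tt]; group) with e | e
    · exact S.t1 (by simpa using this.trans e)
    · exact gt (this.trans e))
  refine ⟨fun r c k hk => ?_, g, (norm_V_of_T h1 hg).1, gt⟩
  obtain ⟨d, hd, e⟩ := (sylT h1).exists_cj_le (Gen.isP_pow hk) (zpowers_le.2 (S.mem_Ct.2 c.1))
  refine (key _ (e (cj_mem d (mem_zpowers r))) (c.conj (S.mem_Ct.1 hd))).imp (by simp) fun e => ?_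
  rw [← mul_inv_eq_iff_eq_mul.2 (S.mem_Ct.1 hd)] at e
  simpa using e

theorem noV (h : IsSylowIn 2 (S.U ⊔ R) ⊤) {g : G} (hg : g * S.t * g⁻¹ ∈ S.V) : g * S.t * g⁻¹ = S.t := by
  haveI : Fact (Nat.Prime 2) := ⟨Nat.prime_two⟩
  have burn : ∀ {g}, g * S.t * g⁻¹ ∈ 𝐂(S.U ⊔ R) →
      ∃ n ∈ 𝐍(S.U ⊔ R), n * S.t * n⁻¹ = g * S.t * g⁻¹ := fun {g} hg =>
    let ⟨n, _, hn, e⟩ := burnW h le_rfl (fun _ _ => cj_eq_of_cj_le) (mem_top g) (tC h1) hg
    ⟨n, hn, e⟩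
  have nz : ∀ g a, g * S.t * g⁻¹ ≠ S.z4 a := fun g a e => by
    obtain ⟨n, hn, e'⟩ := burn (e ▸ zC h1 a)
    exact (norm_V_of_T h1 hn).2 (e' ▸ e ▸ S.z4_mem a)
  obtain ⟨a, e | e⟩ := S.mem_V.1 hg
  · exact absurd e (nz g a)
  by_contra ne
  have a0 : a ≠ 0 := by rintro rfl; exact ne (by rw [e, S.z4_zero, mul_one])
  obtain ⟨n, hn, e2⟩ := burn (e ▸ mul_mem (tC h1) (zC h1 a))
  rw [e] at e2
  let _ : MulAction 𝐍(S.V) G := MulAction.compHom G ((MulAut.conj (G := G)).comp (𝐍(S.V)).subtype)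
  have sm : ∀ (x : 𝐍(S.V)) (y : G), x • y = x * y * (x : G)⁻¹ := fun _ _ => rfl
  have st : MulAction.stabilizer 𝐍(S.V) S.t = (S.Ct ⊓ 𝐍(S.V)).subgroupOf 𝐍(S.V) := by
    ext x
    rw [MulAction.mem_stabilizer_iff, sm, mem_subgroupOf, mem_inf, S.mem_Ct, mul_inv_eq_iff_eq_mul]
    exact (and_iff_left x.2).symm
  have ob : MulAction.orbit 𝐍(S.V) S.t = Set.range fun a => S.t * S.z4 a := by
    ext y
    refine ⟨fun ⟨x, hx⟩ => ?_, fun ⟨b, hb⟩ => ?_⟩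
    · obtain ⟨b, e | e⟩ := S.mem_V.1 (conj_mem_of_mem_normalizer x.2 (mem_sup_left (mem_zpowers S.t)))
      exacts [absurd e (nz _ b), ⟨b, e.symm.trans hx⟩]
    · by_cases b0 : b = 0
      · exact ⟨1, by rw [← hb, b0]; simp [S.z4_zero]⟩
      obtain ⟨c, hc⟩ := ex_unit (mul_ne_zero b0 (inv_ne_zero a0))
      refine ⟨⟨_, mul_mem (S.h_normV c 1) (norm_V_of_T h1 hn).1⟩, ?_⟩
      show S.h c 1 * n * S.t * (S.h c 1 * n)⁻¹ = y
      beta_reduce at hb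
      rw [← hb, ← inv_mul_cancel_right₀ a0 b, ← hc, ← S.h_z4 c 1]
      conv_rhs => rw [← ht c 1, conj_mul, ← e2]
      group
  have ix := MulAction.index_stabilizer 𝐍(S.V) S.t
  rw [st, ob, ← Nat.card_coe_set_eq, Nat.card_range_of_injective fun a b e =>
    S.z4_inj (mul_left_cancel e)] at ix
  have TN : S.U ⊔ R ≤ 𝐍(S.V) := fun x hx => (norm_V_of_T h1 (le_normalizer hx)).1
  exact (h.mono TN le_top).not_dvd_relIndex_of_le (le_inf (sylT h1).le TN) inf_le_right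
    (by rw [relIndex, ix]; exact two_dvd S)

end St

end H51.RS
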