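import Cfsg.Agent.Lib.RS4.P1B

/-! Standard components of type `²F₄(q)`, package P1C: see `blueprint/RS4/README.md`. -/

set_option autoImplicit false
set_option linter.unusedSectionVars false

namespace H51.RS
open Subgroup H69 H78.Oct H78.Oct.Co
open scoped commutatorElement

variable {F G : Type*} [Field F] [Tits F] [Finite F] [Group G] [Finite G]

namespace P1C

/-- the subgroup `U₃ ⋯ U₇` -/
def MidS (F : Type*) [Field F] [Tits F] : Subgroup (Co F) where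
  carrier := {x | Mid x}
  one_mem' := ⟨rfl, rfl, rfl, rfl, rfl⟩
  mul_mem' := fun ⟨a, b, c, d, e⟩ ⟨a', b', c', d', e'⟩ => by
    refine ⟨?_, ?_, ?_, ?_, ?_⟩ <;> simp [*]
  inv_mem' := fun ⟨a, b, c, d, e⟩ => by
    refine ⟨?_, ?_, ?_, ?_, ?_⟩ <;> simp [*]

theorem mid_x5 {e : Co F} (h : Mid e) : e * x5 1 = x5 1 * e := by
  obtain ⟨h1, h2, h3, h4, h5⟩ := h
  ext <;> simp [*, add_comm]

/-- the general element of `Z₄ U₅ Z₆` -/
def D (S : St F G) (a p e : F) : G := S.z4 a * S.φ (x5 p) * S.z6 e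

variable {S : St F G} {R : Subgroup G}

theorem D_eq (a p e : F) : D S a p e = S.φ (y4 0 a * x5 p * y6 0 e) := by
  rw [map_mul, map_mul]; rfl

theorem D_mem (a p e : F) : D S a p e ∈ S.L := D_eq (S := S) a p e ▸ S.φ_mem _

theorem D_mul (a p e a' p' e' : F) :
    D S a p e * D S a' p' e' = D S (a + a') (p + p') (e + e') := by
  rw [D_eq, D_eq, D_eq, ← map_mul]
  congr 1
  co

theorem D_sq (a p e : F) : D S a p e * D S a p e = 1 := by
  rw [D_eq, ← map_mul, ← map_one S.φ]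
  congr 1
  co

theorem D_one (a p e : F) : D S a (1 + p) e = S.φ (x5 1) * D S a p e := by
  rw [D_eq, D_eq, ← map_mul]
  congr 1
  co

theorem w_mul {c c' : G} (h : S.Cn c') (a p e a' p' e' : F) :
    c * D S a p e * (c' * D S a' p' e') = c * c' * D S (a + a') (p + p') (e + e') := by
  rw [Commute.mul_mul_mul_comm (h _ (D_mem a p e)).symm, D_mul]

theorem w_p {c : G} {a p e a' p' e' : F} (h : c * D S a p e = c * D S a' p' e') : p = p' := by
  have := mul_left_cancel h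
  rw [D_eq, D_eq] at this
  simpa using congrArg Co.a5 (S.inj this)

theorem w_t {a p e a' p' e' : F} (h : 1 * D S a p e = S.t * D S a' p' e') : False :=
  S.t_notMem (by
    rw [eq_mul_inv_of_mul_eq h.symm, one_mul]; exact mul_mem (D_mem ..) (inv_mem (D_mem ..)))

variable (h1 : IsSylowIn 2 R S.C0s) (h : IsSylowIn 2 (S.U ⊔ R) ⊤)
include h1 h

theorem nos {τ : G} (hτ : τ = 1 ∨ τ = S.t) {g : G} (e : g * S.t * g⁻¹ = τ * S.φ (x5 1)) : False := by
  have cτ : S.C0 τ := hτ.elim (fun e => e ▸ S.od_one.1) fun e => e ▸ S.c0_t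
  have P2 : IsPGroup 2 (zpowers S.t ⊔ (MidS F).map S.φ : Subgroup G) :=
    isPGroup_sup_of_le_normalizer_right (H89.G2S.isP_zp S.tt) (S.U_isP.to_le (map_le_range _ _))
      (H89.G2S.Gen.zp_norm fun _ ⟨b, _, e⟩ => e ▸ S.t_φ b)
  have Pc : (zpowers S.t ⊔ (MidS F).map S.φ : Subgroup G) ≤ centralizer {τ * S.φ (x5 1)} := by
    refine sup_le (zpowers_le.2 (mem_centralizer_singleton_iff.2
      (Commute.mul_right cτ.1.symm (S.t_φ _)))) ?_
    rintro _ ⟨b, hb, rfl⟩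
    exact mem_centralizer_singleton_iff.2 (Commute.mul_right (cτ.φ b).symm
      (show S.φ b * _ = _ * S.φ b by rw [← map_mul, mid_x5 hb, map_mul]))
  obtain ⟨k, ek, hk⟩ := H89.G2S.ext_cent (St.sylT h1) (u := τ * S.φ (x5 1)) (g := g⁻¹)
    (by rw [← e]; group) P2 fun p hp => mem_centralizer_singleton_iff.1 (Pc hp)
  have cP : ∀ a, ∀ p ∈ zpowers S.t ⊔ (MidS F).map S.φ,
      k⁻¹ * S.z4 a * k * p = p * (k⁻¹ * S.z4 a * k) := fun a p hp => by
    have : S.z4 a * (k * p * k⁻¹) = k * p * k⁻¹ * S.z4 a := by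
      obtain ⟨u, r, hr, e⟩ := (St.mem_T h1.le).1 (hk p hp)
      rw [e]
      exact Commute.mul_right (S.φ_z4 u a).symm ((St.mem_C0s.1 (h1.le hr)).φ _).symm
    calc _ = k⁻¹ * (S.z4 a * (k * p * k⁻¹)) * k := by group
      _ = _ := by rw [this]; group
  have fm : ∀ a, ∃ c b p e, (c = 1 ∨ c = S.t) ∧ k⁻¹ * S.z4 a * k = c * D S b p e := fun a => by
    obtain ⟨b, p, e, c, hc, e1⟩ := S.cM (cP a _ (mem_sup_left (mem_zpowers _)))
      fun b hb => cP a _ (mem_sup_right ⟨b, hb, rfl⟩)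
    replace e1 : k⁻¹ * S.z4 a * k = c * D S b p e := e1.trans (hc.2 _ (D_mem b p e)).symm
    have y2 : k⁻¹ * S.z4 a * k * (k⁻¹ * S.z4 a * k) = 1 := by
      calc _ = k⁻¹ * (S.z4 a * S.z4 a) * k := by group
        _ = 1 := by rw [S.z4_sq]; group
    rw [e1, Commute.mul_mul_mul_comm (hc.2 _ (D_mem b p e)).symm, D_sq, mul_one] at y2
    exact ⟨c, b, p, e, hc.invol y2, e1⟩
  have sh : ∀ b p e, p ≠ 0 → ∃ g', g' * S.t * g'⁻¹ = τ * D S b p e := fun b p e p0 => by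
    obtain ⟨l, hl, el⟩ := S.d_cls b p0 e
    refine ⟨l⁻¹ * g, ?_⟩
    calc _ = l⁻¹ * (g * S.t * g⁻¹) * l := by group
      _ = l⁻¹ * (τ * l) * D S b p e := by rw [‹g * S.t * g⁻¹ = _›, ← el, D]; group
      _ = _ := by rw [cτ.2 l hl]; group
  have n1 : ∀ a b p e, k⁻¹ * S.z4 a * k = τ * D S b p e → p = 0 := fun a b p e e1 =>
    by_contra fun p0 => by
    obtain ⟨g', e2⟩ := sh b p e p0
    have e3 : k * g' * S.t * (k * g')⁻¹ = S.z4 a := by
      calc _ = k * (g' * S.t * g'⁻¹) * k⁻¹ := by group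
        _ = _ := by rw [e2, ← e1]; group
    exact S.t_notMem (St.noV h1 h (e3 ▸ S.mem_V.2 ⟨a, Or.inl rfl⟩) ▸ e3 ▸ S.φ_mem _)
  have n2 : ∀ a b p e, a ≠ 0 → k⁻¹ * S.z4 a * k = 1 * D S b p e → p = 1 := fun a b p e a0 e1 =>
    by_contra fun p0 => by
    obtain ⟨g', e2⟩ := sh b (1 + p) e fun h => p0 (CharTwo.add_eq_zero.1 h).symm
    have e3 : k * g' * S.t * (k * g')⁻¹ = S.t * S.z4 a := by
      calc _ = k * (g' * S.t * g'⁻¹) * k⁻¹ := by group
        _ = k * (τ * S.φ (x5 1)) * k⁻¹ * (k * (1 * D S b p e) * k⁻¹) := by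
          rw [e2, D_one]; group
        _ = _ := by rw [ek, ← e1]; group
    have := St.noV h1 h (e3 ▸ S.mem_V.2 ⟨a, Or.inr rfl⟩)
    rw [e3, mul_eq_left, ← S.z4_zero] at this
    exact a0 (S.z4_inj this)
  obtain ⟨a, a1, -⟩ := exists_unit S.big
  have a0 := a.ne_zero
  generalize (a : F) = a at a0 a1
  have a2 : 1 + a ≠ 0 := fun h => a1 (CharTwo.add_eq_zero.1 h).symm
  have ad : k⁻¹ * S.z4 (1 + a) * k = k⁻¹ * S.z4 1 * k * (k⁻¹ * S.z4 a * k) := by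
    rw [S.z4_add]; group
  have c1 : S.Cn 1 := S.od_one.1.2
  have ct : S.Cn S.t := S.c0_t.2
  rcases hτ with rfl | rfl
  · have all : ∀ a, a ≠ 0 → ∃ b p e, k⁻¹ * S.z4 a * k = S.t * D S b p e := fun a a0 => by
      obtain ⟨c, b, p, e, rfl | rfl, e1⟩ := fm a
      exacts [absurd ((n1 a b p e e1).symm.trans (n2 a b p e a0 e1)) zero_ne_one, ⟨b, p, e, e1⟩]
    obtain ⟨b1, p1, f1, e1⟩ := all 1 one_ne_zero
    obtain ⟨b2, p2, f2, e2⟩ := all a a0
    obtain ⟨b3, p3, f3, e3⟩ := all _ a2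
    rw [e1, e2, e3, w_mul ct, S.tt] at ad
    exact w_t ad.symm
  · have all : ∀ a, a ≠ 0 → ∃ b e, k⁻¹ * S.z4 a * k = S.t * D S b 0 e ∨
        k⁻¹ * S.z4 a * k = 1 * D S b 1 e := fun a a0 => by
      obtain ⟨c, b, p, e, rfl | rfl, e1⟩ := fm a
      exacts [⟨b, e, Or.inr (n2 a b p e a0 e1 ▸ e1)⟩, ⟨b, e, Or.inl (n1 a b p e e1 ▸ e1)⟩]
    obtain ⟨b1, f1, e1 | e1⟩ := all 1 one_ne_zero <;> obtain ⟨b2, f2, e2 | e2⟩ := all a a0 <;>
      obtain ⟨b3, f3, e3 | e3⟩ := all _ a2 <;> rw [e1, e2, e3] at ad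
    · rw [w_mul ct, S.tt] at ad; exact w_t ad.symm
    · rw [w_mul ct, S.tt] at ad; simpa using w_p ad
    · rw [w_mul c1, mul_one] at ad; simpa using w_p ad
    · rw [w_mul c1, mul_one] at ad; exact w_t ad
    · rw [w_mul ct, one_mul S.t] at ad; simpa using w_p ad
    · rw [w_mul ct, one_mul S.t] at ad; exact w_t ad
    · rw [w_mul c1, mul_one] at ad; exact w_t ad.symm
    · rw [w_mul c1, mul_one] at ad; simpa using w_p ad

theorem iso {g : G} (hg : g * S.t * g⁻¹ * S.t = S.t * (g * S.t * g⁻¹)) : g * S.t * g⁻¹ = S.t := by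
  have sq : g * S.t * g⁻¹ * (g * S.t * g⁻¹) = 1 := by rw [conj_mul, S.tt]; group
  obtain ⟨u, hu, τ, cτ, e⟩ := S.dec2 hg (k := 1) (by rw [pow_one, pow_two, sq])
  rw [← cτ.2 u hu] at e
  rw [e, Commute.mul_mul_mul_comm (cτ.2 u hu).symm] at sq
  have τ2 : τ * τ = 1 :=
    (cτ.mul cτ).eq_one (by rw [eq_inv_of_mul_eq_one_left sq]; exact inv_mem (mul_mem hu hu))
  rw [τ2, one_mul] at sq
  have hτ := cτ.invol τ2
  have τV : τ ∈ S.V := hτ.elim (fun e => e ▸ one_mem _) fun e => e ▸ mem_sup_left (mem_zpowers _)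
  have mv : ∀ l ∈ S.L, l * g * S.t * (l * g)⁻¹ = τ * (l * u * l⁻¹) := fun l hl => by
    calc _ = l * (g * S.t * g⁻¹) * l⁻¹ := by group
      _ = l * τ * u * l⁻¹ := by rw [e]; group
      _ = _ := by rw [← cτ.2 l hl]; group
  rcases S.inv_L hu sq with e1 | ⟨l, hl, e1⟩ | ⟨l, hl, e1⟩
  · exact St.noV h1 h (by rwa [e, e1, mul_one])
  · have := St.noV h1 h (g := l * g)
      (by rw [mv l hl, e1]; exact mul_mem τV (mem_sup_right (S.z4_mem 1)))
    calc _ = l⁻¹ * (l * g * S.t * (l * g)⁻¹) * l := by group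
      _ = _ := by rw [this, mul_assoc, S.t_comm hl]; group
  · exact (nos h1 h hτ ((mv l hl).trans (by rw [e1]))).elim

end P1C

theorem St.p1 (S : St F G) :
    (∀ g, g * S.t * g⁻¹ * S.t = S.t * (g * S.t * g⁻¹) → g * S.t * g⁻¹ = S.t) ∨ S.Db := by
  obtain ⟨R, h1⟩ := exists_isSylowIn 2 S.C0s
  by_cases h : IsSylowIn 2 (S.U ⊔ R) ⊤
  · exact Or.inl fun g e => P1C.iso h1 h e
  · exact Or.inr (St.db_of_not_syl h1 h)

end H51.RS
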