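import Cfsg.Agent.Lib.RS4.K1

/-! Standard components of type `²F₄(q)`, package P2A: see `blueprint/RS4/README.md`. -/

set_option autoImplicit false
set_option linter.unusedSectionVars false

namespace H51.RS
open Subgroup H69 H78.Oct H78.Oct.Co
open scoped commutatorElement

variable {F G : Type*} [Field F] [Tits F] [Finite F] [Group G] [Finite G]

namespace P2A
variable {S : St F G}

theorem tV : S.t ∈ S.V := S.mem_V.2 ⟨0, .inr (by rw [S.z4_zero, mul_one])⟩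
theorem zV (a : F) : S.z4 a ∈ S.V := S.mem_V.2 ⟨a, .inl rfl⟩

theorem comm_V {g : G} (ht : g * S.t = S.t * g) (h : ∀ a, g * S.z4 a = S.z4 a * g) {v : G}
    (hv : v ∈ S.V) : g * v = v * g := by
  obtain ⟨a, rfl | rfl⟩ := S.mem_V.1 hv
  · exact h a
  · exact (Commute.mul_right ht (h a)).eq

theorem conj_comm {n g v : G} (h : g * (n⁻¹ * v * n⁻¹⁻¹) = n⁻¹ * v * n⁻¹⁻¹ * g) :
    n * g * n⁻¹ * v = v * (n * g * n⁻¹) := by
  calc _ = n * (g * (n⁻¹ * v * n⁻¹⁻¹)) * n⁻¹ := by group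
    _ = _ := by rw [h]; group

/-- conjugates under `N(V)` of elements centralising `V` centralise `V` -/
theorem cV_conj {n g : G} (hn : n ∈ 𝐍(S.V)) (ht : g * S.t = S.t * g)
    (h : ∀ a, g * S.z4 a = S.z4 a * g) {v : G} (hv : v ∈ S.V) :
    n * g * n⁻¹ * v = v * (n * g * n⁻¹) :=
  conj_comm (comm_V ht h ((mem_normalizer_iff.1 (inv_mem hn) v).1 hv))

/-- the subgroup `P₀ × O` -/
def EO (h : S.Db) : Subgroup G where
  carrier := {g | ∃ p ∈ S.P0, ∃ o, S.Od o ∧ g = p * o}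
  one_mem' := ⟨1, one_mem _, 1, S.od_one, by simp⟩
  mul_mem' := by
    rintro _ _ ⟨p, hp, o, ho, rfl⟩ ⟨p', hp', o', ho', rfl⟩
    refine ⟨p * p', mul_mem hp hp', o * o', h.mul ho ho', ?_⟩
    have := ho.1.2 _ (S.P0_le_L hp')
    calc p * o * (p' * o') = p * (o * p') * o' := by group
      _ = _ := by rw [this]; group
  inv_mem' := by
    rintro _ ⟨p, hp, o, ho, rfl⟩
    exact ⟨p⁻¹, inv_mem hp, o⁻¹, ho.inv, by
      rw [mul_inv_rev]; exact ho.inv.1.2 _ (S.P0_le_L (inv_mem hp))⟩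

theorem comm_E (h : S.Db) {g g' : G} (ht : g * S.t = S.t * g) (h3 : ∀ a, g * S.z4 a = S.z4 a * g)
    (ht' : g' * S.t = S.t * g') (h3' : ∀ a, g' * S.z4 a = S.z4 a * g') : ⁅g, g'⁆ ∈ EO h := by
  obtain ⟨p, hp, c, hc, rfl⟩ := S.cZ ht h3
  obtain ⟨p', hp', c', hc', rfl⟩ := S.cZ ht' h3'
  refine ⟨⁅p, p'⁆, mul_mem (mul_mem (mul_mem hp hp') (inv_mem hp)) (inv_mem hp'), ⁅c, c'⁆,
    h.comm hc hc', ?_⟩
  have a1 : Commute c p := hc.2 _ (S.P0_le_L hp)
  have a2 : Commute c p' := hc.2 _ (S.P0_le_L hp')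
  have a3 : Commute c' p := hc'.2 _ (S.P0_le_L hp)
  have a4 : Commute c' p' := hc'.2 _ (S.P0_le_L hp')
  simp only [commutatorElement_def, mul_inv_rev, mul_assoc]
  rw [a2.left_comm, a1.inv_left.inv_right.left_comm, a3.inv_right.left_comm,
    a1.inv_right.left_comm, a4.inv_left.inv_right.eq, a2.inv_left.inv_right.left_comm,
    a4.inv_right.left_comm, a2.inv_right.left_comm]

theorem E_two (h : S.Db) {x : G} (hx : x ∈ EO h) {j : ℕ} (h2 : x ^ 2 ^ j = 1) : x ∈ S.P0 := by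
  obtain ⟨p, hp, o, ho, rfl⟩ := hx
  have a : Commute o p := ho.1.2 _ (S.P0_le_L hp)
  rw [a.symm.mul_pow, mul_eq_one_iff_inv_eq] at h2
  have : o = 1 := ho.eq_one ((ho.pow _).1.eq_one (h2 ▸ S.P0_le_L (inv_mem (pow_mem hp _))))
  rw [this, mul_one]; exact hp

end P2A
open P2A

namespace St.Db
variable {S : St F G} (h : S.Db) {n : G} (hn : n ∈ 𝐍(S.V))
include h hn
theorem nvP : n ∈ 𝐍(S.P0) := by
  refine mem_normalizer_fintype fun x hx => ?_
  have k : ⁅S.P0, S.P0⁆ ≤ (EO h).comap (MulAut.conj n).toMonoidHom := commutator_le.2 fun p hp p' hp' => by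
    rw [mem_comap, map_commutatorElement]
    have c : ∀ {p}, p ∈ S.P0 → ∀ {v}, v ∈ S.V → n * p * n⁻¹ * v = v * (n * p * n⁻¹) := fun hp _ hv =>
      cV_conj hn (S.t_comm (S.P0_le_L hp)).symm (fun a => S.P0_z4 hp a) hv
    exact comm_E h (c hp tV) (fun a => c hp (zV a)) (c hp' tV) (fun a => c hp' (zV a))
  rw [S.perfP] at k
  have : S.P0 ≤ S.P0.comap (MulAut.conj n).toMonoidHom := S.P0_gen2 fun p hp j e =>
    E_two h (k hp) (j := j) (by rw [← map_pow, e, map_one])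
  exact this hx

theorem nvt : ∃ c, n * S.t * n⁻¹ = S.t * S.z4 c := by
  obtain ⟨a, e | e⟩ := S.mem_V.1 ((mem_normalizer_iff.1 hn _).1 tV)
  · obtain ⟨b, hb⟩ := S.norm_Z (inv_mem (h.nvP hn)) a
    rw [← e] at hb
    refine absurd ?_ S.t_notMem
    rw [show S.t = S.z4 b by rw [← hb]; group]
    exact S.φ_mem _
  · exact ⟨a, e⟩

theorem nvO {o : G} (ho : S.Od o) : S.Od (n * o * n⁻¹) := by
  have hodd : Odd (orderOf (n * o * n⁻¹)) := by
    rw [← MulAut.conj_apply, MulEquiv.orderOf_eq]; exact ho.2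
  refine ⟨?_, hodd⟩
  obtain ⟨a, c, hc, e⟩ := S.cQ (cV_conj hn ho.1.1 (fun a => ho.1.φ _) tV) fun x hx =>
    conj_comm (ho.1.2 _ (S.P0_le_L ((mem_normalizer_iff.1 (inv_mem (h.nvP hn)) x).1
      (S.U_le_P0 (S.Q_le_U hx)))))
  obtain ⟨k, hk⟩ := hodd
  have h1 := pow_orderOf_eq_one (n * o * n⁻¹)
  rw [hk, e, (Commute.symm (hc.φ (y4 0 a))).mul_pow, pow_succ, pow_mul, sq, S.z4_sq, one_pow, one_mul,
    mul_eq_one_iff_eq_inv] at h1
  have : S.z4 a = 1 :=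
    C0.eq_one (by rw [St.z4, h1]; exact C0.inv (pow_mem (S := S.C0s) hc (2 * k + 1))) (S.φ_mem _)
  rw [e, this, one_mul]; exact hc

end St.Db

end H51.RS
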