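import Cfsg.Agent.Lib.RS4.P2A
import Cfsg.Agent.Lib.RS4.B4

/-! Standard components of type `²F₄(q)`, package P2C: see `blueprint/RS4/README.md`. -/

set_option autoImplicit false
set_option linter.unusedSectionVars false

namespace H51.RS
open Subgroup H69 H78.Oct H78.Oct.Co
open scoped commutatorElement

variable {F G : Type*} [Field F] [Tits F] [Finite F] [Group G] [Finite G]

namespace P2C
variable {S : St F G} {c c' : F} {d e : G}

theorem tV : S.t ∈ S.V := S.mem_V.2 ⟨0, .inr (by rw [S.z4_zero, mul_one])⟩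
theorem X3V (a : F) : S.z4 a ∈ S.V := S.mem_V.2 ⟨a, .inl rfl⟩
theorem conj_comm {n g v : G} (h : g * (n⁻¹ * v * n⁻¹⁻¹) = n⁻¹ * v * n⁻¹⁻¹ * g) :
    n * g * n⁻¹ * v = v * (n * g * n⁻¹) := by
  calc _ = n * (g * (n⁻¹ * v * n⁻¹⁻¹)) * n⁻¹ := by group
    _ = _ := by rw [h]; group
theorem nQ {g x : G} (hg : g ∈ 𝐍(S.P0)) (hx : x ∈ S.Q) : g * x * g⁻¹ ∈ S.Q := by
  obtain ⟨a, ha, rfl⟩ := S.mem_Q.1 hx
  obtain ⟨b, hb, e⟩ := S.norm_Q hg ha
  exact e ▸ S.φ_memQ hb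
theorem nV (h : S.D0 d) : d ∈ 𝐍(S.V) :=
  let ⟨h1, _, h2⟩ := h
  S.mem_norm_V (fun a => h1 _ (S.Z_le_Q (S.z4_mem a))) h2

/-- `d` centralises `Q` and translates `t` by `c` -/
def D (S : St F G) (c : F) (d : G) : Prop :=
  (∀ x ∈ S.Q, d * x = x * d) ∧ d * S.t * d⁻¹ = S.t * S.z4 c

theorem D.d0 (h : D S c d) : S.D0 d := ⟨h.1, c, h.2⟩
theorem of_d0 (h : S.D0 d) : ∃ c, D S c d := let ⟨h1, c, h2⟩ := h; ⟨c, h1, h2⟩
theorem D.x3 (h : D S c d) (a : F) : d * S.z4 a = S.z4 a * d := h.1 _ (S.Z_le_Q (S.z4_mem a))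
theorem D.mul (h : D S c d) (h' : D S c' e) : D S (c + c') (d * e) :=
  ⟨fun x hx => (Commute.mul_left (h.1 x hx) (h'.1 x hx)).eq, by
    rw [show d * e * S.t * (d * e)⁻¹ = d * (e * S.t * e⁻¹) * d⁻¹ by group, h'.2, ← conj_mul, h.2, h.x3,
      mul_inv_cancel_right, S.z4_add, mul_assoc]⟩
theorem D.inv (h : D S c d) : D S c d⁻¹ :=
  ⟨fun x hx => (Commute.inv_left (h.1 x hx)).eq, by
    calc d⁻¹ * S.t * d⁻¹⁻¹ = d⁻¹ * (S.t * S.z4 c) * (S.z4 c * d) := by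
          rw [mul_assoc _ (S.t * _), mul_assoc S.t, ← mul_assoc (S.z4 c), S.z4_sq, one_mul, inv_inv,
            mul_assoc]
      _ = d⁻¹ * (d * S.t * d⁻¹) * (d * S.z4 c) := by rw [h.2, h.x3]
      _ = _ := by group⟩
theorem D.h (h : D S c d) (l m : Fˣ) : D S ((l : F) * σ (l : F) * c) (S.h l m * d * (S.h l m)⁻¹) := by
  refine ⟨fun x hx => conj_comm (h.1 _ (nQ (inv_mem (S.h_normP l m)) hx)), ?_⟩
  have e : S.h l m * S.t * (S.h l m)⁻¹ = S.t := S.conj_t (S.h_mem l m)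
  calc _ = S.h l m * d * (S.h l m)⁻¹ * (S.h l m * S.t * (S.h l m)⁻¹) * (S.h l m * d * (S.h l m)⁻¹)⁻¹ := by
        rw [e]
    _ = S.h l m * (d * S.t * d⁻¹) * (S.h l m)⁻¹ := by group
    _ = _ := by rw [h.2, ← conj_mul, e, S.h_z4]
theorem D.uniq (h : D S c d) (h' : D S c' d) : c = c' :=
  S.z4_inj (mul_left_cancel (h.2.symm.trans h'.2))
theorem D.zero (h : D S 0 d) : d * S.t = S.t * d := by
  have := h.2; rwa [S.z4_zero, mul_one, mul_inv_eq_iff_eq_mul] at this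
theorem d_of (hQ : ∀ x ∈ S.Q, d * x = x * d) (ht : d * S.t = S.t * d) : D S 0 d :=
  ⟨hQ, by rw [S.z4_zero, mul_one, ht, mul_inv_cancel_right]⟩
theorem V_CO {v : G} (hv : v ∈ S.V) : S.CO v := by
  obtain ⟨a, rfl | rfl⟩ := S.mem_V.1 hv
  exacts [S.co_L (S.φ_mem _), S.co_t.mul (S.co_L (S.φ_mem _))]
theorem V_D {v : G} (hv : v ∈ S.V) : D S 0 v := by
  have h1 : ∀ a, D S 0 (S.z4 a) := fun a => d_of
    (fun x hx => (S.P0_z4 (S.U_le_P0 (S.Q_le_U hx)) a).symm) (S.t_φ _).symm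
  obtain ⟨a, rfl | rfl⟩ := S.mem_V.1 hv
  · exact h1 a
  · simpa using (d_of (fun x hx => S.t_comm (S.U_le_L (S.Q_le_U hx))) rfl).mul (h1 a)
theorem od_D {o : G} (ho : S.Od o) : D S 0 o :=
  d_of (fun _ hx => ho.1.2 _ (S.U_le_L (S.Q_le_U hx))) ho.1.1
theorem D.split (h : S.Db) (hd : D S 0 d) : ∃ v ∈ S.V, ∃ o, S.Od o ∧ d = v * o := by
  obtain ⟨a, c, hc, e⟩ := S.cQ hd.zero hd.1
  obtain ⟨o, ho, rfl | rfl⟩ := h.cases hc
  · exact ⟨_, X3V a, _, ho, e⟩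
  · exact ⟨_, mul_mem (X3V a) tV, o, ho, by rw [e, mul_assoc]⟩
theorem od_V {o : G} (ho : S.Od o) (h : o * o ∈ S.V) : o = 1 := ho.eq_one_four (S.V_sq h)

theorem dd_inv (hd : S.DD d) : S.DD d⁻¹ :=
  let ⟨_, h⟩ := of_d0 hd.1
  ⟨h.inv.d0, hd.2.1.inv, by rw [← mul_inv_rev]; exact inv_mem hd.2.2⟩

theorem comm_V (h : S.Db) (hd : S.DD d) (he : S.D0 e) : d * e * d⁻¹ * e⁻¹ ∈ S.V := by
  obtain ⟨c, h1⟩ := of_d0 hd.1
  obtain ⟨c', h2⟩ := of_d0 he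
  have k := ((h1.mul h2).mul h1.inv).mul h2.inv
  rw [show c + c' + c + c' = 0 by grind] at k
  obtain ⟨v, hv, o, hO, e1⟩ := k.split h
  have e2 : d * e * d⁻¹ = v * o * e := by rw [← e1]; group
  have e3 : d * d * e * (d * d)⁻¹ = d * v * d⁻¹ * v * (o * o) * e := by
    calc _ = d * (d * e * d⁻¹) * d⁻¹ := by group
      _ = d * v * d⁻¹ * (d * o * d⁻¹) * (d * e * d⁻¹) := by conv_lhs => rw [e2]
                                                            group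
      _ = _ := by
        rw [hd.2.1 o hO, mul_inv_cancel_right, e2, mul_assoc _ o, ← mul_assoc o, ← mul_assoc o,
          ← V_CO hv o hO]; group
  have e4 : o * o = (d * v * d⁻¹ * v)⁻¹ * (d * d * (e * (d * d)⁻¹ * e⁻¹)) := by
    rw [eq_inv_mul_iff_mul_eq, ← mul_left_inj e, ← e3]; group
  have : o = 1 := od_V hO (e4 ▸ mul_mem (inv_mem (mul_mem
    ((mem_normalizer_iff.1 (nV hd.1) v).1 hv) hv)) (mul_mem hd.2.2
      ((mem_normalizer_iff.1 (nV he) _).1 (inv_mem hd.2.2))))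
  rw [e1, this, mul_one]; exact hv

end P2C
open P2C

namespace St.Db
variable {S : St F G} (h : S.Db)
include h
theorem dP {d p : G} (hd : S.D0 d) (hp : p ∈ S.P0) : d * p = p * d := by
  have k : ∀ p ∈ S.P0, ∃ a, d * p * d⁻¹ = S.z4 a * p := fun p hp => by
    obtain ⟨a, e⟩ := S.cent_Q (g := d * p * d⁻¹ * p⁻¹) (S.P0_le_L (mul_mem
      ((mem_normalizer_iff.1 (h.nvP (nV hd)) p).1 hp) (inv_mem hp))) fun x hx => by
        have h1 : Commute (p * d⁻¹ * p⁻¹) (S.φ x) := conj_comm (Commute.inv_left (hd.1 _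
          (nQ (inv_mem (le_normalizer hp)) (S.φ_memQ hx)))).eq
        have := (Commute.mul_left (hd.1 _ (S.φ_memQ hx)) h1).eq
        simpa only [mul_assoc] using this
    exact ⟨a, by rw [← e, inv_mul_cancel_right]⟩
  have k2 : ⁅S.P0, S.P0⁆ ≤ centralizer {d} := commutator_le.2 fun p hp p' hp' => by
    obtain ⟨a, e⟩ := k p hp
    obtain ⟨a', e'⟩ := k p' hp'
    rw [mem_centralizer_singleton_iff, eq_comm, ← mul_inv_eq_iff_eq_mul, conjugate_commutatorElement,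
      e, e']
    have c1 : Commute (S.z4 a) p := (S.P0_z4 hp a).symm
    have c2 : Commute (S.z4 a) p' := (S.P0_z4 hp' a).symm
    have c3 : Commute (S.z4 a') p := (S.P0_z4 hp a').symm
    have c4 : Commute (S.z4 a') p' := (S.P0_z4 hp' a').symm
    have c5 : Commute (S.z4 a) (S.z4 a') := S.φ_z4 _ a'
    simp only [commutatorElement_def, mul_inv_rev, mul_assoc]
    rw [c1.left_comm, c5.left_comm, c2.left_comm, c1.inv_right.left_comm, mul_inv_cancel_left,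
      c4.left_comm, c3.inv_right.left_comm, c4.inv_right.left_comm, mul_inv_cancel, mul_one]
  rw [S.perfP] at k2
  exact (mem_centralizer_singleton_iff.1 (k2 hp)).symm
theorem dd_ker {d : G} (hd : S.DD d) (ht : d * S.t = S.t * d) : d ∈ S.V := by
  obtain ⟨v, hv, o, ho, e⟩ := (d_of hd.1.1 ht).split h
  have : o * o = d * d := by
    rw [e, mul_assoc, ← mul_assoc o v, ← V_CO hv o ho, mul_assoc, ← mul_assoc, S.V_sq hv, one_mul]
  rw [e, od_V ho (this ▸ hd.2.2), mul_one]; exact hv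
theorem dd_mul {d e : G} (hd : S.DD d) (he : S.DD e) : S.DD (d * e) := by
  obtain ⟨c, h1⟩ := of_d0 hd.1
  obtain ⟨c', h2⟩ := of_d0 he.1
  refine ⟨(h1.mul h2).d0, hd.2.1.mul he.2.1, ?_⟩
  rw [show d * e * (d * e) = d * d * (d⁻¹ * e * d⁻¹⁻¹ * e⁻¹) * (e * e) by group]
  exact mul_mem (mul_mem hd.2.2 (comm_V h (dd_inv hd) he.1)) he.2.2
theorem dd_onto (c : F) : ∃ d, S.DD d ∧ d * S.t * d⁻¹ = S.t * S.z4 c := by
  obtain ⟨μ, -, hμ, -⟩ := exists_unit S.big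
  have hμ' : (1 : F) + μ * σ (μ : F) ≠ 0 := fun k => hμ (by grind)
  obtain ⟨d, hd⟩ : ∃ d, D S (c / (1 + μ * σ (μ : F))) d := h.exD _
  have h1 := hd.mul (hd.inv.h μ 1)
  rw [show c / (1 + μ * σ (μ : F)) + μ * σ (μ : F) * (c / (1 + μ * σ (μ : F))) = c by field_simp] at h1
  obtain ⟨e, he⟩ : ∃ e, e = d * (S.h μ 1 * d⁻¹ * (S.h μ 1)⁻¹) := ⟨_, rfl⟩
  rw [← he] at h1
  have h2 : S.CO e := fun o ho => by
    have a1 := S.co_L (S.h_mem μ 1) _ (h.nvO (inv_mem (nV hd.d0)) ho)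
    have a2 := S.co_L (inv_mem (S.h_mem μ 1)) o ho
    calc _ = d * (S.h μ 1 * (d⁻¹ * ((S.h μ 1)⁻¹ * o))) := by rw [he]; group
      _ = d * (S.h μ 1 * (d⁻¹ * o * d⁻¹⁻¹)) * d⁻¹ * (S.h μ 1)⁻¹ := by rw [a2]; group
      _ = _ := by rw [a1, he]; group
  have h3 := h1.mul h1
  rw [CharTwo.add_self_eq_zero] at h3
  obtain ⟨v, hv, o, ho, e1⟩ := h3.split h
  obtain ⟨n, hn⟩ := ho.exists_sqrt
  have h4 : S.CO o := by
    rw [show o = v⁻¹ * (e * e) by rw [e1]; group]; exact (V_CO hv).inv.mul (h2.mul h2)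
  have h5 : S.CO (o ^ n) := fun o' ho' => (Commute.pow_left (h4 o' ho') n).eq
  have h6 := h1.mul (od_D (ho.pow n).inv)
  rw [add_zero] at h6
  refine ⟨_, ⟨h6.d0, h2.mul h5.inv, ?_⟩, h6.2⟩
  rw [mul_assoc, ← mul_assoc _ e, ← h2 _ (ho.pow n).inv, mul_assoc e, ← mul_assoc e, ← mul_inv_rev, hn,
    e1, mul_inv_cancel_right]
  exact hv
end St.Db

end H51.RS
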