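import Cfsg.Agent.Lib.RS4.K1
import Cfsg.Agent.Lib.G2S.Cg

/-! Standard components of type `²F₄(q)`, package P2E: see `blueprint/RS4/README.md`. -/

set_option autoImplicit false
set_option linter.unusedSectionVars false

namespace H51.RS
open Subgroup H69 H78.Oct H78.Oct.Co
open scoped commutatorElement

variable {F G : Type*} [Field F] [Tits F] [Finite F] [Group G] [Finite G]

namespace P2E
open H89.G2S.Cg (cg cg_def cg_mul mul_cg cg_inv cg_one one_cg cg_fix cg_fix' comm_of_cg inv_cg cg_cg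
  cg_comm cg_invol cg_cg_self cg_commutator comm_mul_left)

section Basic
variable (S : St F G)

theorem n1t : S.n1 * S.t = S.t * S.n1 := (S.t_comm S.n1_mem).symm
theorem cg_n1_t : cg S.n1 S.t = S.t := cg_fix (n1t S)
theorem cg_n1i_t : cg S.n1⁻¹ S.t = S.t := inv_cg (cg_n1_t S)
theorem cg_n1_z4 (a : F) : cg S.n1 (S.z4 a) = S.z6 a := S.n1_z4 a
theorem cg_n1_n1 (x : G) : cg S.n1 (cg S.n1 x) = x := cg_cg_self S.n11 x
theorem cg_φ_t (a : Co F) : cg (S.φ a) S.t = S.t := cg_fix (S.t_φ a).symm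
theorem z64 (a b : F) : S.z6 a * S.z4 b = S.z4 b * S.z6 a := S.φ_z4 _ _
theorem inj64 {a b a' b' : F} (h : S.z6 a * S.z4 b = S.z6 a' * S.z4 b') : a = a' ∧ b = b' := by
  rw [← map_mul, ← map_mul] at h
  have := S.inj h
  have h1 := congrArg Co.b6 this
  have h3 := congrArg Co.b4 this
  simp at h1 h3
  exact ⟨h1, h3⟩
theorem x1_sq (u : F) : S.φ (x1 u) * S.φ (x1 u) = 1 := by
  rw [← map_mul, ← map_one S.φ]; congr 1; co
theorem x1_inv (u : F) : (S.φ (x1 u))⁻¹ = S.φ (x1 u) := inv_eq_of_mul_eq_one_right (x1_sq S u)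
theorem cg_x1_z6 (u a : F) : cg (S.φ (x1 u)) (S.z6 a) = S.z6 a * S.z4 (u * a) := by
  rw [cg_invol (x1_sq S u), ← map_mul, ← map_mul, ← map_mul]
  congr 1; co
theorem cg_φ_z4 (u : Co F) (a : F) : cg (S.φ u) (S.z4 a) = S.z4 a := cg_fix (S.φ_z4 u a)
theorem cg_φ (u v : Co F) : cg (S.φ u) (S.φ v) = S.φ (u * v * u⁻¹) := by
  rw [map_mul, map_mul, map_inv]; rfl

/-- a conjugate under `x₁(u)` of an element centralising `R` centralises `R` -/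
theorem cg_x1_cent {y : G} (hy : ∀ e ∈ Co.R, y * S.φ e = S.φ e * y) (u : F) :
    ∀ e ∈ Co.R, cg (S.φ (x1 u)) y * S.φ e = S.φ e * cg (S.φ (x1 u)) y := by
  intro e he
  have h1 : cg (S.φ (x1 u)) (S.φ (x1 u * e * (x1 u)⁻¹)) = S.φ e := by
    rw [← cg_φ, cg_cg_self (x1_sq S u)]
  rw [← h1]
  refine cg_comm _ (hy _ ?_)
  rw [mem_R] at he ⊢
  simp [he, CharTwo.add_self_eq_zero]

theorem e_sq (b e : F) : S.z6 b * S.z4 e * (S.z6 b * S.z4 e) = 1 := by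
  rw [mul_assoc, ← mul_assoc (S.z4 e), ← z64, mul_assoc, S.z4_sq, mul_one, S.z6_sq]
end Basic

theorem r4 (a : F) : (y4 0 a : Co F) ∈ Co.R := by simp
theorem r6 (a : F) : (y6 0 a : Co F) ∈ Co.R := by simp

variable {S : St F G} (Z : Z1 S) {w v : G}

theorem ct' (hw : w ∈ Z.Zs) : cg w S.t = S.t * S.z4 (Z.τ w) := Z.ct w hw

theorem cφ (hw : w ∈ Z.Zs) (a : Co F) : w * S.φ a = S.φ a * w := Z.cP w hw _ (S.φ_memP a)

theorem cg_X (hw : w ∈ Z.Zs) (a : Co F) : cg w (S.φ a) = S.φ a := cg_fix (cφ Z hw a)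

theorem cti (hw : w ∈ Z.Zs) : cg w⁻¹ S.t = S.t * S.z4 (Z.τ w) := by
  refine inv_cg ?_
  rw [cg_mul, ct' Z hw, cg_X Z hw, mul_assoc, S.z4_sq, mul_one]

theorem pr_t (hw : w ∈ Z.Zs) : cg (cg S.n1 w) S.t = S.t * S.z6 (Z.τ w) := by
  rw [cg_cg, cg_n1i_t, ct' Z hw, cg_mul, cg_n1_t, cg_n1_z4]

theorem pr_c (hw : w ∈ Z.Zs) : ∀ e ∈ Co.R, cg S.n1 w * S.φ e = S.φ e * cg S.n1 w := by
  intro e he
  have h : cg S.n1 (S.φ (w1 e)) = S.φ e := by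
    rw [cg_def, S.n1_φ (mem_R.1 (w1_mem e)), w1_w1 he]
  rw [← h]
  exact cg_comm _ (cφ Z hw _)

theorem pr_X (hw : w ∈ Z.Zs) {e : Co F} (he : e ∈ Co.R) :
    cg (cg S.n1 w) (S.φ e) = S.φ e := cg_fix (pr_c Z hw e he)

theorem pr_ti (hw : w ∈ Z.Zs) : cg (cg S.n1 w)⁻¹ S.t = S.t * S.z6 (Z.τ w) := by
  refine inv_cg ?_
  rw [cg_mul, pr_t Z hw, pr_X Z hw (r6 _), mul_assoc, S.z6_sq, mul_one]

theorem pr_CO (hw : w ∈ Z.Zs) : S.CO (cg S.n1 w) := (Z.cO w hw).conj (n1t S)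

theorem tr2 (h : S.Db) {g : G} (ht : g * S.t = S.t * g)
    (hc : ∀ e ∈ Co.R, g * S.φ e = S.φ e * g) :
    ∃ b e o, S.Od o ∧ (g = S.z6 b * S.z4 e * o ∨ g = S.z6 b * S.z4 e * S.t * o) := by
  obtain ⟨e, b, c, hc0, rfl⟩ := S.cR ht hc
  obtain ⟨o, ho, rfl | rfl⟩ := h.cases hc0
  · exact ⟨b, e, _, ho, .inl (by rw [z64])⟩
  · exact ⟨b, e, o, ho, .inr (by rw [z64, mul_assoc (S.z4 e * S.z6 b)])⟩

theorem form (h : S.Db) (hw : w ∈ Z.Zs) (hv : v ∈ Z.Zs) :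
    ∃ f1 f3, ⁅cg S.n1 w, v⁆ = S.z6 f1 * S.z4 f3 := by
  obtain ⟨κ, hκ⟩ := Z.sq
  have hsq : cg S.n1 w * cg S.n1 w = S.z6 (κ * Z.τ w) := by
    rw [← cg_mul, hκ w hw, cg_n1_z4]
  have h1 : cg (cg S.n1 w) ⁅cg S.n1 w, v⁆ * ⁅cg S.n1 w, v⁆ = 1 := by
    rw [← comm_mul_left, hsq, commutatorElement_eq_one_iff_mul_comm]
    exact (cφ Z hv _).symm
  have ht : cg ⁅cg S.n1 w, v⁆ S.t = S.t := by
    rw [commutatorElement_def, mul_cg, mul_cg, mul_cg, cti Z hv, cg_mul, pr_ti Z hw,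
      inv_cg (pr_X Z hw (r4 _)), cg_mul v, cg_mul v, ct' Z hv, cg_X Z hv,
      cg_X Z hv, mul_assoc S.t, mul_assoc S.t, ← z64, mul_assoc, S.z4_sq, mul_one,
      cg_mul, pr_t Z hw, pr_X Z hw (r6 _), mul_assoc, S.z6_sq, mul_one]
  have hc : ∀ e ∈ Co.R, ⁅cg S.n1 w, v⁆ * S.φ e = S.φ e * ⁅cg S.n1 w, v⁆ := by
    intro e he
    have c1 : Commute (cg S.n1 w) (S.φ e) := pr_c Z hw e he
    have c2 : Commute v (S.φ e) := cφ Z hv e
    exact ((c1.mul_left c2).mul_left c1.inv_left).mul_left c2.inv_left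
  obtain ⟨b, e, o, ho, hg | hg⟩ := tr2 h (comm_of_cg ht) hc
  · refine ⟨b, e, ?_⟩
    rw [hg, cg_mul, cg_mul, pr_X Z hw (r6 _), pr_X Z hw (r4 _),
      cg_fix (pr_CO Z hw o ho)] at h1
    have c : o * (S.z6 b * S.z4 e) = S.z6 b * S.z4 e * o :=
      ho.1.2 _ (mul_mem (S.φ_mem _) (S.φ_mem _))
    have : o * o = 1 := by
      rw [mul_assoc, ← mul_assoc o, c, ← mul_assoc, ← mul_assoc, e_sq, one_mul] at h1; exact h1
    rw [hg, ho.eq_one_sq this, mul_one]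
  · rw [hg, cg_mul, cg_mul, cg_mul, pr_X Z hw (r6 _), pr_X Z hw (r4 _), pr_t Z hw,
      cg_fix (pr_CO Z hw o ho)] at h1
    have hE : S.z6 b * S.z4 e ∈ S.L := mul_mem (S.φ_mem _) (S.φ_mem _)
    have cE : S.z6 (Z.τ w) * (S.z6 b * S.z4 e) = S.z6 b * S.z4 e * S.z6 (Z.τ w) := by
      rw [mul_assoc, ← z64, ← mul_assoc, ← mul_assoc, ← S.z6_add, ← S.z6_add, add_comm]
    have sE := e_sq S b e
    generalize S.z6 b * S.z4 e = E at h1 hE cE sE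
    have c1 : o * E = E * o := ho.1.2 _ hE
    have c2 : S.t * E = E * S.t := S.t_comm hE
    have c3 : o * S.t = S.t * o := ho.1.1
    have c4 : S.z6 (Z.τ w) * S.t = S.t * S.z6 (Z.τ w) := (S.t_φ _).symm
    have h2 : S.z6 (Z.τ w) * (o * o) = 1 := by
      rw [← h1]
      calc _ = (E * E) * (S.t * S.t) * S.z6 (Z.τ w) * (o * o) := by rw [sE, S.tt]; group
        _ = E * (E * S.t) * (S.t * S.z6 (Z.τ w)) * (o * o) := by group
        _ = E * (S.t * E) * (S.z6 (Z.τ w) * S.t) * (o * o) := by rw [c2, c4]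
        _ = E * S.t * (E * S.z6 (Z.τ w)) * (S.t * o) * o := by group
        _ = E * S.t * S.z6 (Z.τ w) * (E * o) * S.t * o := by rw [← cE, ← c3]; group
        _ = _ := by rw [← c1]; group
    have h3 : o * o = S.z6 (Z.τ w) := by
      rw [← S.z6_inv]; exact (inv_eq_of_mul_eq_one_right h2).symm
    have h4 : o = 1 := ho.eq_one_four (by rw [h3, S.z6_sq])
    rw [h4, mul_one, ← S.z6_zero] at h3
    obtain ⟨a, ha⟩ := S.mem_Z.1 (Z.ker w hw (S.z6_inj h3).symm)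
    refine ⟨0, 0, ?_⟩
    rw [S.z6_zero, S.z4_zero, mul_one, commutatorElement_eq_one_iff_mul_comm, ← ha, cg_n1_z4]
    exact (cφ Z hv _).symm

theorem gu (h : S.Db) (hw : w ∈ Z.Zs) (u : F) : ∃ b e o, ∃ x ∈ Z.Zs, Z.τ x = u * Z.τ w ∧ S.Od o ∧
    (cg (S.φ (x1 u)) (cg S.n1 w) = cg S.n1 w * (S.z6 b * S.z4 e * o * x) ∨
      cg (S.φ (x1 u)) (cg S.n1 w) = cg S.n1 w * (S.z6 b * S.z4 e * S.t * o * x)) := by
  obtain ⟨x, hx, hτ⟩ := Z.onto (u * Z.τ w)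
  have hy := cg_x1_cent S (pr_c Z hw) u
  have hyt : cg (cg (S.φ (x1 u)) (cg S.n1 w)) S.t =
      S.t * (S.z6 (Z.τ w) * S.z4 (u * Z.τ w)) := by
    rw [cg_cg, x1_inv, cg_φ_t, pr_t Z hw, cg_mul, cg_φ_t, cg_x1_z6]
  have ht : cg ((cg S.n1 w)⁻¹ * cg (S.φ (x1 u)) (cg S.n1 w) * x⁻¹) S.t = S.t := by
    rw [mul_cg, mul_cg, cti Z hx, hτ, cg_mul, hyt, cg_fix (hy _ (r4 _)), mul_assoc,
      mul_assoc, S.z4_sq, mul_one, cg_mul, pr_ti Z hw, inv_cg (pr_X Z hw (r6 _)), mul_assoc,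
      S.z6_sq, mul_one]
  have hc : ∀ e ∈ Co.R, ((cg S.n1 w)⁻¹ * cg (S.φ (x1 u)) (cg S.n1 w) * x⁻¹) * S.φ e =
      S.φ e * ((cg S.n1 w)⁻¹ * cg (S.φ (x1 u)) (cg S.n1 w) * x⁻¹) := by
    intro e he
    have c1 : Commute (cg S.n1 w) (S.φ e) := pr_c Z hw e he
    have c2 : Commute x (S.φ e) := cφ Z hx e
    have c3 : Commute (cg (S.φ (x1 u)) (cg S.n1 w)) (S.φ e) := hy e he
    exact (c1.inv_left.mul_left c3).mul_left c2.inv_left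
  obtain ⟨b, e, o, ho, hg | hg⟩ := tr2 h (comm_of_cg ht) hc
  · exact ⟨b, e, o, x, hx, hτ, ho, .inl (by rw [← hg]; group)⟩
  · exact ⟨b, e, o, x, hx, hτ, ho, .inr (by rw [← hg]; group)⟩

theorem comm_E (hv : v ∈ Z.Zs) (b e : F) : ⁅S.z6 b * S.z4 e, v⁆ = 1 := by
  rw [commutatorElement_eq_one_iff_commute]
  exact Commute.mul_left (cφ Z hv _).symm (cφ Z hv _).symm

theorem comm_ox (hv : v ∈ Z.Zs) {o x : G} (ho : S.Od o) (hx : x ∈ Z.Zs) : ⁅o * x, v⁆ = 1 := by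
  rw [commutatorElement_eq_one_iff_commute]
  exact Commute.mul_left (Z.cO v hv o ho).symm (Z.comm x hx v hv)

theorem comm_tv (hv : v ∈ Z.Zs) : ⁅S.t, v⁆ = S.z4 (Z.τ v) := by
  calc _ = S.t * cg v S.t := by rw [commutatorElement_def, S.t_inv, cg_def]; group
    _ = _ := by rw [ct' Z hv, ← mul_assoc, S.tt, one_mul]

theorem comm_g1 (hv : v ∈ Z.Zs) {o x : G} (ho : S.Od o) (hx : x ∈ Z.Zs) (b e : F) :
    ⁅S.z6 b * S.z4 e * o * x, v⁆ = 1 := by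
  rw [mul_assoc, comm_mul_left, comm_ox Z hv ho hx, comm_E Z hv, cg_one, mul_one]

theorem comm_g2 (hv : v ∈ Z.Zs) {o x : G} (ho : S.Od o) (hx : x ∈ Z.Zs) (b e : F) :
    ⁅S.z6 b * S.z4 e * S.t * o * x, v⁆ = S.z4 (Z.τ v) := by
  rw [mul_assoc, comm_mul_left, comm_ox Z hv ho hx, cg_one, one_mul, comm_mul_left, comm_E Z hv,
    mul_one, comm_tv Z hv, mul_cg, cg_φ_z4 S, cg_φ_z4 S]

theorem f1_zero (h : S.Db) (hw : w ∈ Z.Zs) (hv : v ∈ Z.Zs) {f1 f3 : F}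
    (e : ⁅cg S.n1 w, v⁆ = S.z6 f1 * S.z4 f3) : f1 = 0 := by
  by_contra hf
  obtain ⟨d, hd0, hd1, -⟩ := exists_ne S.big 0 (Z.τ v) 0
  obtain ⟨u, rfl⟩ : ∃ u, d = u * f1 := ⟨d / f1, by field_simp⟩
  have h1 : ⁅cg (S.φ (x1 u)) (cg S.n1 w), v⁆ = S.z6 f1 * S.z4 (u * f1 + f3) := by
    rw [← cg_fix' (cφ Z hv (x1 u)), ← cg_commutator, e, cg_mul, cg_x1_z6,
      cg_φ_z4 S, mul_assoc, ← S.z4_add]
  obtain ⟨b, e', o, x, hx, -, ho, hy | hy⟩ := gu Z h hw u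
  · rw [hy, comm_mul_left, comm_g1 Z hv ho hx, cg_one, one_mul, e] at h1
    have := (inj64 S h1).2
    exact hd0 (by grind)
  · rw [hy, comm_mul_left, comm_g2 Z hv ho hx, pr_X Z hw (r4 _), e, ← mul_assoc, ← z64,
      mul_assoc, ← S.z4_add] at h1
    have := (inj64 S h1).2
    exact hd1 (by grind)

theorem c46 (h : S.Db) (hw : w ∈ Z.Zs) (hv : v ∈ Z.Zs) : cg S.n1 w * v = v * cg S.n1 w := by
  obtain ⟨f1, f3, e⟩ := form Z h hw hv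
  obtain ⟨f1', f3', e'⟩ := form Z h hv hw
  have h1 := f1_zero Z h hw hv e
  have h2 := f1_zero Z h hv hw e'
  rw [h1, S.z6_zero, one_mul] at e
  have h3 : ⁅cg S.n1 v, w⁆ = S.z6 f3 * S.z4 0 := by
    rw [S.z4_zero, mul_one, ← S.z6_inv, ← commutatorElement_inv, inv_inj]
    have := congrArg (cg S.n1) e
    rw [cg_commutator, cg_n1_n1, cg_n1_z4] at this
    exact this
  have h4 := (inj64 S (h3.symm.trans e')).1
  rw [h4, h2, S.z4_zero] at e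
  exact commutatorElement_eq_one_iff_mul_comm.1 e

end P2E

theorem St.Db.tr2 {S : St F G} (h : S.Db) {g : G} (ht : g * S.t = S.t * g)
    (hc : ∀ e ∈ Co.R, g * S.φ e = S.φ e * g) :
    ∃ b e o, S.Od o ∧ (g = S.z6 b * S.z4 e * o ∨ g = S.z6 b * S.z4 e * S.t * o) :=
  P2E.tr2 h ht hc

theorem Z1.c46 {S : St F G} (h : S.Db) (Z : Z1 S) {w v : G} (hw : w ∈ Z.Zs) (hv : v ∈ Z.Zs) :
    S.n1 * w * S.n1⁻¹ * v = v * (S.n1 * w * S.n1⁻¹) :=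
  P2E.c46 Z h hw hv

end H51.RS
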