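import Cfsg.Agent.Lib.RS4.K1
import Cfsg.Agent.Lib.G2S.Cg

/-! Standard components of type `²F₄(q)`, package PH: see `blueprint/RS4/README.md`. -/

set_option autoImplicit false
set_option linter.unusedSectionVars false

namespace H51.RS
open Subgroup H69 H78.Oct H78.Oct.Co
open scoped commutatorElement

variable {F G : Type*} [Field F] [Tits F] [Finite F] [Group G] [Finite G]

namespace PHH
variable {S : St F G} (Z : Z2 S)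

theorem pp (p : F × F) : p + p = 0 := Prod.ext (CharTwo.add_self_eq_zero _) (CharTwo.add_self_eq_zero _)

theorem W_zero : Z.W 0 = 1 := by
  have := Z.add 0 0; rw [add_zero] at this; exact left_eq_mul.1 this

theorem W_sq (y : F) : Z.W y * Z.W y = 1 := by
  rw [← Z.add, CharTwo.add_self_eq_zero, W_zero]

theorem t_W (y : F) : S.t * Z.W y * S.t⁻¹ = Z.W y * S.z4 y := by
  have h := Z.ct y
  rw [inv_eq_of_mul_eq_one_right (W_sq Z y)] at h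
  rw [S.t_inv, Z.cP y _ (S.φ_memP _), ← mul_left_inj (Z.W y), mul_assoc (S.z4 y), W_sq, mul_one,
    mul_assoc, mul_assoc, ← mul_assoc (Z.W y), h, ← mul_assoc, S.tt, one_mul]

theorem Y4_t (k : F × F) : Z.Y4 k * S.t * (Z.Y4 k)⁻¹ = S.t * S.z4 k.2 := by
  have h1 : S.z4 k.1 * (S.t * S.z4 k.2) = S.t * S.z4 k.2 * S.z4 k.1 := by
    rw [← mul_assoc, ← S.t_φ, mul_assoc, mul_assoc, ← S.z4_add, ← S.z4_add, add_comm]
  calc _ = S.z4 k.1 * (Z.W k.2 * S.t * (Z.W k.2)⁻¹) * (S.z4 k.1)⁻¹ := by rw [Z2.Y4]; group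
    _ = _ := by rw [Z.ct, h1, mul_inv_cancel_right]

theorem cc {n : G} (h : n * n = 1) (y : G) : n * (n * y * n⁻¹) * n⁻¹ = y := by
  rw [show n * (n * y * n⁻¹) * n⁻¹ = n * n * y * (n * n)⁻¹ by group, h, one_mul, inv_one, mul_one]

theorem cj (n h y : G) : n * h * n⁻¹ * (n * y * n⁻¹) * (n * h * n⁻¹)⁻¹ = n * (h * y * h⁻¹) * n⁻¹ := by group

theorem ct {n y z : G} (hn : n ∈ S.L) (h : y * S.t * y⁻¹ = S.t * z) :
    n * y * n⁻¹ * S.t * (n * y * n⁻¹)⁻¹ = S.t * (n * z * n⁻¹) := by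
  conv_lhs => rw [← S.conj_t hn, cj, h, ← conj_mul, S.conj_t hn]

theorem tc {n : G} (hn : n ∈ S.L) (y : G) : S.t * (n * y * n⁻¹) * S.t⁻¹ = n * (S.t * y * S.t⁻¹) * n⁻¹ := by
  rw [← cj n, S.conj_t hn]

end PHH

namespace Z2
variable {S : St F G} (Z : Z2 S)
theorem Y4_add (p q : F × F) : Z.Y4 (p + q) = Z.Y4 p * Z.Y4 q := by
  simp only [Y4, Prod.fst_add, Prod.snd_add, S.z4_add, Z.add, mul_assoc]
  rw [← mul_assoc (Z.W p.2), Z.cP _ _ (S.φ_memP _), mul_assoc]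

theorem Y6_add (p q : F × F) : Z.Y6 (p + q) = Z.Y6 p * Z.Y6 q := by
  rw [Y6, Y6, Y6, Y4_add, conj_mul]

theorem Y2_add (p q : F × F) : Z.Y2 (p + q) = Z.Y2 p * Z.Y2 q := by
  rw [Y2, Y2, Y2, Y6_add, conj_mul]

theorem Y8_add (p q : F × F) : Z.Y8 (p + q) = Z.Y8 p * Z.Y8 q := by
  rw [Y8, Y8, Y8, Y2_add, conj_mul]

theorem Y4_zero : Z.Y4 0 = 1 := by
  rw [Y4, Prod.fst_zero, Prod.snd_zero, S.z4_zero, PHH.W_zero, one_mul]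

theorem Y6_zero : Z.Y6 0 = 1 := by
  rw [Y6, Y4_zero, mul_one, mul_inv_cancel]

theorem Y2_zero : Z.Y2 0 = 1 := by
  rw [Y2, Y6_zero, mul_one, mul_inv_cancel]

theorem Y8_zero : Z.Y8 0 = 1 := by
  rw [Y8, Y2_zero, mul_one, mul_inv_cancel]

theorem Y4_sq (p : F × F) : Z.Y4 p * Z.Y4 p = 1 := by
  rw [← Y4_add, PHH.pp, Y4_zero]

theorem Y6_sq (p : F × F) : Z.Y6 p * Z.Y6 p = 1 := by
  rw [← Y6_add, PHH.pp, Y6_zero]

theorem Y2_sq (p : F × F) : Z.Y2 p * Z.Y2 p = 1 := by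
  rw [← Y2_add, PHH.pp, Y2_zero]

theorem Y8_sq (p : F × F) : Z.Y8 p * Z.Y8 p = 1 := by
  rw [← Y8_add, PHH.pp, Y8_zero]

theorem Y4_inj : Function.Injective Z.Y4 := by
  intro k l e
  have h1 : k.2 = l.2 := S.z4_inj (mul_left_cancel ((PHH.Y4_t Z k).symm.trans (e ▸ PHH.Y4_t Z l)))
  rw [Y4, Y4, h1, mul_left_inj] at e
  exact Prod.ext (S.z4_inj e) h1

theorem Y4_ext (a : F) : Z.Y4 (a, 0) = S.z4 a := by
  rw [Y4, PHH.W_zero, mul_one]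

theorem Y6_ext (a : F) : Z.Y6 (a, 0) = S.z6 a := by
  rw [Y6, Y4_ext, S.n1_z4]

theorem Y2_ext (a : F) : Z.Y2 (a, 0) = S.z2 a := by
  rw [Y2, Y6_ext, S.n2_z6]

theorem Y8_ext (a : F) : Z.Y8 (a, 0) = S.z8 a := by
  rw [Y8, Y2_ext, S.n1_z2]

theorem Y4_P0 (p : F × F) {g : G} (hg : g ∈ S.P0) : Z.Y4 p * g = g * Z.Y4 p := by
  exact (Commute.mul_left (S.P0_z4 hg _).symm (Z.cP _ _ hg)).eq

theorem Y6_R (p : F × F) {x : Co F} (hx : x.a1 = 0) : Z.Y6 p * S.φ x = S.φ x * Z.Y6 p := by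
  have e := S.n1_φ (a := w1 x) rfl
  rw [w1_w1 (mem_R.2 hx)] at e
  rw [← e, Y6, conj_mul, conj_mul, Z.Y4_P0 p (S.φ_memP _)]

theorem Y8_y8 (p : F × F) (s v : F) : Z.Y8 p * S.φ (y8 s v) = S.φ (y8 s v) * Z.Y8 p := by
  have e1 : S.n1 * S.φ (y2 s v) * S.n1⁻¹ = S.φ (y8 s v) := by
    rw [S.n1_φ rfl]; congr 1; ext <;> simp
  have e2 : S.n2 * S.φ (y6 s v) * S.n2⁻¹ = S.φ (y2 s v) := by
    rw [S.n2_φ rfl rfl]; congr 1; ext <;> simp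
  rw [← e1, ← e2, Y8, Y2, conj_mul, conj_mul, conj_mul, conj_mul, Z.Y6_R p rfl]

theorem Y46 (p q : F × F) : Z.Y4 p * Z.Y6 q = Z.Y6 q * Z.Y4 p := by
  refine (Commute.mul_left (Z.Y6_R q rfl).symm ?_).eq
  rw [Y6, Y4, ← conj_mul, S.n1_z4]
  exact Commute.mul_right (Z.cP _ _ (S.φ_memP _)) (Z.c46 _ _).symm

theorem n1_Y6 (p : F × F) : S.n1 * Z.Y6 p * S.n1⁻¹ = Z.Y4 p := by
  rw [Y6]; exact PHH.cc S.n11 _

theorem n1_Y8 (p : F × F) : S.n1 * Z.Y8 p * S.n1⁻¹ = Z.Y2 p := by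
  rw [Y8]; exact PHH.cc S.n11 _

theorem n2_Y2 (p : F × F) : S.n2 * Z.Y2 p * S.n2⁻¹ = Z.Y6 p := by
  rw [Y2]; exact PHH.cc S.n22 _

theorem Y4_CO (p : F × F) : S.CO (Z.Y4 p) := by
  exact (S.co_L (S.φ_mem _)).mul (Z.cO _)

theorem Y6_CO (p : F × F) : S.CO (Z.Y6 p) := by
  exact (Z.Y4_CO p).conj (S.t_comm S.n1_mem).symm

theorem Y2_CO (p : F × F) : S.CO (Z.Y2 p) := by
  exact (Z.Y6_CO p).conj (S.t_comm S.n2_mem).symm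

theorem Y8_CO (p : F × F) : S.CO (Z.Y8 p) := by
  exact (Z.Y2_CO p).conj (S.t_comm S.n1_mem).symm

theorem Y4_t (p : F × F) : Z.Y4 p * S.t * (Z.Y4 p)⁻¹ = S.t * S.z4 p.2 := by
  exact PHH.Y4_t Z p

theorem Y6_t (p : F × F) : Z.Y6 p * S.t * (Z.Y6 p)⁻¹ = S.t * S.z6 p.2 := by
  rw [Y6, PHH.ct S.n1_mem (Z.Y4_t p), S.n1_z4]

theorem Y2_t (p : F × F) : Z.Y2 p * S.t * (Z.Y2 p)⁻¹ = S.t * S.z2 p.2 := by
  rw [Y2, PHH.ct S.n2_mem (Z.Y6_t p), S.n2_z6]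

theorem Y8_t (p : F × F) : Z.Y8 p * S.t * (Z.Y8 p)⁻¹ = S.t * S.z8 p.2 := by
  rw [Y8, PHH.ct S.n1_mem (Z.Y2_t p), S.n1_z2]

theorem t_Y4 (p : F × F) : S.t * Z.Y4 p * S.t⁻¹ = Z.Y4 (bar p) := by
  rw [Y4, Y4, ← conj_mul, PHH.t_W, S.t_φ, mul_inv_cancel_right, bar, S.z4_add, Z.cP _ _ (S.φ_memP _), mul_assoc]

theorem t_Y6 (p : F × F) : S.t * Z.Y6 p * S.t⁻¹ = Z.Y6 (bar p) := by
  rw [Y6, PHH.tc S.n1_mem, t_Y4, Y6]

theorem t_Y2 (p : F × F) : S.t * Z.Y2 p * S.t⁻¹ = Z.Y2 (bar p) := by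
  rw [Y2, PHH.tc S.n2_mem, t_Y6, Y2]

theorem t_Y8 (p : F × F) : S.t * Z.Y8 p * S.t⁻¹ = Z.Y8 (bar p) := by
  rw [Y8, PHH.tc S.n1_mem, t_Y2, Y8]

theorem h_Y4 (c k : Fˣ) (p : F × F) :
    S.h c k * Z.Y4 p * (S.h c k)⁻¹ = Z.Y4 (((c : F) * σ (c : F)) • p) := by
  rw [Y4, Y4, ← conj_mul, S.h_z4, Z.hW]; rfl

theorem h_Y6 (c k : Fˣ) (p : F × F) :
    S.h c k * Z.Y6 p * (S.h c k)⁻¹ = Z.Y6 (((k : F) * σ (k : F)) • p) := by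
  rw [← S.n1_h k c, Y6, PHH.cj, h_Y4, Y6]

theorem h_Y2 (c k : Fˣ) (p : F × F) : S.h c k * Z.Y2 p * (S.h c k)⁻¹ =
    Z.Y2 (((c : F) ^ 2 * σ (c : F) * ((k : F) * σ (k : F))⁻¹) • p) := by
  have e := S.n2_h c (σu c * k⁻¹)
  rw [show σu c * (σu c * k⁻¹)⁻¹ = k by rw [mul_inv, inv_inv, mul_inv_cancel_left]] at e
  rw [← e, Y2, PHH.cj, h_Y6, Y2]
  congr 4
  have := k.ne_zero
  have := σ_ne k.ne_zero
  simp only [Units.val_mul, σu_val, Units.val_inv_eq_inv_val, map_mul, map_inv₀, σσ]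
  field_simp

theorem h_Y8 (c k : Fˣ) (p : F × F) : S.h c k * Z.Y8 p * (S.h c k)⁻¹ =
    Z.Y8 (((k : F) ^ 2 * σ (k : F) * ((c : F) * σ (c : F))⁻¹) • p) := by
  rw [← S.n1_h k c, Y8, PHH.cj, h_Y2, Y8]

/-- the elements centralising `Q` and the doubled centre -/
theorem tr (h : S.Db) {g : G} (hQ : ∀ x ∈ S.Q, g * x = x * g) {e : Co F} (he : e ∈ Co.E)
    (ht : g * S.t * g⁻¹ = S.t * S.φ e) (hW : ∀ p, g * Z.Y4 p = Z.Y4 p * g) :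
    ∃ p o, S.Od o ∧ g = Z.Y4 p * o := by
  obtain ⟨y, hy⟩ := S.cent_Q (S.φ_mem e) fun w hw => by
    have hw' := S.φ_memQ hw
    have a : Commute (g * S.t * g⁻¹) (S.φ w) :=
      (Commute.mul_left (hQ _ hw') (S.t_φ w)).mul_left (Commute.inv_left (hQ _ hw'))
    have b := (Commute.inv_left (S.t_φ w)).mul_left a
    rw [ht, inv_mul_cancel_left] at b
    exact b.eq
  rw [hy] at ht
  obtain ⟨a, c, hc, e⟩ := S.cQ (g := (Z.W y)⁻¹ * g) (by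
      rw [← mul_inv_eq_iff_eq_mul]
      calc _ = (Z.W y)⁻¹ * (g * S.t * g⁻¹) * Z.W y := by group
        _ = _ := by rw [ht, ← Z.ct]; group) fun x hx =>
    (Commute.mul_left (Commute.inv_left (Z.cP y _ (S.U_le_P0 (S.Q_le_U hx)))) (hQ x hx)).eq
  have e' : g = Z.Y4 (a, y) * c := by rw [Y4, ← Z.cP _ _ (S.φ_memP _), mul_assoc, ← e, mul_inv_cancel_left]
  obtain ⟨o, ho, rfl | rfl⟩ := h.cases hc
  · exact ⟨_, _, ho, e'⟩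
  · exfalso
    have h1 : Commute (Z.Y4 (a, y)) (Z.Y4 (0, 1)) := by
      rw [Commute, SemiconjBy, ← Y4_add, ← Y4_add, add_comm]
    have h2 : Commute ((Z.Y4 (a, y))⁻¹ * g * o⁻¹) (Z.Y4 (0, 1)) :=
      (h1.inv_left.mul_left (hW _)).mul_left (Commute.inv_left (Z.Y4_CO _ o ho).symm)
    rw [e', inv_mul_cancel_left, mul_inv_cancel_right] at h2
    have h3 := Z.Y4_t (0, 1)
    rw [← h2.eq, mul_inv_cancel_right, left_eq_mul, ← S.z4_zero] at h3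
    exact one_ne_zero (S.z4_inj h3)

end Z2

end H51.RS
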