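import Cfsg.Agent.Lib.RS4.PH

/-! Standard components of type `²F₄(q)`, package PI: see `blueprint/RS4/README.md`. -/

set_option autoImplicit false
set_option linter.unusedSectionVars false

namespace H51.RS
open Subgroup H69 H78.Oct H78.Oct.Co
open scoped commutatorElement

variable {F G : Type*} [Field F] [Tits F] [Finite F] [Group G] [Finite G]

namespace PI
variable {S : St F G} {Z : Z2 S} {g : G} {v2 v3 v5 v6 u2 u3 u5 u6 : F × F}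

theorem conj (h : Z.Ph g v2 v3 v5 v6) {n : G}
    (k : ∀ x ∈ Co.Q, ∃ y ∈ Co.Q, n * S.φ y * n⁻¹ = S.φ x ∧
      n * Z.Y4 (y.a7 • v2 + y.a6 • v3 + y.a2 • v5 + y.a1 • v6) * n⁻¹ =
        Z.Y4 (x.a7 • u2 + x.a6 • u3 + x.a2 • u5 + x.a1 • u6)) :
    Z.Ph (n * g * n⁻¹) u2 u3 u5 u6 := fun x hx => by
  obtain ⟨y, hy, e1, e2⟩ := k x hx
  rw [← e2, ← e1, conj_mul (b := n) (a := S.φ y), ← h y hy]
  group

theorem fixP (Z : Z2 S) {p : G} (hp : p ∈ S.P0) (w : F × F) : p * Z.Y4 w * p⁻¹ = Z.Y4 w := by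
  rw [← Z.Y4_P0 w hp, mul_inv_cancel_right]

theorem φ_conj (S : St F G) (z x : Co F) : S.φ z * S.φ (z⁻¹ * x * z) * (S.φ z)⁻¹ = S.φ x := by
  rw [map_mul, map_mul, map_inv]; group

theorem vec (h : Z.Ph g v2 v3 v5 v6) (h' : Z.Ph g u2 u3 u5 u6) {x : Co F} (hx : x ∈ Co.Q) :
    x.a7 • v2 + x.a6 • v3 + x.a2 • v5 + x.a1 • v6 = x.a7 • u2 + x.a6 • u3 + x.a2 • u5 + x.a1 • u6 :=
  Z.Y4_inj (mul_left_cancel ((h x hx).symm.trans (h' x hx)))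

theorem x16 (Z : Z2 S) (a : F) (p : F × F) :
    Z.Y6 p * S.φ (x1 a) * (Z.Y6 p)⁻¹ = S.φ (x1 a) * Z.Y4 (a • p) := by
  have hx : S.φ (x1 a) * S.φ (x1 a) = 1 := by
    rw [← map_mul, ← S.φ.map_one]; congr 1; co
  have h6 : Z.Y6 p = S.z6 p.1 * (S.n1 * Z.W p.2 * S.n1⁻¹) := by
    rw [Z2.Y6, Z2.Y4, ← S.n1_z4, conj_mul]
  have hW : S.n1 * Z.W p.2 * S.n1⁻¹ = Z.Y6 (0, p.2) := by
    rw [Z2.Y6, Z2.Y4, S.z4_zero, one_mul]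
  have hz : S.φ (x1 a) * S.z6 p.1 * S.φ (x1 a) = S.z6 p.1 * S.z4 (a * p.1) := by
    rw [← map_mul, ← map_mul, ← map_mul]; congr 1; co
  have hc : S.z4 (a * p.1) * (S.n1 * Z.W p.2 * S.n1⁻¹) = S.n1 * Z.W p.2 * S.n1⁻¹ * S.z4 (a * p.1) := by
    rw [hW]; exact (Z.Y6_R _ rfl).symm
  have h1 : S.φ (x1 a) * Z.Y6 p * S.φ (x1 a) = Z.Y6 p * Z.Y4 (a • p) := by
    calc _ = S.φ (x1 a) * S.z6 p.1 * (S.φ (x1 a) * S.φ (x1 a)) * (S.n1 * Z.W p.2 * S.n1⁻¹) *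
          S.φ (x1 a) := by rw [hx, h6]; simp only [mul_assoc, one_mul]
      _ = S.φ (x1 a) * S.z6 p.1 * S.φ (x1 a) * (S.φ (x1 a) * (S.n1 * Z.W p.2 * S.n1⁻¹) *
          S.φ (x1 a)) := by simp only [mul_assoc]
      _ = S.z6 p.1 * (S.z4 (a * p.1) * (S.n1 * Z.W p.2 * S.n1⁻¹)) * Z.W (a * p.2) := by
          rw [hz, Z.c16]; simp only [mul_assoc]
      _ = _ := by rw [hc, h6, Z2.Y4]; simp only [mul_assoc, Prod.smul_fst, Prod.smul_snd, smul_eq_mul]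
  rw [inv_eq_of_mul_eq_one_right (Z.Y6_sq p), ← Z.Y4_P0 _ (S.φ_memP _)]
  calc _ = Z.Y6 p * (S.φ (x1 a) * Z.Y6 p * S.φ (x1 a)) * S.φ (x1 a) := by
        simp only [mul_assoc, hx, mul_one]
    _ = _ := by rw [h1, ← mul_assoc, Z.Y6_sq, one_mul]

end PI

namespace Z2
variable {S : St F G} {Z : Z2 S} {g g' : G} {v2 v3 v5 v6 u2 u3 u5 u6 : F × F}
theorem Ph.uniq (h : Z.Ph g v2 v3 v5 v6) (h' : Z.Ph g u2 u3 u5 u6) :
    v2 = u2 ∧ v3 = u3 ∧ v5 = u5 ∧ v6 = u6 := by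
  refine ⟨?_, ?_, ?_, ?_⟩
  · simpa using PI.vec h h' (x := x7 1) (by simp)
  · simpa using PI.vec h h' (x := y6 1 0) (by simp)
  · simpa using PI.vec h h' (x := y2 1 0) (by simp)
  · simpa using PI.vec h h' (x := x1 1) (by simp)

theorem Ph.cF (h : Z.Ph g v2 v3 v5 v6) {x : Co F} (hx : x ∈ Co.F) : g * S.φ x = S.φ x * g := by
  rw [mem_F] at hx
  have := h x (by simp [hx])
  simp only [hx, zero_smul, add_zero, Z.Y4_zero, mul_one] at this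
  exact mul_inv_eq_iff_eq_mul.1 this

theorem Ph.cent (h : Z.Ph g 0 0 0 0) : ∀ x ∈ S.Q, g * x = x * g := by
  rintro _ ⟨x, hx, rfl⟩
  have := h x hx
  simp only [smul_zero, add_zero, Z.Y4_zero, mul_one] at this
  exact mul_inv_eq_iff_eq_mul.1 this

theorem ph_zero (h : ∀ x ∈ S.Q, g * x = x * g) : Z.Ph g 0 0 0 0 := by
  intro x hx
  simp only [smul_zero, add_zero, Z.Y4_zero, mul_one]
  exact mul_inv_eq_iff_eq_mul.2 (h _ (S.φ_memQ hx))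

theorem ph_Y4 (p : F × F) : Z.Ph (Z.Y4 p) 0 0 0 0 := by
  exact ph_zero fun x hx => Z.Y4_P0 p (S.U_le_P0 (S.Q_le_U hx))

theorem ph_Y6 (p : F × F) : Z.Ph (Z.Y6 p) 0 0 0 p := by
  intro x hx
  have e : S.φ x = S.φ (x1 x.a1) * S.φ ((x1 x.a1)⁻¹ * x) := by
    rw [← map_mul, mul_inv_cancel_left]
  have hr : Z.Y6 p * S.φ ((x1 x.a1)⁻¹ * x) * (Z.Y6 p)⁻¹ = S.φ ((x1 x.a1)⁻¹ * x) := by
    rw [Z.Y6_R p (by simp [CharTwo.add_self_eq_zero]), mul_inv_cancel_right]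
  simp only [smul_zero, zero_add]
  rw [e, ← conj_mul, hr, PI.x16, mul_assoc, Z.Y4_P0 _ (S.φ_memP _), mul_assoc]

theorem ph_Y2 (p : F × F) : Z.Ph (Z.Y2 p) p 0 0 0 := by
  refine PI.conj (ph_Y6 p) fun x hx => ⟨w2 x, w2_mem x, ?_, ?_⟩
  · rw [S.n2_φ rfl rfl, w2_w2 hx]
  · rw [PI.fixP Z S.n2_memP]; simp

theorem ph_E {e : Co F} (he : e ∈ Co.E) : Z.Ph (S.φ e) (e.b2, 0) (e.a3, 0) (e.a5, 0) (e.b6, 0) := by
  intro x hx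
  rw [S.E_conj he hx, ← Z.Y4_ext]
  congr 2
  ext <;> simp [Bf, mul_comm]

theorem Ph.mul (h : Z.Ph g v2 v3 v5 v6) (h' : Z.Ph g' u2 u3 u5 u6) (hW : ∀ p, g * Z.Y4 p = Z.Y4 p * g) :
    Z.Ph (g * g') (v2 + u2) (v3 + u3) (v5 + u5) (v6 + u6) := by
  intro x hx
  calc _ = g * (g' * S.φ x * g'⁻¹) * g⁻¹ := by group
    _ = g * S.φ x * g⁻¹ * (g * Z.Y4 _ * g⁻¹) := by rw [h' x hx, conj_mul]
    _ = _ := by
      rw [h x hx, hW, mul_inv_cancel_right, mul_assoc, ← Z.Y4_add]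
      congr 2
      module

theorem Ph.inv (h : Z.Ph g v2 v3 v5 v6) (hW : ∀ p, g * Z.Y4 p = Z.Y4 p * g) : Z.Ph g⁻¹ v2 v3 v5 v6 := by
  intro x hx
  have e := h x hx
  have sq := Z.Y4_sq (x.a7 • v2 + x.a6 • v3 + x.a2 • v5 + x.a1 • v6)
  have hc := hW (x.a7 • v2 + x.a6 • v3 + x.a2 • v5 + x.a1 • v6)
  generalize Z.Y4 _ = Y at e sq hc
  calc g⁻¹ * S.φ x * g⁻¹⁻¹ = g⁻¹ * (S.φ x * Y) * (Y * g) := by
        rw [mul_assoc g⁻¹ (S.φ x * Y), mul_assoc (S.φ x), ← mul_assoc Y, sq, one_mul, inv_inv, mul_assoc]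
    _ = _ := by rw [← hc]; conv_lhs => rw [← e]
                group

theorem Ph.t (h : Z.Ph g v2 v3 v5 v6) : Z.Ph (S.t * g * S.t⁻¹) (bar v2) (bar v3) (bar v5) (bar v6) := by
  refine PI.conj h fun x hx => ⟨x, hx, ?_, ?_⟩
  · rw [S.t_φ, mul_inv_cancel_right]
  · rw [Z.t_Y4]
    congr 1
    ext
    · simp [bar]; ring
    · simp [bar]

theorem Ph.h (h : Z.Ph g v2 v3 v5 v6) (c k : Fˣ) : Z.Ph (S.h c k * g * (S.h c k)⁻¹)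
    (((c : F) ^ 2 * σ (c : F) * ((k : F) * σ (k : F))⁻¹) • v2) (((c : F) * σ (c : F) * (k : F)⁻¹) • v3)
    (((c : F) * k) • v5) (((k : F) * σ (k : F)) • v6) := by
  refine PI.conj h fun x hx => ⟨tor c⁻¹ k⁻¹ x, ?_, ?_, ?_⟩
  · rw [mem_Q] at hx; simp [hx]
  · rw [S.h_φ, tor_tor, mul_inv_cancel, mul_inv_cancel, tor_one]
  · rw [Z.h_Y4]
    have := c.ne_zero
    have := k.ne_zero
    have := σ_ne c.ne_zero
    have := σ_ne k.ne_zero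
    congr 1
    ext <;> simp <;> field_simp

theorem Ph.n2 (h : Z.Ph g v2 v3 v5 v6) : Z.Ph (S.n2 * g * S.n2⁻¹) v6 v5 v3 v2 := by
  refine PI.conj h fun x hx => ⟨w2 x, w2_mem x, ?_, ?_⟩
  · rw [S.n2_φ rfl rfl, w2_w2 hx]
  · rw [PI.fixP Z S.n2_memP]
    congr 1
    simp only [w2_a1, w2_a2, w2_a6, w2_a7]
    abel

theorem Ph.q (h : Z.Ph g v2 v3 v5 v6) {x : Co F} (hx : x ∈ Co.Q) :
    Z.Ph (S.φ x * g * (S.φ x)⁻¹) v2 v3 v5 v6 := by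
  refine PI.conj h fun y hy => ⟨x⁻¹ * y * x, mul_mem (mul_mem (inv_mem hx) hy) hx, PI.φ_conj S _ _, ?_⟩
  rw [PI.fixP Z (S.φ_memP _)]
  rw [mem_Q] at hx hy
  have h7 : (x⁻¹ * y * x).a7 = y.a7 := by simp [hx, hy]; grind
  have h6 : (x⁻¹ * y * x).a6 = y.a6 := by simp [hx, hy]; grind
  have h2 : (x⁻¹ * y * x).a2 = y.a2 := by simp [hx, hy]; grind
  have h1 : (x⁻¹ * y * x).a1 = y.a1 := by simp; grind
  rw [h7, h6, h2, h1]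

theorem Ph.y8 (h : Z.Ph g v2 v3 v5 v6) (s v : F) : Z.Ph (S.φ (y8 s v) * g * (S.φ (y8 s v))⁻¹)
    v2 (s • v2 + v3) ((s * σ s + v) • v2 + σ s • v3 + v5)
    ((s ^ 2 * σ s + s * v + σ v) • v2 + v • v3 + s • v5 + v6) := by
  refine PI.conj h fun y hy => ⟨(Co.y8 s v)⁻¹ * y * Co.y8 s v, ?_, PI.φ_conj S _ _, ?_⟩
  · rw [mem_Q] at hy ⊢; simp [hy]; grind
  rw [PI.fixP Z (S.φ_memP _)]
  rw [mem_Q] at hy
  have h7 : ((Co.y8 s v)⁻¹ * y * Co.y8 s v).a7 =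
      y.a7 + s * y.a6 + (s * σ s + v) * y.a2 + (s ^ 2 * σ s + s * v + σ v) * y.a1 := by
    simp [hy]; grind
  have h6 : ((Co.y8 s v)⁻¹ * y * Co.y8 s v).a6 = y.a6 + σ s * y.a2 + v * y.a1 := by simp [hy]; grind
  have h2 : ((Co.y8 s v)⁻¹ * y * Co.y8 s v).a2 = y.a2 + s * y.a1 := by simp [hy]; grind
  have h1 : ((Co.y8 s v)⁻¹ * y * Co.y8 s v).a1 = y.a1 := by simp
  rw [h7, h6, h2, h1]
  congr 1
  module

theorem Ph.p0 (h : Z.Ph g v2 v3 v5 v6) {p : G} (hp : p ∈ S.P0) :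
    ∃ u2 u3 u5 u6, Z.Ph (p * g * p⁻¹) u2 u3 u5 u6 := by
  refine S.P0_ind (p := fun p => ∀ (g : G) (v2 v3 v5 v6 : F × F), Z.Ph g v2 v3 v5 v6 →
    ∃ u2 u3 u5 u6, Z.Ph (p * g * p⁻¹) u2 u3 u5 u6) ?_ ?_ ?_ ?_ hp g _ _ _ _ h
  · intro x y hx hy g v2 v3 v5 v6 h
    obtain ⟨_, _, _, _, h1⟩ := hy _ _ _ _ _ h
    obtain ⟨_, _, _, _, h2⟩ := hx _ _ _ _ _ h1
    exact ⟨_, _, _, _, by rw [show x * y * g * (x * y)⁻¹ = x * (y * g * y⁻¹) * x⁻¹ by group]; exact h2⟩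
  · intro a g v2 v3 v5 v6 h
    have hq : a * (Co.y8 a.a8 a.b8)⁻¹ ∈ Co.Q := by rw [mem_Q]; simp; grind
    have := (h.y8 a.a8 a.b8).q hq
    rw [show S.φ (a * (Co.y8 a.a8 a.b8)⁻¹) * (S.φ (Co.y8 a.a8 a.b8) * g * (S.φ (Co.y8 a.a8 a.b8))⁻¹) *
      (S.φ (a * (Co.y8 a.a8 a.b8)⁻¹))⁻¹ = S.φ a * g * (S.φ a)⁻¹ by rw [map_mul, map_inv]; group] at this
    exact ⟨_, _, _, _, this⟩
  · exact fun k g v2 v3 v5 v6 h => ⟨_, _, _, _, h.h 1 k⟩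
  · exact fun g v2 v3 v5 v6 h => ⟨_, _, _, _, h.n2⟩

/-- the translation of `t` is the imaginary part of the vector -/
theorem Ph.im (h : Z.Ph g v2 v3 v5 v6) {e : Co F} (he : e ∈ Co.E) (ht : g * S.t * g⁻¹ = S.t * S.φ e) :
    e.b2 = v2.2 ∧ e.a3 = v3.2 ∧ e.a5 = v5.2 ∧ e.b6 = v6.2 := by
  have key : ∀ x ∈ Co.Q, Bf e x = (x.a7 • v2 + x.a6 • v3 + x.a2 • v5 + x.a1 • v6).2 := fun x hx => by
    have e1 := h x hx
    generalize x.a7 • v2 + x.a6 • v3 + x.a2 • v5 + x.a1 • v6 = w at e1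
    have e2 : S.t * S.φ e * (S.φ x * Z.Y4 w) * (S.t * S.φ e)⁻¹ = S.φ x * Z.Y4 w := by
      rw [← ht, ← e1, conj_mul, S.t_φ, ← conj_mul, mul_inv_cancel_right]
    have e3 : S.t * S.φ e * (S.φ x * Z.Y4 w) * (S.t * S.φ e)⁻¹ =
        S.φ x * Z.Y4 (bar ((Bf e x, 0) + w)) := by
      calc _ = S.t * (S.φ e * S.φ x * (S.φ e)⁻¹ * (S.φ e * Z.Y4 w * (S.φ e)⁻¹)) * S.t⁻¹ := by group
        _ = S.t * S.φ x * S.t⁻¹ * (S.t * Z.Y4 ((Bf e x, 0) + w) * S.t⁻¹) := by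
          rw [S.E_conj he hx, PI.fixP Z (S.φ_memP _), Z.Y4_add, Z.Y4_ext]; group
        _ = _ := by rw [S.t_φ, mul_inv_cancel_right, Z.t_Y4]
    have e4 := congrArg Prod.fst (Z.Y4_inj (mul_left_cancel (e2.symm.trans e3)))
    simp only [bar, Prod.fst_add, Prod.snd_add, zero_add] at e4
    grind
  refine ⟨?_, ?_, ?_, ?_⟩
  · simpa [Bf] using key (x7 1) (by simp)
  · simpa [Bf] using key (y6 1 0) (by simp)
  · simpa [Bf] using key (y2 1 0) (by simp)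
  · simpa [Bf] using key (x1 1) (by simp)

/-- two elements with the same vector -/
theorem EA.diff {Es : Subgroup G} (hE : Z.EA Es) (hg : g ∈ Es) (hg' : g' ∈ Es) (h : Z.Ph g v2 v3 v5 v6)
    (h' : Z.Ph g' v2 v3 v5 v6) : ∃ p, g = g' * Z.Y4 p := by
  have h0 := (h'.inv (hE.cW g' hg')).mul h (hE.cW _ (inv_mem hg'))
  have z : ∀ v : F × F, v + v = 0 := fun v => Prod.ext (CharTwo.add_self_eq_zero _) (CharTwo.add_self_eq_zero _)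
  rw [z, z, z, z] at h0
  obtain ⟨p, hp⟩ := hE.ker _ (mul_mem (inv_mem hg') hg) h0.cent
  exact ⟨p, by rw [← hp, mul_inv_cancel_left]⟩

end Z2

end H51.RS
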