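import Cfsg.Agent.Lib.RS4.FPA

/-! Standard components of type `²F₄(q)`, package W1: see `blueprint/RS4/README.md`. -/

set_option autoImplicit false
set_option linter.unusedSectionVars false

namespace H51.RS
open Subgroup H69 H78.Oct H78.Oct.Co
open scoped commutatorElement

variable {F G : Type*} [Field F] [Tits F] [Finite F] [Group G] [Finite G]

namespace W1H
variable {S : St F G} (f : FamW S)

theorem Y0 (j : ZMod 8) : f.Y j 0 = 1 := by
  have := f.Yadd j 0 0
  rw [add_zero] at this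
  exact mul_eq_left.1 this.symm

theorem X0 (j : ZMod 8) : f.X j 0 = 1 := by
  have := f.Xadd j 0 0
  rw [add_zero] at this
  exact mul_eq_left.1 this.symm

theorem pp (p : F × F) : p + p = 0 := by
  have h : ∀ a : F, a + a = 0 := fun a => by grind
  exact Prod.ext (h _) (h _)

theorem YY (j : ZMod 8) (p : F × F) : f.Y j p * f.Y j p = 1 := by rw [← f.Yadd, pp, Y0]
theorem XX (j : ZMod 8) (p : F × F) : f.X j p * f.X j p = 1 := by rw [← f.Xadd, pp, X0]

theorem cm {a b : G} (h : a * a = 1) (e : a * b * a = b) : a * b = b * a := by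
  calc a * b = a * b * (a * a) := by rw [h, mul_one]
    _ = b * a := by rw [← mul_assoc, e]

theorem c3 (j : ZMod 8) {p q : F × F} (h1 : (σ p.1 * q.1, σ p.2 * q.2) = 0) (h2 : p * q = 0)
    (h3 : (σ q.1 * p.1, σ q.2 * p.2) = 0) : f.Y (j + 3) q * f.Y j p = f.Y j p * f.Y (j + 3) q := by
  have := f.k6 j q p
  simp only [h1, h2, h3, Y0, X0, mul_one] at this
  exact cm (YY f _ _) this

theorem upY (i : ZMod 8) (a : F) :
    f.Y i (a, 0) = (f.Y (i + 1) (1, 0))⁻¹ * (f.X (i - 2) (a, 0) * f.Y (i + 1) (1, 0) * f.X (i - 2) (a, 0)) := by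
  have := f.up (i - 2) (a, 0) (1, 0)
  rw [show i - 2 + 3 = i + 1 by ring, show i - 2 + 2 = i by ring,
    show ((a, 0) : F × F) * (1, 0) = (a, 0) by simp] at this
  rw [this, inv_mul_cancel_left]

theorem comm (i j : ZMod 8) (a b : F) : f.Y i (a, 0) * f.Y j (0, b) = f.Y j (0, b) * f.Y i (a, 0) := by
  have hc : ∀ i j : ZMod 8, j = i ∨ j = i + 1 ∨ j = i + 2 ∨ j = i + 3 ∨ j = i + 4 ∨ i = j + 3 ∨ i = j + 2 ∨
    i = j + 1 := by decide
  rcases hc i j with rfl | rfl | rfl | rfl | rfl | rfl | rfl | rfl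
  · rw [← f.Yadd, ← f.Yadd, add_comm]
  · exact f.c2 _ _ _
  · exact f.c4 _ _ _
  · exact (c3 f i (by simp) (by simp) (by simp)).symm
  · have h1 : Commute (f.Y (i + 4) (0, b)) (f.Y (i + 1) (1, 0)) := by
      have := c3 f (i + 1) (p := (1, 0)) (q := (0, b)) (by simp) (by simp) (by simp)
      rwa [show i + 1 + 3 = i + 4 by ring] at this
    have h2 : Commute (f.Y (i + 4) (0, b)) (f.X (i - 2) (a, 0)) := by
      have := f.dn (i + 4) (a, 0) (0, b)
      rw [show ((a, 0) : F × F) * (0, b) = 0 by simp, Y0, mul_one,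
        (by decide : ∀ i : ZMod 8, i + 4 + 2 = i - 2) i] at this
      exact (cm (XX f _ _) this).symm
    rw [upY f i a]
    exact (h1.inv_right.mul_right ((h2.mul_right h1).mul_right h2)).symm
  · exact c3 f j (by simp) (by simp) (by simp)
  · exact (f.c4 _ _ _).symm
  · exact (f.c2 _ _ _).symm

theorem ctY (j : ZMod 8) (a : F) : S.t * f.Y j (a, 0) * S.t⁻¹ = f.Y j (0, a) := f.ct j (a, 0)

end W1H
open W1H

namespace Fam
variable {S : St F G} (f : FamW S)
/-- the first factor -/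
def A1 : Subgroup G := closure {g | ∃ j a, g = f.Y j (a, 0)}

theorem W1H_Y (j : ZMod 8) (a : F) : f.Y j (a, 0) ∈ A1 f := subset_closure ⟨j, a, rfl⟩

theorem W1H_X (i : ZMod 8) (a : F) : f.X i (a, 0) ∈ A1 f := by
  have h := f.k6 (i - 1) (1, 0) (a, 0)
  rw [show i - 1 + 1 = i by ring, show ((a, 0) : F × F) * (1, 0) = (a, 0) by simp] at h
  simp only [mul_zero] at h
  have m := mul_mem (mul_mem (W1H_Y f (i - 1 + 3) 1) (W1H_Y f (i - 1) a)) (W1H_Y f (i - 1 + 3) 1)
  rw [h, _root_.mul_mem_cancel_left (W1H_Y f _ _), _root_.mul_mem_cancel_right (W1H_Y f _ _),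
    _root_.mul_mem_cancel_left (W1H_Y f _ _)] at m
  exact m

theorem A1_comm {x y : G} (hx : x ∈ A1 f) (hy : y ∈ A1 f) :
    x * (S.t * y * S.t⁻¹) = S.t * y * S.t⁻¹ * x := by
  have h1 : ∀ j b, Commute x (f.Y j (0, b)) := fun j b => by
    induction hx using closure_induction with
    | mem g hg => obtain ⟨i, a, rfl⟩ := hg; exact comm f i j a b
    | one => exact Commute.one_left _
    | mul _ _ _ _ p q => exact p.mul_left q
    | inv _ _ p => exact p.inv_left
  show Commute x (S.t * y * S.t⁻¹)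
  induction hy using closure_induction with
  | mem g hg => obtain ⟨j, b, rfl⟩ := hg; rw [ctY]; exact h1 j b
  | one => rw [mul_one, mul_inv_cancel]; exact Commute.one_right _
  | mul g k _ _ p q => rw [← conj_mul]; exact p.mul_right q
  | inv g _ p => rw [← conj_inv]; exact p.inv_right

theorem A1_perf : ⁅A1 f, A1 f⁆ = A1 f := by
  refine le_antisymm (commutator_le.2 fun g hg k hk =>
    mul_mem (mul_mem (mul_mem hg hk) (inv_mem hg)) (inv_mem hk)) ((closure_le _).2 ?_)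
  rintro _ ⟨j, a, rfl⟩
  have := commutator_mem_commutator (inv_mem (W1H_Y f (j + 1) 1)) (W1H_X f (j - 2) a)
  rw [commutatorElement_def, inv_inv, inv_eq_of_mul_eq_one_right (XX f _ _)] at this
  rw [upY f j a, SetLike.mem_coe]
  simpa only [mul_assoc] using this

theorem A1_ne : A1 f ≠ ⊥ := fun h => by
  have a : f.Y 0 (1, 0) = 1 := mem_bot.1 (h ▸ W1H_Y f 0 1)
  have := (f.inj 0 (1, 0) 0 0 (by rw [a, X0, Y0, mul_one, mul_one])).1
  exact one_ne_zero (congrArg Prod.fst this)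

theorem W1H_mul {x y x' y' : G} (hy : y ∈ A1 f) (hx' : x' ∈ A1 f) :
    x * (S.t * y * S.t⁻¹) * (x' * (S.t * y' * S.t⁻¹)) = x * x' * (S.t * (y * y') * S.t⁻¹) := by
  rw [← conj_mul, mul_assoc x, ← mul_assoc (S.t * y * S.t⁻¹), ← A1_comm f hx' hy]
  simp only [mul_assoc]

theorem A1_pi : ∃ π : A1 f →* G, (∀ x, π x = x * (S.t * x * S.t⁻¹)) ∧ Function.Injective π ∧ π.range = S.L := by
  let π : A1 f →* G := MonoidHom.mk' (fun x => x * (S.t * x * S.t⁻¹)) fun x y => (W1H_mul f x.2 y.2).symm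
  have e : ∀ j a, f.Y j (a, 0) * (S.t * f.Y j (a, 0) * S.t⁻¹) = S.rot (S.z4 a) j := fun j a => by
    rw [ctY, ← f.Yadd, ← f.ext]; simp
  have hr : π.range = S.L := by
    rw [← S.closure_rot]
    refine le_antisymm ?_ ((closure_le _).2 ?_)
    · rintro _ ⟨⟨x, hx⟩, rfl⟩
      induction hx using closure_induction with
      | mem g hg => obtain ⟨j, a, rfl⟩ := hg; exact subset_closure ⟨j, a, e j a⟩
      | one => exact (map_one π).symm ▸ one_mem _
      | mul g k hg hk p q => exact (map_mul π ⟨g, hg⟩ ⟨k, hk⟩).symm ▸ mul_mem p q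
      | inv g hg p => exact (map_inv π ⟨g, hg⟩).symm ▸ inv_mem p
    · rintro _ ⟨j, a, rfl⟩
      exact ⟨⟨_, W1H_Y f j a⟩, e j a⟩
  refine ⟨π, fun _ => rfl, S.mult _ π (A1_perf f) hr fun x hx y => Subtype.ext ?_, hr⟩
  have h1 : (x : G) = (S.t * x * S.t⁻¹)⁻¹ := eq_inv_of_mul_eq_one_left hx
  have h2 : Commute (y : G) (S.t * x * S.t⁻¹) := A1_comm f y.2 x.2
  have := h2.inv_right
  rw [← h1] at this
  exact this.symm

theorem A1_disj {x : G} (hx : x ∈ A1 f) (h : S.t * x * S.t⁻¹ ∈ A1 f) : x = 1 := by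
  obtain ⟨π, -, hi, hr⟩ := A1_pi f
  have e : S.t * (S.t * x * S.t⁻¹) * S.t⁻¹ = x := by
    rw [S.t_inv, ← mul_assoc, ← mul_assoc, S.tt, one_mul, mul_assoc, S.tt, mul_one]
  have c : ∀ y : A1 f, ⟨x, hx⟩ * y = y * ⟨x, hx⟩ := fun y => Subtype.ext (by
    have := A1_comm f y.2 h
    rw [e] at this
    exact this.symm)
  have := S.ctr (hr ▸ ⟨⟨x, hx⟩, rfl⟩ : π ⟨x, hx⟩ ∈ S.L) fun l hl => by
    obtain ⟨y, rfl⟩ : l ∈ π.range := hr ▸ hl
    rw [← map_mul, ← map_mul, c]
  exact congrArg Subtype.val (hi (this.trans (map_one π).symm))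

theorem mem_G0 {g : G} : g ∈ f.G0 ↔ ∃ x ∈ A1 f, ∃ y ∈ A1 f, g = x * (S.t * y * S.t⁻¹) := by
  constructor
  · intro hg
    induction hg using closure_induction with
    | mem g hg =>
      obtain ⟨j, ⟨a, b⟩, rfl⟩ := hg
      exact ⟨_, W1H_Y f j a, _, W1H_Y f j b, by rw [ctY, ← f.Yadd]; simp⟩
    | one => exact ⟨1, one_mem _, 1, one_mem _, by simp⟩
    | mul g k _ _ p q =>
      obtain ⟨x, hx, y, hy, rfl⟩ := p
      obtain ⟨x', hx', y', hy', rfl⟩ := q
      exact ⟨_, mul_mem hx hx', _, mul_mem hy hy', W1H_mul f hy hx'⟩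
    | inv g _ p =>
      obtain ⟨x, hx, y, hy, rfl⟩ := p
      exact ⟨_, inv_mem hx, _, inv_mem hy, by rw [A1_comm f hx hy, mul_inv_rev, conj_inv]⟩
  · rintro ⟨x, hx, y, hy, rfl⟩
    refine mul_mem ((closure_mono ?_ : A1 f ≤ f.G0) hx) ?_
    · rintro _ ⟨j, a, rfl⟩; exact ⟨j, _, rfl⟩
    · induction hy using closure_induction with
      | mem g hg => obtain ⟨j, b, rfl⟩ := hg; rw [ctY]; exact subset_closure ⟨j, _, rfl⟩
      | one => rw [mul_one, mul_inv_cancel]; exact one_mem _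
      | mul g k _ _ p q => rw [← conj_mul]; exact mul_mem p q
      | inv g _ p => rw [← conj_inv]; exact inv_mem p

theorem W1H_eqns : True := by
  have := @A1.eq_1.{0, 0}
  trivial

end Fam

end H51.RS
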