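import Cfsg.Agent.Lib.RS4.PI

/-! Standard components of type `²F₄(q)`, package XD: see `blueprint/RS4/README.md`. -/

set_option autoImplicit false
set_option linter.unusedSectionVars false

namespace H51.RS
open Subgroup H69 H78.Oct H78.Oct.Co
open scoped commutatorElement

variable {F G : Type*} [Field F] [Tits F] [Finite F] [Group G] [Finite G]

namespace XDH

theorem bar_eq (p : F × F) : bar p = p + (p.2, 0) := by
  ext <;> simp [bar]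

theorem move {K : Type*} [Group K] {t x y : K} (hx : x * x = 1) (h : t * x * t⁻¹ = x * y)
    (hy : t * y = y * t) : x * t * x⁻¹ = t * y := by
  have hi : x⁻¹ = x := inv_eq_of_mul_eq_one_right hx
  have h1 : t * x = x * y * t := by rw [← h]; group
  rw [hi, mul_assoc, h1, hy, ← mul_assoc, ← mul_assoc, hx, one_mul]

end XDH

namespace X5S
variable {S : St F G} {Z : Z2 S} (q : X5S Z)
theorem X_zero : q.X 0 = 1 := by
  have h := q.add 0 0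
  rw [add_zero] at h
  exact left_eq_mul.1 h

theorem X_sq (p : F × F) : q.X p * q.X p = 1 := by
  exact q.eb.el _ (q.mem p)

theorem X_t (p : F × F) : q.X p * S.t * (q.X p)⁻¹ = S.t * S.φ (x5 p.2) := by
  refine XDH.move (q.X_sq p) ?_ (S.t_φ _)
  rw [q.ct, XDH.bar_eq, q.add, q.ext]

theorem X3_mem (p : F × F) : q.X3 p ∈ q.Es := by
  exact q.eb.nP _ (q.mem p) _ S.n2_memP

theorem X3_add (p p' : F × F) : q.X3 (p + p') = q.X3 p * q.X3 p' := by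
  unfold X3
  rw [q.add]
  group

theorem X3_sq (p : F × F) : q.X3 p * q.X3 p = 1 := by
  exact q.eb.el _ (q.X3_mem p)

theorem ph_X3 (p : F × F) : Z.Ph (q.X3 p) 0 p 0 0 := by
  exact (q.ph p).n2

theorem h_X3 (c k : Fˣ) (p : F × F) :
    S.h c k * q.X3 p * (S.h c k)⁻¹ = q.X3 (((c : F) * σ (c : F) * (k : F)⁻¹) • p) := by
  have h1 := S.n2_h c (σu c * k⁻¹)
  have h2 : σu c * (σu c * k⁻¹)⁻¹ = k := by
    rw [mul_inv_rev, inv_inv, mul_comm k, mul_inv_cancel_left]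
  rw [h2] at h1
  have h3 := q.ch c (σu c * k⁻¹) p
  have h4 : ((c : F) * ((σu c * k⁻¹ : Fˣ) : F)) = (c : F) * σ (c : F) * (k : F)⁻¹ := by
    simp [mul_assoc]
  rw [h4] at h3
  unfold X3
  rw [← h3, ← h1]
  group

theorem D_mem (a b c : F × F) : q.D a b c ∈ q.Es := by
  exact q.Es.mul_mem (q.Es.mul_mem (q.eb.m4 a) (q.mem b)) (q.eb.m6 c)

theorem ph_D (a b c : F × F) : Z.Ph (q.D a b c) 0 0 b c := by
  have h := ((Z2.ph_Y4 (Z := Z) a).mul (q.ph b) (q.eb.cW _ (q.eb.m4 a))).mul (Z2.ph_Y6 (Z := Z) c)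
    (q.eb.cW _ (q.Es.mul_mem (q.eb.m4 a) (q.mem b)))
  simp only [add_zero, zero_add] at h
  exact h

theorem D_mul (a b c a' b' c' : F × F) : q.D a b c * q.D a' b' c' = q.D (a + a') (b + b') (c + c') := by
  unfold D
  rw [Z.Y4_add, q.add, Z.Y6_add]
  have h1 := q.eb.ab _ (q.eb.m6 c) _ (q.eb.m4 a')
  have h2 := q.eb.ab _ (q.eb.m6 c) _ (q.mem b')
  have h3 := q.eb.ab _ (q.mem b) _ (q.eb.m4 a')
  calc Z.Y4 a * q.X b * Z.Y6 c * (Z.Y4 a' * q.X b' * Z.Y6 c')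
      = Z.Y4 a * q.X b * (Z.Y6 c * Z.Y4 a') * q.X b' * Z.Y6 c' := by group
    _ = Z.Y4 a * (q.X b * Z.Y4 a') * (Z.Y6 c * q.X b') * Z.Y6 c' := by rw [h1]; group
    _ = _ := by rw [h2, h3]; group

theorem D_zero : q.D 0 0 0 = 1 := by
  unfold D
  rw [Z.Y4_zero, q.X_zero, Z.Y6_zero, mul_one, mul_one]

theorem D_sq (a b c : F × F) : q.D a b c * q.D a b c = 1 := by
  exact q.eb.el _ (q.D_mem a b c)

theorem D_inj {a b c a' b' c' : F × F} (h : q.D a b c = q.D a' b' c') : a = a' ∧ b = b' ∧ c = c' := by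
  have h1 := q.ph_D a b c
  rw [h] at h1
  obtain ⟨-, -, hb, hc⟩ := h1.uniq (q.ph_D a' b' c')
  subst hb hc
  unfold D at h
  exact ⟨Z.Y4_inj (mul_right_cancel (mul_right_cancel h)), rfl, rfl⟩

theorem D_4 (a : F × F) : q.D a 0 0 = Z.Y4 a := by
  unfold D
  rw [q.X_zero, Z.Y6_zero, mul_one, mul_one]

theorem D_5 (a : F × F) : q.D 0 a 0 = q.X a := by
  unfold D
  rw [Z.Y4_zero, Z.Y6_zero, mul_one, one_mul]

theorem D_6 (a : F × F) : q.D 0 0 a = Z.Y6 a := by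
  unfold D
  rw [Z.Y4_zero, q.X_zero, mul_one, one_mul]

theorem D_ext (a b c : F) : q.D (a, 0) (b, 0) (c, 0) = S.z4 a * S.φ (x5 b) * S.z6 c := by
  unfold D
  rw [Z.Y4_ext, q.ext, Z.Y6_ext]

theorem D_CO (a b c : F × F) : S.CO (q.D a b c) := by
  exact q.eb.cO _ (q.D_mem a b c)

theorem n1_D (a b c : F × F) : S.n1 * q.D a b c * S.n1⁻¹ = q.D c b a := by
  have h1 := q.eb.ab _ (q.eb.m6 a) _ (q.eb.m4 c)
  have h2 := q.eb.ab _ (q.eb.m6 a) _ (q.mem b)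
  have h3 := q.eb.ab _ (q.mem b) _ (q.eb.m4 c)
  unfold D
  calc S.n1 * (Z.Y4 a * q.X b * Z.Y6 c) * S.n1⁻¹
      = (S.n1 * Z.Y4 a * S.n1⁻¹) * (S.n1 * q.X b * S.n1⁻¹) * (S.n1 * Z.Y6 c * S.n1⁻¹) := by group
    _ = Z.Y6 a * q.X b * Z.Y4 c := by rw [q.c1, Z.n1_Y6]; rfl
    _ = _ := by rw [h2, mul_assoc, h1, ← mul_assoc, h3]

theorem t_D (a b c : F × F) : S.t * q.D a b c * S.t⁻¹ = q.D (bar a) (bar b) (bar c) := by
  unfold D
  rw [← Z.t_Y4, ← q.ct, ← Z.t_Y6]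
  group

theorem D_t (a b c : F × F) :
    q.D a b c * S.t * (q.D a b c)⁻¹ = S.t * q.D (a.2, 0) (b.2, 0) (c.2, 0) := by
  refine XDH.move (q.D_sq a b c) ?_ ?_
  · rw [q.t_D, q.D_mul, XDH.bar_eq, XDH.bar_eq, XDH.bar_eq]
  · rw [q.D_ext, ← map_mul, ← map_mul]
    exact S.t_φ _

theorem h_D (c k : Fˣ) (a b e : F × F) : S.h c k * q.D a b e * (S.h c k)⁻¹ =
    q.D (((c : F) * σ (c : F)) • a) (((c : F) * k) • b) (((k : F) * σ (k : F)) • e) := by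
  unfold D
  rw [← Z.h_Y4 c k, ← q.ch, ← Z.h_Y6 c k]
  group

theorem D_Y2 (a b c p : F × F) : q.D a b c * Z.Y2 p = Z.Y2 p * q.D a b c := by
  exact q.eb.ab _ (q.D_mem a b c) _ (q.eb.m2 p)

theorem D_Y8 (a b c p : F × F) : q.D a b c * Z.Y8 p = Z.Y8 p * q.D a b c := by
  rw [← q.n1_D c b a]
  unfold Z2.Y8
  calc S.n1 * q.D c b a * S.n1⁻¹ * (S.n1 * Z.Y2 p * S.n1⁻¹)
      = S.n1 * (q.D c b a * Z.Y2 p) * S.n1⁻¹ := by group
    _ = _ := by rw [q.D_Y2]; group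

theorem D_Mid (a b c : F × F) {x : Co F} (hx : Mid x) : q.D a b c * S.φ x = S.φ x * q.D a b c := by
  obtain ⟨h1, h2, -, h8, h8'⟩ := hx
  have h := q.ph_D a b c x (Co.mem_Q.2 ⟨h8, h8'⟩)
  rw [h1, h2] at h
  simp only [smul_zero, zero_smul, add_zero, Z.Y4_zero, mul_one] at h
  exact mul_inv_eq_iff_eq_mul.1 h

theorem Y2_Mid (p : F × F) {x : Co F} (hx : Mid x) :
    Z.Y2 p * S.φ x * (Z.Y2 p)⁻¹ = S.φ x * q.D (x.a7 • p) 0 0 := by
  obtain ⟨-, -, -, h8, h8'⟩ := hx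
  have h := Z2.ph_Y2 (Z := Z) p x (Co.mem_Q.2 ⟨h8, h8'⟩)
  simp only [smul_zero, add_zero] at h
  rw [h, q.D_4]

theorem Y8_Mid (p : F × F) {x : Co F} (hx : Mid x) :
    Z.Y8 p * S.φ x * (Z.Y8 p)⁻¹ = S.φ x * q.D 0 0 (x.a3 • p) := by
  obtain ⟨h1, h2, h2', h8, h8'⟩ := hx
  have hm : Mid (w1 x) := ⟨by simp, by simp [h8], by simp [h8'], by simp [h2], by simp [h2']⟩
  have h7 : (w1 x).a7 = x.a3 := by simp [h2, h2']
  have e : S.φ x = S.n1 * S.φ (w1 x) * S.n1⁻¹ := by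
    rw [← S.n1_φ h1, S.n1_inv]
    calc S.φ x = (S.n1 * S.n1) * S.φ x * (S.n1 * S.n1) := by rw [S.n11, one_mul, mul_one]
      _ = _ := by group
  have h := q.Y2_Mid p hm
  rw [h7] at h
  rw [← q.n1_D, e]
  unfold Z2.Y8
  calc S.n1 * Z.Y2 p * S.n1⁻¹ * (S.n1 * S.φ (w1 x) * S.n1⁻¹) * (S.n1 * Z.Y2 p * S.n1⁻¹)⁻¹
      = S.n1 * (Z.Y2 p * S.φ (w1 x) * (Z.Y2 p)⁻¹) * S.n1⁻¹ := by group
    _ = _ := by rw [h]; group

end X5S

end H51.RS
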